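import Cfsg.Agent.Lib.Aut.Sp
import Cfsg.Agent.Lib.Forms.QuadClassify2
import Cfsg.Agent.Lib.Invol.SpTransvection
import Cfsg.Agent.S2622

set_option autoImplicit false
set_option linter.unusedSectionVars false
set_option maxHeartbeats 400000

/-! Similarity groups of bilinear forms given by Gram matrices. -/

namespace Cfsg.Agent.Lib.Aut.Gr

open Module Matrix Cfsg.Agent.Lib.GL.H90 Cfsg.Agent.Lib.GL.Alt Cfsg.Agent.Lib.Forms

variable {F : Type*} [Field F] {ι κ : Type} [Fintype ι] [DecidableEq ι] [Fintype κ] [DecidableEq κ]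

/-- the form with Gram matrix `B` -/
def bil (B : Matrix ι ι F) (u v : ι → F) : F := u ⬝ᵥ B *ᵥ v

theorem bil_mulVec (B g h : Matrix ι ι F) (u v : ι → F) :
    bil B (g *ᵥ u) (h *ᵥ v) = bil (gᵀ * B * h) u v := by
  rw [bil, bil, ← mulVec_mulVec, ← mulVec_mulVec, dotProduct_mulVec u, vecMul_transpose]

theorem bil_smul (c : F) (B : Matrix ι ι F) (u v : ι → F) : bil (c • B) u v = c * bil B u v := by
  rw [bil, bil, smul_mulVec, dotProduct_smul, smul_eq_mul]

theorem bil_ext {B B' : Matrix ι ι F} (h : ∀ u v, bil B u v = bil B' u v) : B = B' := by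
  ext a b
  simpa [bil] using h (Pi.single a 1) (Pi.single b 1)

theorem bil_transpose (B : Matrix ι ι F) (u v : ι → F) : bil Bᵀ u v = bil B v u := by
  rw [bil, bil, dotProduct_mulVec, vecMul_transpose, dotProduct_comm]

theorem bil_eq (B : Matrix ι ι F) (u v : ι → F) : bil B u v = Matrix.toBilin' B u v :=
  (Matrix.toBilin'_apply' _ _ _).symm

/-- `g` is a similarity of `B` with multiplier `c` -/
def SimM (B : Matrix ι ι F) (g : GL ι F) (c : Fˣ) : Prop := g.1ᵀ * B * g.1 = (c : F) • B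

theorem simM_iff {B : Matrix ι ι F} {g : GL ι F} {c : Fˣ} :
    SimM B g c ↔ ∀ u v, bil B (g.1 *ᵥ u) (g.1 *ᵥ v) = c * bil B u v :=
  ⟨fun h u v => by rw [bil_mulVec, h, bil_smul],
    fun h => bil_ext fun u v => by rw [← bil_mulVec, h, bil_smul]⟩

/-- the similarity group -/
def simGrp (B : Matrix ι ι F) : Subgroup (GL ι F) := Geo.similarityGroup (bil B)

theorem mem_simGrp {B : Matrix ι ι F} {g : GL ι F} : g ∈ simGrp B ↔ ∃ c, SimM B g c :=
  exists_congr fun _ => simM_iff.symm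

theorem coe_scalar (u : Fˣ) : (GeneralLinearGroup.scalar ι u).1 = (u : F) • (1 : Matrix ι ι F) := by
  ext a b; by_cases h : a = b <;> simp [h]

theorem coe_scalar_mul (u : Fˣ) (g : GL ι F) :
    (GeneralLinearGroup.scalar ι u * g).1 = (u : F) • g.1 := by
  rw [Units.val_mul, coe_scalar, Matrix.smul_mul, Matrix.one_mul]

theorem SimM.mul {B : Matrix ι ι F} {g h : GL ι F} {c d : Fˣ} (hg : SimM B g c) (hh : SimM B h d) :
    SimM B (g * h) (c * d) := simM_iff.mpr fun u v => by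
  rw [Units.val_mul, ← mulVec_mulVec, ← mulVec_mulVec, simM_iff.mp hg, simM_iff.mp hh,
    Units.val_mul, mul_assoc]

theorem simM_scalar (B : Matrix ι ι F) (u : Fˣ) :
    SimM B (GeneralLinearGroup.scalar ι u) (u ^ 2) := by
  rw [SimM, coe_scalar]
  simp [smul_smul, pow_two]

theorem SimM.det_sq {B : GL ι F} {g : GL ι F} {c : Fˣ} (h : SimM B.1 g c) :
    GeneralLinearGroup.det g ^ 2 = c ^ Fintype.card ι := by
  have := congrArg Matrix.det h
  rw [det_mul, det_mul, det_transpose, det_smul] at this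
  apply Units.ext
  apply mul_right_cancel₀ B.det_ne_zero
  simp only [Units.val_pow_eq_pow_val, GeneralLinearGroup.val_det_apply]
  linear_combination this

theorem SimM.unique [Nonempty ι] {B g : GL ι F} {c d : Fˣ} (h : SimM B.1 g c) (h' : SimM B.1 g d) :
    c = d :=
  Units.ext (smul_left_injective F (Units.ne_zero B) (h.symm.trans h'))

/-- similar Gram matrices -/
def Similar (B B' : Matrix ι ι F) : Prop := ∃ (h : GL ι F) (c : Fˣ), h.1ᵀ * B * h.1 = (c : F) • B'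

theorem similar_of_rep {B B' : Matrix ι ι F} {W : Type*} [AddCommGroup W] [Module F W]
    {f : W → W → F} (e e' : (ι → F) ≃ₗ[F] W) {c c' : F} (hc : c ≠ 0) (hc' : c' ≠ 0)
    (h : ∀ u v, f (e u) (e v) = c * bil B u v) (h' : ∀ u v, f (e' u) (e' v) = c' * bil B' u v) :
    Similar B B' :=
  ⟨glOfEquiv (e'.trans e.symm), Units.mk0 (c' / c) (div_ne_zero hc' hc), bil_ext fun u v => by
    rw [← bil_mulVec, bil_smul, glOfEquiv_mulVec, glOfEquiv_mulVec]
    apply mul_left_cancel₀ hc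
    rw [← h]
    simp only [LinearEquiv.trans_apply, LinearEquiv.apply_symm_apply, h', Units.val_mk0]
    field_simp⟩

theorem exists_rep {W : Type*} [AddCommGroup W] [Module F W] (β : LinearMap.BilinForm F W)
    (hβ : β.Nondegenerate) (e : (ι → F) ≃ₗ[F] W) :
    ∃ B : GL ι F, ∀ u v, β (e u) (e v) = bil B.1 u v := by
  let M := LinearMap.BilinForm.toMatrix' (β.comp (e : (ι → F) →ₗ[F] W) (e : (ι → F) →ₗ[F] W))
  have hM : ∀ u v, β (e u) (e v) = bil M u v := fun u v => by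
    rw [bil_eq, Matrix.toBilin'_toMatrix']; rfl
  refine ⟨GeneralLinearGroup.mkOfDetNeZero M ?_, hM⟩
  rw [Ne, ← Matrix.exists_mulVec_eq_zero_iff]
  rintro ⟨v, hv, h⟩
  refine hv (e.injective (hβ.2 _ (fun w => ?_) |>.trans (map_zero e).symm))
  obtain ⟨u, rfl⟩ := e.surjective w
  rw [hM, bil, h, dotProduct_zero]

/-- transport of matrices along a linear equivalence -/
noncomputable def cj (e : (ι → F) ≃ₗ[F] (κ → F)) : GL ι F ≃* GL κ F :=
  Units.mapEquiv ((Matrix.toLinAlgEquiv'.trans (e.conjAlgEquiv F)).trans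
    Matrix.toLinAlgEquiv'.symm).toMulEquiv

theorem cj_mulVec (e : (ι → F) ≃ₗ[F] (κ → F)) (g : GL ι F) (v : ι → F) :
    (cj e g).1 *ᵥ e v = e (g.1 *ᵥ v) := by
  simp [cj, LinearEquiv.conjAlgEquiv_apply, Matrix.toLinAlgEquiv'_apply,
    LinearMap.toMatrixAlgEquiv']

theorem gl_ext {g h : GL ι F} (H : ∀ v, g.1 *ᵥ v = h.1 *ᵥ v) : g = h :=
  Units.ext (matrix_ext_mulVec H)

theorem cj_scalar (e : (ι → F) ≃ₗ[F] (κ → F)) (u : Fˣ) :
    cj e (GeneralLinearGroup.scalar ι u) = GeneralLinearGroup.scalar κ u := gl_ext fun v => by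
  obtain ⟨v, rfl⟩ := e.surjective v
  rw [cj_mulVec, scalar_mulVec, scalar_mulVec, map_smul]

theorem det_cj (e : (ι → F) ≃ₗ[F] (κ → F)) (g : GL ι F) :
    GeneralLinearGroup.det (cj e g) = GeneralLinearGroup.det g := by
  apply Units.ext
  have : Matrix.toLin' (cj e g).1 = (e : (ι → F) →ₗ[F] (κ → F)) ∘ₗ Matrix.toLin' g.1 ∘ₗ
      (e.symm : (κ → F) →ₗ[F] (ι → F)) := by
    refine LinearMap.ext fun v => ?_
    obtain ⟨v, rfl⟩ := e.surjective v
    simp [cj_mulVec]
  rw [GeneralLinearGroup.val_det_apply, GeneralLinearGroup.val_det_apply, ← LinearMap.det_toLin',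
    this, LinearMap.det_conj, LinearMap.det_toLin']

theorem projQuot_congr (e : (ι → F) ≃ₗ[F] (κ → F)) {H : Subgroup (GL ι F)} {H' : Subgroup (GL κ F)}
    (h : ∀ g, g ∈ H ↔ cj e g ∈ H') : Nonempty (projQuot H ≃* projQuot H') := by
  have h1 : H.map (cj e).toMonoidHom = H' := by
    ext g
    obtain ⟨g, rfl⟩ := (cj e).surjective g
    rw [← h]; exact Subgroup.mem_map_iff_mem (cj e).injective
  refine ⟨QuotientGroup.congr _ _ (((cj e).subgroupMap H).trans (MulEquiv.subgroupCongr h1)) ?_⟩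
  ext g
  simp only [Subgroup.mem_map, Subgroup.mem_subgroupOf, mem_scalars_iff']
  constructor
  · rintro ⟨a, ⟨u, hu⟩, rfl⟩
    exact ⟨u, by rw [← cj_scalar e, ← hu]; rfl⟩
  · rintro ⟨u, hu⟩
    refine ⟨⟨GeneralLinearGroup.scalar ι u, (h _).mpr (by rw [cj_scalar, ← hu]; exact g.2)⟩,
      ⟨u, rfl⟩, Subtype.ext ((cj_scalar e u).trans hu.symm)⟩

theorem mem_sim_iff_cj (e : (ι → F) ≃ₗ[F] (κ → F)) {f : (ι → F) → (ι → F) → F}
    {f' : (κ → F) → (κ → F) → F} {c : F} (hc : c ≠ 0) (h : ∀ u v, f' (e u) (e v) = c * f u v)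
    (g : GL ι F) (a : F) : (∀ u v, f (g.1 *ᵥ u) (g.1 *ᵥ v) = a * f u v) ↔
      ∀ u v, f' ((cj e g).1 *ᵥ u) ((cj e g).1 *ᵥ v) = a * f' u v := by
  simp only [e.surjective.forall, cj_mulVec, h, mul_left_comm a, mul_right_inj' hc]

theorem projQuot_sim (e : (ι → F) ≃ₗ[F] (κ → F)) {f : (ι → F) → (ι → F) → F}
    {f' : (κ → F) → (κ → F) → F} {c : F} (hc : c ≠ 0) (h : ∀ u v, f' (e u) (e v) = c * f u v) :
    Nonempty (projQuot (Geo.similarityGroup f) ≃* projQuot (Geo.similarityGroup f')) :=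
  projQuot_congr e fun g => exists_congr fun a => mem_sim_iff_cj e hc h g a

theorem projQuot_quad (e : (ι → F) ≃ₗ[F] (κ → F)) {f : (ι → F) → F}
    {f' : (κ → F) → F} {c : F} (hc : c ≠ 0) (h : ∀ u, f' (e u) = c * f u) :
    Nonempty (projQuot (Geo.quadSimilarityGroup (F := F) f) ≃*
      projQuot (Geo.quadSimilarityGroup (F := F) f')) :=
  projQuot_congr e fun g => exists_congr fun a => by
    simp only [e.surjective.forall, cj_mulVec, h, mul_left_comm (a : F), mul_right_inj' hc]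

theorem equiv_projQuot {G : Type*} [Group G] {H : Subgroup (GL ι F)} (j : G →* H)
    (h1 : ∀ s u, (j s).1 = GeneralLinearGroup.scalar ι u → s = 1)
    (h2 : ∀ g ∈ H, ∃ u s, g = GeneralLinearGroup.scalar ι u * (j s).1) :
    Nonempty (projQuot H ≃* G) := by
  refine ⟨(MulEquiv.ofBijective ((QuotientGroup.mk' _).comp j) ⟨?_, ?_⟩).symm⟩
  · rw [injective_iff_map_eq_one]
    intro s hs
    obtain ⟨u, hu⟩ := (mem_scalars_iff' _).mp ((QuotientGroup.eq_one_iff (j s)).mp hs)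
    exact h1 s u hu
  · intro x
    induction x using QuotientGroup.induction_on with
    | H g =>
      obtain ⟨u, s, h⟩ := h2 g.1 g.2
      refine ⟨s, QuotientGroup.eq.mpr ((mem_scalars_iff' _).mpr ⟨u, ?_⟩)⟩
      show (j s).1⁻¹ * g.1 = _
      rw [h, GL.H90.scalar_comm, inv_mul_cancel_left]

/-- the quadratic form of a matrix -/
noncomputable def qf (B : Matrix ι ι F) : QuadraticForm F (ι → F) :=
  (Matrix.toBilin' B).toQuadraticMap

theorem qf_apply (B : Matrix ι ι F) (v : ι → F) : qf B v = bil B v v := (bil_eq B v v).symm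

theorem polar_qf {B : Matrix ι ι F} (hB : Bᵀ = B) (u v : ι → F) :
    QuadraticMap.polar (qf B) u v = 2 * bil B u v := by
  rw [qf, LinearMap.BilinMap.polar_toQuadraticMap, ← bil_eq, ← bil_eq, ← bil_transpose B u v, hB,
    two_mul]

theorem nondeg_qf (h2 : (2 : F) ≠ 0) {B : GL ι F} (hB : B.1ᵀ = B.1) : Nondeg (qf B.1) :=
  nondeg_of fun x hx => by
    have : B.1 *ᵥ x = 0 := by
      ext i
      have := hx (Pi.single i 1)
      rw [QuadraticMap.polar_comm, polar_qf hB, mul_eq_zero, bil] at this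
      simpa using this.resolve_left h2
    rw [← inv_mulVec_mulVec B x, this, mulVec_zero]

theorem polar_of_simil {W : Type*} [AddCommGroup W] [Module F W] {Q : QuadraticForm F W}
    {B : Matrix ι ι F} (hB : Bᵀ = B) (e : (ι → F) →ₗ[F] W) {c : F}
    (h : ∀ v, Q (e v) = c * qf B v) (u v : ι → F) :
    QuadraticMap.polar Q (e u) (e v) = (2 * c) * bil B u v := by
  rw [mul_comm 2 c, mul_assoc, ← polar_qf hB]
  simp only [QuadraticMap.polar, ← map_add, h]
  ring

theorem simM_of_qf (h2 : (2 : F) ≠ 0) {B : Matrix ι ι F} (hB : Bᵀ = B) {g : GL ι F} {c : Fˣ}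
    (h : ∀ v, qf B (g.1 *ᵥ v) = c * qf B v) : SimM B g c := simM_iff.mpr fun u v => by
  have := polar_of_simil hB (Matrix.toLin' g.1) h u v
  rw [polar_qf hB, mul_assoc] at this
  exact mul_left_cancel₀ h2 this

theorem simGrp_eq (h2 : (2 : F) ≠ 0) {B : Matrix ι ι F} (hB : Bᵀ = B) :
    simGrp B = Geo.quadSimilarityGroup (F := F) (qf B) := by
  ext g
  rw [mem_simGrp]
  exact exists_congr fun c => ⟨fun h v => by rw [qf_apply, qf_apply, simM_iff.mp h],
    simM_of_qf h2 hB⟩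

theorem projQuot_qf (h2 : (2 : F) ≠ 0) {B : Matrix ι ι F} (hB : Bᵀ = B)
    (e : (ι → F) ≃ₗ[F] (κ → F)) {Q : (κ → F) → F} {c : F} (hc : c ≠ 0)
    (h : ∀ v, Q (e v) = c * qf B v) : Nonempty (projQuot (simGrp B) ≃* PGO F Q) := by
  rw [simGrp_eq h2 hB]
  exact projQuot_quad e hc h

theorem exists_qf (h2 : (2 : F) ≠ 0) {W : Type*} [AddCommGroup W] [Module F W]
    {Q : QuadraticForm F W} (hQ : Nondeg Q) (e : (ι → F) ≃ₗ[F] W) :
    ∃ B : GL ι F, B.1ᵀ = B.1 ∧ ∀ v, Q (e v) = (2 : F)⁻¹ * qf B.1 v := by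
  obtain ⟨B, hB⟩ := exists_rep (QuadraticMap.polarBilin Q) hQ e
  refine ⟨B, bil_ext fun u v => ?_, fun v => ?_⟩
  · rw [bil_transpose, ← hB, ← hB]; exact QuadraticMap.polar_comm _ _ _
  · rw [qf_apply, ← hB, QuadraticMap.polarBilin_apply_apply, QuadraticMap.polar_self]
    simp [h2]

/-- alternating matrices -/
def Alt (B : Matrix ι ι F) : Prop := ∀ v, bil B v v = 0

theorem Alt.skew {B : Matrix ι ι F} (h : Alt B) : Bᵀ = -B := bil_ext fun u v => by
  have := h (u + v)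
  simp only [bil_eq, map_add, LinearMap.add_apply] at this
  have h1 := h u
  have h2 := h v
  rw [bil_transpose, ← neg_one_smul F, bil_smul]
  simp only [bil_eq] at h1 h2 ⊢
  linear_combination this - h1 - h2

theorem alt_of_skew (h2 : (2 : F) ≠ 0) {B : Matrix ι ι F} (h : Bᵀ = -B) : Alt B := fun v => by
  have := bil_transpose B v v
  rw [h, ← neg_one_smul F, bil_smul] at this
  exact mul_left_cancel₀ h2 (by linear_combination -this)

theorem Similar.alt {B B' : Matrix ι ι F} (h : Similar B B') (hB : Alt B) : Alt B' := fun v => by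
  obtain ⟨g, c, hc⟩ := h
  have := hB (g.1 *ᵥ v)
  rw [bil_mulVec, hc, bil_smul] at this
  simpa using this

theorem nondeg_toBilin (B : GL ι F) : (Matrix.toBilin' B.1).Nondegenerate :=
  LinearMap.BilinForm.nondegenerate_toBilin'_iff_det_ne_zero.mpr B.det_ne_zero

theorem Alt.even {B : GL ι F} (h : Alt B.1) : Even (Fintype.card ι) := by
  simpa using even_finrank (B := Matrix.toBilin' B.1) (fun v => by rw [← bil_eq, h])
    (nondeg_toBilin B)

theorem Alt.exists_rep {B : GL ι F} (h : Alt B.1) {m : ℕ} (hm : Fintype.card ι = 2 * m) :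
    ∃ e : (ι → F) ≃ₗ[F] (Fin m ⊕ Fin m → F), ∀ u v, sympForm m F (e u) (e v) = 1 * bil B.1 u v := by
  obtain ⟨e, he⟩ := exists_equiv_sympForm_of_finrank (B := Matrix.toBilin' B.1)
    (fun v => by rw [← bil_eq, h]) (nondeg_toBilin B) (m := m) (by simpa using hm)
  exact ⟨e, fun u v => by rw [← he, bil_eq, one_mul]⟩

theorem Alt.similar {B B' : GL ι F} (h : Alt B.1) (h' : Alt B'.1) : Similar B.1 B'.1 := by
  obtain ⟨m, hm⟩ := h.even
  obtain ⟨e, he⟩ := h.exists_rep (m := m) (by omega)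
  obtain ⟨e', he'⟩ := h'.exists_rep (m := m) (by omega)
  exact similar_of_rep e e' one_ne_zero one_ne_zero he he'

theorem Alt.projQuot {B : GL ι F} (h : Alt B.1) {m : ℕ} (hm : Fintype.card ι = 2 * m) :
    Nonempty (projQuot (simGrp B.1) ≃* PGSp m F) := by
  obtain ⟨e, he⟩ := h.exists_rep hm
  exact projQuot_sim e one_ne_zero he

theorem exists_alt {m : ℕ} (hm : Fintype.card ι = 2 * m) : ∃ B : GL ι F, Alt B.1 := by
  obtain ⟨B, hB⟩ := exists_rep (ι := ι) _ (sympBilin_nondegenerate (F := F) m)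
    (LinearEquiv.ofFinrankEq _ _ (by rw [Sp.finrank_eq, ← hm]; simp))
  exact ⟨B, fun v => by rw [← hB, sympBilin_isAlt]⟩

theorem Alt.det_eq {B : GL ι F} (h : Alt B.1) {m : ℕ} [NeZero m] (hm : Fintype.card ι = 2 * m)
    {g : GL ι F} {c : Fˣ} (hg : SimM B.1 g c) : GeneralLinearGroup.det g = c ^ m := by
  obtain ⟨e, he⟩ := h.exists_rep hm
  have h1 : Sp.Sim (cj e g) c := (simM_iff (B := J (Fin m) F)).mpr
    ((mem_sim_iff_cj e one_ne_zero he g c).mp (simM_iff.mp hg))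
  rw [← det_cj e]
  let d : GL (Fin m ⊕ Fin m) F :=
    ⟨fromBlocks ((c : F) • 1) 0 0 1, fromBlocks (((c⁻¹ : Fˣ) : F) • 1) 0 0 1,
      by simp [fromBlocks_multiply, smul_smul], by simp [fromBlocks_multiply, smul_smul]⟩
  have h2 : Sp.Sim d c := by
    simp [d, Sp.Sim, J, fromBlocks_multiply, fromBlocks_transpose, fromBlocks_smul]
  obtain ⟨s, hs⟩ := Sp.Sim.exists_j (g := d⁻¹ * cj e g) (by simpa using h2.inv.mul h1)
  have h3 : GeneralLinearGroup.det (Sp.j m F s) = 1 := Units.ext (SymplecticGroup.det_eq_one s.2)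
  rw [hs, map_mul, map_inv, inv_mul_eq_one] at h3
  rw [← h3]
  ext; simp [d]

theorem Alt.exists_simM {B : GL ι F} (h : Alt B.1) (c : Fˣ) : ∃ g, SimM B.1 g c := by
  obtain ⟨m, hm⟩ := h.even
  obtain ⟨e, he⟩ := h.exists_rep (m := m) (by omega)
  obtain ⟨g, hg⟩ := Sp.exists_sim_eq (m := m) c
  obtain ⟨g, rfl⟩ := (cj e).surjective g
  exact ⟨g, simM_iff.mpr ((mem_sim_iff_cj e one_ne_zero he g c).mpr
    ((simM_iff (B := J (Fin m) F)).mp hg))⟩

end Cfsg.Agent.Lib.Aut.Gr
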