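import Cfsg.Agent.Lib.Aut.Graph1

set_option autoImplicit false
set_option linter.unusedSectionVars false
set_option maxHeartbeats 400000

/-! Symmetric Gram matrices: classification, similarity groups in characteristic two,
determinants of similarities. -/

namespace Cfsg.Agent.Lib.Aut.Gr

open Module Matrix Cfsg.Agent.Lib.GL.H90 Cfsg.Agent.Lib.GL.Alt Cfsg.Agent.Lib.Forms
  Cfsg.Agent.Lib.Invol

variable {F : Type*} [Field F] {ι κ : Type} [Fintype ι] [DecidableEq ι] [Fintype κ] [DecidableEq κ]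

theorem Similar.symm {B B' : Matrix ι ι F} (h : Similar B B') : Similar B' B := by
  obtain ⟨g, c, hc⟩ := h
  refine ⟨g⁻¹, c⁻¹, bil_ext fun u v => ?_⟩
  rw [← bil_mulVec, bil_smul, Units.val_inv_eq_inv_val, eq_inv_mul_iff_mul_eq₀ c.ne_zero,
    ← bil_smul, ← hc, ← bil_mulVec, mulVec_inv_mulVec, mulVec_inv_mulVec]

theorem Similar.projQuot {B B' : Matrix ι ι F} (h : Similar B B') :
    Nonempty (projQuot (simGrp B') ≃* projQuot (simGrp B)) := by
  obtain ⟨g, c, hc⟩ := h
  exact projQuot_sim (equivOfGL g) c.ne_zero fun u v => by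
    rw [equivOfGL_apply, equivOfGL_apply, bil_mulVec, hc, bil_smul]

theorem similar_of_qf {B B' : Matrix ι ι F} (h2 : (2 : F) ≠ 0) (hB : Bᵀ = B) (hB' : B'ᵀ = B')
    {W : Type*} [AddCommGroup W] [Module F W] {Q : QuadraticForm F W} (e e' : (ι → F) ≃ₗ[F] W)
    {c c' : F} (hc : c ≠ 0) (hc' : c' ≠ 0) (h : ∀ v, Q (e v) = c * qf B v)
    (h' : ∀ v, Q (e' v) = c' * qf B' v) : Similar B B' :=
  similar_of_rep (f := QuadraticMap.polar Q) e e' (mul_ne_zero h2 hc) (mul_ne_zero h2 hc')
    (polar_of_simil hB e.toLinearMap h) (polar_of_simil hB' e'.toLinearMap h')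

theorem Similar.qf {B B' : Matrix ι ι F} (h : Similar B B') :
    ∃ (e : (ι → F) ≃ₗ[F] (ι → F)) (c : F), c ≠ 0 ∧ ∀ v, qf B (e v) = c * qf B' v := by
  obtain ⟨g, c, hc⟩ := h
  exact ⟨equivOfGL g, c, c.ne_zero, fun v => by
    rw [qf_apply, qf_apply, equivOfGL_apply, bil_mulVec, hc, bil_smul]⟩

theorem not_alt_of_symm [Nonempty ι] (h2 : (2 : F) ≠ 0) {B : GL ι F} (hB : B.1ᵀ = B.1) :
    ¬ Alt B.1 := fun h => by
  have := h.skew
  rw [hB, eq_neg_iff_add_eq_zero, ← two_smul F] at this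
  exact B.ne_zero ((smul_eq_zero.mp this).resolve_left h2)

section two

variable [Finite F] [CharP F 2]

theorem exists_sq (c : Fˣ) : ∃ d : Fˣ, d ^ 2 = c := by
  obtain ⟨r, hr⟩ := FiniteField.isSquare_of_char_two (ringChar.eq F 2) (c : F)
  have h0 : r ≠ 0 := by rintro rfl; simp at hr
  exact ⟨Units.mk0 r h0, Units.ext ((pow_two r).trans hr.symm)⟩

omit [Finite F] in
theorem eq_of_sq {a b : F} (h : a ^ 2 = b ^ 2) : a = b := by
  have : (a - b) ^ 2 = 0 := by rw [sub_pow_char, h, sub_self]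
  exact sub_eq_zero.mp (eq_zero_of_pow_eq_zero this)

omit [Finite F] in
theorem unit_eq_one {u : Fˣ} (h : u ^ 2 = 1) : u = 1 :=
  Units.ext (eq_of_sq (by simpa using congrArg Units.val h))

theorem similar_two {B B' : GL ι F} (hB : B.1ᵀ = B.1) (hB' : B'.1ᵀ = B'.1) (h : ¬ Alt B.1)
    (h' : ¬ Alt B'.1) : Similar B.1 B'.1 := by
  have key : ∀ B : GL ι F, B.1ᵀ = B.1 → ¬ Alt B.1 →
      ∃ e : (ι → F) ≃ₗ[F] (Fin (Fintype.card ι) → F), ∀ u v, e u ⬝ᵥ e v = 1 * bil B.1 u v := by
    intro B hB h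
    obtain ⟨b, hb⟩ := S2622.result (n := Fintype.card ι) (by simp) (Matrix.toBilin' B.1)
      ⟨fun u v => by rw [← bil_eq, ← bil_eq, ← bil_transpose, hB]⟩ (nondeg_toBilin B) (by
        simpa only [Alt, not_forall, bil_eq] using h)
    refine ⟨b.equivFun, fun u v => ?_⟩
    conv_rhs => rw [one_mul, bil_eq, ← b.sum_equivFun u, ← b.sum_equivFun v]
    simp only [map_sum, map_smul, LinearMap.sum_apply, LinearMap.smul_apply, hb, smul_eq_mul,
      dotProduct]
    simp [mul_comm]
  obtain ⟨e, he⟩ := key B hB h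
  obtain ⟨e', he'⟩ := key B' hB' h'
  exact similar_of_rep (f := dotProduct) e e' one_ne_zero one_ne_zero he he'

theorem exists_isom_of_sim {f : (ι → F) → (ι → F) → F}
    (hf : ∀ (a : F) u v, f (a • u) (a • v) = a ^ 2 * f u v) {g : GL ι F}
    (hg : g ∈ Geo.similarityGroup f) : ∃ u g', g = GeneralLinearGroup.scalar ι u * g' ∧
      ∀ u v, f (g'.1 *ᵥ u) (g'.1 *ᵥ v) = f u v := by
  obtain ⟨c, hc⟩ := hg
  obtain ⟨d, rfl⟩ := exists_sq c
  refine ⟨d, GeneralLinearGroup.scalar ι d⁻¹ * g, by rw [map_inv, mul_inv_cancel_left],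
    fun u v => ?_⟩
  rw [coe_scalar_mul, smul_mulVec, smul_mulVec, hf, hc]
  simp

variable {m : ℕ}

theorem sp_scalar {s : symplecticGroup (Fin m) F} {u : Fˣ}
    (h : Sp.j m F s = GeneralLinearGroup.scalar _ u) : s = 1 := by
  rcases Nat.eq_zero_or_pos m with rfl | hm
  · exact Subsingleton.elim _ _
  have : NeZero m := ⟨hm.ne'⟩
  rw [unit_eq_one ((Sp.sim_scalar u).unique (h ▸ Sp.sim_j s)), map_one] at h
  exact Sp.j_inj (h.trans (map_one _).symm)

theorem symp_smul (a : F) (u v : Fin m ⊕ Fin m → F) :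
    sympForm m F (a • u) (a • v) = a ^ 2 * sympForm m F u v := by
  simp only [← sympBilin_apply, map_smul, LinearMap.smul_apply, smul_eq_mul]; ring

theorem pgsp_two : Nonempty (PGSp m F ≃* symplecticGroup (Fin m) F) :=
  equiv_projQuot ((Sp.j m F).codRestrict _ fun s => (Sp.sim_j s).mem) (fun _ _ h => sp_scalar h)
    fun g hg => by
      obtain ⟨u, g', h, hg'⟩ := exists_isom_of_sim symp_smul hg
      exact ⟨u, ⟨g'.1, (mem_symplecticGroup_iff_sympForm _).mpr hg'⟩,
        h.trans (congrArg _ (Units.ext rfl))⟩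

/-- a non-alternating symmetric form in even dimension -/
noncomputable def f₃ (w : Fin m ⊕ Fin m → F) : LinearMap.BilinForm F (Fin m ⊕ Fin m → F) :=
  sympBilin m F + ((sympBilin m F).flip w).smulRight ((sympBilin m F).flip w)

theorem f₃_apply (w u v : Fin m ⊕ Fin m → F) :
    f₃ w u v = sympBilin m F u v + sympBilin m F u w * sympBilin m F v w := rfl

theorem f₃_symm (w u v : Fin m ⊕ Fin m → F) : f₃ w u v = f₃ w v u := by
  rw [f₃_apply, f₃_apply, sympBilin_swap u v, CharTwo.neg_eq, mul_comm]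

theorem f₃_nondeg (w : Fin m ⊕ Fin m → F) : (f₃ w).Nondegenerate := by
  have : ∀ x, (∀ y, f₃ w y x = 0) → x = 0 := fun x hx => by
    have h1 : x + sympBilin m F x w • w = 0 := eq_zero_of_sympBilin fun y => by
      rw [← hx y, f₃_apply, map_add, map_smul, smul_eq_mul, mul_comm]
    have h2 := congrArg (fun y => sympBilin m F y w) h1
    simp only [map_add, map_smul, LinearMap.add_apply, LinearMap.smul_apply, sympBilin_self,
      smul_zero, add_zero, map_zero, LinearMap.zero_apply] at h2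
    simpa [h2] using h1
  exact ⟨fun x hx => this x fun y => by rw [f₃_symm, hx], this⟩

theorem mem_cent_spT {w : Fin m ⊕ Fin m → F} {s : symplecticGroup (Fin m) F} :
    s ∈ Subgroup.centralizer {spT w 1} ↔ s.1 *ᵥ w = w := by
  rw [Subgroup.mem_centralizer_singleton_iff, ← mul_inv_eq_iff_eq_mul, conj_spT]
  refine ⟨fun h => ?_, fun h => by rw [h]⟩
  refine sub_eq_zero.mp (eq_zero_of_sympBilin fun x => ?_)
  have := congrArg (fun g : symplecticGroup (Fin m) F => sympBilin m F x (g.1 *ᵥ x)) h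
  simp only [spT_mulVec, map_add, map_smul, smul_eq_mul, one_mul, add_right_inj] at this
  rw [map_sub, sub_eq_zero]
  exact eq_of_sq (by rw [pow_two, pow_two, this])

theorem projQuot_f₃ (w : Fin m ⊕ Fin m → F) :
    Nonempty (projQuot (Geo.similarityGroup fun u v => f₃ w u v) ≃*
      Subgroup.centralizer ({spT w 1} : Set (symplecticGroup (Fin m) F))) :=
  equiv_projQuot (((Sp.j m F).comp (Subgroup.subtype _)).codRestrict _ fun s =>
      ⟨1, fun u v => by
        show f₃ w (s.1.1 *ᵥ u) (s.1.1 *ᵥ v) = _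
        have := fun x => sp_bilin s.1 x w
        simp only [mem_cent_spT.mp s.2] at this
        simp [sp_bilin, f₃_apply, this]⟩)
    (fun _ _ h => Subtype.ext (sp_scalar h))
    fun g hg => by
      obtain ⟨u, g', h, hg'⟩ := exists_isom_of_sim (fun a u v => by
        simp only [map_smul, LinearMap.smul_apply, smul_eq_mul]; ring) hg
      have h1 : ∀ x, sympBilin m F (g'.1 *ᵥ x) w = sympBilin m F x w := fun x =>
        eq_of_sq (by simpa [f₃_apply, sympBilin_self, pow_two] using hg' x x)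
      let s : symplecticGroup (Fin m) F := ⟨g'.1, (mem_symplecticGroup_iff_sympForm _).mpr
        fun x y => by simpa [f₃_apply, h1, sympBilin_apply] using hg' x y⟩
      refine ⟨u, ⟨s, mem_cent_spT.mpr (sub_eq_zero.mp (eq_zero_of_sympBilin fun x => ?_))⟩,
        h.trans (congrArg _ (Units.ext rfl))⟩
      rw [← mulVec_inv_mulVec g' x, map_sub, h1]
      exact sub_eq_zero.mpr (sp_bilin s _ _)

/-- the lower part of a vector -/
abbrev lo {α β : Type} (v : α ⊕ β → F) : β → F := fun i => v (.inr i)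

/-- a non-alternating symmetric form in odd dimension -/
def f₁ (m : ℕ) (F : Type*) [Field F] : Matrix (Unit ⊕ (Fin m ⊕ Fin m)) (Unit ⊕ (Fin m ⊕ Fin m)) F :=
  fromBlocks 1 0 0 (J (Fin m) F)

theorem bil_f₁ (u v : Unit ⊕ (Fin m ⊕ Fin m) → F) :
    bil (f₁ m F) u v = u (.inl ()) * v (.inl ()) + sympBilin m F (lo u) (lo v) := by
  rw [sympBilin_apply, bil, f₁, fromBlocks_mulVec, ← Sum.elim_comp_inl_inr u,
    sumElim_dotProduct_sumElim]
  simp [sympForm, dotProduct]
  rfl

/-- the embedding of the symplectic group -/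
def emb (m : ℕ) (F : Type*) [Field F] :
    symplecticGroup (Fin m) F →* GL (Unit ⊕ (Fin m ⊕ Fin m)) F :=
  MonoidHom.toHomUnits
    { toFun := fun s => fromBlocks 1 0 0 s.1
      map_one' := fromBlocks_one
      map_mul' := fun a b => by simp [fromBlocks_multiply] }

theorem projQuot_f₁ : Nonempty (projQuot (simGrp (f₁ m F)) ≃* symplecticGroup (Fin m) F) :=
  equiv_projQuot ((emb m F).codRestrict _ fun s => mem_simGrp.mpr ⟨1, by
      show (fromBlocks 1 0 0 s.1)ᵀ * f₁ m F * fromBlocks 1 0 0 s.1 = _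
      simp [f₁, fromBlocks_transpose, fromBlocks_multiply, SymplecticGroup.mem_iff'.mp s.2]⟩)
    (fun s u h => by
      have h1 : fromBlocks 1 0 0 s.1 = (u : F) • (1 : Matrix (Unit ⊕ (Fin m ⊕ Fin m)) _ F) :=
        (congrArg Units.val h).trans (coe_scalar u)
      rw [← fromBlocks_one, fromBlocks_smul, fromBlocks_inj] at h1
      have h2 : (u : F) = 1 := by simpa using (congrFun (congrFun h1.1 ()) ()).symm
      exact Subtype.ext (by simpa [h2] using h1.2.2.2))
    fun g hg => by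
      obtain ⟨u, g', h, hg'⟩ := exists_isom_of_sim (fun a u v => by
        simp only [bil_eq, map_smul, LinearMap.smul_apply, smul_eq_mul]; ring) hg
      have h1 : ∀ x, (g'.1 *ᵥ x) (.inl ()) = x (.inl ()) := fun x =>
        eq_of_sq (by simpa [bil_f₁, sympBilin_self, pow_two] using hg' x x)
      have h2 : ∀ x y, sympBilin m F (lo (g'.1 *ᵥ x)) (lo (g'.1 *ᵥ y)) =
          sympBilin m F (lo x) (lo y) := fun x y => by simpa [bil_f₁, h1] using hg' x y
      have h3 : lo (g'.1 *ᵥ Pi.single (.inl ()) 1) = 0 := eq_zero_of_sympBilin fun y => by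
        have := h2 ((g'⁻¹).1 *ᵥ Sum.elim 0 y) (Pi.single (.inl ()) 1)
        rw [mulVec_inv_mulVec, show lo (Pi.single (Sum.inl ()) (1 : F) :
          Unit ⊕ (Fin m ⊕ Fin m) → F) = 0 from by ext; simp, map_zero] at this
        exact this
      have h4 : ∀ x, g'.1.toBlocks₂₂ *ᵥ x = lo (g'.1 *ᵥ Sum.elim 0 x) := fun x => by
        ext i; simp [mulVec, dotProduct, toBlocks₂₂]
      refine ⟨u, ⟨g'.1.toBlocks₂₂, (mem_symplecticGroup_iff_sympForm _).mpr fun x y => by
        rw [h4, h4, ← sympBilin_apply, h2, sympBilin_apply]; rfl⟩, h.trans ?_⟩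
      congr 1
      apply Units.ext
      show _ = fromBlocks 1 0 0 g'.1.toBlocks₂₂
      ext (i | i) (k | k)
      · simpa using h1 (Pi.single (.inl k) 1)
      · simpa using h1 (Pi.single (.inr k) 1)
      · simpa using congrFun h3 i
      · rfl

theorem polar_qPlus_two (u v : Fin m ⊕ Fin m → F) :
    qPlus m F (u + v) = qPlus m F u + qPlus m F v + sympBilin m F u v := by
  simp only [qPlus_apply, sympBilin_apply, sympForm_apply, ← Finset.sum_add_distrib,
    CharTwo.sub_eq_add, Pi.add_apply]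
  exact Finset.sum_congr rfl fun i _ => by ring

theorem pgo_odd_two : Nonempty (PGO F (quadFormOdd m F) ≃* symplecticGroup (Fin m) F) := by
  have hQ : ∀ v, quadFormOdd m F v = v (.inl ()) ^ 2 + qPlus m F (lo v) := fun _ => rfl
  have hl : ∀ s : symplecticGroup (Fin m) F, ∃ l : Matrix Unit (Fin m ⊕ Fin m) F,
      ∀ x, (l *ᵥ x) () ^ 2 = qPlus m F x + qPlus m F (s.1 *ᵥ x) := fun s => by
    let φ := (frobeniusEquiv F 2).symm
    have hφ : ∀ a, φ a ^ 2 = a := fun a => (frobeniusEquiv F 2).apply_symm_apply a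
    let l : (Fin m ⊕ Fin m → F) →ₗ[F] (Unit → F) :=
      { toFun := fun x _ => φ (qPlus m F x + qPlus m F (s.1 *ᵥ x))
        map_add' := fun x y => funext fun _ => eq_of_sq (by
          simp only [Pi.add_apply, CharTwo.add_sq, hφ, mulVec_add, polar_qPlus_two, sp_bilin]
          linear_combination (sympBilin m F x y) * CharTwo.two_eq_zero (R := F))
        map_smul' := fun a x => funext fun _ => eq_of_sq (by
          simp only [Pi.smul_apply, smul_eq_mul, RingHom.id_apply, mul_pow, hφ, mulVec_smul,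
            QuadraticMap.map_smul]
          ring) }
    exact ⟨LinearMap.toMatrix' l, fun x => by rw [LinearMap.toMatrix'_mulVec]; exact hφ _⟩
  choose l hl using hl
  have hu : ∀ {l l' : Matrix Unit (Fin m ⊕ Fin m) F},
      (∀ x, (l *ᵥ x) () ^ 2 = (l' *ᵥ x) () ^ 2) → l = l' := fun h =>
    Matrix.toLin'.injective (LinearMap.ext fun x => funext fun _ => eq_of_sq (h x))
  have h2 : (2 : F) = 0 := CharTwo.two_eq_zero
  let j : symplecticGroup (Fin m) F →* GL (Unit ⊕ (Fin m ⊕ Fin m)) F := MonoidHom.toHomUnits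
    { toFun := fun s => fromBlocks 1 (l s) 0 s.1
      map_one' := by
        rw [hu (l := l 1) (l' := 0) fun x => by simp [hl, CharTwo.add_self_eq_zero]]
        exact fromBlocks_one
      map_mul' := fun a b => by
        rw [hu (l := l (a * b)) (l' := l b + l a * b.1) fun x => by
          rw [add_mulVec, Pi.add_apply, CharTwo.add_sq, ← mulVec_mulVec, hl, hl, hl, sp_mul_mulVec]
          linear_combination -(qPlus m F (b.1 *ᵥ x)) * h2]
        simp [fromBlocks_multiply] }
  have hj : ∀ s v, (j s).1 *ᵥ v = Sum.elim (fun _ => v (.inl ()) + (l s *ᵥ lo v) ()) (s.1 *ᵥ lo v) :=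
    fun s v => by
      show fromBlocks 1 (l s) 0 s.1 *ᵥ v = _
      rw [fromBlocks_mulVec]
      ext (i | i) <;> simp <;> rfl
  refine equiv_projQuot (j.codRestrict _ fun s => ⟨1, fun v => ?_⟩) (fun s u h => ?_) fun g hg => ?_
  · rw [hQ, hQ, hj]
    simp only [Sum.elim_inl, CharTwo.add_sq, hl, Units.val_one, one_mul]
    show _ + qPlus m F (s.1 *ᵥ lo v) = _
    linear_combination (qPlus m F (s.1 *ᵥ lo v)) * h2
  · have h1 : fromBlocks 1 (l s) 0 s.1 = (u : F) • (1 : Matrix (Unit ⊕ (Fin m ⊕ Fin m)) _ F) :=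
      (congrArg Units.val h).trans (coe_scalar u)
    rw [← fromBlocks_one, fromBlocks_smul, fromBlocks_inj] at h1
    have h2 : (u : F) = 1 := by simpa using (congrFun (congrFun h1.1 ()) ()).symm
    exact Subtype.ext (by simpa [h2] using h1.2.2.2)
  · obtain ⟨u, g', h, hg'⟩ := exists_isom_of_sim (f := fun u _ => quadFormOdd m F u)
      (fun a u _ => by
        show qOdd m F (a • u) = a ^ 2 * qOdd m F u
        rw [QuadraticMap.map_smul, smul_eq_mul, pow_two])
      (g := g) (hg.imp fun c hc u _ => hc u)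
    have h1 : ∀ x, quadFormOdd m F (g'.1 *ᵥ x) = quadFormOdd m F x := fun x => hg' x x
    have h3 : ∀ x y, quadFormOdd m F (x + y) = quadFormOdd m F x + quadFormOdd m F y +
        sympBilin m F (lo x) (lo y) := fun x y => by
      rw [hQ, hQ, hQ, show lo (x + y) = lo x + lo y from rfl, polar_qPlus_two, Pi.add_apply,
        CharTwo.add_sq]
      ring
    have h4 : ∀ x y, sympBilin m F (lo (g'.1 *ᵥ x)) (lo (g'.1 *ᵥ y)) =
        sympBilin m F (lo x) (lo y) := fun x y => by
      have := h1 (x + y)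
      rwa [mulVec_add, h3, h3, h1, h1, add_right_inj] at this
    have h0 : lo (Pi.single (Sum.inl ()) (1 : F) : Unit ⊕ (Fin m ⊕ Fin m) → F) = 0 := by
      ext; simp
    have h5 : lo (g'.1 *ᵥ Pi.single (.inl ()) 1) = 0 := eq_zero_of_sympBilin fun y => by
      have := h4 ((g'⁻¹).1 *ᵥ Sum.elim 0 y) (Pi.single (.inl ()) 1)
      rw [mulVec_inv_mulVec, h0, map_zero] at this
      exact this
    have h6 : ∀ x, g'.1.toBlocks₂₂ *ᵥ x = lo (g'.1 *ᵥ Sum.elim 0 x) := fun x => by
      ext i; simp [mulVec, dotProduct, toBlocks₂₂]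
    let s : symplecticGroup (Fin m) F :=
      ⟨g'.1.toBlocks₂₂, (mem_symplecticGroup_iff_sympForm _).mpr fun x y => by
        rw [h6, h6, ← sympBilin_apply, h4, sympBilin_apply]; rfl⟩
    refine ⟨u, s, h.trans ?_⟩
    congr 1
    apply Units.ext
    have h7 : l s = g'.1.toBlocks₁₂ := hu fun x => by
      have := h1 (Sum.elim 0 x)
      rw [hQ, hQ, ← h6] at this
      rw [hl, show (g'.1.toBlocks₁₂ *ᵥ x) () = (g'.1 *ᵥ Sum.elim 0 x) (.inl ()) by
        simp [mulVec, dotProduct, toBlocks₁₂]]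
      simp only [Sum.elim_inl, Pi.zero_apply, zero_pow two_ne_zero, zero_add] at this
      show _ + qPlus m F (g'.1.toBlocks₂₂ *ᵥ x) = _
      change _ = qPlus m F x at this
      linear_combination -this + (qPlus m F (g'.1.toBlocks₂₂ *ᵥ x)) * h2
    show _ = fromBlocks 1 (l s) 0 g'.1.toBlocks₂₂
    rw [h7]
    ext (i | i) (k | k)
    · have := h1 (Pi.single (.inl ()) 1)
      rw [hQ, hQ, h5, h0] at this
      simpa using eq_of_sq (add_right_cancel this)
    · rfl
    · simpa using congrFun h5 i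
    · rfl

end two

end Cfsg.Agent.Lib.Aut.Gr
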