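import Cfsg.Agent.Lib.Aut.Graph2
import Cfsg.Agent.S2620

set_option autoImplicit false
set_option linter.unusedSectionVars false
set_option maxHeartbeats 400000

/-! Classes of involutory graph automorphisms, in terms of Gram matrices. -/

namespace Cfsg.Agent.Lib.Aut.Gr

open Module Matrix Cfsg.Agent.Lib.GL.H90 Cfsg.Agent.Lib.GL.Alt Cfsg.Agent.Lib.Forms
  Cfsg.Agent.Lib.Invol

variable {F : Type*} [Field F] {ι κ : Type} [Fintype ι] [DecidableEq ι] [Fintype κ] [DecidableEq κ]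

theorem charP_two (h : (2 : F) = 0) : CharP F 2 :=
  CharTwo.of_one_ne_zero_of_two_eq_zero one_ne_zero h

theorem SimM.det_of_not [Finite F] {B g : GL ι F} {c : Fˣ} (h : SimM B.1 g c)
    (hn : ¬ (Even (Fintype.card ι) ∧ (2 : F) ≠ 0)) :
    ∃ d : Fˣ, d ^ 2 = c ∧ GeneralLinearGroup.det g = d ^ Fintype.card ι := by
  have h1 := h.det_sq
  by_cases h2 : (2 : F) = 0
  · have := charP_two h2
    obtain ⟨d, rfl⟩ := exists_sq c
    refine ⟨d, rfl, Units.ext (eq_of_sq ?_)⟩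
    rw [← Units.val_pow_eq_pow_val, h1, ← Units.val_pow_eq_pow_val, pow_right_comm]
  · obtain ⟨m, hm⟩ := Nat.not_even_iff_odd.mp fun h => hn ⟨h, h2⟩
    have h3 : (GeneralLinearGroup.det g * (c ^ m)⁻¹) ^ 2 = c := by
      rw [mul_pow, h1, hm, inv_pow, ← pow_mul, mul_comm m, pow_succ', mul_inv_cancel_right]
    refine ⟨_, h3, ?_⟩
    rw [hm, pow_succ, pow_mul, h3, mul_comm, inv_mul_cancel_right]

theorem exists_simM_symm [Finite F] [Nonempty ι] (h2 : (2 : F) ≠ 0) {B : GL ι F} (hB : B.1ᵀ = B.1)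
    (hn : Even (Fintype.card ι)) (c x : Fˣ) (hx : x ^ 2 = c ^ Fintype.card ι) :
    ∃ g, SimM B.1 g c ∧ GeneralLinearGroup.det g = x := by
  have hQ := nondeg_qf h2 hB
  obtain ⟨φ, hφ⟩ := hQ.exists_simil (by simpa using hn) c.ne_zero
  have h1 : SimM B.1 (glOfEquiv φ) c := simM_of_qf h2 hB fun v => by rw [glOfEquiv_mulVec, hφ]
  obtain ⟨v, hv⟩ := hQ.exists_Q_ne_zero
  have h3 : SimM B.1 (glOfEquiv (refl (qf B.1) v).1) 1 := simM_of_qf h2 hB fun w => by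
    rw [glOfEquiv_mulVec, Units.val_one, one_mul]; exact (refl (qf B.1) v).2 w
  have h4 : GeneralLinearGroup.det (glOfEquiv (refl (qf B.1) v).1) = -1 :=
    Units.ext ((LinearMap.det_toMatrix' _).trans (det_refl hv))
  have h5 := congrArg Units.val (hx.trans h1.det_sq.symm)
  rw [Units.val_pow_eq_pow_val, Units.val_pow_eq_pow_val, sq_eq_sq_iff_eq_or_eq_neg] at h5
  rcases h5 with h | h
  · exact ⟨_, h1, Units.ext h.symm⟩
  · exact ⟨_, by simpa using h1.mul h3, by rw [map_mul, h4, mul_neg_one]; exact Units.ext h.symm⟩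

/-- the multiplier -/
noncomputable def μ [Nonempty ι] (B : GL ι F) : simGrp B.1 →* Fˣ :=
  MonoidHom.mk' (fun g => (mem_simGrp.mp g.2).choose) fun a b =>
    (mem_simGrp.mp (a * b).2).choose_spec.unique
      ((mem_simGrp.mp a.2).choose_spec.mul (mem_simGrp.mp b.2).choose_spec)

theorem simM_μ [Nonempty ι] (B : GL ι F) (g : simGrp B.1) : SimM B.1 g.1 (μ B g) :=
  (mem_simGrp.mp g.2).choose_spec

theorem gsp_hom [Finite F] (h2 : (2 : F) ≠ 0) {m : ℕ} [NeZero m] {A : Type*} [Group A]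
    (Ψ : GSp m F →* A) (h3 : ∀ k, Ψ k ^ 2 = 1)
    (h1 : ∀ k k', (QuotientGroup.mk k : PGSp m F) = QuotientGroup.mk k' → Ψ k = Ψ k')
    (a b : GSp m F) : Ψ a = 1 ∨ Ψ b = 1 ∨ Ψ a * Ψ b = 1 := by
  have : NeZero (2 : F) := ⟨h2⟩
  let j := (Sp.j m F).codRestrict _ fun s => (Sp.sim_j s).mem
  have h4 : ∀ s, Ψ (j s) = 1 := fun s => by
    have : ⊤ ≤ (Ψ.comp j).ker := by
      rw [← closure_spT, Subgroup.closure_le]
      rintro _ ⟨v, -, c, -, rfl⟩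
      have k : spT v (c / 2) ^ 2 = spT v c := sp_ext fun x => by
        rw [pow_two, sp_mul_mulVec, spT_mulVec, spT_mulVec, spT_mulVec, map_add, map_smul,
          LinearMap.add_apply, LinearMap.smul_apply, sympBilin_self, smul_zero, add_zero, add_assoc,
          ← add_smul, ← add_mul, add_halves]
      show Ψ (j _) = 1
      rw [← k, map_pow, map_pow, h3]
    exact this (Subgroup.mem_top s)
  have h5 : ∀ k : GSp m F, IsSquare ((Sp.μ m F k : Fˣ) : F) → Ψ k = 1 := by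
    rintro k ⟨r, hr⟩
    have h0 : r ≠ 0 := by rintro rfl; simp at hr
    have hu : Units.mk0 r h0 ^ 2 = Sp.μ m F k := Units.ext ((pow_two r).trans hr.symm)
    obtain ⟨s, hs⟩ := Sp.Sim.exists_j (g := (GeneralLinearGroup.scalar _ (Units.mk0 r h0))⁻¹ * k.1)
      (by simpa [hu] using (Sp.sim_scalar (Units.mk0 r h0)).inv.mul (Sp.sim_μ k))
    rw [← h4 s]
    exact h1 _ _ (QuotientGroup.eq.mpr ((mem_scalars_iff' _).mpr ⟨(Units.mk0 r h0)⁻¹, by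
        show k.1⁻¹ * Sp.j m F s = _
        rw [hs, ← map_inv, GL.H90.scalar_comm, inv_mul_cancel_left]⟩))
  by_cases na : IsSquare ((Sp.μ m F a : Fˣ) : F)
  · exact Or.inl (h5 _ na)
  by_cases nb : IsSquare ((Sp.μ m F b : Fˣ) : F)
  · exact Or.inr (Or.inl (h5 _ nb))
  refine Or.inr (Or.inr ((map_mul Ψ a b).symm.trans (h5 _ ?_)))
  rw [map_mul, Units.val_mul, ← sqc_eq_one_iff, sqc_mul (Units.ne_zero _) (Units.ne_zero _),
    sqc_eq_neg_one_iff.mpr na, sqc_eq_neg_one_iff.mpr nb]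
  simp

theorem not_equiv_pgsp [Finite F] (h2 : (2 : F) ≠ 0) {B : GL ι F} (hB : B.1ᵀ = B.1) {m : ℕ}
    [NeZero m] (hm : Fintype.card ι = 2 * m) : ¬ Nonempty (projQuot (simGrp B.1) ≃* PGSp m F) := by
  rintro ⟨e⟩
  have : Nonempty ι := Fintype.card_pos_iff.mp (by have := NeZero.ne m; omega)
  let S := (powMonoidHom 2 : Fˣ →* Fˣ).range
  obtain ⟨Φ, hΦ⟩ : ∃ Φ : simGrp B.1 →* (Fˣ ⧸ S) × Fˣ, ∀ g c, SimM B.1 g.1 c →
      Φ g = ((c : Fˣ ⧸ S), GeneralLinearGroup.det g.1 / c ^ m) :=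
    ⟨((QuotientGroup.mk' S).comp (μ B)).prod
      ((GeneralLinearGroup.det.comp (simGrp B.1).subtype) / (powMonoidHom m).comp (μ B)),
      fun g c h => by rw [h.unique (simM_μ B g)]; rfl⟩
  obtain ⟨Ψ, h1, h1', h1''⟩ : ∃ Ψ : GSp m F →* (Fˣ ⧸ S) × Fˣ, (∀ g, ∃ k, Ψ k = Φ g) ∧
      (∀ k, ∃ g, Ψ k = Φ g) ∧
      ∀ k k', (QuotientGroup.mk k : PGSp m F) = QuotientGroup.mk k' → Ψ k = Ψ k' := by
    let Φ' : projQuot (simGrp B.1) →* (Fˣ ⧸ S) × Fˣ := QuotientGroup.lift _ Φ fun g hg => by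
      obtain ⟨u, hu⟩ := (mem_scalars_iff' _).mp hg
      have hu' : g.1 = _ := hu
      rw [MonoidHom.mem_ker, hΦ g _ (hu' ▸ simM_scalar _ u), hu', PSL.det_scalar', hm, pow_mul,
        div_self', Prod.mk_eq_one]
      exact ⟨(QuotientGroup.eq_one_iff _).mpr ⟨u, rfl⟩, rfl⟩
    refine ⟨(Φ'.comp e.symm.toMonoidHom).comp (QuotientGroup.mk' _), fun g => ?_, fun k => ?_,
      fun k k' h => congrArg (fun x => Φ' (e.symm x)) h⟩
    · obtain ⟨k, hk⟩ := QuotientGroup.mk_surjective (e (QuotientGroup.mk g))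
      exact ⟨k, congrArg Φ' (e.symm_apply_eq.mpr hk)⟩
    · obtain ⟨g, hg⟩ := QuotientGroup.mk_surjective (e.symm (QuotientGroup.mk k))
      exact ⟨g, (congrArg Φ' hg).symm⟩
  have h3 : ∀ k, Ψ k ^ 2 = 1 := fun k => by
    obtain ⟨g, hg⟩ := h1' k
    rw [hg, hΦ g _ (simM_μ B g), Prod.pow_mk, div_pow, (simM_μ B g).det_sq, hm, ← pow_mul,
      mul_comm, div_self', Prod.mk_eq_one]
    exact ⟨(QuotientGroup.eq_one_iff _).mpr ⟨_, rfl⟩, rfl⟩
  obtain ⟨c, hc⟩ := FiniteField.exists_nonsquare (F := F) fun h => h2 (by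
    simpa [h] using ringChar.Nat.cast_ringChar (R := F))
  have hc0 : c ≠ 0 := by rintro rfl; exact hc ⟨0, by simp⟩
  have hc1 : ((Units.mk0 c hc0 : Fˣ) : Fˣ ⧸ S) ≠ 1 := fun h => by
    obtain ⟨d, hd⟩ := (QuotientGroup.eq_one_iff _).mp h
    exact hc ⟨d, by rw [← pow_two]; exact (congrArg Units.val hd).symm⟩
  have hev : Even (Fintype.card ι) := ⟨m, by omega⟩
  obtain ⟨a, ha, ha'⟩ := exists_simM_symm h2 hB hev 1 (-1) (by simp)
  obtain ⟨b, hb, -⟩ := exists_simM_symm h2 hB hev (Units.mk0 c hc0) (Units.mk0 c hc0 ^ m)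
    (by rw [hm, ← pow_mul, mul_comm])
  obtain ⟨ka, hka⟩ := h1 ⟨a, mem_simGrp.mpr ⟨_, ha⟩⟩
  obtain ⟨kb, hkb⟩ := h1 ⟨b, mem_simGrp.mpr ⟨_, hb⟩⟩
  replace hka := hka.trans (hΦ ⟨a, _⟩ _ ha)
  replace hkb := hkb.trans (hΦ ⟨b, _⟩ _ hb)
  have := gsp_hom h2 Ψ h3 h1'' ka kb
  rw [hka, hkb, Prod.mk_mul_mk, Prod.mk_eq_one, Prod.mk_eq_one, Prod.mk_eq_one] at this
  rcases this with h | h | h
  · have := congrArg Units.val h.2
    simp only [ha', one_pow, div_one, Units.val_neg, Units.val_one] at this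
    exact h2 (by linear_combination -this)
  · exact hc1 h.1
  · exact hc1 ((one_mul _).symm.trans h.1)

theorem exists_aniso [Finite F] (h2 : (2 : F) ≠ 0) :
    ∃ a b : F, ∀ z₁ z₂ : F, z₁ ^ 2 + a * z₁ * z₂ + b * z₂ ^ 2 = 0 → z₁ = 0 ∧ z₂ = 0 := by
  obtain ⟨c, hc⟩ := FiniteField.exists_nonsquare (F := F) fun h => h2 (by
    simpa [h] using ringChar.Nat.cast_ringChar (R := F))
  refine ⟨0, -c, fun x y h => ?_⟩
  by_cases hy : y = 0
  · exact ⟨by simpa [hy] using h, hy⟩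
  · exact absurd ⟨x / y, by field_simp; linear_combination -h⟩ hc

/-- a class of involutions parametrised by symmetric and skew Gram matrices -/
structure GraphSys {X : Type*} [Group X] (H : Subgroup X) (P : X → Prop) (ι : Type) [Fintype ι]
    [DecidableEq ι] (F : Type*) [Field F] where
  R : X → GL ι F → Prop
  ex : ∀ γ, P γ → orderOf γ = 2 → ∃ B, R γ B ∧ (B.1ᵀ = B.1 ∨ B.1ᵀ = -B.1)
  ex' : ∀ B : GL ι F, (B.1ᵀ = B.1 ∨ B.1ᵀ = -B.1) → ∃ γ, R γ B ∧ P γ ∧ orderOf γ = 2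
  conj : ∀ {γ γ' B B'}, R γ B → R γ' B' → (IsConjUnder H γ γ' ↔ Similar B.1 B'.1)
  cent : ∀ {γ B}, R γ B →
    Nonempty (↥(H ⊓ Subgroup.centralizer {γ}) ≃* projQuot (simGrp B.1))

theorem symm_of_two [CharP F 2] {B : Matrix ι ι F} (h : Bᵀ = B ∨ Bᵀ = -B) : Bᵀ = B :=
  h.elim id fun h => h.trans (by ext; simp [CharTwo.neg_eq])

namespace GraphSys

variable {X : Type*} [Group X] {H : Subgroup X} {P : X → Prop} (S : GraphSys H P ι F) [Finite F]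
include S

theorem cent' {γ : X} {B : GL ι F} (h : S.R γ B) {Y : Type*} [Group Y]
    (e : Nonempty (projQuot (simGrp B.1) ≃* Y)) :
    Nonempty (↥(H ⊓ Subgroup.centralizer {γ}) ≃* Y) :=
  ⟨(S.cent h).some.trans e.some⟩

theorem odd_dim {m : ℕ} (hm : Fintype.card ι = 2 * m + 1) {γ γ' : X} (h : P γ)
    (h2 : orderOf γ = 2) (h' : P γ') (h2' : orderOf γ' = 2) :
    Nonempty (↥(H ⊓ Subgroup.centralizer {γ}) ≃* PGO F (quadFormOdd m F)) ∧ IsConjUnder H γ γ' := by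
  obtain ⟨B, hB, hs⟩ := S.ex γ h h2
  obtain ⟨B', hB', hs'⟩ := S.ex γ' h' h2'
  rw [S.conj hB hB']
  have hna : ∀ B : GL ι F, ¬ Alt B.1 := fun B h => by
    have := h.even
    rw [hm] at this
    exact Nat.not_even_two_mul_add_one m this
  by_cases h2 : (2 : F) = 0
  · have := charP_two h2
    refine ⟨S.cent' hB ?_, similar_two (symm_of_two hs) (symm_of_two hs') (hna _) (hna _)⟩
    let e : (ι → F) ≃ₗ[F] (Unit ⊕ (Fin m ⊕ Fin m) → F) :=
      LinearEquiv.ofFinrankEq _ _ (by simp [hm]; ring)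
    obtain ⟨B₁, h₁⟩ := exists_rep (Matrix.toBilin' (f₁ m F))
      (LinearMap.BilinForm.nondegenerate_toBilin'_iff_det_ne_zero.mpr (by
        simpa [f₁] using (isUnit_det_J (Fin m) F).ne_zero)) e
    have h3 : B₁.1ᵀ = B₁.1 := bil_ext fun u v => by
      rw [bil_transpose, ← h₁, ← h₁, ← bil_eq, ← bil_eq, bil_f₁, bil_f₁, sympBilin_swap,
        CharTwo.neg_eq, mul_comm]
    obtain ⟨e₁⟩ := (similar_two h3 (symm_of_two hs) (hna _) (hna _)).projQuot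
    obtain ⟨e₂⟩ := projQuot_sim e (f := bil B₁.1) (f' := bil (f₁ m F)) one_ne_zero
      fun u v => by rw [bil_eq, h₁, one_mul]
    exact ⟨e₁.trans (e₂.trans (projQuot_f₁.some.trans pgo_odd_two.some.symm))⟩
  · have k : ∀ B : GL ι F, (B.1ᵀ = B.1 ∨ B.1ᵀ = -B.1) → B.1ᵀ = B.1 := fun B h =>
      h.resolve_right fun h => hna B (alt_of_skew h2 h)
    obtain ⟨c, hc, e, he⟩ := (nondeg_qf h2 (k B hs)).simil_qOdd (m := m) (by simpa using hm)
    obtain ⟨c', hc', e', he'⟩ := (nondeg_qf h2 (k B' hs')).simil_qOdd (m := m) (by simpa using hm)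
    exact ⟨S.cent' hB (projQuot_qf h2 (k B hs) e hc he),
      similar_of_qf h2 (k B hs) (k B' hs') e e' hc hc' he he'⟩

theorem even_odd (h2 : (2 : F) ≠ 0) {m : ℕ} (hm1 : 1 ≤ m) (hm : Fintype.card ι = 2 * m) :
    ∃ (γ₁ γ₂ γ₃ : X) (a b : F),
      (∀ z₁ z₂ : F, z₁ ^ 2 + a * z₁ * z₂ + b * z₂ ^ 2 = 0 → z₁ = 0 ∧ z₂ = 0) ∧
      P γ₁ ∧ orderOf γ₁ = 2 ∧ P γ₂ ∧ orderOf γ₂ = 2 ∧ P γ₃ ∧ orderOf γ₃ = 2 ∧
      ¬ IsConjUnder H γ₁ γ₂ ∧ ¬ IsConjUnder H γ₁ γ₃ ∧ ¬ IsConjUnder H γ₂ γ₃ ∧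
      (∀ γ, P γ → orderOf γ = 2 → IsConjUnder H γ₁ γ ∨ IsConjUnder H γ₂ γ ∨ IsConjUnder H γ₃ γ) ∧
      Nonempty (↥(H ⊓ Subgroup.centralizer {γ₁}) ≃* PGSp m F) ∧
      Nonempty (↥(H ⊓ Subgroup.centralizer {γ₂}) ≃* PGO F (quadFormPlus m F)) ∧
      Nonempty (↥(H ⊓ Subgroup.centralizer {γ₃}) ≃* PGO F (quadFormMinus (m - 1) F a b)) := by
  have : Nonempty ι := Fintype.card_pos_iff.mp (by omega)
  obtain ⟨a, b, hab⟩ := exists_aniso h2
  obtain ⟨B₁, h₁⟩ := exists_alt (F := F) hm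
  let e₂ : (ι → F) ≃ₗ[F] (Fin m ⊕ Fin m → F) := LinearEquiv.ofFinrankEq _ _ (by simp [hm]; ring)
  let e₃ : (ι → F) ≃ₗ[F] ((Fin (m - 1) ⊕ Fin (m - 1)) ⊕ Fin 2 → F) :=
    LinearEquiv.ofFinrankEq _ _ (by simp [hm]; omega)
  obtain ⟨B₂, h₂, k₂⟩ := exists_qf h2 (nondeg_qPlus m) e₂
  obtain ⟨B₃, h₃, k₃⟩ := exists_qf h2 (nondeg_qMinus (m - 1) (disc_ne_zero_of_anisotropic hab)) e₃
  obtain ⟨γ₁, r₁, p₁, o₁⟩ := S.ex' B₁ (Or.inr h₁.skew)
  obtain ⟨γ₂, r₂, p₂, o₂⟩ := S.ex' B₂ (Or.inl h₂)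
  obtain ⟨γ₃, r₃, p₃, o₃⟩ := S.ex' B₃ (Or.inl h₃)
  have h2' := inv_ne_zero h2
  refine ⟨γ₁, γ₂, γ₃, a, b, hab, p₁, o₁, p₂, o₂, p₃, o₃, ?_, ?_, ?_, fun γ hγ ho => ?_,
    S.cent' r₁ (h₁.projQuot hm), S.cent' r₂ (projQuot_qf h2 h₂ e₂ h2' k₂),
    S.cent' r₃ (projQuot_qf h2 h₃ e₃ h2' k₃)⟩
  · rw [S.conj r₁ r₂]; exact fun h => not_alt_of_symm h2 h₂ (h.alt h₁)
  · rw [S.conj r₁ r₃]; exact fun h => not_alt_of_symm h2 h₃ (h.alt h₁)
  · rw [S.conj r₂ r₃]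
    intro h
    obtain ⟨e, c, hc, he⟩ := h.symm.qf
    obtain ⟨φ, hφ⟩ := (nondeg_qf h2 h₂).exists_simil (by simp [hm]) (inv_ne_zero hc)
    refine not_isom_plus_minus hm1 hab (e₂.symm.trans (φ.trans (e.trans e₃))) fun v => ?_
    obtain ⟨v, rfl⟩ := e₂.surjective v
    simp only [LinearEquiv.trans_apply, LinearEquiv.symm_apply_apply, k₃, k₂, he, hφ,
      mul_inv_cancel_left₀ hc]
  · obtain ⟨B, hB, hs | hs⟩ := S.ex γ hγ ho
    · rw [S.conj r₂ hB, S.conj r₃ hB]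
      rcases (nondeg_qf h2 hs).classify_even' hm1 (by simpa using hm) hab with ⟨φ, hφ⟩ | ⟨φ, hφ⟩
      · exact Or.inr (Or.inl (similar_of_qf h2 h₂ hs e₂ φ h2' one_ne_zero k₂ (by simpa using hφ)))
      · exact Or.inr (Or.inr (similar_of_qf h2 h₃ hs e₃ φ h2' one_ne_zero k₃ (by simpa using hφ)))
    · exact Or.inl ((S.conj r₁ hB).mpr (h₁.similar (alt_of_skew h2 hs)))

theorem even_even [CharP F 2] {m : ℕ} (hm1 : 1 ≤ m) (hm : Fintype.card ι = 2 * m) :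
    ∃ (γ₁ γ₃ : X) (t : symplecticGroup (Fin m) F),
      IsTransvection (t : Matrix (Fin m ⊕ Fin m) (Fin m ⊕ Fin m) F) ∧
      P γ₁ ∧ orderOf γ₁ = 2 ∧ P γ₃ ∧ orderOf γ₃ = 2 ∧ ¬ IsConjUnder H γ₁ γ₃ ∧
      (∀ γ, P γ → orderOf γ = 2 → IsConjUnder H γ₁ γ ∨ IsConjUnder H γ₃ γ) ∧
      Nonempty (↥(H ⊓ Subgroup.centralizer {γ₁}) ≃* symplecticGroup (Fin m) F) ∧
      Nonempty (↥(H ⊓ Subgroup.centralizer {γ₃}) ≃*
        Subgroup.centralizer ({t} : Set (symplecticGroup (Fin m) F))) := by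
  obtain ⟨B₁, h₁⟩ := exists_alt (F := F) hm
  let e : (ι → F) ≃ₗ[F] (Fin m ⊕ Fin m → F) := LinearEquiv.ofFinrankEq _ _ (by simp [hm]; ring)
  have hw : (fun _ => 1 : Fin m ⊕ Fin m → F) ≠ 0 := fun h =>
    one_ne_zero (congrFun h (.inl ⟨0, by omega⟩))
  set w : Fin m ⊕ Fin m → F := fun _ => 1
  obtain ⟨B₃, k₃⟩ := exists_rep _ (f₃_nondeg w) e
  have h₃ : B₃.1ᵀ = B₃.1 := bil_ext fun u v => by rw [bil_transpose, ← k₃, ← k₃, f₃_symm]
  have n₃ : ¬ Alt B₃.1 := fun h => hw (eq_zero_of_sympBilin fun v => by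
    obtain ⟨v, rfl⟩ := e.surjective v
    simpa [← k₃, f₃_apply, sympBilin_self] using h v)
  obtain ⟨γ₁, r₁, p₁, o₁⟩ := S.ex' B₁ (Or.inr h₁.skew)
  obtain ⟨γ₃, r₃, p₃, o₃⟩ := S.ex' B₃ (Or.inl h₃)
  refine ⟨γ₁, γ₃, spT w 1, ⟨rank_spT_sub_one hw one_ne_zero, matrix_ext_mulVec fun x => ?_⟩,
    p₁, o₁, p₃, o₃, ?_, fun γ hγ ho => ?_,
    S.cent' r₁ ⟨(h₁.projQuot hm).some.trans pgsp_two.some⟩, S.cent' r₃ ⟨?_⟩⟩
  · simp [← mulVec_mulVec, sub_mulVec, spT_mulVec, mulVec_smul, sympBilin_self]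
  · rw [S.conj r₁ r₃]; exact fun h => n₃ (h.alt h₁)
  · obtain ⟨B, hB, hs⟩ := S.ex γ hγ ho
    rw [S.conj r₁ hB, S.conj r₃ hB]
    by_cases h : Alt B.1
    · exact Or.inl (h₁.similar h)
    · exact Or.inr (similar_two h₃ (symm_of_two hs) n₃ h)
  · exact (projQuot_sim e (f := bil B₃.1) (f' := fun u v => f₃ w u v) one_ne_zero
      fun u v => by rw [k₃, one_mul]).some.trans (projQuot_f₃ w).some

end GraphSys

theorem one_type {F : Type*} [Field F] [Fintype F] (hodd : Odd (Fintype.card F)) {m : ℕ}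
    (hm1 : 1 ≤ m) (hm : Fintype.card ι = 2 * m) :
    (Even (m * (Fintype.card F - 1) / 2) →
      Nonempty (projQuot (simGrp (1 : GL ι F).1) ≃* PGO F (quadFormPlus m F))) ∧
    (¬ Even (m * (Fintype.card F - 1) / 2) → ∃ a b : F,
      (∀ z₁ z₂ : F, z₁ ^ 2 + a * z₁ * z₂ + b * z₂ ^ 2 = 0 → z₁ = 0 ∧ z₂ = 0) ∧
      Nonempty (projQuot (simGrp (1 : GL ι F).1) ≃* PGO F (quadFormMinus (m - 1) F a b))) := by
  have h2 := two_ne_zero_of_odd_card hodd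
  have hs : (1 : GL ι F).1ᵀ = (1 : GL ι F).1 := transpose_one
  have hQ := nondeg_qf h2 hs
  have h1 : disc (qf (1 : GL ι F).1) = 1 := by
    have : Forms.gram (qf (1 : GL ι F).1) (Pi.basisFun F ι) = (2 : F) • 1 := by
      ext a b
      simp [Forms.gram, polar_qf transpose_one, bil, Matrix.one_apply, Pi.single_apply, eq_comm]
    rw [hQ.disc_eq (Pi.basisFun F ι), this, det_smul, det_one, mul_one, hm, two_mul, pow_add,
      sqc_mul_self]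
  have h3 : disc (qPlus m F) = 1 ↔ Even (m * (Fintype.card F - 1) / 2) := by
    rw [← S2620.result rfl hodd hm1 (Pi.basisFun F _), (nondeg_qPlus m).disc_eq (Pi.basisFun F _),
      sqc_eq_one_iff]
    rfl
  obtain ⟨a, b, hab⟩ := exists_aniso h2
  rcases hQ.classify_even' hm1 (by simpa using hm) hab with ⟨φ, hφ⟩ | ⟨φ, hφ⟩
  · refine ⟨fun _ => projQuot_qf h2 hs φ one_ne_zero
      (fun v => (hφ v).trans (one_mul _).symm), fun h => absurd ?_ h⟩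
    rw [← h3, disc_of_isom (nondeg_qPlus m) φ hφ, h1]
  · refine ⟨fun h => ?_, fun _ => ⟨a, b, hab, projQuot_qf h2 hs φ one_ne_zero
      (fun v => (hφ v).trans (one_mul _).symm)⟩⟩
    have := disc_of_isom (nondeg_qMinus _ (disc_ne_zero_of_anisotropic hab)) φ hφ
    rw [disc_qMinus_of_anisotropic h2 _ hab, Nat.sub_add_cancel hm1, ← disc_qPlus, h3.mpr h,
      h1] at this
    exact absurd this (by decide)

theorem index_comap_sq {C : Type*} [CommGroup C] [Finite C] [IsCyclic C] (hC : Even (Nat.card C))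
    (m : ℕ) : ((powMonoidHom (2 * m) : C →* C).range.comap (powMonoidHom 2)).index =
      Nat.gcd (2 * m) (Nat.card C) / 2 := by
  have h1 : (powMonoidHom (2 * m) : C →* C).range ≤ (powMonoidHom 2 : C →* C).range := by
    rintro _ ⟨x, rfl⟩; exact ⟨x ^ m, by simp [← pow_mul, mul_comm]⟩
  have h2 := Subgroup.relIndex_mul_index h1
  rw [IsCyclic.index_powMonoidHom_range, IsCyclic.index_powMonoidHom_range,
    Nat.gcd_eq_right hC.two_dvd] at h2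
  rw [Subgroup.index_comap, Nat.gcd_comm, ← h2, Nat.mul_div_cancel _ two_pos]

theorem index_map_of_le {C : Type*} [CommGroup C] {n : ℕ} {D : Subgroup C}
    (h : (powMonoidHom n : C →* C).range ≤ D) :
    (D.map (QuotientGroup.mk' (powMonoidHom n : C →* C).range)).index = D.index :=
  Subgroup.index_map_eq _ (QuotientGroup.mk'_surjective _) (by rwa [QuotientGroup.ker_mk'])

end Cfsg.Agent.Lib.Aut.Gr
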