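import Cfsg.Agent.Lib.Aut.Graph3

set_option autoImplicit false
set_option linter.unusedSectionVars false
set_option maxHeartbeats 400000

/-! Involutory graph automorphisms of `PSL_n`. -/

namespace Cfsg.Agent.Lib.Aut.Gr

open Module Matrix Cfsg.Agent.Lib.GL.H90 SemidirectProduct PSL

variable {F : Type*} [Field F] {ι : Type} [Fintype ι] [DecidableEq ι]

/-- the graph automorphism attached to a Gram matrix -/
noncomputable def gr (B : GL ι F) : MulAut (ProjectiveSpecialLinearGroup ι F) :=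
  ψ ι F B⁻¹ * Θ ι F (inr (1, Multiplicative.ofAdd 1))

theorem γ_conj (d : GL ι F) : Θ ι F (inr (1, Multiplicative.ofAdd 1)) * ψ ι F d *
    (Θ ι F (inr (1, Multiplicative.ofAdd 1)))⁻¹ = ψ ι F (invT ι F d) := by
  rw [inr_conj_ψ, act_graph, glAut_one]; rfl

theorem gr_conj (B d : GL ι F) :
    gr B * ψ ι F d * (gr B)⁻¹ = ψ ι F ((MulAut.conj B⁻¹ * invT ι F) d) := by
  rw [MulAut.mul_apply, MulAut.conj_apply, map_mul, map_mul, ← γ_conj, map_inv _ B⁻¹, gr]; group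

theorem ψ_eq_iff [Finite F] (h : 2 ≤ Fintype.card ι) (a b : GL ι F) :
    ψ ι F a = ψ ι F b ↔ ∃ u : Fˣ, a⁻¹.1 = (u : F) • b⁻¹.1 := by
  rw [← inv_mul_eq_one, ← map_inv, ← map_mul, ψ_eq_one_iff h]
  refine exists_congr fun u => ?_
  rw [← coe_scalar_mul, ← Units.ext_iff, eq_mul_inv_iff_mul_eq]

theorem ψ_simGrp [Finite F] (h : 2 ≤ Fintype.card ι) (B d : GL ι F) :
    ψ ι F (d⁻¹ * (MulAut.conj B⁻¹ * invT ι F) d) = 1 ↔ d ∈ simGrp B.1 := by
  rw [show d⁻¹ * (MulAut.conj B⁻¹ * invT ι F) d = ((invT ι F d)⁻¹ * B * d)⁻¹ * B⁻¹⁻¹ by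
    simp [mul_assoc], map_mul, map_inv _ B⁻¹, mul_inv_eq_one, ψ_eq_iff h, inv_inv, inv_inv,
    mem_simGrp]
  rfl

theorem range_gr [Finite F] (h : 2 ≤ Fintype.card ι) (B : GL ι F) :
    ((ψ ι F).comp (simGrp B.1).subtype).range = (ψ ι F).range ⊓ Subgroup.centralizer {gr B} :=
  twist_range_eq _ _ _ (gr_conj B) _ (fun g => (ψ_simGrp h B _).mpr g.2)
    fun d hd => ⟨⟨d, (ψ_simGrp h B d).mp hd⟩, rfl⟩

theorem conj_gr (k B : GL ι F) :
    ψ ι F k * gr B * (ψ ι F k)⁻¹ = gr ((invT ι F k⁻¹)⁻¹ * B * k⁻¹) := by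
  have := γ_conj k⁻¹
  rw [mul_inv_eq_iff_eq_mul] at this
  rw [gr, gr, ← map_inv, mul_assoc, mul_assoc, this]
  simp [mul_assoc]

theorem isConj_gr_iff [Finite F] (h : 2 ≤ Fintype.card ι) (B B' : GL ι F) :
    IsConjUnder (ψ ι F).range (gr B) (gr B') ↔ Similar B.1 B'.1 := by
  have key : ∀ k : GL ι F, gr B' = ψ ι F k⁻¹ * gr B * (ψ ι F k⁻¹)⁻¹ ↔
      ∃ c : Fˣ, k.1ᵀ * B.1 * k.1 = (c : F) • B'.1 := fun k => by
    rw [conj_gr, gr, gr, mul_left_inj, eq_comm, ψ_eq_iff h, inv_inv, inv_inv, inv_inv]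
    rfl
  constructor
  · rintro ⟨_, ⟨k, rfl⟩, hk⟩
    exact ⟨k⁻¹, (key k⁻¹).mp (by rwa [inv_inv])⟩
  · rintro ⟨k, hk⟩
    exact ⟨_, ⟨k⁻¹, rfl⟩, (key k).mpr hk⟩

theorem symm_or_skew [Nonempty ι] {B : GL ι F} {u : F} (h : B.1ᵀ = u • B.1) :
    B.1ᵀ = B.1 ∨ B.1ᵀ = -B.1 := by
  have h1 := congrArg transpose h
  rw [transpose_transpose, transpose_smul, h, smul_smul] at h1
  have h2 : u * u = 1 := smul_left_injective F (Units.ne_zero B) (h1.symm.trans (one_smul _ _).symm)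
  rcases mul_self_eq_one_iff.mp h2 with rfl | rfl
  · exact Or.inl (by simpa using h)
  · exact Or.inr (by simpa using h)

theorem orderOf_gr [Finite F] (h : 3 ≤ Fintype.card ι) (B : GL ι F) :
    orderOf (gr B) = 2 ↔ B.1ᵀ = B.1 ∨ B.1ᵀ = -B.1 := by
  have : Nonempty ι := Fintype.card_pos_iff.mp (by omega)
  have h1 : gr B ^ 2 = 1 ↔ ∃ u : Fˣ, B.1ᵀ = (u : F) • B.1 := by
    have h2 : Θ ι F (inr (1, Multiplicative.ofAdd 1)) * Θ ι F (inr (1, Multiplicative.ofAdd 1)) =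
        1 := by
      rw [← map_mul, ← map_mul, Prod.mk_mul_mk, mul_one,
        show Multiplicative.ofAdd (1 : ZMod 2) * Multiplicative.ofAdd 1 = 1 by decide,
        Prod.mk_one_one, map_one, map_one]
    have h3 := γ_conj B⁻¹
    rw [mul_inv_eq_iff_eq_mul] at h3
    rw [pow_two, gr, mul_assoc, ← mul_assoc _ (ψ ι F B⁻¹), h3, mul_assoc, h2, mul_one, map_inv,
      map_inv, map_inv, ← _root_.mul_inv_rev, inv_eq_one, mul_eq_one_iff_eq_inv, ← map_inv,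
      ψ_eq_iff (by omega), inv_inv]
    rfl
  constructor
  · intro ho
    obtain ⟨u, hu⟩ := h1.mp (ho ▸ pow_orderOf_eq_one _)
    exact symm_or_skew hu
  · intro hs
    refine orderOf_eq_prime (h1.mpr (hs.elim (fun h => ⟨1, by simpa using h⟩)
      fun h => ⟨-1, by simpa using h⟩)) fun h0 => ?_
    have := right_eq_one_of_mem_inn h (inr ((1 : F ≃+* F), Multiplicative.ofAdd 1))
      ⟨B, by rw [gr, map_inv, inv_mul_eq_one] at h0; exact h0⟩
    exact (by decide : Multiplicative.ofAdd (1 : ZMod 2) ≠ 1) (congrArg Prod.snd this)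

variable {n : ℕ}

theorem isGraph_iff (hn : 3 ≤ n) (γ : MulAut (ProjectiveSpecialLinearGroup (Fin n) F)) :
    IsGraphAutClassPSL γ ↔ ∃ B, γ = gr B := by
  constructor
  · rintro ⟨-, δ, γ', h1, h2, rfl⟩
    obtain ⟨g, rfl⟩ := (isInnerDiagonal_iff _).mp h1
    exact ⟨g⁻¹, by rw [gr, inv_inv, (isInverseTranspose_iff _).mp h2]⟩
  · rintro ⟨B, rfl⟩
    exact ⟨hn, _, _, (isInnerDiagonal_iff _).mpr ⟨_, rfl⟩, (isInverseTranspose_iff _).mpr rfl, rfl⟩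

/-- the involutory graph automorphisms of `PSL_n` -/
def sysPSL [Finite F] (hn : 3 ≤ n) :
    GraphSys (inndiagPSL n F) IsGraphAutClassPSL (Fin n) F where
  R γ B := γ = gr B
  ex γ h ho := by
    obtain ⟨B, rfl⟩ := (isGraph_iff hn γ).mp h
    exact ⟨B, rfl, (orderOf_gr (by simpa using hn) B).mp ho⟩
  ex' B h := ⟨_, rfl, (isGraph_iff hn _).mpr ⟨B, rfl⟩, (orderOf_gr (by simpa using hn) B).mpr h⟩
  conj := by
    rintro _ _ B B' rfl rfl
    rw [inndiag_eq, isConj_gr_iff (by simp; omega)]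
  cent := by
    rintro _ B rfl
    rw [inndiag_eq]
    exact nonempty_equiv_quot _ _ _ (ker_subtype (by omega) _) (range_gr (by simp; omega) B)

theorem split_gr [Finite F] (hn : 3 ≤ n) (B : GL (Fin n) F) (D : Subgroup Fˣ)
    (hD : ∀ x, x ∈ D ↔ ∃ g c, SimM B.1 g c ∧ GeneralLinearGroup.det g = x) :
    splitClassCount (inndiagPSL n F) (Inn _) (gr B) = D.index := by
  have : Nonempty (Fin n) := ⟨⟨0, by omega⟩⟩
  have h2 : 2 ≤ Fintype.card (Fin n) := by simp; omega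
  have h3 : (GeneralLinearGroup.det.comp (simGrp B.1).subtype).range = D := by
    ext x
    rw [hD]
    exact ⟨fun ⟨g, hg⟩ => ⟨g.1, _, simM_μ B g, hg⟩, fun ⟨g, c, h, hg⟩ => ⟨⟨g, mem_simGrp.mpr ⟨c, h⟩⟩, hg⟩⟩
  rw [inndiag_eq, splitClassCount_eq_of_range _ _ κ_surjective _ inn_le_range_ψ (ψ_mem_inn_iff h2)
    _ _ (range_gr h2 B), κ, MonoidHom.comp_assoc, MonoidHom.range_comp, h3, index_map_of_le]
  rintro _ ⟨u, rfl⟩
  exact (hD _).mpr ⟨_, _, simM_scalar _ u, det_scalar' u⟩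

end Cfsg.Agent.Lib.Aut.Gr
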