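import Cfsg.Agent.Lib.Aut.Semi
import Cfsg.Agent.Lib.GL.ProjClass2

set_option autoImplicit false
set_option linter.unusedSectionVars false
set_option maxHeartbeats 400000

/-! Automorphisms of the projective special unitary groups. -/

namespace Cfsg.Agent.Lib.Aut.SU

open Module Matrix Cfsg.Agent.Lib.GL.H90 Cfsg.Agent.Lib.GL.Herm Cfsg.Agent.Lib.Forms
  SemidirectProduct

variable {F : Type*} [Field F] {n q : ℕ}

/-- the inclusion in the general linear group -/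
def j (n : ℕ) (F : Type*) [Field F] (q : ℕ) : SU n F q →* GL (Fin n) F :=
  SpecialLinearGroup.toGL.comp (SU n F q).subtype

theorem j_inj : Function.Injective (j n F q) := fun _ _ h =>
  Subtype.ext (Subtype.ext (congrArg Units.val h))

theorem j_mem (s : SU n F q) : j n F q s ∈ GU n F q := s.2

theorem det_j (s : SU n F q) : GeneralLinearGroup.det (j n F q s) = 1 := Units.ext s.1.2

theorem exists_j {g : GL (Fin n) F} (h : g ∈ GU n F q) (hd : GeneralLinearGroup.det g = 1) :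
    ∃ s, j n F q s = g :=
  ⟨⟨⟨g, congrArg Units.val hd⟩, h⟩, Units.ext rfl⟩

theorem glAut_mem (σ : F ≃+* F) (g : GL (Fin n) F) (h : g ∈ GU n F q) :
    glAut _ σ g ∈ GU n F q := fun u v => by
  have k : ∀ u v : Fin n → F, hermForm n F q (fun i => σ (u i)) (fun i => σ (v i)) =
      σ (hermForm n F q u v) := fun u v => by simp [hermForm]
  have k2 : ∀ u : Fin n → F, (glAut _ σ g).1 *ᵥ u =
      fun i => σ ((g.1 *ᵥ fun a => σ.symm (u a)) i) := fun u => by
    ext i; simp [mulVec, dotProduct]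
  show hermForm n F q ((glAut _ σ g).1 *ᵥ u) ((glAut _ σ g).1 *ᵥ v) = _
  rw [k2, k2, k]
  refine (congrArg σ (h _ _)).trans ?_
  rw [← k]; simp

theorem det_glAut (σ : F ≃+* F) (g : GL (Fin n) F) :
    GeneralLinearGroup.det (glAut _ σ g) = Units.map (σ : F →* F) (GeneralLinearGroup.det g) :=
  det_map' (σ : F →+* F) g

/-- the semilinear unitary group -/
def X (n : ℕ) (F : Type*) [Field F] (q : ℕ) : SemiSetup (Fin n) F (SU n F q) :=
  SemiSetup.ofSub (j n F q) j_inj (GU n F q) glAut_mem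
    (fun g hg s => exists_j (mul_mem (mul_mem hg (j_mem s)) (inv_mem hg)) (by simp [det_j]))
    (fun σ s => exists_j (glAut_mem σ _ (j_mem s)) (by rw [det_glAut, det_j, map_one])) j_mem

theorem inr_mem (σ : F ≃+* F) : inr σ ∈ (X n F q).N := one_mem (GU n F q)

section herm

variable {τ : F →+* F} {V : Type*} [AddCommGroup V] [Module F V] {β : V →ₗ[F] V →ₛₗ[τ] F}

theorem exists_sing [Finite F] [FiniteDimensional F V] (hτ : IsInvol τ) (hβ : IsHerm β)
    (W : Submodule F V) (h : 2 ≤ finrank F W) : ∃ w ∈ W, w ≠ 0 ∧ β w w = 0 := by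
  obtain ⟨w, hw, hw0⟩ := W.exists_mem_ne_zero_of_ne_bot fun h0 => by
    rw [h0, finrank_bot] at h; omega
  by_cases h1 : β w w = 0
  · exact ⟨w, hw, hw0, h1⟩
  have h2 := ((β.flip w).domRestrict W).finrank_range_add_finrank_ker
  have h3 := Submodule.finrank_le (LinearMap.range ((β.flip w).domRestrict W))
  rw [finrank_self] at h3
  obtain ⟨⟨u, hu⟩, hu1, hu0⟩ := (LinearMap.ker
      ((β.flip w).domRestrict W)).exists_mem_ne_zero_of_ne_bot fun h0 => by
    rw [h0, finrank_bot] at h2; omega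
  have h4 : β u w = 0 := hu1
  by_cases h5 : β u u = 0
  · exact ⟨u, hu, fun h => hu0 (Subtype.ext h), h5⟩
  obtain ⟨c, hc⟩ := hτ.exists_norm_eq (a := -(β w w / β u u)) (by
    rw [map_neg, map_div₀, ← hβ.herm, ← hβ.herm])
  refine ⟨w + c • u, add_mem hw (W.smul_mem c hu), fun h0 => h1 ?_, ?_⟩
  · simpa [h4] using congrArg (fun x => β x w) h0
  · simp only [map_add, map_smul, map_smulₛₗ, LinearMap.add_apply, LinearMap.smul_apply, h4,
      hβ.herm u w, map_zero, smul_eq_mul]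
    field_simp at hc
    linear_combination hc

end herm

variable {τ : F →+* F}

theorem exists_GU_of_iso (hq : ∀ a, τ a = a ^ q) (E : (Fin n → F) →ₗ[F] (Fin n → F))
    (h : ∀ u v, stdHerm _ τ (E u) (E v) = stdHerm _ τ u v) (hd : LinearMap.det E = 1) :
    ∃ g ∈ GU n F q, GeneralLinearGroup.det g = 1 ∧ ∀ v, g.1 *ᵥ v = E v := by
  have h1 : (LinearMap.toMatrix' E).det = 1 := by rw [LinearMap.det_toMatrix', hd]
  refine ⟨GeneralLinearGroup.mkOfDetNeZero (LinearMap.toMatrix' E) (by simp [h1]), fun u v => ?_,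
    Units.ext h1, fun v => LinearMap.toMatrix'_mulVec _ _⟩
  show hermForm n F q (LinearMap.toMatrix' E *ᵥ u) (LinearMap.toMatrix' E *ᵥ v) = _
  rw [LinearMap.toMatrix'_mulVec, LinearMap.toMatrix'_mulVec, ← stdHerm_eq_hermForm hq, h,
    stdHerm_eq_hermForm hq]

/-- a group between `SU` and `GU` as a polar group -/
noncomputable def pol (hτ : IsInvol τ) (hq : ∀ a, τ a = a ^ q) {G : Type*} [Group G]
    (k : G →* GL (Fin n) F) (inj : Function.Injective k) (h1 : ∀ g, k g ∈ GU n F q)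
    (h2 : ∀ g ∈ GU n F q, GeneralLinearGroup.det g = 1 → ∃ s, k s = g)
    (hc : ∀ z ∈ Subgroup.center G, ∃ c : F, ∀ v, (k z).1 *ᵥ v = c • v) :
    PolGrp F (Fin n → F) G τ 1 where
  toLinGrp := matLin k inj hc
  β := stdHerm _ τ
  S x := stdHerm _ τ x x = 0
  symm u v := by rw [one_mul, (isHerm_stdHerm hτ _).herm]
  σσ := hτ.invol
  ε_ne := one_ne_zero
  nondeg := (isHerm_stdHerm hτ _).nondeg
  S_smul a x hx := by simp [hx]
  S_self h := h
  S_add {u v} h hu := by simp [h, hu, (isHerm_stdHerm hτ _).herm u v]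
  S_adj {e t} he ht := by
    obtain ⟨c, hc⟩ := hτ.exists_trace_eq (t := -stdHerm _ τ t t)
      (by rw [map_neg, ← (isHerm_stdHerm hτ _).herm])
    refine ⟨c, ?_⟩
    simp only [map_add, map_smul, map_smulₛₗ, LinearMap.add_apply, LinearMap.smul_apply, he, ht,
      (isHerm_stdHerm hτ _).herm t e, map_one, smul_eq_mul]
    linear_combination hc
  iso g u v := by
    rw [stdHerm_eq_hermForm hq, stdHerm_eq_hermForm hq]; exact h1 g u v
  sing g x hx := by
    rw [← hx, stdHerm_eq_hermForm hq, stdHerm_eq_hermForm hq]; exact h1 g x x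
  hasQ {e f y} he hf hy k1 k2 := by
    obtain ⟨E, l1, l2, l3, l4⟩ := exists_siegel (ε := 1) (stdHerm _ τ)
      (fun u v => by rw [one_mul, (isHerm_stdHerm hτ _).herm]) hτ.invol he hf hy k1 k2
    obtain ⟨g, hg, hd, hg'⟩ := exists_GU_of_iso hq E l1 (det_eq_one_of_unipotent l4)
    obtain ⟨s, rfl⟩ := h2 g hg hd
    have : ∀ v, (matLin k inj hc).ρ s v = E v := hg'
    exact ⟨s, by simpa only [this] using l2, by rw [this, l3]⟩

theorem pol_big [Finite F] (hτ : IsInvol τ) (hq : ∀ a, τ a = a ^ q) {G : Type*} [Group G]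
    (k : G →* GL (Fin n) F) (inj h1 h2 hc) (hn : 3 ≤ n) : (pol hτ hq k inj h1 h2 hc).Big := by
  refine ⟨?_, fun _ _ H => H.exists_W (by simpa using hn)⟩
  obtain ⟨w, -, h0, h⟩ := exists_sing hτ (isHerm_stdHerm hτ (Fin n)) ⊤ (by simp; omega)
  exact ⟨w, h, h0⟩

theorem center_scalar [Fintype F] (hF : Fintype.card F = q ^ 2) (hn : 3 ≤ n) (z : SU n F q)
    (hz : z ∈ Subgroup.center _) : ∃ c : F, ∀ v, (j n F q z).1 *ᵥ v = c • v := by
  obtain ⟨τ, hq, hτ⟩ := exists_isInvol hF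
  let P := pol hτ hq (GU n F q).subtype Subtype.val_injective (fun g => g.2)
    (fun g hg _ => ⟨⟨g, hg⟩, rfl⟩) (fun z hz => by
      obtain ⟨c, hc⟩ := GL.ProjClass.exists_scalar_of_mem_center_GU hF hz
      exact ⟨c, fun v => by rw [Subgroup.coe_subtype, hc, smul_mulVec, one_mulVec]⟩)
  obtain ⟨p, hp⟩ := CharP.exists F
  have : Fact p.Prime := ⟨(CharP.char_is_prime F p)⟩
  refine (PolGrp.Big.scalar_of_comm (P := P) (pol_big hτ hq _ _ _ _ _ hn) id
    (Matrix.toLin' (j n F q z).1).toAddMonoidHom (fun a x => mulVec_smul _ a x) ?_ ?_).2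
  · intro a b h
    have := congrArg (fun x => (j n F q z)⁻¹.1 *ᵥ x) h
    simpa [inv_mulVec_mulVec] using this
  · intro e g hg x
    obtain ⟨m, hm⟩ : PElt p g := PolGrp.pelt_of_mem_Q hg
    obtain ⟨s, hs⟩ := exists_j g.2 (by
      have h1 : GeneralLinearGroup.det g.1 ^ p ^ m = 1 := by
        rw [← map_pow, ← Subgroup.coe_pow, hm]; simp
      have h2 := sub_pow_char_pow (p := p) (n := m) (GeneralLinearGroup.det g.1 : F) 1
      rw [← Units.val_pow_eq_pow_val, h1, one_pow, Units.val_one, sub_self] at h2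
      exact Units.ext (sub_eq_zero.mp (eq_zero_of_pow_eq_zero h2)))
    show (j n F q z).1 *ᵥ (g.1.1 *ᵥ x) = g.1.1 *ᵥ ((j n F q z).1 *ᵥ x)
    rw [mulVec_mulVec, mulVec_mulVec, ← hs, ← Units.val_mul, ← Units.val_mul, ← map_mul, ← map_mul,
      Subgroup.mem_center_iff.mp hz s]

theorem exists_torus (hτ : IsInvol τ) (hq : ∀ a, τ a = a ^ q) {e f w : Fin 3 → F}
    (he : stdHerm _ τ e e = 0) (hf : stdHerm _ τ f f = 0) (hfe : stdHerm _ τ f e = 1) (hw : w ≠ 0)
    (hwe : stdHerm _ τ w e = 0) (hwf : stdHerm _ τ w f = 0) {l : F} (hl : l ≠ 0) :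
    ∃ k : SU 3 F q, (j 3 F q k).1 *ᵥ e = l • e ∧ (j 3 F q k).1 *ᵥ f = (τ l)⁻¹ • f ∧
      ∀ w, stdHerm _ τ w e = 0 ∧ stdHerm _ τ w f = 0 → (j 3 F q k).1 *ᵥ w = (τ l / l) • w := by
  set β := stdHerm (Fin 3) τ
  have hβ := (isHerm_stdHerm hτ (Fin 3))
  have hef : β e f = 1 := by rw [hβ.herm, hfe, map_one]
  have hl' : τ l ≠ 0 := by simpa using hl
  let E : (Fin 3 → F) →ₗ[F] (Fin 3 → F) := (τ l / l) • LinearMap.id +
    (l - τ l / l) • (β.flip f).smulRight e + ((τ l)⁻¹ - τ l / l) • (β.flip e).smulRight f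
  have hE : ∀ x, E x = (τ l / l) • x + ((l - τ l / l) * β x f) • e +
      (((τ l)⁻¹ - τ l / l) * β x e) • f := fun x => by
    simp [E, smul_smul]
  have h1 : E e = l • e := by rw [hE, he, hef]; module
  have h2 : E f = (τ l)⁻¹ • f := by rw [hE, hf, hfe]; module
  have h3 : ∀ w, β w e = 0 ∧ β w f = 0 → E w = (τ l / l) • w := fun w h => by
    simp [hE, h.1, h.2]
  have hi : LinearIndependent F ![e, f, w] := by
    rw [Fintype.linearIndependent_iff]
    intro c hc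
    simp only [Fin.sum_univ_three, cons_val_zero, cons_val_one, cons_val] at hc
    have k1 := congrArg (fun x => β x e) hc
    have k2 := congrArg (fun x => β x f) hc
    simp [he, hf, hfe, hef, hwe, hwf] at k1 k2
    intro i
    fin_cases i
    · exact k2
    · exact k1
    · simpa [k1, k2, hw] using hc
  let b := basisOfLinearIndependentOfCardEqFinrank hi (by simp)
  have hd : LinearMap.det E = 1 := by
    have : LinearMap.toMatrix b b E = diagonal ![l, (τ l)⁻¹, τ l / l] := by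
      ext i k
      have : E (b k) = ![l, (τ l)⁻¹, τ l / l] k • b k := by
        fin_cases k <;> simp [b, h1, h2, h3 w ⟨hwe, hwf⟩]
      rw [LinearMap.toMatrix_apply, this, map_smul, b.repr_self]
      by_cases h : i = k <;> simp [h]
    rw [← LinearMap.det_toMatrix b, this, det_diagonal, Fin.prod_univ_three]
    simp only [cons_val_zero, cons_val_one, cons_val]
    field_simp
  obtain ⟨g, hg, hd, hg'⟩ := exists_GU_of_iso hq E (fun u v => by
    show β (E u) (E v) = β u v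
    simp only [hE, map_add, map_smul, map_smulₛₗ, LinearMap.add_apply, LinearMap.smul_apply,
      smul_eq_mul, he, hf, hef, hfe, map_mul, map_sub, map_div₀, map_inv₀, hτ.invol,
      hβ.herm v e, hβ.herm v f, β]
    field_simp
    ring) hd
  obtain ⟨s, rfl⟩ := exists_j hg hd
  exact ⟨s, by rw [hg', h1], by rw [hg', h2], fun w h => by rw [hg', h3 w h]⟩

variable [Fintype F]

/-- the special unitary group as a polar group -/
noncomputable def P (hτ : IsInvol τ) (hq : ∀ a, τ a = a ^ q) (hF : Fintype.card F = q ^ 2)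
    (hn : 3 ≤ n) : PolGrp F (Fin n → F) (SU n F q) τ 1 :=
  pol hτ hq (j n F q) j_inj j_mem (fun _ => exists_j) (center_scalar hF hn)

theorem ker (hF : Fintype.card F = q ^ 2) (hn : 3 ≤ n) : (X n F q).Ker := by
  obtain ⟨τ, hq, hτ⟩ := exists_isInvol hF
  have : Nonempty (Fin n) := ⟨⟨0, by omega⟩⟩
  exact SemiSetup.ker_of_polar (P := P hτ hq hF hn) (fun _ _ => rfl) (pol_big hτ hq _ _ _ _ _ hn)

theorem surj (hF : Fintype.card F = q ^ 2) (hn : 3 ≤ n) (hs : ¬ (n = 3 ∧ q = 2)) :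
    Function.Surjective (X n F q).Θ := by
  intro β
  obtain ⟨τ, hq, hτ⟩ := exists_isInvol hF
  obtain ⟨p, hp⟩ := CharP.exists F
  have : Fact p.Prime := ⟨(CharP.char_is_prime F p)⟩
  have hB : (P hτ hq hF hn).Big := pol_big hτ hq _ _ _ _ _ hn
  have hβ := (isHerm_stdHerm hτ (Fin n))
  have hT : (P hτ hq hF hn).HasT := fun e f H => by
    obtain ⟨k, hk, hk'⟩ := hτ.exists_skew
    refine ⟨k, hk, ?_⟩
    show (P hτ hq hF hn).β _ _ = 0
    simp [H.ee, H.ff, H.ef, H.fe, hk']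
  have hc : PolGrp.PtCorr _ _ β (PolGrp.TCorr (P hτ hq hF hn) (P hτ hq hF hn) β p) :=
    PolGrp.ptCorr_of_ne hB hB hT hT (hτ.ne.imp fun a h => by rw [one_mul]; exact h.symm)
  have hcomm : ∀ (ρ : F ≃+* F) a, ρ (τ a) = τ (ρ a) := fun ρ a => by rw [hq, hq, map_pow]
  obtain ⟨e, he, he0⟩ := hB.1
  have hI : PolGrp.Induced (P hτ hq hF hn) (P hτ hq hF hn) β
      (PolGrp.TCorr (P hτ hq hF hn) (P hτ hq hF hn) β p) := by
    by_cases h3 : n = 3
    · subst h3
      have hR : (P hτ hq hF hn).R1 := fun e f H => by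
        have := H.finrank_W
        obtain ⟨⟨w, hw⟩, h⟩ := (finrank_le_one_iff (K := F) (V := (P hτ hq hF hn).W e f)).mp (by
          simp at this; omega)
        exact ⟨w, hw, fun v hv => (h ⟨v, hv⟩).imp fun c hc => (congrArg Subtype.val hc).symm⟩
      obtain ⟨f, H⟩ := PolGrp.exists_hyp he he0
      obtain ⟨w, hw, hw0⟩ := hB.2 e f H
      obtain ⟨m, hm1, hm2, -⟩ := GL.ProjClass.exists_generator_norm_one hF hτ
      obtain ⟨a, ha⟩ := hτ.exists_trace_ne_zero
      refine hc.induced_one (p := p) hR hR H ⟨w, hw, hw0⟩ (fun e' h => h.2.2)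
        (fun l hl => exists_torus hτ hq H.se H.sf H.fe hw0 hw.1 hw.2 hl) hm1 (fun h => ?_) ha
        hτ.ne hcomm
      have h1 := Nat.le_of_dvd (by norm_num) (orderOf_dvd_of_pow_eq_one h)
      have h2 := one_lt_of_card_eq_sq hF
      exact hs ⟨rfl, by omega⟩
    · have hR : (P hτ hq hF hn).R2 := fun e f H => by
        have := H.finrank_W
        exact exists_sing hτ hβ _ (by simp at this; omega)
      exact hc.induced_two hR hR hT.conn he he0 hcomm
  obtain ⟨ρ, θ, s, hs, h1, h2, -, h3⟩ := hI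
  obtain ⟨M, hM⟩ := exists_GL_of_semilinear ρ θ h1
  have h4 : ∀ u v, stdHerm _ τ (M.1 *ᵥ u) (M.1 *ᵥ v) = s * stdHerm _ τ u v := fun u v => by
    have := h2 (fun i => ρ.symm (u i)) (fun i => ρ.symm (v i))
    rw [hM, hM] at this
    simp only [RingEquiv.apply_symm_apply] at this
    refine this.trans ?_
    show s * ρ (stdHerm _ τ _ _) = s * _
    simp [stdHerm_apply, hcomm]
  obtain ⟨c, hc⟩ := hτ.exists_norm_eq (a := s⁻¹) (by
    have := h4 (Pi.single ⟨0, by omega⟩ 1) (Pi.single ⟨0, by omega⟩ 1)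
    rw [show stdHerm _ τ (Pi.single ⟨0, by omega⟩ 1 : Fin n → F) (Pi.single ⟨0, by omega⟩ 1) = 1 by
      simp [stdHerm_apply, Pi.single_apply], mul_one] at this
    rw [map_inv₀, ← this, ← hβ.herm])
  have hc0 : c ≠ 0 := by
    rintro rfl
    exact hs (by simpa using hc.symm)
  have h5 : ∀ u, (GeneralLinearGroup.scalar _ (Units.mk0 c hc0) * M).1 *ᵥ u = c • M.1 *ᵥ u :=
    fun u => by rw [Units.val_mul, ← mulVec_mulVec, scalar_mulVec]; rfl
  have hG : GeneralLinearGroup.scalar _ (Units.mk0 c hc0) * M ∈ GU n F q := fun u v => by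
    show hermForm n F q ((GeneralLinearGroup.scalar _ (Units.mk0 c hc0) * M).1 *ᵥ u)
      ((GeneralLinearGroup.scalar _ (Units.mk0 c hc0) * M).1 *ᵥ v) = _
    rw [h5, h5, ← stdHerm_eq_hermForm hq, ← stdHerm_eq_hermForm hq]
    simp only [map_smul, map_smulₛₗ, LinearMap.smul_apply, smul_eq_mul, h4, RingHom.id_apply]
    rw [← mul_assoc, ← mul_assoc, mul_comm (τ c), hc, inv_mul_cancel₀ hs, one_mul]
  exact ⟨⟨⟨_, ρ⟩, hG⟩, ((X n F q).exists_Θ_of_induced (P := P hτ hq hF hn) (fun _ _ => rfl) ρ θ h3 _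
    hG c hc0 (fun x => by rw [h5, hM])).symm⟩

omit [Fintype F] in
theorem isInduced_iff (g : GL (Fin n) F) (hg : g ∈ GU n F q) (σ : F ≃+* F)
    (β : MulAut (PSU n F q)) : IsInducedBySemilinearPSU g σ β ↔ β = (X n F q).Θ ⟨⟨g, σ⟩, hg⟩ := by
  rw [SemiSetup.eq_Θ_iff]
  simp only [Units.ext_iff]
  rfl

omit [Fintype F] in
theorem isField_iff (σ : F ≃+* F) (β : MulAut (PSU n F q)) :
    IsFieldAutPSUOf σ β ↔ β = (X n F q).Θ ⟨inr σ, inr_mem σ⟩ := by
  rw [SemiSetup.eq_Θ_iff]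
  simp only [left_inr, right_inr, one_mul, inv_one, mul_one, Units.ext_iff]
  rfl

omit [Fintype F] in
theorem isInnerDiagonal_iff (β : MulAut (PSU n F q)) :
    IsInnerDiagonalAutPSU β ↔ β ∈ (X n F q).ψ.range := by
  have : ∀ d : (X n F q).D, β = (X n F q).ψ d ↔ ∀ s s' : SU n F q,
      s'.1.1 = d.1.1 * s.1.1 * d.1⁻¹.1 → β (QuotientGroup.mk s) = QuotientGroup.mk s' := fun d => by
    rw [SemiSetup.eq_ψ_iff]
    simp only [Units.ext_iff]
    rfl
  exact ⟨fun ⟨g, hg, h⟩ => ⟨⟨g, hg⟩, ((this ⟨g, hg⟩).mpr h).symm⟩,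
    fun ⟨d, h⟩ => ⟨d.1, d.2, (this d).mp h.symm⟩⟩

omit [Fintype F] in
theorem inndiag_eq : inndiagPSU n F q = (X n F q).ψ.range :=
  autSubgroupOf_eq _ _ isInnerDiagonal_iff

omit [Fintype F] in
theorem gamma_eq : gammaPSU n F q = (X n F q).Θ.range :=
  autSubgroupOf_eq _ _ fun β =>
    ⟨fun ⟨g, σ, hg, h⟩ => ⟨⟨⟨g, σ⟩, hg⟩, ((isInduced_iff g hg _ β).mp h).symm⟩,
      fun ⟨a, h⟩ => ⟨a.1.left, a.1.right, a.2, (isInduced_iff _ a.2 _ β).mpr h.symm⟩⟩

/-- the elements of norm one -/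
abbrev U (F : Type*) [Field F] (q : ℕ) : Subgroup Fˣ := (powMonoidHom (q + 1) : Fˣ →* Fˣ).ker

theorem det_mem (hF : Fintype.card F = q ^ 2) {g : GL (Fin n) F} (hg : g ∈ GU n F q) :
    GeneralLinearGroup.det g ∈ U F q := by
  obtain ⟨τ, -, hq⟩ := exists_frob hF
  exact det_pow_of_mem_GU hq hg

theorem scalar_mem_iff (hF : Fintype.card F = q ^ 2) (hn : 0 < n) (u : Fˣ) :
    GeneralLinearGroup.scalar (Fin n) u ∈ GU n F q ↔ u ∈ U F q := by
  obtain ⟨τ, -, hq⟩ := exists_frob hF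
  have : (GeneralLinearGroup.scalar (Fin n) u).1ᵀ * (GeneralLinearGroup.scalar (Fin n) u).1.map τ =
      ((u ^ (q + 1) : Fˣ) : F) • 1 := by
    have : q ≠ 0 := by have := one_lt_of_card_eq_sq hF; omega
    ext a b
    by_cases h : a = b <;> simp [h, hq, pow_succ', diagonal_map, this]
  rw [mem_GU_iff hq, this]
  constructor
  · intro h
    exact Units.ext (by simpa using congrFun (congrFun h ⟨0, hn⟩) ⟨0, hn⟩)
  · intro h
    rw [show u ^ (q + 1) = 1 from h]; simp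

/-- the determinant -/
def δ (n : ℕ) (hF : Fintype.card F = q ^ 2) : GU n F q →* U F q :=
  (GeneralLinearGroup.det.comp (GU n F q).subtype).codRestrict _ fun g => det_mem hF g.2

theorem δ_surjective (hF : Fintype.card F = q ^ 2) (hn : 0 < n) : Function.Surjective (δ n hF) := by
  obtain ⟨τ, -, hq⟩ := exists_frob hF
  rintro ⟨u, hu⟩
  exact ⟨⟨_, diagU_mem_GU hq ⟨0, hn⟩ u hu⟩, Subtype.ext (det_diagU _ _)⟩

/-- the determinant modulo `n`-th powers -/
def κ (n : ℕ) (hF : Fintype.card F = q ^ 2) :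
    (X n F q).D →* U F q ⧸ (powMonoidHom n : U F q →* U F q).range :=
  (QuotientGroup.mk' _).comp (δ n hF)

theorem κ_surjective (hF : Fintype.card F = q ^ 2) (hn : 0 < n) : Function.Surjective (κ n hF) :=
  (QuotientGroup.mk'_surjective _).comp (δ_surjective hF hn)

theorem ψ_mem_inn_iff (hF : Fintype.card F = q ^ 2) (hn : 3 ≤ n) (d : (X n F q).D) :
    (X n F q).ψ d ∈ Inn (PSU n F q) ↔ κ n hF d = 1 := by
  have : κ n hF d = 1 ↔ ∃ u : U F q, u ^ n = δ n hF d := QuotientGroup.eq_one_iff _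
  rw [this, (ker hF hn).ψ_mem_inn_iff]
  have hd : d.1 ∈ GU n F q := d.2
  constructor
  · rintro ⟨u, s, h⟩
    have h' : d.1 = GeneralLinearGroup.scalar _ u * j n F q s := h
    refine ⟨⟨u, (scalar_mem_iff hF (by omega : 0 < n) u).mp ?_⟩, Subtype.ext ?_⟩
    · rw [eq_mul_inv_of_mul_eq h'.symm]; exact mul_mem hd (inv_mem (j_mem s))
    · show u ^ n = GeneralLinearGroup.det d.1
      rw [h', map_mul, det_j, PSL.det_scalar', Fintype.card_fin, mul_one]
  · rintro ⟨u, hu⟩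
    have hu' : u.1 ^ n = GeneralLinearGroup.det d.1 := congrArg Subtype.val hu
    obtain ⟨s, hs⟩ := exists_j (g := (GeneralLinearGroup.scalar _ u.1)⁻¹ * d.1)
      (mul_mem (inv_mem ((scalar_mem_iff hF (by omega) _).mpr u.2)) hd) (by
        rw [map_mul, map_inv, PSL.det_scalar', Fintype.card_fin, hu', inv_mul_cancel])
    exact ⟨u, s, by rw [show (X n F q).j s = _ from hs, mul_inv_cancel_left]⟩

omit [Fintype F] in
theorem pow_odd {K : Type*} [Field K] [Fintype K] {a r : ℕ} (hK : Fintype.card K = a ^ 2)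
    (hr : Odd r) (x : K) : x ^ a ^ r = x ^ a := by
  obtain ⟨k, rfl⟩ := hr
  rw [pow_succ', pow_mul, pow_mul, ← hK, FiniteField.pow_card_pow]

omit [Fintype F] in
theorem map_mem_iff {F₀ : Type*} [Field F₀] {q₀ : ℕ} (f : F₀ →+* F) {τ : F ≃+* F} {τ₀ : F₀ ≃+* F₀}
    (hq : ∀ a, τ a = a ^ q) (hq₀ : ∀ a, τ₀ a = a ^ q₀) (h : ∀ a, f (τ₀ a) = τ (f a))
    (g : GL (Fin n) F₀) : GeneralLinearGroup.map f g ∈ GU n F q ↔ g ∈ GU n F₀ q₀ := by
  have : (GeneralLinearGroup.map f g).1ᵀ * (GeneralLinearGroup.map f g).1.map τ =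
      (g.1ᵀ * g.1.map τ₀).map f := by
    ext a b; simp [mul_apply, h]
  rw [mem_GU_iff hq, mem_GU_iff hq₀, this, ← Matrix.map_one f (map_zero f) (map_one f)]
  exact (Matrix.map_injective f.injective).eq_iff

section gram

omit [Fintype F]

variable {ι : Type*} [Fintype ι] [DecidableEq ι]

/-- the Gram matrix -/
def gram (τ : F ≃+* F) (k : GL ι F) : GL ι F := (PSL.invT ι F k)⁻¹ * glAut ι τ k

theorem coe_gram (τ : F ≃+* F) (k : GL ι F) : (gram τ k).1 = k.1ᵀ * k.1.map τ := rfl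

theorem gram_mul (τ : F ≃+* F) (a b : GL ι F) :
    gram τ (a * b) = (PSL.invT ι F b)⁻¹ * gram τ a * glAut ι τ b := by
  simp only [gram, map_mul]; group

theorem gram_scalar_mul (τ : F ≃+* F) (c : Fˣ) (b : GL ι F) :
    gram τ (GeneralLinearGroup.scalar ι c * b) =
      GeneralLinearGroup.scalar ι (c * Units.map (τ : F →* F) c) * gram τ b := by
  rw [gram_mul, gram, PSL.invT_scalar, glAut_scalar, map_inv, inv_inv, ← map_mul,
    ← GL.H90.scalar_comm, mul_assoc, gram]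

theorem gram_eq_one_iff {τ : F ≃+* F} (hq : ∀ a, τ a = a ^ q) (g : GL (Fin n) F) :
    gram τ g = 1 ↔ g ∈ GU n F q := by
  rw [PSL.mem_GU_iff' hq, gram, inv_mul_eq_one]

theorem gram_mul_of_mem {τ : F ≃+* F} (hq : ∀ a, τ a = a ^ q) {g : GL (Fin n) F}
    (hg : g ∈ GU n F q) (b : GL (Fin n) F) : gram τ (g * b) = gram τ b := by
  rw [gram_mul, (gram_eq_one_iff hq g).mpr hg, mul_one, gram]

theorem mul_inv_mem_of_gram {τ : F ≃+* F} (hq : ∀ a, τ a = a ^ q) {a b : GL (Fin n) F}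
    (h : gram τ a = gram τ b) : a * b⁻¹ ∈ GU n F q := by
  rw [← gram_eq_one_iff hq, gram_mul, h, ← gram_mul, mul_inv_cancel, gram_eq_one_iff hq]
  exact one_mem _

theorem gram_map {F₀ : Type*} [Field F₀] (f : F₀ →+* F) {τ : F ≃+* F} {τ₀ : F₀ ≃+* F₀}
    (h : ∀ a, f (τ₀ a) = τ (f a)) (g : GL ι F₀) :
    gram τ (GeneralLinearGroup.map f g) = GeneralLinearGroup.map f (gram τ₀ g) := by
  ext a b; simp [coe_gram, mul_apply, h]

theorem gram_herm {τ : F ≃+* F} (hτ : orderOf τ = 2) (k : GL ι F) :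
    ((gram τ k).1.map τ)ᵀ = (gram τ k).1 := by
  ext a b; simp [coe_gram, mul_apply, sq_of_orderOf_two hτ, mul_comm]

theorem exists_gram [Finite F] {τ : F ≃+* F} (hτ : orderOf τ = 2) (M : GL ι F)
    (hM : (M.1.map τ)ᵀ = M.1) : ∃ k, gram τ k = M := by
  obtain ⟨h, hh⟩ := exists_eq_mul_conjT hτ M hM
  exact ⟨(PSL.invT ι F h)⁻¹, Units.ext hh.symm⟩

end gram

section fld

variable {F₀ : Type*} [Field F₀] [Fintype F₀] {q₀ : ℕ} {σ τ : F ≃+* F} {τ₀ : F₀ ≃+* F₀}

theorem exists_lang [NeZero n] (f : F₀ →+* F) (hf : ∀ x, σ x = x ↔ x ∈ f.range)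
    (hτ : orderOf τ = 2) (hτ₀ : orderOf τ₀ = 2) (hq : ∀ a, τ a = a ^ q)
    (h : ∀ a, f (τ₀ a) = τ (f a)) {d k : GL (Fin n) F} {c : Fˣ} (hd : d ∈ GU n F q)
    (hk : GeneralLinearGroup.scalar _ c * d = k * (glAut _ σ k)⁻¹) :
    ∃ c', ∃ k' ∈ GU n F q, GeneralLinearGroup.scalar _ c' * d = k' * (glAut _ σ k')⁻¹ := by
  have := finite_ringAut F
  have hcomm : ∀ a, σ (τ a) = τ (σ a) := fun a => by rw [hq, hq, map_pow]
  have hττ := sq_of_orderOf_two hτ
  have h1 : glAut _ σ (gram τ k) =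
      GeneralLinearGroup.scalar _ (c⁻¹ * Units.map (τ : F →* F) c⁻¹) * gram τ k := by
    have h2 : glAut _ σ k = GeneralLinearGroup.scalar _ c⁻¹ * (d⁻¹ * k) := by
      rw [← mul_assoc, GL.H90.scalar_comm, map_inv, ← _root_.mul_inv_rev, hk]; group
    rw [← gram_mul_of_mem hq (inv_mem hd) k, ← gram_scalar_mul, ← h2,
      gram_mul_of_mem hq (inv_mem hd) k]
    exact (gram_map (σ : F →+* F) hcomm k).symm
  have hs : ∀ (u : Fˣ) (g : GL (Fin n) F), (GeneralLinearGroup.scalar _ u * g).1 = u.1 • g.1 :=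
    fun u g => by ext a b; simp
  set l : F := ((c⁻¹ * Units.map (τ : F →* F) c⁻¹ : Fˣ) : F) with hl
  have hl' : τ l = l := by simp [hl, hττ, mul_comm]
  have h3 : (gram τ k).1.map σ = l • (gram τ k).1 := (hs _ _) ▸ congrArg Units.val h1
  obtain ⟨t, ht0, ht1, ht2⟩ : ∃ t : F, t ≠ 0 ∧ τ t = t ∧ l * σ t = t := by
    obtain ⟨t, ht, ht', -⟩ := exists_smul_fixed σ (orderOf_pos σ) rfl (gram τ k) _ h3
    have key : ∀ t, l * σ t = t → τ (t + τ t) = t + τ t ∧ l * σ (t + τ t) = t + τ t := fun t ht =>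
      ⟨by rw [map_add, hττ, add_comm], by
        rw [map_add, mul_add, ht, hcomm, ← hl', ← map_mul, ht]⟩
    by_cases h0 : t + τ t = 0
    · obtain ⟨b, hb⟩ := exists_ne_of_orderOf_two hτ₀
      refine ⟨t * f b + τ (t * f b), fun h4 => hb (f.injective ?_), key _ ?_⟩
      · rw [map_mul, ← h, eq_neg_of_add_eq_zero_right h0] at h4
        exact mul_left_cancel₀ ht (by linear_combination -h4)
      · rw [map_mul, (hf _).mpr ⟨b, rfl⟩, ← mul_assoc, ht']
    · exact ⟨_, h0, key t ht'⟩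
  obtain ⟨s, hs0, hst⟩ := exists_mul_map_eq hτ ht0 ht1
  have h4 : (gram τ (GeneralLinearGroup.scalar _ (Units.mk0 s hs0) * k)).1 = t • (gram τ k).1 := by
    rw [gram_scalar_mul, hs, ← hst]; rfl
  obtain ⟨M, hM⟩ := (glAut_map_of_fixed σ f hf
      (gram τ (GeneralLinearGroup.scalar _ (Units.mk0 s hs0) * k))).mp (Units.ext (by
    rw [coe_glAut, h4, ← RingEquiv.coe_toRingHom, Matrix.map_smul' _ _ _ (map_mul _),
      RingEquiv.coe_toRingHom, h3, smul_smul, mul_comm, ht2]))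
  obtain ⟨g, rfl⟩ := exists_gram hτ₀ M (by
    apply Matrix.map_injective f.injective
    have h5 := gram_herm hτ (GeneralLinearGroup.scalar _ (Units.mk0 s hs0) * k)
    rw [← hM] at h5
    refine Eq.trans ?_ h5
    ext a b; exact h _)
  rw [← gram_map f h] at hM
  refine ⟨Units.mk0 s hs0 * (Units.map (σ : F →* F) (Units.mk0 s hs0))⁻¹ * c, _,
    mul_inv_mem_of_gram hq hM.symm, ?_⟩
  rw [map_mul (glAut _ σ), map_mul (glAut _ σ), map_inv (glAut _ σ),
    (glAut_map_of_fixed σ f hf _).mpr ⟨g, rfl⟩, glAut_scalar, map_mul, map_mul, mul_assoc, hk,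
    mul_assoc, GL.H90.scalar_comm (_)⁻¹, map_inv]
  group

theorem exists_model (hF : Fintype.card F = q ^ 2) {r : ℕ} (hr : orderOf σ = r) (ho : Odd r)
    (hq : q = q₀ ^ r) (hF₀ : Fintype.card F₀ = q₀ ^ 2) :
    ∃ (f : F₀ →+* F) (τ : F ≃+* F) (τ₀ : F₀ ≃+* F₀), (∀ x, σ x = x ↔ x ∈ f.range) ∧
      orderOf τ = 2 ∧ orderOf τ₀ = 2 ∧ (∀ a, τ a = a ^ q) ∧ (∀ a, τ₀ a = a ^ q₀) ∧
      ∀ a, f (τ₀ a) = τ (f a) := by
  obtain ⟨τ, h1, h2⟩ := exists_frob hF
  obtain ⟨τ₀, h3, h4⟩ := exists_frob hF₀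
  obtain ⟨f, hf⟩ := exists_ringHom_fixed σ hr (q₀ := q₀ ^ 2)
    (by rw [Nat.card_eq_fintype_card, hF, hq, ← pow_mul, ← pow_mul, mul_comm]) F₀ hF₀
  exact ⟨f, τ, τ₀, hf, h1, h3, h2, h4, fun a => by rw [h2, h4, hq, ← map_pow, pow_odd hF₀ ho]⟩

theorem lang (hF : Fintype.card F = q ^ 2) (hn : 3 ≤ n) {r : ℕ} (hr : orderOf σ = r) (ho : Odd r)
    (hq : q = q₀ ^ r) :
    ∀ δ ∈ (X n F q).ψ.range, (δ * (X n F q).Θ ⟨_, inr_mem σ⟩) ^ r = 1 →
      IsConjUnder (X n F q).ψ.range ((X n F q).Θ ⟨_, inr_mem σ⟩)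
        (δ * (X n F q).Θ ⟨_, inr_mem σ⟩) := by
  have : NeZero n := ⟨by omega⟩
  have := Fintype.ofFinite (fixedSub σ)
  obtain ⟨f, τ, τ₀, hf, h1, h2, h3, -, h5⟩ := exists_model (F₀ := fixedSub σ) hF hr ho hq (by
    rw [← Nat.card_eq_fintype_card]
    exact card_fixedSub σ hr
      (by rw [Nat.card_eq_fintype_card, hF, hq, ← pow_mul, ← pow_mul, mul_comm]))
  refine (ker hF hn).lang _ hr fun d hd u hu => ?_
  obtain ⟨c, k, hk⟩ := exists_scalar_mul_eq_mul_inv σ hr d u hu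
  exact exists_lang f hf h1 h2 h3 h5 hd hk

theorem centralizer_fld (hF : Fintype.card F = q ^ 2) (hn : 3 ≤ n) {r : ℕ} (hr : orderOf σ = r)
    (ho : Odd r) (hq : q = q₀ ^ r) (hF₀ : Fintype.card F₀ = q₀ ^ 2) :
    Nonempty (↥((X n F q).ψ.range ⊓ Subgroup.centralizer {(X n F q).Θ ⟨_, inr_mem σ⟩}) ≃*
      PGU n F₀ q₀) ∧
    splitClassCount (X n F q).ψ.range (Inn (PSU n F q)) ((X n F q).Θ ⟨_, inr_mem σ⟩) =
      Nat.gcd n ((q + 1) / (q₀ + 1)) := by
  have : NeZero n := ⟨by omega⟩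
  obtain ⟨f, τ, τ₀, hf, h1, h2, h3, h4, h5⟩ := exists_model hF hr ho hq hF₀
  obtain ⟨i, k1, k2, k3⟩ := (ker hF hn).centralizer_fld (inr_mem σ) f hf (GU n F₀ q₀)
    (fun g hg => (map_mem_iff f h3 h4 h5 g).mpr hg)
    (fun d hd c g hg => by
      have l1 := gram_map f h5 g
      rw [hg, gram_scalar_mul, (gram_eq_one_iff h3 d).mpr hd, mul_one] at l1
      obtain ⟨a, ha⟩ := map_eq_scalar f _ _ l1.symm
      rw [ha, map_scalar'] at l1
      have l2 : (c : F) * τ c = f a := congrArg Units.val (scalar_inj l1)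
      obtain ⟨b, hb0, hb⟩ := exists_mul_map_eq h2 (a := (a⁻¹ : F₀ˣ)) (Units.ne_zero _) (by
        apply f.injective
        simp only [Units.val_inv_eq_inv_val, map_inv₀, h5, ← l2, map_mul, sq_of_orderOf_two h1,
          mul_comm])
      refine ⟨Units.map (f : F₀ →* F) (Units.mk0 b hb0) * c,
        GeneralLinearGroup.scalar _ (Units.mk0 b hb0) * g, ?_, ?_⟩
      · rw [← gram_eq_one_iff h4, gram_scalar_mul, ha, ← map_mul,
          show Units.mk0 b hb0 * Units.map (τ₀ : F₀ →* F₀) (Units.mk0 b hb0) = a⁻¹ from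
            Units.ext hb, inv_mul_cancel, map_one]
      · rw [map_mul, map_scalar', hg, map_mul, mul_assoc])
  refine ⟨k3, ?_⟩
  have h6 : (κ n hF).comp i = (QuotientGroup.mk' _).comp ((δ n hF).comp i) := rfl
  rw [splitClassCount_eq_of_range _ _ (κ_surjective hF (by omega)) _ (X n F q).inn_le_range_ψ
    (ψ_mem_inn_iff hF hn) _ _ k2, h6, MonoidHom.range_comp, index_map_mk_pow]
  congr 1
  have h7 : Nat.card ((δ n hF).comp i).range = q₀ + 1 := by
    rw [← card_ker_pow hF₀, ← Subgroup.card_map_of_injective (U F q).subtype_injective,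
      ← Subgroup.card_map_of_injective (f := Units.map (f : F₀ →* F))
        (Units.map_injective f.injective), ← MonoidHom.range_comp, ← range_det_GU (by omega : 0 < n) h4,
      ← MonoidHom.range_comp]
    refine congrArg (fun φ : GU n F₀ q₀ →* Fˣ => Nat.card φ.range) (MonoidHom.ext fun g => ?_)
    show GeneralLinearGroup.det (i g).1 = _
    rw [k1, det_map']; rfl
  have h8 := ((δ n hF).comp i).range.card_mul_index
  rw [h7, card_ker_pow hF] at h8
  rw [← h8, Nat.mul_div_cancel_left _ (by omega)]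

end fld

end Cfsg.Agent.Lib.Aut.SU
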