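import Cfsg.Agent.Lib.Aut.Graph3
import Cfsg.Agent.Lib.Aut.GraphPSL
import Cfsg.Agent.Lib.Aut.SU

set_option autoImplicit false
set_option linter.unusedSectionVars false
set_option maxHeartbeats 400000

/-! Involutory graph automorphisms of `PSU_n`. -/

namespace Cfsg.Agent.Lib.Aut.SU

open Module Matrix Cfsg.Agent.Lib.GL.H90 SemidirectProduct Gr

variable {F : Type*} [Field F] {n q : ℕ}

local notation "sc" => GeneralLinearGroup.scalar (Fin _)

theorem sc_mul_mul (u v : Fˣ) (a b : GL (Fin n) F) : sc (u * v) * (a * b) = sc u * a * (sc v * b) := by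
  rw [map_mul, mul_assoc, mul_assoc, ← mul_assoc a, ← GL.H90.scalar_comm v a, mul_assoc]

theorem sc_conj (u : Fˣ) (a b : GL (Fin n) F) : sc u * a * b * (sc u * a)⁻¹ = a * b * a⁻¹ := by
  rw [_root_.mul_inv_rev, mul_assoc (sc u), ← mul_assoc, mul_assoc (sc u), GL.H90.scalar_comm,
    mul_inv_cancel_right]

/-- the conformal unitary group -/
def CU (n : ℕ) (F : Type*) [Field F] (q : ℕ) : Subgroup (GL (Fin n) F) where
  carrier := {g | ∃ u : Fˣ, sc u * g ∈ GU n F q}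
  mul_mem' := by
    rintro a b ⟨u, hu⟩ ⟨v, hv⟩
    exact ⟨u * v, by rw [sc_mul_mul]; exact mul_mem hu hv⟩
  one_mem' := ⟨1, by simp⟩
  inv_mem' := by
    rintro a ⟨u, hu⟩
    exact ⟨u⁻¹, by rw [map_inv, ← _root_.mul_inv_rev, ← GL.H90.scalar_comm]; exact inv_mem hu⟩

theorem le_CU {g : GL (Fin n) F} (h : g ∈ GU n F q) : g ∈ CU n F q := ⟨1, by simpa using h⟩

theorem sc_mem (u : Fˣ) : sc u ∈ CU n F q := ⟨u⁻¹, by simp⟩

/-- the conformal semilinear unitary group -/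
def Y (n : ℕ) (F : Type*) [Field F] (q : ℕ) : SemiSetup (Fin n) F (SU n F q) :=
  SemiSetup.ofSub (j n F q) j_inj (CU n F q)
    (fun σ _ ⟨u, hu⟩ => ⟨_, by rw [← glAut_scalar σ u, ← map_mul]; exact glAut_mem σ _ hu⟩)
    (fun g ⟨u, hu⟩ s => by
      rw [← sc_conj u]
      exact exists_j (mul_mem (mul_mem hu (j_mem s)) (inv_mem hu)) (by simp [det_j]))
    (fun σ s => exists_j (glAut_mem σ _ (j_mem s)) (by rw [det_glAut, det_j, map_one]))
    fun s => le_CU (j_mem s)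

theorem Θ_eq (a : GamL (Fin n) F) (h : a ∈ (X n F q).N) :
    (X n F q).Θ ⟨a, h⟩ = (Y n F q).Θ ⟨a, le_CU h⟩ := by
  rw [SemiSetup.eq_Θ_iff]
  intro s s' hs
  exact ((X n F q).eq_Θ_iff ⟨a, h⟩ _).mp rfl s s' hs

theorem ψ_eq (g : GL (Fin n) F) (h : g ∈ GU n F q) :
    (X n F q).ψ ⟨g, h⟩ = (Y n F q).ψ ⟨g, le_CU h⟩ := Θ_eq _ _

theorem range_ψ_eq : (X n F q).ψ.range = (Y n F q).ψ.range := by
  ext β
  constructor
  · rintro ⟨⟨g, hg⟩, rfl⟩
    exact ⟨_, (ψ_eq g hg).symm⟩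
  · rintro ⟨⟨g, u, hg⟩, rfl⟩
    exact ⟨⟨_, hg⟩, (ψ_eq _ hg).trans ((Y n F q).ψ_eq_of_scalar u rfl)⟩

variable [Fintype F]

theorem kerY (hF : Fintype.card F = q ^ 2) (hn : 3 ≤ n) : (Y n F q).Ker := by
  obtain ⟨τ, hq, hτ⟩ := GL.Herm.exists_isInvol hF
  have : Nonempty (Fin n) := ⟨⟨0, by omega⟩⟩
  exact SemiSetup.ker_of_polar (P := P hτ hq hF hn) (fun _ _ => rfl) (pol_big hτ hq _ _ _ _ _ hn)

variable {τ : F ≃+* F} {F₀ : Type*} [Field F₀] {f : F₀ →+* F}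

local notation "mp" => GeneralLinearGroup.map (n := Fin _)

theorem mem_CU_iff [NeZero n] (hτ : orderOf τ = 2) (hq : ∀ a, τ a = a ^ q) (g : GL (Fin n) F) :
    g ∈ CU n F q ↔ ∃ c, gram τ g = sc c := by
  constructor
  · rintro ⟨u, hu⟩
    rw [← gram_eq_one_iff hq, gram_scalar_mul, mul_eq_one_iff_inv_eq, ← map_inv] at hu
    exact ⟨_, hu.symm⟩
  · rintro ⟨c, hc⟩
    have h1 := gram_herm hτ g
    rw [hc] at h1
    obtain ⟨s, hs0, hs⟩ := exists_mul_map_eq hτ (a := (c⁻¹ : Fˣ)) (Units.ne_zero _) (by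
      rw [Units.val_inv_eq_inv_val, map_inv₀]
      simpa using congrFun (congrFun h1 0) 0)
    exact ⟨Units.mk0 s hs0, by
      rw [← gram_eq_one_iff hq, gram_scalar_mul, hc, ← map_mul,
        show Units.mk0 s hs0 * Units.map (τ : F →* F) (Units.mk0 s hs0) = c⁻¹ from Units.ext hs,
        inv_mul_cancel, map_one]⟩

theorem mem_CU_iff' [NeZero n] (hτ : orderOf τ = 2) (hq : ∀ a, τ a = a ^ q) (g k : GL (Fin n) F) :
    g ∈ CU n F q ↔ ∃ c, gram τ (g * k) = sc c * gram τ k := by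
  rw [mem_CU_iff hτ hq]
  refine exists_congr fun c => ?_
  rw [gram_mul, show gram τ k = _ * _ from rfl, ← mul_assoc, mul_left_inj, GL.H90.scalar_comm,
    mul_right_inj]

/-- the transformed Gram matrix -/
def tr (B g : GL (Fin n) F₀) : GL (Fin n) F₀ := (PSL.invT _ F₀ g)⁻¹ * B * g

theorem tr_eq_iff {B B' g : GL (Fin n) F₀} {c : F₀ˣ} :
    tr B g = sc c * B' ↔ g.1ᵀ * B.1 * g.1 = (c : F₀) • B'.1 := by
  rw [Units.ext_iff, coe_scalar_mul]; rfl

theorem gram_rat (hf : ∀ x, τ x = x ↔ x ∈ f.range) {k : GL (Fin n) F} {b : Fˣ} {B : GL (Fin n) F₀}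
    (hk : gram τ k = sc b * mp f B) (c : Fˣ) (g : GL (Fin n) F₀) :
    gram τ (sc c * k * mp f g) = sc (c * Units.map (τ : F →* F) c * b) * mp f (tr B g) := by
  have h1 : (PSL.invT _ F (mp f g))⁻¹ = mp f (PSL.invT _ F₀ g)⁻¹ := by
    ext a b; rfl
  rw [gram_mul, gram_scalar_mul, hk, (glAut_map_of_fixed τ f hf _).mpr ⟨g, rfl⟩, tr, h1,
    ← mul_assoc (sc _), ← map_mul, ← mul_assoc, ← GL.H90.scalar_comm, map_mul (mp f),
    map_mul (mp f)]
  simp only [mul_assoc]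

theorem mem_CU_rat [NeZero n] (hτ : orderOf τ = 2) (hq : ∀ a, τ a = a ^ q)
    (hf : ∀ x, τ x = x ↔ x ∈ f.range) {k k' h : GL (Fin n) F} {b b' c : Fˣ}
    {B B' g : GL (Fin n) F₀} (hk : gram τ k = sc b * mp f B) (hk' : gram τ k' = sc b' * mp f B')
    (H : h * k = sc c * k' * mp f g) :
    h ∈ CU n F q ↔ ∃ c : F₀ˣ, g.1ᵀ * B'.1 * g.1 = (c : F₀) • B.1 := by
  rw [mem_CU_iff' hτ hq h k, H, gram_rat hf hk', hk]
  constructor
  · rintro ⟨l, hl⟩
    obtain ⟨u, hu⟩ := map_eq_scalar f (tr B' g * B⁻¹)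
      ((c * Units.map (τ : F →* F) c * b')⁻¹ * (l * b)) (by
        rw [map_mul, map_inv, eq_inv_mul_of_mul_eq hl, map_mul _ _ (l * b), map_inv, map_mul _ l]
        group)
    exact ⟨u, tr_eq_iff.mp (eq_mul_of_mul_inv_eq hu)⟩
  · rintro ⟨u, hu⟩
    refine ⟨c * Units.map (τ : F →* F) c * b' * Units.map (f : F₀ →* F) u * b⁻¹, ?_⟩
    rw [tr_eq_iff.mpr hu, map_mul (mp f), map_scalar', ← mul_assoc, ← mul_assoc, ← map_mul,
      ← map_mul, inv_mul_cancel_right]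

theorem exists_rat [NeZero n] (hf : ∀ x, τ x = x ↔ x ∈ f.range) {x : GL (Fin n) F} {u : Fˣ}
    (h : x⁻¹ * glAut _ τ x = sc u) : ∃ c g, x = sc c * mp f g := by
  obtain ⟨c, hc⟩ := exists_scalar_mul_fixed τ x u h
  obtain ⟨g, hg⟩ := (glAut_map_of_fixed τ f hf _).mp hc
  exact ⟨c⁻¹, g, by rw [hg, map_inv, inv_mul_cancel_left]⟩

/-- the semilinear involution attached to a basis -/
def ga (τ : F ≃+* F) (k : GL (Fin n) F) : GamL (Fin n) F := ⟨k * (glAut _ τ k)⁻¹, τ⟩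

theorem ga_eq_iff (hF : Fintype.card F = q ^ 2) (hn : 3 ≤ n) (hf : ∀ x, τ x = x ↔ x ∈ f.range)
    {k k' : GL (Fin n) F} (h : ga τ k ∈ (Y n F q).N) (h' : ga τ k' ∈ (Y n F q).N) :
    (Y n F q).Θ ⟨_, h⟩ = (Y n F q).Θ ⟨_, h'⟩ ↔ ∃ c g, k = sc c * k' * mp f g := by
  have : NeZero n := ⟨by omega⟩
  have h1 : ga τ k' * (ga τ k)⁻¹ = inl (k' * (glAut _ τ k')⁻¹ * (k * (glAut _ τ k)⁻¹)⁻¹) := by
    rw [mul_inv_eq_iff_eq_mul]
    ext : 1
    · simp [ga, mul_assoc]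
    · simp [ga]
  have h2 : _ ∈ (Y n F q).D := mul_mem (show _ ∈ CU n F q from h') (inv_mem h)
  rw [eq_comm, ← mul_inv_eq_one, ← map_inv, ← map_mul,
    show (⟨_, h'⟩ * ⟨_, h⟩⁻¹ : (Y n F q).N) = ⟨inl _, h2⟩ from Subtype.ext h1]
  refine ((kerY hF hn).ψ_eq_one_iff ⟨_, h2⟩).trans ⟨fun ⟨u, hu⟩ => ?_, ?_⟩
  · obtain ⟨c, g, hg⟩ := exists_rat hf (x := k'⁻¹ * k) (u := u) (by
      have : sc u = k⁻¹ * sc u * k := by rw [← GL.H90.scalar_comm, inv_mul_cancel_right]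
      rw [this, ← hu, map_mul, map_inv]
      simp only [ga]; group)
    exact ⟨c, g, by rw [GL.H90.scalar_comm, mul_assoc, ← hg, mul_inv_cancel_left]⟩
  · rintro ⟨c, g, rfl⟩
    refine ⟨Units.map (τ : F →* F) c * c⁻¹, ?_⟩
    show k' * (glAut _ τ k')⁻¹ * (_ * (glAut _ τ _)⁻¹)⁻¹ = _
    rw [map_mul (glAut _ τ), map_mul (glAut _ τ), (glAut_map_of_fixed τ f hf _).mpr ⟨g, rfl⟩,
      glAut_scalar, map_mul, map_inv]
    calc _ = k' * (glAut _ τ k')⁻¹ * sc (Units.map (τ : F →* F) c) * (k' * (glAut _ τ k')⁻¹)⁻¹ *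
          (sc c)⁻¹ := by group
      _ = _ := by rw [← GL.H90.scalar_comm, mul_inv_cancel_right]

theorem ga_mem [NeZero n] (hτ : orderOf τ = 2) (hq : ∀ a, τ a = a ^ q)
    (hf : ∀ x, τ x = x ↔ x ∈ f.range) {k : GL (Fin n) F} {b : Fˣ} {B : GL (Fin n) F₀}
    (hk : gram τ k = sc b * mp f B) : ga τ k ∈ (Y n F q).N := by
  have h1 : ∀ g, glAut (Fin n) τ (glAut _ τ g) = g := fun g => by
    ext a b; exact sq_of_orderOf_two hτ _
  have h2 : gram τ (glAut _ τ k) = sc (Units.map (τ : F →* F) b) * mp f B := by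
    rw [← (glAut_map_of_fixed τ f hf (mp f B)).mpr ⟨B, rfl⟩, ← glAut_scalar, ← map_mul, ← hk]
    exact gram_map (τ : F →+* F) (fun _ => rfl) k
  exact (mem_CU_rat hτ hq hf h2 hk (c := 1) (g := 1) (by simp [ga])).mpr ⟨1, by simp⟩

theorem conj_ga {k : GL (Fin n) F} (d : (Y n F q).D) (h : ga τ k ∈ (Y n F q).N) :
    ∃ h', (Y n F q).ψ d * (Y n F q).Θ ⟨_, h⟩ * ((Y n F q).ψ d)⁻¹ =
      (Y n F q).Θ ⟨ga τ (d.1 * k), h'⟩ := by
  have h1 : inl d.1 * ga τ k * (inl d.1)⁻¹ = ga τ (d.1 * k) := by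
    ext : 1
    · simp [ga, mul_assoc]; rfl
    · simp [ga]
  exact ⟨h1 ▸ mul_mem (mul_mem d.2 h) (inv_mem d.2), by
    rw [SemiSetup.ψ_apply, ← map_inv, ← map_mul, ← map_mul]
    exact congrArg _ (Subtype.ext h1)⟩

theorem orderOf_ga (hF : Fintype.card F = q ^ 2) (hn : 3 ≤ n) (hτ : orderOf τ = 2)
    {k : GL (Fin n) F} (h : ga τ k ∈ (Y n F q).N) : orderOf ((Y n F q).Θ ⟨_, h⟩) = 2 := by
  have h1 : ∀ g, glAut (Fin n) τ (glAut _ τ g) = g := fun g => by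
    ext a b; exact sq_of_orderOf_two hτ _
  refine orderOf_eq_prime ?_ fun h0 => ?_
  · rw [← map_pow, ← map_one (Y n F q).Θ]
    refine congrArg _ (Subtype.ext ?_)
    show ga τ k ^ 2 = 1
    rw [pow_two]
    ext : 1
    · show _ * glAut _ τ (_ * _) = 1
      simp [ga, h1]
    · show τ * τ = 1
      rw [← pow_two, ← hτ, pow_orderOf_eq_one]
  · have : τ = 1 := (kerY hF hn).right_eq_one _ (h0 ▸ one_mem _)
    rw [this, orderOf_one] at hτ
    omega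

/-- conjugation of rational similitudes into the conformal unitary group -/
def cjr [NeZero n] (hτ : orderOf τ = 2) (hq : ∀ a, τ a = a ^ q)
    (hf : ∀ x, τ x = x ↔ x ∈ f.range) {k : GL (Fin n) F} {b : Fˣ} {B : GL (Fin n) F₀}
    (hk : gram τ k = sc b * mp f B) : simGrp B.1 →* (Y n F q).D :=
  ((MulAut.conj k).toMonoidHom.comp ((mp f).comp (simGrp B.1).subtype)).codRestrict _ fun g =>
    (mem_CU_rat hτ hq hf hk hk (c := 1) (g := g.1) (by simp)).mpr (mem_simGrp.mp g.2)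

theorem range_cjr [NeZero n] (hF : Fintype.card F = q ^ 2) (hn : 3 ≤ n) (hτ : orderOf τ = 2)
    (hq : ∀ a, τ a = a ^ q) (hf : ∀ x, τ x = x ↔ x ∈ f.range) {k : GL (Fin n) F} {b : Fˣ}
    {B : GL (Fin n) F₀} (hk : gram τ k = sc b * mp f B) (h : ga τ k ∈ (Y n F q).N) :
    ((Y n F q).ψ.comp (cjr hτ hq hf hk)).range =
      (Y n F q).ψ.range ⊓ Subgroup.centralizer {(Y n F q).Θ ⟨_, h⟩} := by
  have key : ∀ d, (Y n F q).ψ d ∈ Subgroup.centralizer {(Y n F q).Θ ⟨_, h⟩} ↔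
      ∃ c g, d.1 * k = sc c * k * mp f g := fun d => by
    obtain ⟨h', e⟩ := conj_ga d h
    rw [Subgroup.mem_centralizer_singleton_iff, ← mul_inv_eq_iff_eq_mul, e, ga_eq_iff hF hn hf]
  ext y
  constructor
  · rintro ⟨g, rfl⟩
    exact ⟨⟨_, rfl⟩, (key _).mpr ⟨1, g.1, by simp [cjr]⟩⟩
  · rintro ⟨⟨d, rfl⟩, hd⟩
    obtain ⟨c, g, e⟩ := (key d).mp hd
    refine ⟨⟨g, mem_simGrp.mpr ((mem_CU_rat hτ hq hf hk hk e).mp d.2)⟩,
      ((Y n F q).ψ_eq_of_scalar c ?_).symm⟩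
    exact (eq_mul_inv_of_mul_eq e).trans (by simp [cjr, mul_assoc])

/-- the involutory graph automorphisms of `PSU_n` -/
def sysPSU (hF : Fintype.card F = q ^ 2) (hn : 3 ≤ n) (hτ : orderOf τ = 2) (hq : ∀ a, τ a = a ^ q)
    (hf : ∀ x, τ x = x ↔ x ∈ f.range) :
    GraphSys (inndiagPSU n F q) IsGraphAutClassPSU (Fin n) F₀ where
  R γ B := ∃ k b, gram τ k = sc b * mp f B ∧ ∃ h, γ = (Y n F q).Θ ⟨ga τ k, h⟩
  ex γ := by
    have : NeZero n := ⟨by omega⟩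
    have := finite_ringAut F
    have := isCyclic_ringAut F
    rintro ⟨-, δ, φ, σ, h1, h2, h3, rfl⟩ ho
    obtain ⟨⟨d, hd⟩, rfl⟩ := (isInnerDiagonal_iff _).mp h2
    rw [(isField_iff _ _).mp h3, ψ_eq _ hd, Θ_eq, SemiSetup.ψ_apply, ← map_mul] at ho ⊢
    obtain ⟨u, hu⟩ := kerY hF hn _ (by rw [map_pow, ← ho, pow_orderOf_eq_one] :
      (Y n F q).Θ (_ ^ 2) = 1)
    have h4 : σ ^ 2 = 1 := by simpa [pow_two] using congrArg SemidirectProduct.right hu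
    have h5 : orderOf σ = 2 := orderOf_eq_prime h4 (by rintro rfl; simp at h1)
    obtain rfl : σ = τ := eq_of_orderOf_two h5 hτ
    obtain ⟨c, k, hk⟩ := exists_scalar_mul_eq_mul_inv σ hτ d u (by
      have := congrArg SemidirectProduct.left hu
      simp only [pow_two, Subgroup.coe_mul, mul_left, left_inl, left_inr, right_inl, right_inr,
        mul_right, map_one, mul_one, one_mul] at this
      simp only [List.range_succ, List.range_zero, List.nil_append, List.map_append, List.map_cons,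
        List.map_nil, List.prod_append, List.prod_cons, List.prod_nil, mul_one, pow_zero, pow_one]
      exact this)
    obtain ⟨b, B, hB⟩ := exists_rat hf (x := gram σ k)
      (u := c⁻¹ * Units.map (σ : F →* F) c⁻¹) (by
        have h6 : glAut _ σ k = sc c⁻¹ * (d⁻¹ * k) := by
          rw [← mul_assoc, GL.H90.scalar_comm, map_inv, ← _root_.mul_inv_rev, hk]; group
        rw [inv_mul_eq_iff_eq_mul, ← GL.H90.scalar_comm, ← gram_mul_of_mem hq (inv_mem hd) k,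
          ← gram_scalar_mul, ← h6, gram_mul_of_mem hq (inv_mem hd) k]
        exact (gram_map (σ : F →+* F) (fun _ => rfl) k).symm)
    refine ⟨B, ⟨k, b, hB, ga_mem hτ hq hf hB, ?_⟩, ?_⟩
    · rw [← one_mul ((Y n F q).Θ _), ← (Y n F q).ψ_scalar c (sc_mem c), SemiSetup.ψ_apply,
        ← map_mul]
      refine congrArg _ (Subtype.ext ?_)
      ext : 1
      · simpa [ga] using hk
      · simp [ga]
    · obtain ⟨v, hv⟩ := map_eq_scalar f ((PSL.invT _ F₀ B)⁻¹ * B⁻¹)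
        ((Units.map (σ : F →* F) b)⁻¹ * b) (by
          have h6 := gram_herm hτ k
          rw [hB, coe_scalar_mul] at h6
          rw [map_mul, map_inv _ B, mul_inv_eq_iff_eq_mul, map_mul, mul_assoc,
            map_inv _ (Units.map _ _), eq_inv_mul_iff_mul_eq, Units.ext_iff, coe_scalar_mul, coe_scalar_mul, ← h6]
          ext i j
          show σ b * f (B.1 j i) = σ (b * f (B.1 j i))
          rw [map_mul, (hf _).mpr ⟨B.1 j i, rfl⟩])
      exact symm_or_skew (u := v) (by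
        rw [← coe_scalar_mul, ← hv, inv_mul_cancel_right]; rfl)
  ex' B hB := by
    have : NeZero n := ⟨by omega⟩
    obtain ⟨b, hb⟩ : ∃ b : Fˣ, ((sc b * mp f B).1.map τ)ᵀ = (sc b * mp f B).1 := by
      have h1 : ∀ i j, τ (f (B.1 i j)) = f (B.1 i j) := fun i j => (hf _).mpr ⟨_, rfl⟩
      rcases hB with hB | hB
      · refine ⟨1, ?_⟩
        ext i j
        simp [h1, ← congrFun (congrFun hB j) i]
      · obtain ⟨d, hd, hd'⟩ := exists_map_eq_mul hτ (u := -1) (by simp)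
        refine ⟨Units.mk0 d hd, ?_⟩
        ext i j
        have h2 : B.1 j i = -B.1 i j := congrFun (congrFun hB i) j
        simp [h1, h2, show τ d = -d by linear_combination -hd']
    obtain ⟨k, hk⟩ := exists_gram hτ _ hb
    have h := ga_mem hτ hq hf hk
    refine ⟨_, ⟨k, b, hk, h, rfl⟩, ⟨hn, (Y n F q).ψ ⟨_, h⟩, (X n F q).Θ ⟨_, inr_mem τ⟩, τ,
      by rw [hτ]; exact even_two, ?_, (isField_iff _ _).mpr rfl, ?_⟩, orderOf_ga hF hn hτ h⟩
    · rw [isInnerDiagonal_iff, range_ψ_eq]; exact ⟨_, rfl⟩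
    · rw [Θ_eq, SemiSetup.ψ_apply, ← map_mul]
      refine congrArg _ (Subtype.ext ?_)
      ext : 1 <;> simp [ga]
  conj := by
    have : NeZero n := ⟨by omega⟩
    rintro _ _ B B' ⟨k, b, hk, h, rfl⟩ ⟨k', b', hk', h', rfl⟩
    rw [inndiag_eq, range_ψ_eq]
    constructor
    · rintro ⟨_, ⟨d, rfl⟩, hd⟩
      obtain ⟨h'', e⟩ := conj_ga d h
      rw [e, eq_comm, ga_eq_iff hF hn hf] at hd
      obtain ⟨c, g, e⟩ := hd
      exact Gr.Similar.symm ⟨g, (mem_CU_rat hτ hq hf hk hk' e).mp d.2⟩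
    · intro hs
      obtain ⟨g, hg⟩ := hs.symm
      have e : k' * mp f g * k⁻¹ * k = sc 1 * k' * mp f g := by simp
      obtain ⟨h'', e'⟩ := conj_ga ⟨_, (mem_CU_rat hτ hq hf hk hk' e).mpr hg⟩ h
      exact ⟨_, ⟨_, rfl⟩, by rw [e', eq_comm, ga_eq_iff hF hn hf]; exact ⟨1, g, e⟩⟩
  cent := by
    have : NeZero n := ⟨by omega⟩
    rintro _ B ⟨k, b, hk, h, rfl⟩
    rw [inndiag_eq, range_ψ_eq]
    refine nonempty_equiv_quot _ _ _ ?_ (range_cjr hF hn hτ hq hf hk h)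
    ext g
    rw [MonoidHom.mem_ker, MonoidHom.comp_apply, (kerY hF hn).ψ_eq_one_iff, Subgroup.mem_subgroupOf,
      mem_scalars_iff']
    have : ∀ u, (cjr hτ hq hf hk g).1 = sc u ↔ mp f g.1 = sc u := fun u => by
      show k * _ * k⁻¹ = _ ↔ _
      rw [mul_inv_eq_iff_eq_mul, GL.H90.scalar_comm, mul_right_inj]
      rfl
    simp only [this]
    exact ⟨fun ⟨u, hu⟩ => map_eq_scalar f _ u hu,
      fun ⟨u, hu⟩ => ⟨_, by rw [← map_scalar' f u, ← hu]⟩⟩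

theorem split_ga (hF : Fintype.card F = q ^ 2) (hn : 3 ≤ n) (hτ : orderOf τ = 2)
    (hq : ∀ a, τ a = a ^ q) (hf : ∀ x, τ x = x ↔ x ∈ f.range) {γ : MulAut (PSU n F q)}
    {B : GL (Fin n) F₀} (h : (sysPSU hF hn hτ hq hf).R γ B) (D : Subgroup (U F q))
    (hD : ∀ x, x ∈ D ↔ ∃ (g : GL (Fin n) F₀) (c : F₀ˣ) (a : Fˣ), SimM B.1 g c ∧
      (a : F) * τ a * f c = 1 ∧ (x.1 : F) = (a : F) ^ n * f (GeneralLinearGroup.det g : F₀ˣ)) :
    splitClassCount (inndiagPSU n F q) (Inn _) γ = D.index := by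
  have : NeZero n := ⟨by omega⟩
  obtain ⟨k, b, hk, h, rfl⟩ := h
  have key : ∀ d (hd : d ∈ CU n F q), (Y n F q).ψ ⟨d, hd⟩ ∈
      Subgroup.centralizer {(Y n F q).Θ ⟨_, h⟩} ↔ ∃ c g, d * k = sc c * k * mp f g := fun d hd => by
    obtain ⟨h', e⟩ := conj_ga ⟨d, hd⟩ h
    rw [Subgroup.mem_centralizer_singleton_iff, ← mul_inv_eq_iff_eq_mul, e, ga_eq_iff hF hn hf]
  have key2 : ∀ d a g, d * k = sc a * k * mp f g → (d ∈ GU n F q ↔
      ∃ c, SimM B.1 g c ∧ (a : F) * τ a * f c = 1) := fun d a g e => by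
    have h1 := gram_rat hf hk a g
    rw [← e, gram_mul] at h1
    rw [← gram_eq_one_iff hq]
    constructor
    · intro hd
      obtain ⟨c, hc⟩ := (mem_CU_rat hτ hq hf hk hk e).mp (le_CU ((gram_eq_one_iff hq _).mp hd))
      refine ⟨c, hc, ?_⟩
      rw [hd, mul_one, ← gram, hk, tr_eq_iff.mpr hc, map_mul (mp f), map_scalar', ← mul_assoc,
        mul_left_inj, ← map_mul, mul_right_comm] at h1
      exact congrArg Units.val (right_eq_mul.mp (scalar_inj h1))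
    · rintro ⟨c, hc, hc'⟩
      rw [tr_eq_iff.mpr hc, map_mul (mp f), map_scalar', ← mul_assoc, ← map_mul, mul_right_comm,
        show a * Units.map (τ : F →* F) a * Units.map (f : F₀ →* F) c = 1 from Units.ext hc',
        one_mul, ← hk, show gram τ k = _ * _ from rfl, mul_left_inj] at h1
      exact mul_eq_left.mp h1
  have key3 : ∀ d a g, d * k = sc a * k * mp f g →
      (GeneralLinearGroup.det d : F) = (a : F) ^ n * f (GeneralLinearGroup.det g : F₀ˣ) :=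
      fun d a g e => by
    rw [eq_mul_inv_of_mul_eq e, map_mul, map_mul, map_mul, map_inv, mul_right_comm,
      mul_inv_cancel_right, PSL.det_scalar', det_map', Fintype.card_fin, Units.val_mul,
      Units.val_pow_eq_pow_val]
    rfl
  have h3 : ((Subgroup.centralizer {(Y n F q).Θ ⟨_, h⟩}).comap (X n F q).ψ).map (δ n hF) = D := by
    ext x
    rw [hD]
    constructor
    · rintro ⟨⟨d, hd⟩, h1, rfl⟩
      obtain ⟨a, g, e⟩ := (key d (le_CU hd)).mp (ψ_eq d hd ▸ h1)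
      obtain ⟨c, hc⟩ := (key2 d a g e).mp hd
      exact ⟨g, c, a, hc.1, hc.2, key3 d a g e⟩
    · rintro ⟨g, c, a, h1, h2, h3⟩
      have e : sc a * k * mp f g * k⁻¹ * k = sc a * k * mp f g := by simp
      have hd := (key2 _ a g e).mpr ⟨c, h1, h2⟩
      refine ⟨⟨_, hd⟩, ?_, Subtype.ext (Units.ext ((key3 _ a g e).trans h3.symm))⟩
      have h4 := (key _ (le_CU hd)).mpr ⟨a, g, e⟩
      rw [← ψ_eq _ hd] at h4
      exact h4
  rw [inndiag_eq, splitClassCount_eq_index _ _ (κ_surjective hF (by omega)) _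
    (X n F q).inn_le_range_ψ (ψ_mem_inn_iff hF hn)]
  refine (congrArg Subgroup.index (Subgroup.map_map _ _ (δ n hF)).symm).trans ?_
  rw [h3, index_map_of_le]
  rintro _ ⟨u, rfl⟩
  have hu : u.1 ^ (q + 1) = 1 := u.2
  exact (hD _).mpr ⟨1, 1, u, by simp [SimM], by
    simpa [hq, pow_succ'] using congrArg Units.val hu, by simp⟩

theorem mem_U_iff (hq : ∀ a, τ a = a ^ q) (u : Fˣ) : u ∈ U F q ↔ (u : F) * τ u = 1 := by
  rw [hq, ← pow_succ', ← Units.val_pow_eq_pow_val, Units.val_eq_one]; rfl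

theorem exists_U (hτ : orderOf τ = 2) (hq : ∀ a, τ a = a ^ q) (hf : ∀ x, τ x = x ↔ x ∈ f.range)
    {a : Fˣ} {c : F₀ˣ} (h : (a : F) * τ a * f c = 1) : ∃ u : U F q, (u.1 : F) = a ^ 2 * f c :=
  ⟨⟨a ^ 2 * Units.map (f : F₀ →* F) c, (mem_U_iff hq _).mpr (by
    have : τ (f c) = f c := (hf _).mpr ⟨_, rfl⟩
    simp only [Units.val_mul, Units.val_pow_eq_pow_val, Units.coe_map, MonoidHom.coe_coe, map_mul,
      map_pow, this]
    linear_combination (a * τ a * f c + 1) * h)⟩, by simp⟩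

theorem exists_ac (hτ : orderOf τ = 2) (hq : ∀ a, τ a = a ^ q) (hf : ∀ x, τ x = x ↔ x ∈ f.range)
    (u : U F q) : ∃ (a : Fˣ) (c : F₀ˣ), (a : F) * τ a * f c = 1 ∧ (u.1 : F) = a ^ 2 * f c := by
  obtain ⟨a, ha, h⟩ := exists_map_eq_mul hτ ((mem_U_iff hq _).mp u.2)
  have ha' : τ a ≠ 0 := by simpa using ha
  obtain ⟨c, hc⟩ := (hf (a * τ a)⁻¹).mp (by simp [sq_of_orderOf_two hτ, mul_comm])
  have hc0 : c ≠ 0 := by rintro rfl; simp [ha] at hc
  refine ⟨Units.mk0 a ha, Units.mk0 c hc0, ?_, ?_⟩ <;> simp only [Units.val_mk0, hc]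
  · field_simp
  · field_simp
    exact h

theorem exists_sys (hF : Fintype.card F = q ^ 2) (F₀ : Type*) [Field F₀] [Fintype F₀]
    (hF₀ : Fintype.card F₀ = q) : ∃ (τ : F ≃+* F) (f : F₀ →+* F), orderOf τ = 2 ∧
      (∀ a, τ a = a ^ q) ∧ ∀ x, τ x = x ↔ x ∈ f.range := by
  obtain ⟨τ, h1, h2⟩ := exists_frob hF
  obtain ⟨f, hf⟩ := exists_ringHom_fixed τ h1 (by rw [Nat.card_eq_fintype_card, hF]) F₀ hF₀
  exact ⟨τ, f, h1, h2, hf⟩

end Cfsg.Agent.Lib.Aut.SU
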