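import Cfsg.Agent.Lib.Aut.Polar6

set_option autoImplicit false
set_option linter.unusedSectionVars false
set_option maxHeartbeats 400000

/-! Normal subgroups of order prime to `p` modulo the centre in linear and polar groups:
Iwasawa's argument. -/

namespace Cfsg.Agent.Lib.Aut

open Module Subgroup

/-- a `p'`-group modulo the centre -/
def PP (p : ℕ) {G : Type*} [Group G] (R : Subgroup G) : Prop :=
  ∃ N : ℕ, N.Coprime p ∧ ∀ g ∈ R, g ^ N ∈ center G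

section
variable {G : Type*} [Group G] {p r : ℕ}

theorem PP.mono {R R' : Subgroup G} (h : PP p R) (h' : R' ≤ R) : PP p R' :=
  h.imp fun _ h => ⟨h.1, fun g hg => h.2 g (h' hg)⟩

theorem PP.sup [Finite G] [Fact r.Prime] {M Q : Subgroup G} [M.Normal] (hM : PP p M)
    (hQ : IsPGroup r Q) (hrp : r.Coprime p) : PP p (M ⊔ Q) := by
  obtain ⟨N, h1, h2⟩ := hM
  obtain ⟨k, hk⟩ := hQ.exists_card_eq
  refine ⟨r ^ k * N, Nat.Coprime.mul_left (hrp.pow_left k) h1, fun g hg => ?_⟩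
  rw [pow_mul]
  apply h2
  rw [← SetLike.mem_coe, normal_mul] at hg
  obtain ⟨m, hm, x, hx, rfl⟩ := hg
  have : x ^ r ^ k = 1 := by
    simpa [hk] using congrArg Subtype.val (pow_card_eq_one' (x := (⟨x, hx⟩ : Q)))
  rw [← QuotientGroup.eq_one_iff, QuotientGroup.mk_pow, QuotientGroup.mk_mul,
    (QuotientGroup.eq_one_iff m).mpr hm, one_mul, ← QuotientGroup.mk_pow, this, QuotientGroup.mk_one]

theorem PP.mem_center {R : Subgroup G} (h : PP p R) {g : G} (hg : g ∈ R) {k : ℕ}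
    (hk : g ^ p ^ k ∈ center G) : g ∈ center G := by
  obtain ⟨N, h1, h2⟩ := h
  rw [← QuotientGroup.eq_one_iff, ← orderOf_eq_one_iff]
  refine Nat.eq_one_of_dvd_coprimes (h1.pow_right k) (orderOf_dvd_of_pow_eq_one ?_)
    (orderOf_dvd_of_pow_eq_one ?_) <;>
    rw [← QuotientGroup.mk_pow, QuotientGroup.eq_one_iff]
  exacts [h2 g hg, hk]

end

namespace LinGrp

variable {F V G : Type*} [Field F] [AddCommGroup V] [Module F V] [Group G] (L : LinGrp F V G)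
  {p r : ℕ} {R : Subgroup G}

theorem not_torus [Fact p.Prime] (h : PP p R) {g : G} (hg : g ∈ R) {e f : V} (he : e ≠ 0)
    (hf : f ≠ 0) {a b : F} (h1 : L.ρ g e = a • e) (h2 : L.ρ g f = b • f)
    (ho : orderOf (a / b) = p) : False := by
  obtain ⟨N, hN, h3⟩ := h
  obtain ⟨c, hc⟩ := L.center_scalar _ (h3 g hg)
  have k : ∀ {v : V} {a : F}, v ≠ 0 → L.ρ g v = a • v → a ^ N = c := fun {v a} hv h => by
    refine smul_left_injective F hv (Eq.trans ?_ (hc v))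
    clear hc hN h3
    induction N with
    | zero => simp
    | succ n ih =>
      simp only at ih ⊢
      rw [pow_succ g, L.mul_apply, h, map_smul, ← ih, smul_smul, pow_succ']
  have hb : b ≠ 0 := by
    rintro rfl
    exact L.apply_ne_zero g hf (by simpa using h2)
  have := orderOf_dvd_of_pow_eq_one (x := a / b) (n := N) (by
    rw [div_pow, k he h1, ← k hf h2, div_self (pow_ne_zero _ hb)])
  rw [ho] at this
  exact (Fact.out : p.Prime).one_lt.ne' (Nat.eq_one_of_self_dvd_coprime' this hN)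
where Nat.eq_one_of_self_dvd_coprime' {a b : ℕ} (h : a ∣ b) (h' : b.Coprime a) : a = 1 :=
  Nat.eq_one_of_dvd_coprimes h' h dvd_rfl

theorem not_swap (h : PP 2 R) {g : G} (hg : g ∈ R) {e f : V} (hef : ∀ c : F, f ≠ c • e)
    (he : e ≠ 0) {a b : F} (h1 : L.ρ g e = a • f) (h2 : L.ρ g f = b • e) : False := by
  obtain ⟨N, hN, h3⟩ := h
  obtain ⟨c, hc⟩ := L.center_scalar _ (h3 g hg)
  obtain ⟨k, rfl⟩ := Nat.coprime_two_right.mp hN
  have k1 : ∀ k : ℕ, ∃ d : F, L.ρ (g ^ (2 * k + 1)) e = d • f := fun k => by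
    induction k with
    | zero => exact ⟨a, by simpa using h1⟩
    | succ n ih =>
      obtain ⟨d, hd⟩ := ih
      exact ⟨d * b * a, by
        rw [show 2 * (n + 1) + 1 = 2 * n + 1 + 1 + 1 by ring, pow_succ', pow_succ', L.mul_apply,
          L.mul_apply, hd, map_smul, h2, map_smul, map_smul, h1, smul_smul, smul_smul]⟩
  obtain ⟨d, hd⟩ := k1 k
  have hd0 : d ≠ 0 := by
    rintro rfl
    exact L.apply_ne_zero _ he (hd.trans (zero_smul _ _))
  exact hef (d⁻¹ * c) (by rw [mul_smul, ← hc, hd, inv_smul_smul₀ hd0])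

open Pointwise in
/-- a `p`-group fixes a point in an orbit of a group which is `p'` modulo the centre -/
theorem exists_eigen [Finite G] [Fact p.Prime] (h : PP p R) {A : Subgroup G} (hA : IsPGroup p A)
    (Y : Set V) {y₀ : V} (h0 : y₀ ∈ Y) (hAY : ∀ a ∈ A, ∀ y ∈ Y, L.ρ a y ∈ Y)
    (hRY : ∀ g ∈ R, ∀ y ∈ Y, L.ρ g y ∈ Y)
    (ht : ∀ y ∈ Y, ∃ g ∈ R, ∃ c : F, c ≠ 0 ∧ L.ρ g y₀ = c • y) :
    ∃ y ∈ Y, ∀ a ∈ A, ∃ c : F, L.ρ a y = c • y := by
  let : MulAction G (Submodule F V) := MulAction.compHom _ L.ρ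
  have hs : ∀ (g : G) (y : V), g • (F ∙ y) = F ∙ L.ρ g y := fun g y => by
    show Submodule.map (L.ρ g) _ = _
    rw [Submodule.map_span, Set.image_singleton]
  have hO : ∀ U, U ∈ MulAction.orbit R (F ∙ y₀) ↔ ∃ y ∈ Y, U = F ∙ y := fun U => by
    constructor
    · rintro ⟨g, rfl⟩
      exact ⟨_, hRY g g.2 _ h0, hs _ _⟩
    · rintro ⟨y, hy, rfl⟩
      obtain ⟨g, hg, c, hc, h1⟩ := ht y hy
      exact ⟨⟨g, hg⟩, (hs _ _).trans (by rw [h1, Submodule.span_singleton_smul_eq hc.isUnit])⟩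
  let Ω : SubMulAction A (Submodule F V) :=
    { carrier := MulAction.orbit R (F ∙ y₀)
      smul_mem' := fun a U hU => by
        obtain ⟨y, hy, rfl⟩ := (hO U).mp hU
        exact (hO _).mpr ⟨_, hAY a a.2 _ hy, hs _ _⟩ }
  have hc : ¬ p ∣ Nat.card Ω := by
    show ¬ p ∣ Nat.card (MulAction.orbit R (F ∙ y₀))
    rw [Nat.card_congr (MulAction.orbitEquivQuotientStabilizer R _), ← index_eq_card]
    obtain ⟨S⟩ : Nonempty (Sylow p R) := inferInstance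
    refine fun hd => S.not_dvd_index (hd.trans (index_dvd_of_le fun s hs' => ?_))
    obtain ⟨k, hk⟩ := PElt.of_mem S.isPGroup' hs'
    obtain ⟨c, hc⟩ := L.center_scalar _ (h.mem_center s.2 (k := k) (by
      rw [← Subgroup.coe_pow, hk]; exact one_mem _))
    refine (hs _ _).trans ?_
    by_cases hy : y₀ = 0
    · simp [hy]
    rw [hc, Submodule.span_singleton_smul_eq (IsUnit.mk0 _ (by
      rintro rfl
      exact L.apply_ne_zero _ hy ((hc y₀).trans (zero_smul _ _))))]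
  have : Finite Ω := Nat.finite_of_card_ne_zero fun h0 => hc (h0 ▸ dvd_zero p)
  obtain ⟨⟨U, hU⟩, hf⟩ := hA.nonempty_fixed_point_of_prime_not_dvd_card Ω hc
  obtain ⟨y, hy, rfl⟩ := (hO U).mp hU
  refine ⟨y, hy, fun a ha => ?_⟩
  have h1 : (F ∙ L.ρ a y) = F ∙ y := (hs _ _).symm.trans (congrArg Subtype.val (hf ⟨a, ha⟩))
  obtain ⟨c, hc⟩ := Submodule.mem_span_singleton.mp (h1 ▸ Submodule.mem_span_singleton_self _)
  exact ⟨c, hc.symm⟩

theorem eigen_of_pow {s : G} (hs : s ^ p = 1) (hp : ∀ c : F, c ^ p = 1 → c = 1) {y : V} {c : F}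
    (h : L.ρ s y = c • y) : L.ρ s y = y := by
  by_cases hy : y = 0
  · simp [hy]
  have k : ∀ n : ℕ, L.ρ (s ^ n) y = c ^ n • y := fun n => by
    induction n with
    | zero => simp
    | succ n ih => rw [pow_succ, L.mul_apply, h, map_smul, ih, smul_smul, pow_succ']
  have := k p
  rw [hs, L.one_apply] at this
  rw [h, hp c (smul_left_injective F hy (this.symm.trans (one_smul _ _).symm)), one_smul]

theorem sum_fixed {s : G} (hs : s ^ p = 1) (x : V) :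
    L.ρ s (∑ i ∈ Finset.range p, L.ρ (s ^ i) x) = ∑ i ∈ Finset.range p, L.ρ (s ^ i) x := by
  have := Finset.sum_range_succ (fun i => L.ρ (s ^ i) x) p
  rw [Finset.sum_range_succ', hs, pow_zero, add_left_inj] at this
  conv_rhs => rw [← this]
  simp only [map_sum, pow_succ', L.mul_apply]

/-! linear groups containing all transvections -/

theorem exists_dual_zero_one_ne {e x y : V} (hx : ∀ c : F, x ≠ c • e) (hy : ∀ c : F, y ≠ c • e) :
    ∃ φ : Dual F V, φ e = 0 ∧ φ x = 1 ∧ φ y ≠ 0 := by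
  obtain ⟨φ, h1, h2⟩ := exists_dual_zero_one hx
  obtain ⟨ψ, h3, h4⟩ := exists_dual_zero_one hy
  by_cases h5 : φ y = 0
  · by_cases h6 : ψ x = 0
    · exact ⟨φ + ψ, by simp [h1, h3], by simp [h2, h6], by simp [h4, h5]⟩
    · exact ⟨(ψ x)⁻¹ • ψ, by simp [h3], by simp [h6], by simp [h4, h6]⟩
  · exact ⟨φ, h1, h2, h5⟩

theorem HasTv.exists_map (hT : L.HasTv) {e x y : V} (hx : ∀ c : F, x ≠ c • e)
    (hy : ∀ c : F, y ≠ c • e) : ∃ t φ, ∃ c : F, c ≠ 0 ∧ L.IsTv t φ (c • y - x) ∧ L.ρ t e = e ∧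
      L.ρ t x = c • y := by
  obtain ⟨φ, h1, h2, h3⟩ := exists_dual_zero_one_ne hx hy
  obtain ⟨t, ht⟩ := hT φ ((φ y)⁻¹ • y - x) (by simp [h2, h3])
  exact ⟨t, φ, _, inv_ne_zero h3, ht, by simp [ht.2, h1], by simp [ht.2, h2]⟩

theorem HasTv.exists_R [Finite G] [Fact r.Prime] [CharP F r] (hT : L.HasTv) (hrp : r.Coprime p)
    {M : Subgroup G} [hM : M.Normal] (h : PP p M) (hm : ¬ M ≤ center G) :
    ∃ R, PP p R ∧ ∀ v, L.Qv v ≤ R := by
  obtain ⟨m, hm, hm'⟩ := SetLike.not_le_iff_exists.mp hm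
  obtain ⟨e, he⟩ : ∃ e, LinearIndependent F ![e, L.ρ m e] := by
    by_contra hc
    push Not at hc
    obtain ⟨c, hc⟩ := LinearMap.exists_eq_smul_id_of_forall_notLinearIndependent hc
    exact hm' (L.mem_center_of_scalar (c := c) fun v => by simp [hc])
  have h1 : ∀ c : F, L.ρ m e ≠ c • e := fun c hc => by
    simpa using (LinearIndependent.pair_iff.mp he c (-1) (by simp [hc])).2
  refine ⟨M ⊔ L.Qv e, h.sup (L.isPGroup_Qv e) hrp, ?_⟩
  rintro v g ⟨φ, hφ⟩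
  by_cases hv : ∃ c : F, v = c • e
  · obtain ⟨c, rfl⟩ := hv
    exact mem_sup_right hφ.mem_Qv_smul
  push Not at hv
  obtain ⟨t, -, c, hc, -, h2, h3⟩ := HasTv.exists_map L hT h1 hv
  have h4 : L.ρ (t * m * t⁻¹)⁻¹ v = c⁻¹ • e := by
    apply L.apply_injective (t * m * t⁻¹)
    rw [L.apply_inv_apply, map_smul, ← h2, L.mul_apply, L.inv_apply_apply, L.mul_apply, h3,
      inv_smul_smul₀ hc]
  have h5 := hφ.conj (t * m * t⁻¹)⁻¹
  rw [h4] at h5
  have h6 : t * m * t⁻¹ ∈ M ⊔ L.Qv e := mem_sup_left (hM.conj_mem m hm t)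
  simpa [mul_assoc] using mul_mem (mul_mem h6 (mem_sup_right h5.mem_Qv_smul)) (inv_mem h6)

theorem HasTv.exists_swap (hT : L.HasTv) (hR : ∀ v, L.Qv v ≤ R) {e f : V}
    (hf : ∀ c : F, f ≠ c • e) (he : e ≠ 0) {k : F} (hk : k ≠ 0) :
    ∃ n ∈ R, L.ρ n e = (-k⁻¹) • f ∧ L.ρ n f = k • e := by
  obtain ⟨φ, h1, h2⟩ := exists_dual_zero_one hf
  obtain ⟨ψ, h3, h4⟩ := exists_dual_zero_one (F := F) (v := f) (u := e) fun c hc => by
    obtain ⟨d, hd⟩ := swap_smul hc he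
    exact hf d hd
  obtain ⟨a, ha⟩ := hT (k • φ) e (by simp [h1])
  obtain ⟨b, hb⟩ := hT (-k⁻¹ • ψ) f (by simp [h3])
  refine ⟨a * b * a, mul_mem (mul_mem (hR e ⟨_, ha⟩) (hR f ⟨_, hb⟩)) (hR e ⟨_, ha⟩), ?_, ?_⟩ <;>
    simp only [L.mul_apply, ha.2, hb.2, map_add, map_smul, LinearMap.smul_apply, h1, h2, h3, h4,
      smul_eq_mul] <;> match_scalars <;> field_simp <;> ring

theorem HasTv.not_dvd [Fact p.Prime] (hT : L.HasTv) (h : PP p R) (hR : ∀ v, L.Qv v ≤ R) {e f : V}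
    (hf : ∀ c : F, f ≠ c • e) (he : e ≠ 0) {l : F} (hl : orderOf l = p) : False := by
  obtain ⟨n, hn, h1, h2⟩ := HasTv.exists_swap L hT hR hf he one_ne_zero
  by_cases hp : p = 2
  · subst hp
    exact L.not_swap h hn hf he h1 h2
  have hl0 : l ≠ 0 := by
    rintro rfl
    have := pow_orderOf_eq_one (0 : F)
    rw [hl, zero_pow (Fact.out : p.Prime).ne_zero] at this
    exact zero_ne_one this
  obtain ⟨n', hn', h3, h4⟩ := HasTv.exists_swap L hT hR hf he hl0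
  refine L.not_torus h (mul_mem hn' hn) he (f := f) (fun h => hf 0 (by simp [h])) (a := -l)
    (b := -l⁻¹) (by simp [L.mul_apply, h1, h4]) (by simp [L.mul_apply, h2, h3]) ?_
  rw [neg_div_neg_eq, div_inv_eq_mul, ← pow_two, Nat.Coprime.orderOf_pow, hl]
  rw [hl]
  exact (Nat.coprime_primes Fact.out Nat.prime_two).mpr hp

theorem HasTv.eq_one [Finite G] [Fact p.Prime] (hT : L.HasTv) (h : PP p R) (hR : ∀ v, L.Qv v ≤ R)
    (hp0 : (p : F) ≠ 0) (hp : ∀ c : F, c ^ p = 1 → c = 1) {s : G} (hs : s ^ p = 1) : s = 1 := by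
  by_contra h1
  obtain ⟨x, hx⟩ : ∃ x, L.ρ s x ≠ x := by
    by_contra hc
    push Not at hc
    exact h1 (L.ext fun v => by simp [hc])
  let W : Submodule F V := LinearMap.ker (∑ i ∈ Finset.range p, L.ρ (s ^ i))
  have hW : ∀ y, y ∈ W ↔ ∑ i ∈ Finset.range p, L.ρ (s ^ i) y = 0 := fun y => by
    simp [W]
  have hc : ∀ (i : ℕ) y, L.ρ (s ^ i) (L.ρ s y) = L.ρ s (L.ρ (s ^ i) y) := fun i y => by
    rw [← L.mul_apply, ← L.mul_apply, ← pow_succ, pow_succ']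
  let St : Subgroup G :=
    { carrier := {g | ∀ y, L.ρ g y ∈ W ↔ y ∈ W}
      mul_mem' := fun ha hb y => by rw [L.mul_apply, ha, hb]
      one_mem' := fun y => by simp
      inv_mem' := fun {a} ha y => by rw [← ha, L.apply_inv_apply] }
  have hsS : s ∈ St := fun y => by
    rw [hW, hW]
    simp only [hc, ← map_sum, L.sum_fixed hs]
  have hxW : L.ρ s x - x ∈ W := (hW _).mpr (by
    simp only [map_sub, Finset.sum_sub_distrib, hc, ← map_sum, L.sum_fixed hs, sub_self])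
  obtain ⟨y, ⟨hy, hy0⟩, hy'⟩ := L.exists_eigen (h.mono (inf_le_left (b := St)))
    (PElt.isPGroup_zpowers (g := s) ⟨1, by rwa [pow_one]⟩) {y | y ∈ W ∧ y ≠ 0}
    (y₀ := L.ρ s x - x) ⟨hxW, sub_ne_zero.mpr hx⟩
    (fun a ha y hy => ⟨(zpowers_le.mpr hsS ha y).mpr hy.1, L.apply_ne_zero _ hy.2⟩)
    (fun a ha y hy => ⟨(ha.2 y).mpr hy.1, L.apply_ne_zero _ hy.2⟩) (fun y hy => by
      obtain ⟨t, φ, c, hc0, ht, -, h3⟩ := HasTv.exists_map L hT (e := 0) (x := L.ρ s x - x) (y := y)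
        (by simpa [sub_eq_zero] using hx) (by simpa using hy.2)
      refine ⟨t, ⟨hR _ ⟨_, ht⟩, fun z => ?_⟩, c, hc0, h3⟩
      rw [ht.2]
      exact W.add_mem_iff_left (W.smul_mem _ (W.sub_mem (W.smul_mem _ hy.1) hxW)))
  obtain ⟨c, hc'⟩ := hy' s (mem_zpowers s)
  have h2 := L.eigen_of_pow hs hp hc'
  have h3 : ∀ i : ℕ, L.ρ (s ^ i) y = y := fun i => by
    induction i with
    | zero => simp
    | succ n ih => rw [pow_succ, L.mul_apply, h2, ih]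
  rw [hW] at hy
  simp only [h3, Finset.sum_const, Finset.card_range] at hy
  rw [← Nat.cast_smul_eq_nsmul F, smul_eq_zero] at hy
  tauto

end LinGrp

namespace PolGrp

variable {F V G : Type*} [Field F] [AddCommGroup V] [Module F V] [Group G] {σ : F →+* F} {ε : F}
  {P : PolGrp F V G σ ε} {p r : ℕ} {R : Subgroup G}

theorem Big.exists_moved (hB : P.Big) {m : G} (hm : m ∉ center G) :
    ∃ e, P.S e ∧ e ≠ 0 ∧ ∀ c : F, P.ρ m e ≠ c • e := by
  by_contra hc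
  push Not at hc
  obtain ⟨⟨e, he, he0⟩, hW⟩ := hB
  have key : ∀ {e f : V}, P.Hyp e f → ∀ b : F, P.ρ m f = b • f → ∀ w ∈ P.W e f,
      P.ρ m w = b • w := by
    intro e f H b hb w hw
    obtain ⟨a, ha⟩ := hc e H.se H.e_ne
    obtain ⟨c, h1⟩ := P.S_adj H.se (t := f + w) (by simp [H.fe, hw.1])
    obtain ⟨d, hd⟩ := hc _ h1 (P.ne_zero_left (v := e) (by simp [H.fe, hw.1, H.ee]))
    have h0 : ∀ {x : V} {a : F}, x ≠ 0 → P.ρ m x = a • x → a ≠ 0 := by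
      rintro x _ hx h rfl
      exact P.apply_ne_zero m hx (by simpa using h)
    have := H.coeff (mem_W_of_eigen hw ha hb (h0 H.e_ne ha) (h0 H.f_ne hb))
      (Submodule.smul_mem _ d hw) (b := b) (b' := d) (a := c * a) (a' := d * c) (by
        simpa only [map_add, map_smul, ha, hb, smul_add, smul_smul] using hd)
    rw [this.2.1, this.1]
  obtain ⟨f, H⟩ := exists_hyp he he0
  obtain ⟨a, ha⟩ := hc e he he0
  obtain ⟨b, hb⟩ := hc f H.sf H.f_ne
  obtain ⟨w, hw, hw0⟩ := hW e f H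
  have h1 := key H.swap a (by rw [map_smul, ha, smul_comm]) w ⟨hw.2, by simp [hw.1]⟩
  rw [key H b hb w hw] at h1
  obtain rfl : b = a := smul_left_injective F hw0 h1
  refine hm (P.mem_center_of_scalar (c := b) fun x => ?_)
  obtain ⟨w, hw, c, hc⟩ := H.exists_decomp x
  rw [hc, map_add, map_add, map_smul, map_smul, ha, hb, key H b hb w hw]
  module

/-- the condition which makes the action on points primitive -/
def Prim (P : PolGrp F V G σ ε) : Prop := ∀ e x, P.S e → P.S x → P.β x e = 0 →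
  (∀ c : F, x ≠ c • e) → ∃ k, (∃ c : F, P.ρ k e = c • e) ∧ P.β (P.ρ k x) x ≠ 0

theorem exists_sing_perp {e x : V} (he : P.S e) (h : P.β x e = 0) (hx : P.S x)
    (hxe : ∀ c : F, x ≠ c • e) : ∃ z, P.S z ∧ P.β z e = 0 ∧ P.β z x = 1 := by
  obtain ⟨t, h1, h2⟩ := P.exists_perp1 hxe
  obtain ⟨c, h3, h4⟩ := P.adj hx h2
  exact ⟨_, h3, by simp [h1, h], h4⟩

theorem HasT.prim (hT : P.HasT) : P.Prim := fun e x he hx h hxe => by
  obtain ⟨z, h1, h2, h3⟩ := exists_sing_perp he h hx hxe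
  obtain ⟨t, ht, c, hc, h4⟩ := hT.exists_T h1 (P.ne_zero_left (h3 ▸ one_ne_zero))
  exact ⟨t, ⟨1, by simp [h4, P.perp_symm h2]⟩, by
    simp [h4, h3, P.S_self hx, P.eps h3, P.ε_ne, hc]⟩

theorem Big.exists_R [Finite G] [Fact r.Prime] [CharP F r] (hB : P.Big) (hP : P.Prim)
    (hrp : r.Coprime p) {M : Subgroup G} [hM : M.Normal] (h : PP p M) (hm : ¬ M ≤ center G) :
    ∃ R, PP p R ∧ ∀ v, P.S v → v ≠ 0 → P.Q v ≤ R := by
  obtain ⟨m, hm, hm'⟩ := SetLike.not_le_iff_exists.mp hm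
  let r : V → V → Prop := fun x y => ∃ m ∈ M, ∃ c : F, c ≠ 0 ∧ P.ρ m x = c • y
  have rsymm : ∀ {x y}, r x y → r y x := by
    rintro x y ⟨m, hm, c, hc, h⟩
    exact ⟨m⁻¹, inv_mem hm, c⁻¹, inv_ne_zero hc, by
      rw [← P.inv_apply_apply m x, h, map_smul, inv_smul_smul₀ hc]⟩
  have rtrans : ∀ {x y z}, r x y → r y z → r x z := by
    rintro x y z ⟨m, hm, c, hc, h⟩ ⟨m', hm', c', hc', h'⟩
    exact ⟨m' * m, mul_mem hm' hm, c * c', mul_ne_zero hc hc', by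
      rw [P.mul_apply, h, map_smul, h', smul_smul]⟩
  have rconj : ∀ {x y} (k : G) {c : F}, P.ρ k x = c • x → x ≠ 0 → r x y → r x (P.ρ k y) := by
    rintro x y k c hk hx ⟨m, hm, d, hd, h⟩
    have hc : c ≠ 0 := by
      rintro rfl
      exact P.apply_ne_zero k hx (by simpa using hk)
    refine ⟨k * m * k⁻¹, hM.conj_mem m hm k, c⁻¹ * d, mul_ne_zero (inv_ne_zero hc) hd, ?_⟩
    rw [← inv_smul_smul₀ hc x, ← hk, map_smul, P.mul_apply, P.inv_apply_apply, P.mul_apply, h,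
      map_smul, smul_smul]
  have ropp : ∀ {e x y}, P.S e → P.S x → P.S y → r e x → P.β x e ≠ 0 → P.β y e ≠ 0 → r e y := by
    intro e x y he hx hy h h1 h2
    obtain ⟨g, hg, hg'⟩ := P.hasQ he (P.S_smul (P.β x e)⁻¹ hx) (P.S_smul (P.β y e)⁻¹ hy)
      (by simp [h1]) (by simp [h2])
    refine rtrans (rconj g (c := 1) (by simp [hg.1]) (P.ne_zero_right h1) h)
      ⟨1, one_mem _, P.β x e * (P.β y e)⁻¹, mul_ne_zero h1 (inv_ne_zero h2), ?_⟩
    rw [P.one_apply, mul_smul, ← hg', map_smul, smul_inv_smul₀ h1]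
  obtain ⟨e, x, he, hx, hex, h1⟩ : ∃ e x, P.S e ∧ P.S x ∧ r e x ∧ P.β x e ≠ 0 := by
    obtain ⟨e, he, he0, h1⟩ := hB.exists_moved hm'
    have h2 : r e (P.ρ m e) := ⟨m, hm, 1, one_ne_zero, by simp⟩
    by_cases h3 : P.β (P.ρ m e) e = 0
    · obtain ⟨k, ⟨c, hc⟩, hk⟩ := hP e _ he (P.sing m he) h3 h1
      exact ⟨_, _, P.sing m he, P.sing k (P.sing m he), rtrans (rsymm h2) (rconj k hc he0 h2), hk⟩
    · exact ⟨e, _, he, P.sing m he, h2, h3⟩
  have he0 := P.ne_zero_right h1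
  have hall : ∀ y, P.S y → y ≠ 0 → r e y := fun y hy hy0 => by
    by_cases h2 : P.β y e = 0
    swap
    · exact ropp he hx hy hex h1 h2
    by_cases h3 : ∃ c : F, y = c • e
    · obtain ⟨c, rfl⟩ := h3
      have hc : c ≠ 0 := by rintro rfl; simp at hy0
      exact ⟨1, one_mem _, c⁻¹, inv_ne_zero hc, by simp [hc]⟩
    push Not at h3
    obtain ⟨t, h4, h5⟩ := P.exists_perp1 h3
    obtain ⟨f, -, hf⟩ := P.exists_partner he he0
    obtain ⟨c, h6, h7⟩ := P.adj he (t := f + (1 - P.β f y) • t) (by simp [hf, h4])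
    have h8 : P.β (f + (1 - P.β f y) • t + c • e) y = 1 := by simp [h5, P.perp_symm h2]
    have h9 := ropp he hx h6 hex h1 (h7.trans_ne one_ne_zero)
    exact rtrans h9 (ropp h6 he hy (rsymm h9) ((P.eps h7).trans_ne P.ε_ne)
      ((P.eps h8).trans_ne P.ε_ne))
  refine ⟨M ⊔ P.Q e, h.sup (isPGroup_Q e) hrp, fun v hv hv0 g hg => ?_⟩
  obtain ⟨k, hk, c, hc, h2⟩ := rsymm (hall v hv hv0)
  have h5 := conj_mem_Q hg k
  rw [h2, Q_smul _ hc] at h5
  have h6 : k ∈ M ⊔ P.Q e := mem_sup_left hk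
  simpa [mul_assoc] using mul_mem (mul_mem (inv_mem h6) (mem_sup_right h5)) h6

theorem Hyp.exists_swap (hR : ∀ v, P.S v → v ≠ 0 → P.Q v ≤ R) {e f w : V} (H : P.Hyp e f)
    (hw : w ∈ P.W e f) {k : F} (hk : k ≠ 0) (hS : P.S (f + w + k • e)) :
    ∃ n ∈ R, P.ρ n e = (ε / σ k) • f ∧ P.ρ n f = k • e := by
  have hε := P.ε_ne
  have hk' : σ k ≠ 0 := by simpa using hk
  obtain ⟨a, ha, h1⟩ := H.exists_Q' hw hS
  obtain ⟨b, hb, h2⟩ := P.hasQ H.sf (P.S_smul (k * ε)⁻¹ hS) H.swap.sf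
    (by simp [H.ff, hw.2, H.ef]; field_simp) H.swap.fe
  have h3 : P.ρ b (P.ρ a f) = k • e := by
    rw [h1, ← smul_inv_smul₀ (mul_ne_zero hk hε) (f + w + k • e), map_smul, h2, smul_smul,
      mul_inv_cancel_right₀ hε]
  have h4 : σ k * P.β (P.ρ b e) e = ε := by
    have := P.iso b e (P.ρ a f)
    rwa [h3, map_smulₛₗ, ← ha.1, P.iso, H.ef, ha.1] at this
  obtain ⟨c, hc, h5⟩ := P.hasQ H.se (P.S_smul (σ k / ε) (P.sing b H.se)) H.sf
    (by simp only [map_smul, LinearMap.smul_apply, smul_eq_mul]; field_simp; exact h4) H.fe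
  refine ⟨c * b * a, mul_mem (mul_mem (hR e H.se H.e_ne hc) (hR f H.sf H.f_ne hb))
    (hR e H.se H.e_ne ha), ?_, ?_⟩
  · rw [P.mul_apply, P.mul_apply, ha.1, ← h5, map_smul, smul_smul]
    field_simp; simp
  · rw [P.mul_apply, P.mul_apply, h3, map_smul, hc.1]

theorem Hyp.not_two (h : PP 2 R) (hR : ∀ v, P.S v → v ≠ 0 → P.Q v ≤ R) {e f w : V}
    (H : P.Hyp e f) (hw : w ∈ P.W e f) {k : F} (hk : k ≠ 0) (hS : P.S (f + w + k • e)) :
    False := by
  obtain ⟨n, hn, h1, h2⟩ := H.exists_swap hR hw hk hS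
  refine P.not_swap h hn (fun c hc => ?_) H.e_ne h1 h2
  simpa [hc, H.ee] using H.fe

theorem HasT.not_dvd [Fact p.Prime] (hT : P.HasT) (hS : ∀ x, P.β x x = 0 → P.S x) (h : PP p R)
    (hR : ∀ v, P.S v → v ≠ 0 → P.Q v ≤ R) {e f : V} (H : P.Hyp e f) {l : F} (hl : orderOf l = p)
    (hl' : σ l = l) : False := by
  obtain ⟨k, hk, h1⟩ := hT e f H
  by_cases hp : p = 2
  · subst hp
    exact H.not_two h hR (zero_mem _) hk (by simpa using h1)
  have hl0 : l ≠ 0 := by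
    rintro rfl
    have := pow_orderOf_eq_one (0 : F)
    rw [hl, zero_pow (Fact.out : p.Prime).ne_zero] at this
    exact zero_ne_one this
  have hk' : σ k ≠ 0 := by simpa using hk
  have hε := P.ε_ne
  obtain ⟨n, hn, h2, h3⟩ := H.exists_swap hR (zero_mem _) hk (by simpa using h1)
  obtain ⟨n', hn', h4, h5⟩ := H.exists_swap hR (zero_mem _) (mul_ne_zero hl0 hk) (hS _ (by
    have := P.S_self h1
    simp only [map_add, map_smul, map_smulₛₗ, LinearMap.add_apply, LinearMap.smul_apply, H.ee,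
      H.ff, H.ef, H.fe, smul_eq_mul, add_zero, map_mul, hl'] at this ⊢
    linear_combination l * this))
  refine P.not_torus h (mul_mem hn' hn) H.e_ne H.f_ne (a := ε / σ k * (l * k))
    (b := k * (ε / σ (l * k))) (by rw [P.mul_apply, h2, map_smul, h5, smul_smul])
    (by rw [P.mul_apply, h3, map_smul, h4, smul_smul]) ?_
  rw [show ε / σ k * (l * k) / (k * (ε / σ (l * k))) = l ^ 2 by
    rw [map_mul, hl']; field_simp, Nat.Coprime.orderOf_pow, hl]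
  rw [hl]
  exact (Nat.coprime_primes Fact.out Nat.prime_two).mpr hp

theorem HasT.exists_map (hT : P.HasT) {x y : V} (hx : P.S x) (hy : P.S y) (h : P.β x y ≠ 0) :
    ∃ t, ∃ a c : F, c ≠ 0 ∧ P.S (x + a • y) ∧ x + a • y ≠ 0 ∧ t ∈ P.T (x + a • y) ∧
      P.ρ t x = c • y := by
  have H : P.Hyp ((σ (P.β x y))⁻¹ • y) x := ⟨P.S_smul _ hy, hx, by simp [P.σσ, h]⟩
  obtain ⟨k, hk, h1⟩ := hT _ _ H
  rw [smul_smul] at h1
  set a := k * (σ (P.β x y))⁻¹
  have ha : a ≠ 0 := mul_ne_zero hk (by simpa using h)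
  have h2 : P.β x (x + a • y) ≠ 0 := by simp [P.S_self hx, ha, h]
  have H' : P.Hyp (x + a • y) ((P.β x (x + a • y))⁻¹ • x) :=
    ⟨h1, P.S_smul _ hx, by rw [map_smul, LinearMap.smul_apply, smul_eq_mul, inv_mul_cancel₀ h2]⟩
  have h3 : (P.β x (x + a • y))⁻¹ • x + 0 + (-(P.β x (x + a • y))⁻¹) • (x + a • y) =
      (-(P.β x (x + a • y))⁻¹ * a) • y := by module
  obtain ⟨t, ht, h4⟩ := H'.exists_Q' (zero_mem _) (h3 ▸ P.S_smul _ hy)
  refine ⟨t, a, -a, neg_ne_zero.mpr ha, h1, H'.e_ne, (H'.mem_T_iff ht (zero_mem _) h4).mpr rfl, ?_⟩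
  rw [h3, map_smul, inv_smul_eq_iff₀ h2, smul_smul] at h4
  rw [h4]; congr 1; field_simp

theorem HasT.eq_one [Finite G] [Fact p.Prime] (hT : P.HasT)
    (h2 : ∀ x y : V, x ≠ 0 → (∀ c : F, y ≠ c • x) → ∃ a b : F, a • x + b • y ≠ 0 ∧
      P.S (a • x + b • y)) (h : PP p R) (hR : ∀ v, P.S v → v ≠ 0 → P.Q v ≤ R)
    (hp0 : (p : F) ≠ 0) (hp : ∀ c : F, c ^ p = 1 → c = 1) {s : G} (hs : s ^ p = 1) : s = 1 := by
  by_contra h1
  obtain ⟨x, hx⟩ : ∃ x, P.ρ s x ≠ x := by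
    by_contra hc
    push Not at hc
    exact h1 (P.ext fun v => by simp [hc])
  let W : Submodule F V :=
    { carrier := {y | ∀ z, P.ρ s z = z → P.β y z = 0}
      add_mem' := fun ha hb z hz => by simp [ha z hz, hb z hz]
      zero_mem' := fun z hz => by simp
      smul_mem' := fun c y ha z hz => by simp [ha z hz] }
  have hfix : ∀ z, P.ρ s z = z → ∀ g ∈ zpowers s, P.ρ g z = z := fun z hz g hg =>
    (zpowers_le (H := MulAction.stabilizer _ z |>.comap P.ρ.toHomUnits)).mpr hz hg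
  have hsum : ∀ t z, P.ρ s z = z → P.β (∑ i ∈ Finset.range p, P.ρ (s ^ i) t) z = p * P.β t z :=
    fun t z hz => by
      have : ∀ i : ℕ, P.β (P.ρ (s ^ i) t) z = P.β t z := fun i => by
        rw [P.iso_left, hfix z hz _ (inv_mem (pow_mem (mem_zpowers s) i))]
      simp only [map_sum, LinearMap.sum_apply, this]
      simp
  have hnd : ∀ y ∈ W, y ≠ 0 → ∃ t ∈ W, P.β t y = 1 := fun y hy hy0 => by
    obtain ⟨t, ht⟩ := P.exists_one hy0
    refine ⟨t - (p : F)⁻¹ • ∑ i ∈ Finset.range p, P.ρ (s ^ i) t, fun z hz => ?_, ?_⟩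
    · rw [map_sub, map_smul, LinearMap.sub_apply, LinearMap.smul_apply, hsum t z hz, smul_eq_mul,
        inv_mul_cancel_left₀ hp0, sub_self]
    · rw [map_sub, map_smul, LinearMap.sub_apply, LinearMap.smul_apply, ht,
        P.perp_symm (hy _ (P.sum_fixed hs t)), smul_zero, sub_zero]
  have hne : ∀ y ∈ W, y ≠ 0 → ∀ c : F, P.ρ s y ≠ c • y := fun y hy hy0 c hc => by
    obtain ⟨t, ht, h3⟩ := hnd y hy hy0
    rw [ht y (P.eigen_of_pow hs hp hc)] at h3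
    exact zero_ne_one h3
  let St : Subgroup G := ⨅ z : {z // P.ρ s z = z}, (MulAction.stabilizer _ z.1).comap P.ρ.toHomUnits
  have hSt : ∀ g, g ∈ St ↔ ∀ z, P.ρ s z = z → P.ρ g z = z := fun g => by
    simp only [St, mem_iInf, Subtype.forall]; rfl
  have hW : ∀ g ∈ St, ∀ y ∈ W, P.ρ g y ∈ W := fun g hg y hy z hz => by
    rw [P.iso_left, (hSt _).mp (inv_mem hg) z hz, hy z hz]
  have hsS : zpowers s ≤ St := fun g hg => (hSt g).mpr fun z hz => hfix z hz g hg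
  have hxW : P.ρ s x - x ∈ W := fun z hz => by
    rw [map_sub, LinearMap.sub_apply, P.iso_left, hfix z hz _ (inv_mem (mem_zpowers s)), sub_self]
  obtain ⟨a, b, h3, h4⟩ := h2 _ _ (sub_ne_zero.mpr hx) (hne _ hxW (sub_ne_zero.mpr hx))
  have h5 := W.add_mem (W.smul_mem a hxW) (W.smul_mem b (hW s (hsS (mem_zpowers s)) _ hxW))
  generalize a • (P.ρ s x - x) + b • P.ρ s (P.ρ s x - x) = y₀ at h3 h4 h5
  have key : ∀ x ∈ W, ∀ y ∈ W, P.S x → P.S y → P.β x y ≠ 0 →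
      ∃ g ∈ R ⊓ St, ∃ c : F, c ≠ 0 ∧ P.ρ g x = c • y := fun x hx y hy h1 h2 h3 => by
    obtain ⟨t, a, c, hc, k1, k2, k3, k4⟩ := hT.exists_map h1 h2 h3
    exact ⟨t, ⟨hR _ k1 k2 (T_le_Q k1 k3), (hSt t).mpr fun z hz =>
      k3 z (P.perp_symm (W.add_mem hx (W.smul_mem a hy) z hz))⟩, c, hc, k4⟩
  obtain ⟨y, ⟨hy, hy0, -⟩, hy'⟩ := P.exists_eigen (h.mono (inf_le_left (b := St)))
    (PElt.isPGroup_zpowers (g := s) ⟨1, by rwa [pow_one]⟩) {y | y ∈ W ∧ y ≠ 0 ∧ P.S y}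
    (y₀ := y₀) ⟨h5, h3, h4⟩
    (fun a ha y hy => ⟨hW a (hsS ha) y hy.1, P.apply_ne_zero _ hy.2.1, P.sing _ hy.2.2⟩)
    (fun a ha y hy => ⟨hW a ha.2 y hy.1, P.apply_ne_zero _ hy.2.1, P.sing _ hy.2.2⟩)
    (fun y ⟨hy, hy0, hyS⟩ => by
      by_cases k1 : P.β y₀ y = 0
      swap
      · exact key _ h5 _ hy h4 hyS k1
      obtain ⟨t, ht, k2⟩ := hnd y hy hy0
      obtain ⟨t', ht', k3⟩ := hnd y₀ h5 h3
      obtain ⟨u, hu, k4, k5⟩ : ∃ u ∈ W, P.β u y₀ = 1 ∧ P.β u y ≠ 0 := by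
        by_cases k6 : P.β t' y = 0
        · by_cases k7 : P.β t y₀ = 0
          · exact ⟨t + t', W.add_mem ht ht', by simp [k3, k7], by simp [k2, k6]⟩
          · exact ⟨(P.β t y₀)⁻¹ • t, W.smul_mem _ ht, by simp [k7], by simp [k2, k7]⟩
        · exact ⟨t', ht', k3, k6⟩
      obtain ⟨c, k6, k7⟩ := P.adj h4 k4
      have k8 := W.add_mem hu (W.smul_mem c h5)
      obtain ⟨g, hg, d, hd, l1⟩ := key _ h5 _ k8 h4 k6 ((P.eps k7).trans_ne P.ε_ne)
      obtain ⟨g', hg', d', hd', l2⟩ := key _ k8 _ hy k6 hyS (by simpa [k1] using k5)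
      exact ⟨g' * g, mul_mem hg' hg, d * d', mul_ne_zero hd hd', by
        rw [P.mul_apply, l1, map_smul, l2, smul_smul]⟩)
  obtain ⟨c, hc'⟩ := hy' s (mem_zpowers s)
  exact hne y hy hy0 c hc'

theorem HasT.exists_eigen [Finite G] [Fact p.Prime] (hB : P.Big) (hT : P.HasT) (h : PP p R)
    (hR : ∀ v, P.S v → v ≠ 0 → P.Q v ≤ R) {A : Subgroup G} (hA : IsPGroup p A) :
    ∃ y, P.S y ∧ y ≠ 0 ∧ ∀ a ∈ A, ∃ c : F, P.ρ a y = c • y := by
  obtain ⟨e, he, he0⟩ := hB.1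
  have key : ∀ x y, P.S x → P.S y → P.β x y ≠ 0 → ∃ g ∈ R, ∃ c : F, c ≠ 0 ∧ P.ρ g x = c • y :=
    fun x y h1 h2 h3 => by
      obtain ⟨t, a, c, hc, k1, k2, k3, k4⟩ := hT.exists_map h1 h2 h3
      exact ⟨t, hR _ k1 k2 (T_le_Q k1 k3), c, hc, k4⟩
  obtain ⟨y, ⟨hy, hy0⟩, hy'⟩ := P.toLinGrp.exists_eigen h hA {y | P.S y ∧ y ≠ 0} (y₀ := e) ⟨he, he0⟩
    (fun a _ y hy => ⟨P.sing _ hy.1, P.apply_ne_zero _ hy.2⟩)
    (fun a _ y hy => ⟨P.sing _ hy.1, P.apply_ne_zero _ hy.2⟩) (fun y ⟨hy, hy0⟩ => by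
      by_cases h2 : P.β e y = 0
      swap
      · exact key _ _ he hy h2
      by_cases h3 : ∃ c : F, y = c • e
      · obtain ⟨c, rfl⟩ := h3
        have hc : c ≠ 0 := by rintro rfl; simp at hy0
        exact ⟨1, one_mem _, c⁻¹, inv_ne_zero hc, by simp [hc]⟩
      push Not at h3
      obtain ⟨t, h4, h5⟩ := P.exists_perp1 h3
      obtain ⟨f, -, hf⟩ := P.exists_partner he he0
      obtain ⟨c, h6, h7⟩ := P.adj he (t := f + (1 - P.β f y) • t) (by simp [hf, h4])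
      obtain ⟨g, hg, d, hd, l1⟩ := key _ _ he h6 ((P.eps h7).trans_ne P.ε_ne)
      obtain ⟨g', hg', d', hd', l2⟩ := key _ _ h6 hy (by simp [h5, h2])
      exact ⟨g' * g, mul_mem hg' hg, d * d', mul_ne_zero hd hd', by
        rw [P.mul_apply, l1, map_smul, l2, smul_smul]⟩)
  exact ⟨y, hy, hy0, hy'⟩

end PolGrp

end Cfsg.Agent.Lib.Aut
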