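import Cfsg.Agent.Lib.Aut.Iwasawa
import Cfsg.Agent.Lib.Aut.GraphPSU
import Cfsg.Agent.Lib.Core.Cores

set_option autoImplicit false
set_option linter.unusedSectionVars false
set_option maxHeartbeats 400000

/-! Local balance for automorphisms of classical groups: the abstract part. -/

namespace Cfsg.Agent.Lib.Aut

open Subgroup Cfsg.Agent.Lib.Core

/-- normal subgroups which are `p'` modulo the centre are central -/
def Simp (p : ℕ) (G : Type*) [Group G] : Prop :=
  ∀ M : Subgroup G, M.Normal → PP p M → M ≤ center G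

/-- no non-trivial `p'`-subgroup of `C(β)` is normalised by the inner automorphisms in `C(β)` -/
def LB (p : ℕ) {T : Type*} [Group T] (β : MulAut T) : Prop :=
  ∀ M : Subgroup (MulAut T), M ≤ centralizer {β} → ¬ p ∣ Nat.card M →
    Inn T ⊓ centralizer {β} ≤ normalizer (M : Set (MulAut T)) → M = ⊥

variable {p : ℕ} {T : Type*} [Group T]

theorem LB.conj {α β : MulAut T} (h : LB p (α * β * α⁻¹)) : LB p β := by
  intro M h1 h2 h3
  have hc : ∀ x, x ∈ centralizer {β} ↔ α * x * α⁻¹ ∈ centralizer {α * β * α⁻¹} := fun x => by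
    rw [mem_centralizer_singleton_iff, mem_centralizer_singleton_iff]
    constructor
    · intro h; calc _ = α * (x * β) * α⁻¹ := by group
        _ = _ := by rw [h]; group
    · intro h; calc _ = α⁻¹ * (α * x * α⁻¹ * (α * β * α⁻¹)) * α := by group
        _ = _ := by rw [h]; group
  have := h (M.map (MulAut.conj α).toMonoidHom) (by
    rintro _ ⟨x, hx, rfl⟩; exact (hc x).mp (h1 hx))
    (by rwa [card_map_of_injective (MulAut.conj α).injective]) (fun k hk => by
      have hk' : α⁻¹ * k * α ∈ normalizer (M : Set (MulAut T)) :=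
        h3 ⟨by simpa using PSL.inn_normal.conj_mem k hk.1 α⁻¹, (hc _).mpr (by
          simpa [mul_assoc] using hk.2)⟩
      rw [mem_normalizer_iff] at hk' ⊢
      intro x
      simp only [mem_map_equiv, MulAut.conj_symm_apply, hk' (α⁻¹ * x * α)]
      simp [mul_assoc])
  exact (map_eq_bot_iff_of_injective _ (MulAut.conj α).injective).mp this

theorem LB.of_isConjUnder {H : Subgroup (MulAut T)} {β γ : MulAut T} (h : LB p β)
    (hc : IsConjUnder H β γ) : LB p γ := by
  obtain ⟨k, -, rfl⟩ := hc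
  exact LB.conj (α := k⁻¹) (by simpa [mul_assoc] using h)

variable [Finite T] [Fact p.Prime]

theorem LB.core {β : MulAut T} (h : LB p β) {𝒢 : Subgroup (MulAut T)}
    (hinn : ∀ k, MulAut.conj k ∈ 𝒢) : pPrimeCore p ↥(𝒢 ⊓ centralizer {β}) = ⊥ :=
  (map_eq_bot_iff_of_injective _ (subtype_injective _)).mp
    (h (OppOf p _) ((OppOf_le _).trans inf_le_right) (OppOf_not_dvd _)
      (le_normalizer_OppOf ((inf_le_inf_right _ (by rintro _ ⟨k, rfl⟩; exact hinn k)).trans
        le_normalizer)))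

theorem eq_one_of_pelt {X : Type*} [Group X] {M : Subgroup X} (h : ¬ p ∣ Nat.card M) {y : X}
    (hy : y ∈ M) (hp : PElt p y) : y = 1 := by
  obtain ⟨k, hk⟩ := hp
  rw [← orderOf_eq_one_iff]
  exact Nat.eq_one_of_dvd_coprimes
    (((Nat.Prime.coprime_iff_not_dvd Fact.out).mpr h).pow_left k) (orderOf_dvd_of_pow_eq_one hk)
    (orderOf_dvd_natCard M hy)

theorem LB.of {F V G : Type*} [Field F] [AddCommGroup V] [Module F V] [Group G] [Finite G]
    (L : LinGrp F V G) (r : ℕ) [Fact r.Prime] [CharP F r] {β : MulAut T} (ι : G →* MulAut T)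
    (h1 : ∀ g, ι g ∈ centralizer {β}) (h2 : ∀ g, ι g = 1 → g ∈ center G)
    (h3 : ∀ u, PElt r u → ι u ∈ Inn T)
    (h4 : ∀ n ∈ Inn T ⊓ centralizer {β}, ∀ g, ∃ g', ι g' = n * ι g * n⁻¹) (h5 : Simp p G)
    (h6 : ∀ y ∈ centralizer {β}, (∀ u, PElt r u → y * ι u = ι u * y) → PElt p y) : LB p β := by
  intro M k1 k2 k3
  have hn : centralizer {β} ≤ normalizer ((Inn T ⊓ centralizer {β} : Subgroup _) : Set (MulAut T)) :=
    le_trans (le_inf (by rw [normalizer_eq_top]; exact le_top) le_normalizer)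
      inf_normalizer_le_normalizer_inf
  set N := OppOf p (Inn T ⊓ centralizer {β}) with hN
  have hN1 : centralizer {β} ≤ normalizer (N : Set (MulAut T)) := le_normalizer_OppOf hn
  have hN2 := h5 (N.comap ι) ⟨fun x hx g => by
      rw [mem_comap, map_mul, map_mul, map_inv]
      exact (mem_normalizer_iff.mp (hN1 (h1 g)) _).mp hx⟩
    ⟨Nat.card N, ((Nat.Prime.coprime_iff_not_dvd Fact.out).mpr (OppOf_not_dvd _)).symm,
      fun g hg => h2 _ (by
        rw [map_pow]
        exact congrArg Subtype.val (pow_card_eq_one' (x := (⟨ι g, hg⟩ : N))))⟩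
  have hN3 : N = ⊥ := by
    rw [eq_bot_iff]
    intro n hn
    have hn' := OppOf_le _ hn
    refine eq_one_of_pelt (OppOf_not_dvd _) hn (h6 n hn'.2 fun u hu => ?_)
    obtain ⟨g, hg⟩ := h4 n hn' u
    obtain ⟨u', hp, hu'⟩ := exists_pelt_lift (p := r) ι.rangeRestrict_surjective
      (t := ι.rangeRestrict g) (by
        obtain ⟨k, hk⟩ := (hu.map ι).conj n
        exact ⟨k, Subtype.ext (hg ▸ hk :)⟩)
    replace hu' : ι u' = ι g := congrArg Subtype.val hu'
    have h7 : u⁻¹ * u' ∈ center G := hN2 (by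
      rw [mem_comap, map_mul, map_inv, hu', hg, ← mul_assoc, ← mul_assoc]
      exact mul_mem (by simpa using (mem_normalizer_iff.mp (hN1 (h1 u⁻¹)) _).mp hn) (inv_mem hn))
    rw [← L.eq_of_mk_eq hu hp (QuotientGroup.eq.mpr h7), hg] at hu'
    exact (eq_mul_inv_iff_mul_eq.mp hu').symm
  have hM : M ⊓ Inn T ≤ N := le_OppOf (fun x hx => ⟨hx.2, k1 hx.1⟩)
    (le_trans (le_inf k3 (by rw [normalizer_eq_top]; exact le_top))
      inf_normalizer_le_normalizer_inf)
    (fun h => k2 (h.trans (card_dvd_of_le inf_le_left)))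
  rw [eq_bot_iff]
  intro y hy
  refine eq_one_of_pelt k2 hy (h6 y (k1 hy) fun u hu => ?_)
  have h7 : y * (ι u * y⁻¹ * (ι u)⁻¹) ∈ N := hM ⟨mul_mem hy
    ((mem_normalizer_iff.mp (k3 ⟨h3 u hu, h1 u⟩) _).mp (inv_mem hy)), by
      rw [← mul_assoc, ← mul_assoc]
      exact (Inn T).mul_mem (PSL.inn_normal.conj_mem _ (h3 u hu) y) (inv_mem (h3 u hu))⟩
  rw [hN3, mem_bot] at h7
  calc _ = y * (ι u * y⁻¹ * (ι u)⁻¹) * (ι u * y) := by group
    _ = _ := by rw [h7, one_mul]

/-- the fixed points of `β` -/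
abbrev Fix (β : MulAut T) : Subgroup T := MonoidHom.eqLocus β.toMonoidHom (MonoidHom.id T)

theorem conj_mem_centralizer {β : MulAut T} {k : T} (h : β k = k) :
    MulAut.conj k ∈ centralizer {β} := by
  rw [mem_centralizer_singleton_iff]
  ext x
  simp [h]

theorem dvd_card_fix {β : MulAut T} (hβ : orderOf β = p) :
    p ∣ Nat.card (Fix β) ↔ p ∣ Nat.card T := by
  have hP : IsPGroup p (zpowers β) := PElt.isPGroup_zpowers ⟨1, by rw [pow_one, ← hβ, pow_orderOf_eq_one]⟩
  have h := hP.card_modEq_card_fixedPoints T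
  have h2 : Nat.card (MulAction.fixedPoints (zpowers β) T) = Nat.card (Fix β) :=
    Nat.card_congr (Equiv.subtypeEquivRight fun x => by
      constructor
      · intro hx; exact hx ⟨β, mem_zpowers β⟩
      · rintro hx ⟨_, n, rfl⟩
        exact (MulAction.stabilizer (MulAut T) x).zpow_mem (show β ∈ MulAction.stabilizer _ x from hx) n)
  rw [h2] at h
  exact (h.dvd_iff dvd_rfl).symm

theorem core_ne_bot (hZ : center T = ⊥) {β : MulAut T} {𝒢 : Subgroup (MulAut T)}
    (hinn : ∀ k, MulAut.conj k ∈ 𝒢) (h : ¬ p ∣ Nat.card (Fix β)) (hk : ∃ k ≠ 1, β k = k) :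
    pPrimeCore p ↥(𝒢 ⊓ centralizer {β}) ≠ ⊥ := by
  obtain ⟨k, hk1, hk⟩ := hk
  have hinj : Function.Injective (MulAut.conj : T →* MulAut T) := by
    rw [injective_iff_map_eq_one]
    intro a ha
    rw [← mem_bot, ← hZ, mem_center_iff]
    intro g
    have := DFunLike.congr_fun ha g
    simp only [MulAut.conj_apply, MulAut.one_apply] at this
    exact (mul_inv_eq_iff_eq_mul.mp this).symm
  have h1 : (Fix β).map MulAut.conj = Inn T ⊓ centralizer {β} := by
    refine le_antisymm ?_ ?_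
    · rintro _ ⟨x, hx, rfl⟩; exact ⟨⟨x, rfl⟩, conj_mem_centralizer hx⟩
    · rintro _ ⟨⟨x, rfl⟩, hx⟩
      refine ⟨x, hinj ?_, rfl⟩
      have := mem_centralizer_singleton_iff.mp hx
      ext y
      obtain ⟨y, rfl⟩ := β.surjective y
      simpa using (DFunLike.congr_fun this y).symm
  have h2 : Inn T ⊓ centralizer {β} ≤ OppOf p (𝒢 ⊓ centralizer {β}) :=
    le_OppOf (inf_le_inf_right _ (by rintro _ ⟨k, rfl⟩; exact hinn k))
      (le_trans (le_inf (by rw [normalizer_eq_top]; exact le_top) (inf_le_right.trans le_normalizer))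
        inf_normalizer_le_normalizer_inf) (by rwa [← h1, card_map_of_injective hinj])
  intro h3
  have h4 := h2 ⟨⟨k, rfl⟩, conj_mem_centralizer hk⟩
  rw [OppOf, h3, Subgroup.map_bot, mem_bot] at h4
  exact hk1 (hinj (h4.trans (map_one _).symm))

/-- local balance holds when `p` divides the order, and there is a non-trivial fixed point -/
def Good (p : ℕ) {T : Type*} [Group T] (β : MulAut T) : Prop :=
  (p ∣ Nat.card T → LB p β) ∧ ∃ k ≠ 1, β k = k

theorem Good.of_isConjUnder {H : Subgroup (MulAut T)} {β γ : MulAut T} (h : Good p β)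
    (hc : IsConjUnder H β γ) : Good p γ := by
  refine ⟨fun h1 => (h.1 h1).of_isConjUnder hc, ?_⟩
  obtain ⟨a, -, rfl⟩ := hc
  obtain ⟨k, h1, h2⟩ := h.2
  exact ⟨a k, by simpa, by simp [h2]⟩

/-- the shape of the local balance statements -/
theorem Good.core_iff (hZ : center T = ⊥) {β : MulAut T} (hβ : orderOf β = p)
    {𝒢 : Subgroup (MulAut T)} (hinn : ∀ k, MulAut.conj k ∈ 𝒢) {A : Prop} (h1 : Good p β)
    (h2 : ¬ p ∣ Nat.card T → A) :
    pPrimeCore p ↥(𝒢 ⊓ centralizer {β}) ≠ ⊥ ↔ A ∧ Nat.Coprime p (Nat.card (Fix β)) := by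
  rw [Nat.Prime.coprime_iff_not_dvd Fact.out]
  by_cases h : p ∣ Nat.card T
  · simp [(h1.1 h).core hinn, dvd_card_fix hβ, h]
  · have h3 := mt (dvd_card_fix hβ).mp h
    simp [core_ne_bot hZ hinn h3 h1.2, h3, h2 h]

theorem pp_top {G : Type*} [Group G] (h : ¬ p ∣ Nat.card (G ⧸ center G)) :
    PP p (⊤ : Subgroup G) :=
  ⟨_, ((Nat.Prime.coprime_iff_not_dvd Fact.out).mpr h).symm, fun g _ => by
    rw [← QuotientGroup.eq_one_iff, QuotientGroup.mk_pow, pow_card_eq_one']⟩

/-- an element of order `p` among the inner automorphisms commuting with `β` -/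
theorem exists_order (hZ : center T = ⊥) {β : MulAut T} (hβ : orderOf β = p) (h : p ∣ Nat.card T) :
    ∃ n ∈ Inn T ⊓ centralizer {β}, n ≠ 1 ∧ n ^ p = 1 := by
  obtain ⟨⟨k, hk⟩, h1⟩ := exists_prime_orderOf_dvd_card' p ((dvd_card_fix hβ).mpr h)
  rw [← orderOf_coe] at h1
  refine ⟨MulAut.conj k, ⟨⟨k, rfl⟩, conj_mem_centralizer hk⟩, fun h2 => ?_, by
    rw [← map_pow, ← h1, pow_orderOf_eq_one, map_one]⟩
  have : k = 1 := by
    rw [← mem_bot, ← hZ, mem_center_iff]
    intro g
    have := DFunLike.congr_fun h2 g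
    simp only [MulAut.conj_apply, MulAut.one_apply] at this
    exact (mul_inv_eq_iff_eq_mul.mp this).symm
  simp only [this, orderOf_one] at h1
  exact (Fact.out : p.Prime).one_lt.ne h1

end Cfsg.Agent.Lib.Aut
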