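import Cfsg.Agent.Lib.Aut.LocBal

set_option autoImplicit false
set_option linter.unusedSectionVars false
set_option maxHeartbeats 400000

/-! Local balance: the groups `GL`, `GU`, `Sp`, `O` have no non-central normal `p'`-subgroups. -/

namespace Cfsg.Agent.Lib.Aut

open Module Matrix Subgroup Gr Cfsg.Agent.Lib.GL.Herm Cfsg.Agent.Lib.GL.H90

variable {F : Type*} [Field F] {ι : Type} [Fintype ι] [DecidableEq ι] {p : ℕ}

local notation "sc" => GeneralLinearGroup.scalar _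

/-- the image of `D` in `PGL` has an element of order `p` -/
def HasP (p : ℕ) (D : Subgroup (GL ι F)) : Prop :=
  ∃ d ∈ D, (∀ u, d ≠ sc u) ∧ ∃ u, d ^ p = sc u

theorem eq_one_of_no_order [Fact p.Prime] (h : ¬ ∃ l : F, orderOf l = p) (c : F) (hc : c ^ p = 1) :
    c = 1 := by
  by_contra h1
  exact h ⟨c, orderOf_eq_prime hc h1⟩

theorem HasP.exists [Fact p.Prime] [Finite F] {D : Subgroup (GL ι F)} (h : HasP p D)
    (hp : ¬ ∃ l : F, orderOf l = p) :
    ∃ d ∈ D, d ^ Nat.card Fˣ ≠ 1 ∧ (d ^ Nat.card Fˣ) ^ p = 1 := by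
  obtain ⟨d, hd, h1, u, h2⟩ := h
  refine ⟨d, hd, fun h3 => ?_, by rw [← pow_mul, mul_comm, pow_mul, h2, ← map_pow, pow_card_eq_one', map_one]⟩
  have h4 : p.Coprime (Nat.card Fˣ) := (Nat.Prime.coprime_iff_not_dvd Fact.out).mpr fun h => by
    obtain ⟨l, hl⟩ := exists_prime_orderOf_dvd_card' p h
    exact hp ⟨l, by rw [orderOf_units, hl]⟩
  have h5 : d ∈ center (GL ι F) := by
    rw [← QuotientGroup.eq_one_iff, ← orderOf_eq_one_iff]
    refine Nat.eq_one_of_dvd_coprimes h4 (orderOf_dvd_of_pow_eq_one ?_)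
      (orderOf_dvd_of_pow_eq_one ?_)
    · rw [← QuotientGroup.mk_pow, QuotientGroup.eq_one_iff, h2,
        GeneralLinearGroup.center_eq_range_scalar]
      exact ⟨u, rfl⟩
    · rw [← QuotientGroup.mk_pow, h3]; rfl
  rw [GeneralLinearGroup.center_eq_range_scalar] at h5
  obtain ⟨v, hv⟩ := h5
  exact h1 v hv.symm

theorem hasP_of {X D : Type*} [Group X] [Group D] {H : Subgroup (GL ι F)} (k : D →* GL ι F)
    (hk : ∀ d, k d ∈ H) (φ : D →* X) (h : ∀ d, φ d = 1 ↔ ∃ u, k d = sc u) {n : X}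
    (hn : n ∈ φ.range) (h1 : n ≠ 1) (h2 : n ^ p = 1) : HasP p H := by
  obtain ⟨d, rfl⟩ := hn
  refine ⟨k d, hk d, fun u hu => h1 ((h d).mpr ⟨u, hu⟩), ?_⟩
  rw [← map_pow] at h2 ⊢
  exact (h _).mp h2

theorem cast_ne_zero_of_ne {r : ℕ} [Fact p.Prime] [Fact r.Prime] [CharP F r] (h : p ≠ r) :
    (p : F) ≠ 0 := fun h0 =>
  h ((Nat.prime_dvd_prime_iff_eq Fact.out Fact.out).mp ((CharP.cast_eq_zero_iff F r p).mp h0)).symm

/-- the general linear group as a linear group -/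
noncomputable def glLin (ι : Type) [Fintype ι] [DecidableEq ι] (F : Type*) [Field F] :
    LinGrp F (ι → F) (GL ι F) :=
  matLin (MonoidHom.id _) Function.injective_id fun z hz => by
    rw [GeneralLinearGroup.center_eq_range_scalar] at hz
    obtain ⟨u, rfl⟩ := hz
    exact ⟨u, scalar_mulVec u⟩

theorem glLin_hasTv : (glLin ι F).HasTv := fun φ v h => by
  obtain ⟨t, ht⟩ := PSL.hasTv (ι := ι) φ v h
  exact ⟨SpecialLinearGroup.toGL t, ht⟩

variable {r : ℕ} [Fact p.Prime] [Fact r.Prime] [CharP F r] [Finite F]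

theorem simp_GL (hpr : p ≠ r) (h2 : 2 ≤ Fintype.card ι) (h : HasP p (⊤ : Subgroup (GL ι F))) :
    Simp p (GL ι F) := fun M _ hM => by
  by_contra hm
  obtain ⟨R, h3, h4⟩ := LinGrp.HasTv.exists_R _ (glLin_hasTv (ι := ι) (F := F))
    ((Nat.coprime_primes Fact.out Fact.out).mpr hpr.symm) hM hm
  by_cases hl : ∃ l : F, orderOf l = p
  · obtain ⟨l, hl⟩ := hl
    have : Nonempty ι := Fintype.card_pos_iff.mp (by omega)
    obtain ⟨u, hu⟩ := PSL.hd_of_card (F := F) h2 (fun _ => 1)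
    exact LinGrp.HasTv.not_dvd _ glLin_hasTv h3 h4 hu
      (fun h => one_ne_zero (congrFun h (Classical.arbitrary ι))) hl
  · obtain ⟨d, -, k1, k2⟩ := h.exists hl
    exact k1 (LinGrp.HasTv.eq_one _ glLin_hasTv h3 h4 (cast_ne_zero_of_ne hpr)
      (eq_one_of_no_order hl) k2)

/-- the isometry group of a bilinear form -/
def isoGrp (B : Matrix ι ι F) : Subgroup (GL ι F) where
  carrier := {g | ∀ u v, bil B (g.1 *ᵥ u) (g.1 *ᵥ v) = bil B u v}
  mul_mem' := fun ha hb u v => by rw [Units.val_mul, ← mulVec_mulVec, ← mulVec_mulVec, ha, hb]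
  one_mem' := fun u v => by simp
  inv_mem' := fun {g} h u v => by rw [← h, mulVec_inv_mulVec, mulVec_inv_mulVec]

theorem mem_isoGrp {B : Matrix ι ι F} {g : GL ι F} : g ∈ isoGrp B ↔ SimM B g 1 := by
  rw [simM_iff]; simp only [Units.val_one, one_mul]; rfl

theorem isoGrp_le (B : Matrix ι ι F) : isoGrp B ≤ simGrp B := fun _ h =>
  mem_simGrp.mpr ⟨1, mem_isoGrp.mp h⟩

theorem conj_mem_isoGrp {B : Matrix ι ι F} {d g : GL ι F} (hd : d ∈ simGrp B) (hg : g ∈ isoGrp B) :
    d * g * d⁻¹ ∈ isoGrp B := fun u v => by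
  obtain ⟨c, hc⟩ := hd
  rw [Units.val_mul, Units.val_mul, ← mulVec_mulVec, ← mulVec_mulVec, ← mulVec_mulVec,
    ← mulVec_mulVec, hc, hg, ← hc, mulVec_inv_mulVec, mulVec_inv_mulVec]

theorem pow_mem_isoGrp {B : Matrix ι ι F} {d : GL ι F} (hd : d ∈ simGrp B) :
    d ^ Nat.card Fˣ ∈ isoGrp B := by
  obtain ⟨c, hc⟩ := mem_simGrp.mp hd
  have : ∀ n : ℕ, SimM B (d ^ n) (c ^ n) := fun n => by
    induction n with
    | zero => simp [SimM]
    | succ n ih => rw [pow_succ, pow_succ]; exact ih.mul hc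
  rw [mem_isoGrp, ← pow_card_eq_one' (x := c)]
  exact this _

theorem exists_isoGrp {B : GL ι F} (E : (ι → F) →ₗ[F] (ι → F))
    (h : ∀ u v, toBilin' B.1 (E u) (E v) = toBilin' B.1 u v) :
    ∃ g : isoGrp B.1, ∀ v, g.1.1 *ᵥ v = E v := by
  have hi : Function.Injective E := by
    rw [injective_iff_map_eq_zero]
    intro x hx
    exact (nondeg_toBilin B).1 x fun y => by rw [← h, hx]; simp
  let e := LinearEquiv.ofInjectiveEndo E hi
  have h1 : (LinearMap.toMatrix' E).det ≠ 0 := by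
    rw [LinearMap.det_toMatrix']; exact (LinearEquiv.isUnit_det' e).ne_zero
  refine ⟨⟨GeneralLinearGroup.mkOfDetNeZero _ h1, fun u v => ?_⟩,
    fun v => LinearMap.toMatrix'_mulVec _ _⟩
  show bil _ (LinearMap.toMatrix' E *ᵥ u) (LinearMap.toMatrix' E *ᵥ v) = _
  rw [LinearMap.toMatrix'_mulVec, LinearMap.toMatrix'_mulVec, bil_eq, bil_eq, h]

/-- symmetric in odd characteristic (`ε = 1`) or alternating (`ε = -1`) -/
def Refl (B : Matrix ι ι F) (ε : F) : Prop := (ε = 1 ∧ (2 : F) ≠ 0 ∧ Bᵀ = B) ∨ (ε = -1 ∧ Alt B)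

theorem Refl.symm {B : Matrix ι ι F} {ε : F} (h : Refl B ε) (u v : ι → F) :
    toBilin' B v u = ε * toBilin' B u v := by
  rw [← bil_eq, ← bil_eq, ← bil_transpose]
  rcases h with ⟨rfl, -, h⟩ | ⟨rfl, h⟩
  · rw [h, one_mul]
  · rw [h.skew, ← neg_one_smul F, bil_smul]

theorem Refl.exists_refl {B : GL ι F} {ε : F} (h : Refl B.1 ε) (v : ι → F) (c : F)
    (hc : 1 + ε + c * toBilin' B.1 v v = 0) :
    ∃ g : isoGrp B.1, ∀ x, g.1.1 *ᵥ x = x + (c * toBilin' B.1 x v) • v := by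
  obtain ⟨g, hg⟩ := exists_isoGrp (B := B)
    (LinearMap.id + c • ((toBilin' B.1).flip v).smulRight v) fun x y => by
      simp only [LinearMap.add_apply, LinearMap.id_apply, LinearMap.smul_apply,
        LinearMap.smulRight_apply, LinearMap.BilinForm.flip_apply, map_add, map_smul, smul_eq_mul,
        h.symm y v]
      linear_combination (c * toBilin' B.1 x v * toBilin' B.1 y v) * hc
  exact ⟨g, fun x => by simp [hg, smul_smul]⟩

theorem Refl.center_scalar {B : GL ι F} {ε : F} (h : Refl B.1 ε) (h3 : 3 ≤ Fintype.card ι)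
    (z : isoGrp B.1) (hz : z ∈ center _) :
    ∃ c : F, ∀ v, ((isoGrp B.1).subtype z).1 *ᵥ v = c • v := by
  set β := toBilin' B.1
  set Z := toLin' z.1.1
  have key : ∀ v c, c ≠ 0 → 1 + ε + c * β v v = 0 → ∃ a : F, Z v = a • v := fun v c hc0 hc => by
    by_cases hv : v = 0
    · exact ⟨0, by simp [hv]⟩
    obtain ⟨g, hg⟩ := h.exists_refl v c hc
    obtain ⟨x, hx⟩ : ∃ x, β x v ≠ 0 := by
      by_contra h1
      push Not at h1
      exact hv ((nondeg_toBilin B).2 v h1)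
    have h1 : g.1.1 *ᵥ (z.1.1 *ᵥ x) = z.1.1 *ᵥ (g.1.1 *ᵥ x) := by
      rw [mulVec_mulVec, mulVec_mulVec, ← Units.val_mul, ← Units.val_mul, ← Subgroup.coe_mul,
        ← Subgroup.coe_mul, mem_center_iff.mp hz g]
    rw [hg, hg, mulVec_add, mulVec_smul, add_right_inj] at h1
    exact ⟨(c * β x v)⁻¹ * (c * β (z.1.1 *ᵥ x) v), by
      rw [mul_smul, h1, inv_smul_smul₀ (mul_ne_zero hc0 hx)]; rfl⟩
  rcases h with ⟨rfl, h2, hB⟩ | ⟨rfl, hB⟩
  · have hs : LinearMap.IsSymm β := ⟨fun u v => by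
      simpa using (Refl.symm (.inl ⟨rfl, h2, hB⟩) v u)⟩
    have : Invertible (2 : F) := invertibleOfNonzero h2
    obtain ⟨b, hb⟩ := LinearMap.BilinForm.exists_orthogonal_basis hs
    have hbo : ∀ {i j}, i ≠ j → β (b i) (b j) = 0 := fun h => hb h
    have hn : ∀ i, β (b i) (b i) ≠ 0 := fun i hi => b.ne_zero i ((nondeg_toBilin B).1 _ fun y => by
      have : β (b i) = 0 := b.ext fun j => by
        by_cases h : i = j
        · exact h ▸ hi
        · exact hbo h
      exact LinearMap.congr_fun this y)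
    have key' : ∀ v, β v v ≠ 0 → ∃ a : F, Z v = a • v := fun v hv =>
      key v (-2 / β v v) (by simp [h2, hv]) (by field_simp; ring)
    choose a ha using fun i => key' (b i) (hn i)
    have h4 : ∀ i j, a i = a j := fun i j => by
      by_contra hij
      have hij' : i ≠ j := by rintro rfl; exact hij rfl
      have k1 : ∀ w, β w (b i) = 0 → β w (b j) = 0 → β (Z w) (b i) = 0 → β (Z w) (b j) = 0 →
          β (b i + b j + w) (b i + b j + w) = 0 := fun w l1 l2 l3 l4 => by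
        by_contra h5
        obtain ⟨c, hc⟩ := key' _ h5
        have m1 := congrArg (fun x => β x (b i)) hc
        have m2 := congrArg (fun x => β x (b j)) hc
        simp [ha, hbo hij', hbo hij'.symm, l1, l2, l3, l4, hn i, hn j] at m1 m2
        exact hij (m1.trans m2.symm)
      obtain ⟨k, hki, hkj⟩ : ∃ k, k ≠ i ∧ k ≠ j := by
        have := Fin.exists_ne_and_ne_of_two_lt i j (by simp; omega)
        exact this
      have k2 := k1 0 (by simp) (by simp) (by simp) (by simp)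
      have k3 := k1 (b k) (hbo hki) (hbo hkj) (by simp [ha, hbo hki]) (by simp [ha, hbo hkj])
      simp only [add_zero, map_add, LinearMap.add_apply, hbo hki, hbo hkj, hbo hki.symm,
        hbo hkj.symm, zero_add] at k2 k3
      exact hn k (by linear_combination k3 - k2)
    let i₀ : Fin (finrank F (ι → F)) := ⟨0, by simp; omega⟩
    have : Z = a i₀ • LinearMap.id := b.ext fun i => by simp [ha, h4 i i₀]
    exact ⟨a i₀, fun v => LinearMap.congr_fun this v⟩
  · obtain ⟨c, hc⟩ := LinearMap.exists_eq_smul_id_of_forall_notLinearIndependent (f := Z) fun v hv => by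
      obtain ⟨a, ha⟩ := key v 1 one_ne_zero (by simp [β, ← bil_eq, hB v])
      simpa using (LinearIndependent.pair_iff.mp hv (-a) 1 (by simp [ha])).2
    exact ⟨c, fun v => LinearMap.congr_fun hc v⟩

/-- the isometry group of a symmetric or alternating form as a polar group -/
noncomputable def Refl.pol {B : GL ι F} {ε : F} (h : Refl B.1 ε) (h3 : 3 ≤ Fintype.card ι) :
    PolGrp F (ι → F) (isoGrp B.1) (RingHom.id F) ε where
  toLinGrp := matLin (isoGrp B.1).subtype (subtype_injective _) (h.center_scalar h3)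
  β := toBilin' B.1
  S x := toBilin' B.1 x x = 0
  symm := h.symm
  σσ _ := rfl
  ε_ne := by rcases h with ⟨rfl, -⟩ | ⟨rfl, -⟩ <;> simp
  nondeg := (nondeg_toBilin B).2
  S_smul a x hx := by simp [hx]
  S_self h := h
  S_add {u v} h1 hu := by simp [h1, hu, h.symm u v]
  S_adj {e t} he ht := by
    rcases id h with ⟨rfl, h2, -⟩ | ⟨rfl, hB⟩
    · refine ⟨-toBilin' B.1 t t / 2, ?_⟩
      simp only [map_add, map_smul, LinearMap.add_apply, LinearMap.smul_apply, he, ht,
        h.symm t e, smul_eq_mul]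
      field_simp
      ring
    · exact ⟨0, by rw [← bil_eq, hB]⟩
  iso g u v := by rw [← bil_eq, ← bil_eq]; exact g.2 u v
  sing g x hx := by rw [← hx, ← bil_eq, ← bil_eq]; exact g.2 x x
  hasQ {e f y} he hf hy k1 k2 := by
    obtain ⟨E, l1, l2, l3, -⟩ := exists_siegel (σ := RingHom.id F) (toBilin' B.1) h.symm
      (fun _ => rfl) he hf hy k1 k2
    obtain ⟨s, hs⟩ := exists_isoGrp E l1
    have : ∀ v, (matLin (isoGrp B.1).subtype (subtype_injective _) (h.center_scalar h3)).ρ s v =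
      E v := hs
    exact ⟨s, by simpa only [this] using l2, by rw [this, l3]⟩

theorem Refl.big {B : GL ι F} {ε : F} (h : Refl B.1 ε) (h3 : 3 ≤ Fintype.card ι) :
    (h.pol h3).Big := by
  refine ⟨?_, fun _ _ H => H.exists_W (by simpa using h3)⟩
  obtain ⟨v, -, h1, h2⟩ := Forms.exists_singular_of_three_le (qf B.1) ⊤ (by simpa using h3)
  exact ⟨v, h2, h1⟩

theorem simp_O {B : GL ι F} (h2 : (2 : F) ≠ 0) (hB : B.1ᵀ = B.1) (h3 : 3 ≤ Fintype.card ι) :
    Simp 2 (isoGrp B.1) := fun M _ hM => by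
  by_contra hm
  obtain ⟨r, hr⟩ := CharP.exists F
  have : Fact r.Prime := ⟨CharP.char_is_prime F r⟩
  have h : Refl B.1 1 := .inl ⟨rfl, h2, hB⟩
  have hs : ∀ u v, toBilin' B.1 v u = toBilin' B.1 u v := fun u v => by rw [h.symm, one_mul]
  obtain ⟨R, k1, k2⟩ := (h.big h3).exists_R (r := r) (fun e x he hx l1 l2 => by
    obtain ⟨z, m1, m2, m3⟩ := PolGrp.exists_sing_perp he l1 hx l2
    change toBilin' B.1 _ _ = _ at he hx l1 m1 m2 m3
    obtain ⟨g, hg⟩ := h.exists_refl (z + x) (-1) (by simp [hx, m1, m3, hs z x])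
    refine ⟨g, ⟨1, ?_⟩, ?_⟩
    · show g.1.1 *ᵥ e = _
      simp [hg, hs z e, hs x e, m2, l1]
    · show toBilin' B.1 (g.1.1 *ᵥ x) x ≠ 0
      simp [hg, hx, m3, hs z x])
    ((Nat.coprime_primes Fact.out Nat.prime_two).mpr (by
      rintro rfl; exact h2 (CharP.cast_eq_zero F 2))) hM hm
  obtain ⟨e, he, he0⟩ := (h.big h3).1
  obtain ⟨f, H⟩ := PolGrp.exists_hyp he he0
  obtain ⟨w, hw, hw0⟩ := (h.big h3).2 e f H
  obtain ⟨u, hu, hu1⟩ := H.W_nondeg hw hw0
  obtain ⟨x, hx, hx0⟩ : ∃ x ∈ (h.pol h3).W e f, toBilin' B.1 x x ≠ 0 := by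
    by_contra hc
    push Not at hc
    have := hc _ (add_mem hu hw)
    change toBilin' B.1 _ _ = _ at hu1
    simp only [map_add, LinearMap.add_apply, hc u hu, hc w hw, hs u w, hu1] at this
    exact h2 (by linear_combination this)
  refine H.not_two k1 k2 hx (k := -toBilin' B.1 x x / 2) (by simp [hx0, h2]) ?_
  obtain ⟨l1, l2, l3⟩ := H
  obtain ⟨l4, l5⟩ := hx
  change toBilin' B.1 _ _ = _ at l1 l2 l3 l4 l5 ⊢
  simp only [map_add, map_smul, LinearMap.add_apply, LinearMap.smul_apply, smul_eq_mul, l1, l2, l3,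
    l4, l5, hs f e, hs x e, hs x f]
  field_simp
  ring

theorem simp_alt (hpr : p ≠ r) {B : GL ι F} (hB : Alt B.1) (h3 : 3 ≤ Fintype.card ι)
    (hp : p = 2 ∨ HasP p (simGrp B.1)) : Simp p (isoGrp B.1) := fun M _ hM => by
  by_contra hm
  have h : Refl B.1 (-1) := .inr ⟨rfl, hB⟩
  have hS : ∀ x, (h.pol h3).S x := fun x => (bil_eq _ _ _).symm.trans (hB x)
  have hT : (h.pol h3).HasT := fun _ _ _ => ⟨1, one_ne_zero, hS _⟩
  obtain ⟨R, k1, k2⟩ := (h.big h3).exists_R hT.prim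
    ((Nat.coprime_primes Fact.out Fact.out).mpr hpr.symm) hM hm
  obtain ⟨e, he, he0⟩ := (h.big h3).1
  obtain ⟨f, H⟩ := PolGrp.exists_hyp he he0
  rcases hp with rfl | hp
  · exact H.not_two k1 k2 (zero_mem _) one_ne_zero (hS _)
  by_cases hl : ∃ l : F, orderOf l = p
  · obtain ⟨l, hl⟩ := hl
    exact hT.not_dvd (fun x _ => hS x) k1 k2 H hl rfl
  · obtain ⟨d, hd, l1, l2⟩ := hp.exists hl
    exact l1 (congrArg Subtype.val (hT.eq_one (fun x y hx _ => ⟨1, 0, by simpa, hS _⟩) k1 k2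
      (cast_ne_zero_of_ne hpr) (eq_one_of_no_order hl) (s := ⟨_, pow_mem_isoGrp hd⟩)
      (Subtype.ext l2)))

theorem Refl.simp {B : GL ι F} {ε : F} (h : Refl B.1 ε) (h2 : 2 ≠ r) (h3 : 3 ≤ Fintype.card ι) :
    Simp 2 (isoGrp B.1) := by
  rcases h with ⟨-, h, hB⟩ | ⟨-, hB⟩
  · exact simp_O h hB h3
  · exact simp_alt h2 hB h3 (.inl rfl)

theorem refl_of (h2 : 2 ≠ r) {B : Matrix ι ι F} (h : Bᵀ = B ∨ Bᵀ = -B) : ∃ ε, Refl B ε := by
  have h3 : (2 : F) ≠ 0 := by exact_mod_cast cast_ne_zero_of_ne (F := F) h2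
  rcases h with h | h
  · exact ⟨1, .inl ⟨rfl, h3, h⟩⟩
  · exact ⟨-1, .inr ⟨rfl, alt_of_skew h3 h⟩⟩

section unitary

variable {K : Type*} [Field K] [Fintype K] [CharP K r] {n q : ℕ} {τ : K →+* K}

/-- the general unitary group as a polar group -/
noncomputable def guPol (hτ : IsInvol τ) (hq : ∀ a, τ a = a ^ q) (hK : Fintype.card K = q ^ 2)
    (n : ℕ) : PolGrp K (Fin n → K) (GU n K q) τ 1 :=
  SU.pol hτ hq (GU n K q).subtype Subtype.val_injective (fun g => g.2)
    (fun g hg _ => ⟨⟨g, hg⟩, rfl⟩) (fun z hz => by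
      obtain ⟨c, hc⟩ := GL.ProjClass.exists_scalar_of_mem_center_GU hK hz
      exact ⟨c, fun v => by rw [Subgroup.coe_subtype, hc, smul_mulVec, one_mulVec]⟩)

theorem guPol_big (hτ : IsInvol τ) (hq : ∀ a, τ a = a ^ q) (hK : Fintype.card K = q ^ 2)
    (hn : 3 ≤ n) : (guPol hτ hq hK n).Big := SU.pol_big hτ hq _ _ _ _ _ hn

theorem simp_GU (hpr : p ≠ r) (hK : Fintype.card K = q ^ 2) (hn : 3 ≤ n)
    (hp : p = 2 ∨ HasP p (GU n K q)) : Simp p (GU n K q) := fun M _ hM => by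
  by_contra hm
  obtain ⟨τ, hq, hτ⟩ := exists_isInvol hK
  have hβ := isHerm_stdHerm hτ (Fin n)
  set P := guPol hτ hq hK n
  have hB : P.Big := guPol_big hτ hq hK hn
  have hT : P.HasT := fun e f H => by
    obtain ⟨a, ha⟩ := hτ.ne
    refine ⟨a - τ a, sub_ne_zero.mpr (Ne.symm ha), ?_⟩
    obtain ⟨l1, l2, l3⟩ := H
    change stdHerm _ τ _ _ = _ at l1 l2 l3 ⊢
    simp [l1, l2, l3, hβ.herm f e, hτ.invol]
  obtain ⟨R, k1, k2⟩ := hB.exists_R hT.prim
    ((Nat.coprime_primes Fact.out Fact.out).mpr hpr.symm) hM hm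
  obtain ⟨e, he, he0⟩ := hB.1
  obtain ⟨f, H⟩ := PolGrp.exists_hyp he he0
  rcases hp with rfl | hp
  · obtain ⟨k, hk, h1⟩ := hT e f H
    exact H.not_two k1 k2 (zero_mem _) hk (by rwa [add_zero])
  by_cases hl : ∃ l : K, orderOf l = p
  · obtain ⟨l, hl⟩ := hl
    have hlp : l ^ p = 1 := hl ▸ pow_orderOf_eq_one l
    by_cases h1 : l * τ l = 1
    swap
    · exact hT.not_dvd (fun x hx => hx) k1 k2 H (l := l * τ l)
        (orderOf_eq_prime (by rw [mul_pow, ← map_pow, hlp]; simp) h1)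
        (by rw [map_mul, hτ.invol, mul_comm])
    let A : Subgroup (GU n K q) :=
      { carrier := {g | ∃ d : Fin n → K, g.1.1 = diagonal d ∧ ∀ i, d i ^ p = 1}
        mul_mem' := by
          rintro a b ⟨d, h1, h2⟩ ⟨d', h3, h4⟩
          exact ⟨fun i => d i * d' i, by simp [h1, h3], fun i => by simp [mul_pow, h2, h4]⟩
        one_mem' := ⟨1, by simp [← diagonal_one], by simp⟩
        inv_mem' := by
          rintro a ⟨d, h1, h2⟩
          have h3 : ∀ i, d i ≠ 0 := fun i h => by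
            simpa [h, (Fact.out : p.Prime).ne_zero] using h2 i
          refine ⟨fun i => (d i)⁻¹, ?_, fun i => by simp [h2]⟩
          refine Units.inv_eq_of_mul_eq_one_right ?_
          simp [h1, h3] }
    have hA : IsPGroup p A := isPGroup_of_forall_pelt (by
      rintro a ⟨d, h1, h2⟩
      refine ⟨1, Subtype.ext (Units.ext ?_)⟩
      simp [h1, diagonal_pow, funext h2, Pi.pow_def])
    obtain ⟨y, l1, l2, l3⟩ := hT.exists_eigen hB k1 k2 hA
    obtain ⟨i, hi⟩ : ∃ i, y i ≠ 0 := Function.ne_iff.mp l2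
    have hl0 : l ≠ 0 := left_ne_zero_of_mul_eq_one h1
    let u : Fin n → K := Function.update 1 i l
    have hu : ∀ j, u j * τ (u j) = 1 := fun j => by
      by_cases h : j = i <;> simp [u, h, h1]
    obtain ⟨c, hc⟩ := l3 ⟨GeneralLinearGroup.mkOfDetNeZero (diagonal u) (by
      rw [det_diagonal]
      exact Finset.prod_ne_zero_iff.mpr fun j _ => left_ne_zero_of_mul_eq_one (hu j)),
      fun a b => by
        show hermForm n K q (diagonal u *ᵥ a) (diagonal u *ᵥ b) = _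
        rw [← stdHerm_eq_hermForm hq, ← stdHerm_eq_hermForm hq, stdHerm_apply, stdHerm_apply]
        refine Finset.sum_congr rfl fun j _ => ?_
        rw [mulVec_diagonal, mulVec_diagonal, map_mul]
        linear_combination (a j * τ (b j)) * hu j⟩
      ⟨u, rfl, fun j => by by_cases h : j = i <;> simp [u, h, hlp]⟩
    have h2 : ∀ j, u j * y j = c * y j := fun j => (mulVec_diagonal u y j).symm.trans (congrFun hc j)
    have h3 : l = c := by simpa [u, hi] using h2 i
    have h4 : ∀ j, j ≠ i → y j = 0 := fun j hj => by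
      have := h2 j
      simp only [u, Function.update_of_ne hj, Pi.one_apply, ← h3] at this
      by_contra h0
      rw [← mul_right_cancel₀ h0 this, orderOf_one] at hl
      exact (Fact.out : p.Prime).one_lt.ne hl
    change stdHerm _ τ _ _ = _ at l1
    rw [stdHerm_apply, Finset.sum_eq_single i (fun j _ hj => by simp [h4 j hj]) (by simp)] at l1
    simp [hi] at l1
  · obtain ⟨d, hd, l1, l2⟩ := hp.exists hl
    refine l1 (congrArg Subtype.val (hT.eq_one (fun x y hx hy => ?_) k1 k2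
      (cast_ne_zero_of_ne hpr) (eq_one_of_no_order hl) (s := ⟨_, pow_mem hd _⟩) (Subtype.ext l2)))
    obtain ⟨w, hw, hw0, hw1⟩ := SU.exists_sing hτ hβ (Submodule.span K (Set.range ![x, y])) (by
      rw [finrank_span_eq_card (LinearIndependent.pair_iff.mpr (indep_of_notMem_span hx hy))]
      simp)
    obtain ⟨c, rfl⟩ := (Submodule.mem_span_range_iff_exists_fun K).mp hw
    rw [Fin.sum_univ_two] at hw0 hw1
    exact ⟨c 0, c 1, hw0, hw1⟩

end unitary

end Cfsg.Agent.Lib.Aut
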