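import Cfsg.Agent.Lib.Aut.LocBal2

set_option autoImplicit false
set_option linter.unusedSectionVars false
set_option maxHeartbeats 400000

/-! Local balance: semilinear groups. -/

namespace Cfsg.Agent.Lib.Aut

open Module Matrix Subgroup Gr Cfsg.Agent.Lib.GL.Herm Cfsg.Agent.Lib.GL.H90 SemidirectProduct
  Cfsg.Agent.Lib.GL

variable {F : Type*} [Field F] {ι : Type} [Fintype ι] [DecidableEq ι] {p r : ℕ}
  {F₀ : Type*} [Field F₀]

local notation "sc" => GeneralLinearGroup.scalar _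
local notation "mp" => GeneralLinearGroup.map (n := _)

theorem unit_eq_one [Fact r.Prime] [CharP F r] {c : Fˣ} (h : PElt r c) : c = 1 := by
  obtain ⟨m, hm⟩ := h
  have h2 := sub_pow_char_pow (p := r) (n := m) (c : F) 1
  rw [← Units.val_pow_eq_pow_val, hm, one_pow, Units.val_one, sub_self] at h2
  exact Units.ext (sub_eq_zero.mp (eq_zero_of_pow_eq_zero h2))

theorem fixedSub_range (σ : F ≃+* F) (x : F) : σ x = x ↔ x ∈ (fixedSub σ).subtype.range := by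
  rw [RingHom.mem_range]
  constructor
  · intro h; exact ⟨⟨x, h⟩, rfl⟩
  · rintro ⟨⟨y, hy⟩, rfl⟩; exact hy

theorem exists_restrict [Finite F] {φ : F ≃+* F} {f : F₀ →+* F}
    (hf : ∀ x, φ x = x ↔ x ∈ f.range) (σ : F ≃+* F) :
    ∃ σ₀ : F₀ ≃+* F₀, ∀ x, f (σ₀ x) = σ (f x) := by
  have : Finite F₀ := Finite.of_injective f f.injective
  have h : ∀ x, ∃ y, f y = σ (f x) := fun x => (hf _).mp (by
    have := DFunLike.congr_fun (ringAut_comm φ σ) (f x)
    rw [RingAut.mul_apply, RingAut.mul_apply, (hf _).mpr ⟨x, rfl⟩] at this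
    exact this)
  choose g hg using h
  let g' : F₀ →+* F₀ :=
    { toFun := g
      map_one' := f.injective (by simp [hg])
      map_mul' := fun a b => f.injective (by simp [hg])
      map_zero' := f.injective (by simp [hg])
      map_add' := fun a b => f.injective (by simp [hg]) }
  exact ⟨RingEquiv.ofBijective g' (Finite.injective_iff_bijective.mp g'.injective), hg⟩

theorem pow_eq_one_of_fixed [Finite F] {φ : F ≃+* F} {f : F₀ →+* F}
    (hf : ∀ x, φ x = x ↔ x ∈ f.range) (σ : F ≃+* F) (h : ∀ x, σ (f x) = f x) :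
    σ ^ orderOf φ = 1 := by
  have hle : fixedSub φ ≤ fixedSub σ := fun x hx => by
    obtain ⟨y, rfl⟩ := (hf x).mp hx
    exact h y
  let _ := (Subfield.inclusion hle).toAlgebra
  have : IsScalarTower (fixedSub φ) (fixedSub σ) F := IsScalarTower.of_algebraMap_eq fun _ => rfl
  rw [← orderOf_dvd_iff_pow_eq_one, ← finrank_fixedSub, ← finrank_fixedSub,
    ← Module.finrank_mul_finrank (fixedSub φ) (fixedSub σ) F]
  exact Dvd.intro_left _ rfl

theorem map_glAut {f : F₀ →+* F} {σ₀ : F₀ ≃+* F₀} {σ : F ≃+* F} (h : ∀ x, f (σ₀ x) = σ (f x))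
    (g : GL ι F₀) : mp f (glAut ι σ₀ g) = glAut ι σ (mp f g) := by
  ext a b; exact h _

theorem mp_inj (f : F₀ →+* F) : Function.Injective (mp f : GL ι F₀ → GL ι F) := fun a b h => by
  ext i j
  exact f.injective (congrArg (fun x : GL ι F => x.1 i j) h)

/-- only scalars among the semilinear maps commute with all `r`-elements -/
def Rigid (r : ℕ) {G₀ : Type*} [Group G₀] (j₀ : G₀ →* GL ι F₀) : Prop :=
  ∀ (h : GL ι F₀) (σ : F₀ ≃+* F₀), (∀ u, PElt r u → h * glAut ι σ (j₀ u) * h⁻¹ = j₀ u) →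
    σ = 1 ∧ ∃ c, h = sc c

theorem rigid_of_polar [Fact r.Prime] [CharP F₀ r] [Nonempty ι] {G₀ : Type*} [Group G₀]
    {j₀ : G₀ →* GL ι F₀} {σ₀ : F₀ →+* F₀} {ε : F₀} {P : PolGrp F₀ (ι → F₀) G₀ σ₀ ε}
    (hP : ∀ s v, P.ρ s v = (j₀ s).1 *ᵥ v) (hB : P.Big) : Rigid r j₀ := fun g σ h => by
  obtain ⟨h1, c, h2⟩ := hB.scalar_of_comm σ (semi (g : Matrix ι ι F₀) (σ : F₀ →+* F₀))
    (semi_smul _ _) (by
      rw [injective_iff_map_eq_zero]
      intro v hv
      have := inv_mulVec_mulVec g (fun i => σ (v i))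
      rw [show (g : Matrix ι ι F₀) *ᵥ (fun i => σ (v i)) = 0 from hv] at this
      ext i
      simpa using (congrFun this i).symm) (fun e s hs x => by
      have hs' := h s (PolGrp.pelt_of_mem_Q hs)
      rw [mul_inv_eq_iff_eq_mul] at hs'
      rw [hP, hP, semi_apply, semi_apply, map_mulVec', mulVec_mulVec, mulVec_mulVec,
        ← Units.val_mul, ← hs']
      rfl)
  have h3 : σ = 1 := RingEquiv.ext h1
  subst h3
  obtain ⟨u, -, hu⟩ := eq_scalar_of_mulVec (g := g) (c := c) h2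
  exact ⟨rfl, u, hu⟩

theorem rigid_GL [Fact r.Prime] [CharP F₀ r] (h2 : 2 ≤ Fintype.card ι) :
    Rigid r (MonoidHom.id (GL ι F₀)) := fun g σ h => by
  have key : ∀ i k (hik : i ≠ k) (c : F₀), g.1 * single i k (σ c) = single i k c * g.1 := by
    intro i k hik c
    have := h _ ((PSL.tv_pelt i k hik c).map SpecialLinearGroup.toGL)
    rw [mul_inv_eq_iff_eq_mul] at this
    have := congrArg Units.val this
    rw [MonoidHom.id_apply, Units.val_mul, Units.val_mul, coe_glAut, PSL.coe_tv] at this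
    have h2 : (1 + single i k c : Matrix ι ι F₀).map σ = 1 + single i k (σ c) := by
      ext a b
      simp only [map_apply, Matrix.add_apply, map_add, one_apply, single_apply]
      split_ifs <;> simp
    rw [h2, mul_add, add_mul] at this
    simpa using this
  have h1 : g ∈ Subgroup.center (GL ι F₀) := by
    rw [GeneralLinearGroup.mem_center_iff_val_mem_range_scalar]
    apply mem_range_scalar_of_commute_single
    intro i k hik
    have := key i k hik 1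
    rw [map_one] at this
    exact this.symm
  rw [GeneralLinearGroup.center_eq_range_scalar] at h1
  obtain ⟨u, rfl⟩ := h1
  refine ⟨?_, u, rfl⟩
  have : Nontrivial ι := Fintype.one_lt_card_iff_nontrivial.mp h2
  obtain ⟨i, k, hik⟩ := exists_pair_ne ι
  ext c
  have := congrFun (congrFun (key i k hik c) i) k
  have h3 : (u : F₀) * σ c = c * u := by simpa using this
  rw [mul_comm c] at h3
  exact mul_left_cancel₀ u.ne_zero h3

theorem eq_of_scalar_mul [Fact r.Prime] [CharP F r] {a b : GL ι F} (ha : PElt r a) (hb : PElt r b)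
    {u : Fˣ} (h : a⁻¹ * b = sc u) : a = b :=
  (glLin ι F).eq_of_mk_eq ha hb (QuotientGroup.eq.mpr (by
    rw [h, GeneralLinearGroup.center_eq_range_scalar]; exact ⟨u, rfl⟩))

theorem apply_eq_of_comm {T : Type*} [Group T] (hZ : center T = ⊥) {y : MulAut T} {k : T}
    (h : y * MulAut.conj k = MulAut.conj k * y) : y k = k := by
  rw [← mul_inv_eq_one, ← mem_bot, ← hZ, mem_center_iff]
  intro g
  obtain ⟨g, rfl⟩ := (MulAut.conj k).surjective g
  obtain ⟨g, rfl⟩ := y.surjective g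
  have : y k * y g * (y k)⁻¹ = k * y g * k⁻¹ := by simpa using DFunLike.congr_fun h g
  rw [MulAut.conj_apply]
  calc _ = y k * y g * (y k)⁻¹ * (y k * k⁻¹) := by rw [this]
    _ = y k * k⁻¹ * (k * y g * k⁻¹) := by group

theorem SU.sc_conj_aux (c : Fˣ) (k g a b : GL ι F) :
    k * (sc c * g) * a⁻¹ * b * (k * (sc c * g) * a⁻¹)⁻¹ = k * g * a⁻¹ * b * (k * g * a⁻¹)⁻¹ := by
  rw [← mul_assoc k, ← GL.H90.scalar_comm, mul_assoc (sc c), mul_assoc (sc c), _root_.mul_inv_rev,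
    mul_assoc (sc c), ← mul_assoc, mul_assoc (sc c), GL.H90.scalar_comm, mul_inv_cancel_right]

namespace SemiSetup

variable {G : Type*} [Group G] {X : SemiSetup ι F G} [Fact p.Prime] [Fact r.Prime] [CharP F r]
  [Finite F]

theorem Ker.conj_eq (hK : X.Ker) {a : X.N} {d : X.D} (hd : PElt r d.1)
    (h : X.Θ a * X.ψ d = X.ψ d * X.Θ a) : a.1.left * glAut ι a.1.right d * a.1.left⁻¹ = d := by
  rw [← mul_inv_eq_iff_eq_mul, X.conj_ψ, eq_comm, ← inv_mul_eq_one, ← map_inv, ← map_mul,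
    hK.ψ_eq_one_iff] at h
  obtain ⟨u, hu⟩ := h
  exact (eq_of_scalar_mul hd ((hd.map (glAut ι a.1.right).toMonoidHom).conj _) hu).symm

theorem Ker.rat [Nonempty ι] (hK : X.Ker) {φ : F ≃+* F} {f : F₀ →+* F}
    (hf : ∀ x, φ x = x ↔ x ∈ f.range) (k : GL ι F) {b : X.N} (hb : b.1 = ⟨k * (glAut ι φ k)⁻¹, φ⟩)
    (a : X.N) (ha : X.Θ a ∈ centralizer {X.Θ b}) : ∃ c g, ∃ σ₀ : F₀ ≃+* F₀,
      k⁻¹ * a.1.left * glAut ι a.1.right k = sc c * mp f g ∧ ∀ x, f (σ₀ x) = a.1.right (f x) := by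
  obtain ⟨σ₀, hσ₀⟩ := exists_restrict hf a.1.right
  rw [mem_centralizer_singleton_iff] at ha
  obtain ⟨u, hu⟩ := hK ((a * b)⁻¹ * (b * a)) (by
    rw [map_mul, map_inv, map_mul, map_mul, ha, inv_mul_cancel])
  rw [Subgroup.coe_mul, Subgroup.coe_inv, inv_mul_eq_iff_eq_mul, Subgroup.coe_mul, Subgroup.coe_mul,
    hb] at hu
  have h1 := congrArg SemidirectProduct.left hu
  have h0 : ∀ σ, glAutHom ι σ = glAut (K := F) ι σ := fun _ => rfl
  simp only [mul_left, h0, left_inl, mul_right, glAut_scalar, map_mul, map_inv] at h1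
  have h2 : glAut ι a.1.right (glAut ι φ k) = glAut ι φ (glAut ι a.1.right k) := by
    ext i j; exact DFunLike.congr_fun (ringAut_comm a.1.right φ) _
  obtain ⟨v, hv⟩ : ∃ v, (k⁻¹ * a.1.left * glAut ι a.1.right k)⁻¹ *
      glAut ι φ (k⁻¹ * a.1.left * glAut ι a.1.right k) = sc v :=
    ⟨Units.map (a.1.right * φ : F ≃+* F) u, by
    rw [map_mul, map_mul, map_inv, inv_mul_eq_iff_eq_mul, ← h2, ← mul_inv_eq_iff_eq_mul] 
    rw [mul_assoc k, ← eq_inv_mul_iff_mul_eq, mul_assoc, mul_assoc, ← GL.H90.scalar_comm] at h1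
    rw [h1, mul_inv_eq_iff_eq_mul]
    group⟩
  obtain ⟨c, hc⟩ := exists_scalar_mul_fixed φ _ v hv
  obtain ⟨g, hg⟩ := (glAut_map_of_fixed φ f hf _).mp hc
  exact ⟨c⁻¹, g, σ₀, by rw [hg, map_inv, inv_mul_cancel_left], hσ₀⟩

theorem Ker.center_eq_bot (hK : X.Ker) : center (G ⧸ center G) = ⊥ := by
  rw [eq_bot_iff]
  intro x hx
  obtain ⟨s, rfl⟩ := QuotientGroup.mk_surjective x
  obtain ⟨u, hu⟩ := (hK.ψ_eq_one_iff ⟨_, X.hle s⟩).mp ((X.ψ_j s).trans (by
    ext1 g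
    rw [MulAut.conj_apply, ← mem_center_iff.mp hx g]; simp))
  rw [mem_bot, QuotientGroup.eq_one_iff, mem_center_iff]
  intro g
  apply X.inj
  rw [map_mul, map_mul, show X.j s = _ from hu, GL.H90.scalar_comm]

theorem Rigid.exists_ne [CharP F₀ r] [Nontrivial ι] {G₀ : Type*} [Group G₀] {j₀ : G₀ →* GL ι F₀}
    (h : Rigid r j₀) : ∃ u : G₀, PElt r u ∧ u ≠ 1 := by
  by_contra hc
  push Not at hc
  obtain ⟨i, k, hik⟩ := exists_pair_ne ι
  obtain ⟨-, c, h1⟩ := h (SpecialLinearGroup.toGL (PSL.tv i k hik 1)) 1 fun u hu => by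
    simp [hc u hu]
  have := congrFun (congrFun ((PSL.coe_tv i k hik (1 : F₀)).symm.trans (congrArg Units.val h1)) i) k
  simp [hik] at this

theorem Ker.good [Finite G] [Nontrivial ι] (hK : X.Ker)
    {β : MulAut (G ⧸ center G)} (f : F₀ →+* F) (k : GL ι F) {D₀ : Subgroup (GL ι F₀)}
    {G₀ : Type*} [Group G₀] (j₀ : G₀ →* GL ι F₀) (hj : Function.Injective j₀)
    (hc : ∀ z ∈ center G₀, ∃ c : F₀, ∀ v, (j₀ z).1 *ᵥ v = c • v) (hle : ∀ g, j₀ g ∈ D₀)
    (hn : ∀ d ∈ D₀, ∀ g, ∃ g', j₀ g' = d * j₀ g * d⁻¹) (i : D₀ →* X.D)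
    (hi : ∀ d, (i d).1 = k * mp f d.1 * k⁻¹)
    (hr : (X.ψ.comp i).range = X.ψ.range ⊓ centralizer {β})
    (hdet : ∀ d ∈ X.D, PElt r d → ∃ s, X.j s = d) (hS : HasP p D₀ → Simp p G₀) (hrig : Rigid r j₀)
    (hrat : ∀ a : X.N, X.Θ a ∈ centralizer {β} → ∃ c g, ∃ σ₀ : F₀ ≃+* F₀,
      k⁻¹ * a.1.left * glAut ι a.1.right k = sc c * mp f g ∧ ∀ x, f (σ₀ x) = a.1.right (f x))
    (hord : ∀ σ : F ≃+* F, (∀ x, σ (f x) = f x) → σ ^ p = 1)
    (hs : ∀ y : MulAut (G ⧸ center G), (∀ s u, PElt r u → X.j s = k * mp f (j₀ u) * k⁻¹ →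
      y (QuotientGroup.mk s) = QuotientGroup.mk s) → ∃ m, y ^ p ^ m ∈ X.Θ.range)
    (hβ : orderOf β = p) : Good p β := by
  have hZ := hK.center_eq_bot
  have : Finite F₀ := Finite.of_injective f f.injective
  have : Finite G₀ := Finite.of_injective j₀ hj
  have : CharP F₀ r := f.charP f.injective r
  let j₁ : G₀ →* D₀ := j₀.codRestrict _ hle
  have hker : ∀ d, (X.ψ.comp i) d = 1 ↔ ∃ u, D₀.subtype d = sc u := fun d => by
    rw [MonoidHom.comp_apply, hK.ψ_eq_one_iff, hi]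
    constructor
    · rintro ⟨u, hu⟩
      rw [mul_inv_eq_iff_eq_mul, GL.H90.scalar_comm, mul_right_inj] at hu
      exact map_eq_scalar f _ _ hu
    · rintro ⟨u, hu⟩
      exact ⟨_, by rw [show d.1 = _ from hu, map_scalar', ← GL.H90.scalar_comm, mul_inv_cancel_right]⟩
  have hpe : ∀ u, PElt r u → PElt r (i (j₁ u)).1 := fun u hu =>
    hu.map (X.D.subtype.comp (i.comp j₁))
  have hinn : ∀ u, PElt r u → ∃ s, X.j s = k * mp f (j₀ u) * k⁻¹ ∧
      X.ψ (i (j₁ u)) = MulAut.conj (QuotientGroup.mk s) := fun u hu => by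
    obtain ⟨s, hs⟩ := hdet _ (i (j₁ u)).2 (hpe u hu)
    exact ⟨s, hs.trans (hi _), by rw [← X.ψ_j]; exact congrArg _ (Subtype.ext hs.symm)⟩
  have hcen : ∀ g, X.ψ (i (j₁ g)) = 1 → g ∈ center G₀ := fun g hg => by
    obtain ⟨u, hu⟩ := (hker _).mp hg
    exact (matLin j₀ hj hc).mem_center_of_scalar (c := u) fun v => by
      rw [matLin_apply, show j₀ g = _ from hu, scalar_mulVec]
  refine ⟨fun hp => ?_, ?_⟩
  swap
  · obtain ⟨u, h1, h2⟩ := Rigid.exists_ne hrig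
    obtain ⟨s, -, h3⟩ := hinn u h1
    refine ⟨QuotientGroup.mk s, fun h4 => h2 ((matLin j₀ hj hc).eq_one_of_center (hcen u ?_) h1),
      apply_eq_of_comm hZ ?_⟩
    · rw [h3, h4, map_one]
    · rw [← h3]
      exact (mem_centralizer_singleton_iff.mp (hr.le ⟨j₁ u, rfl⟩).2).symm
  refine LB.of (matLin j₀ hj hc) r ((X.ψ.comp i).comp j₁) (fun g => (hr.le ⟨_, rfl⟩).2)
    hcen (fun u hu => ?_) (fun n hn' g => ?_) (hS ?_) (fun y hy h => ?_)
  · obtain ⟨s, -, hs⟩ := hinn u hu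
    exact ⟨_, hs.symm⟩
  · obtain ⟨d, rfl⟩ := hr.ge ⟨X.inn_le_range_ψ hn'.1, hn'.2⟩
    obtain ⟨g', hg'⟩ := hn d d.2 g
    refine ⟨g', ?_⟩
    rw [MonoidHom.comp_apply, MonoidHom.comp_apply _ j₁, ← map_inv, ← map_mul, ← map_mul]
    exact congrArg _ (Subtype.ext hg')
  · obtain ⟨n, h1, h2, h3⟩ := exists_order hZ hβ hp
    exact hasP_of D₀.subtype (fun d => d.2) _ hker (hr.ge ⟨X.inn_le_range_ψ h1.1, h1.2⟩) h2 h3
  obtain ⟨m, a, ha⟩ := hs y fun s u hu hs => by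
    obtain ⟨s', h1, h2⟩ := hinn u hu
    obtain rfl := X.inj (h1.trans hs.symm)
    exact apply_eq_of_comm hZ (h2 ▸ h u hu :)
  obtain ⟨c, g, σ₀, h1, h2⟩ := hrat a (ha ▸ pow_mem hy _)
  obtain ⟨h3, v, h4⟩ := hrig g σ₀ fun u hu => mp_inj f (by
    have h5 := hK.conj_eq (a := a) (hpe u hu) (ha ▸ ((show Commute _ _ from h u hu).pow_left _).eq)
    rw [hi] at h5
    rw [mul_assoc, inv_mul_eq_iff_eq_mul, ← eq_mul_inv_iff_mul_eq] at h1
    rw [h1, map_mul, map_mul, map_inv] at h5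
    rw [map_mul, map_mul, map_inv, map_glAut h2, ← mul_left_inj k⁻¹, ← mul_right_inj k,
      ← mul_assoc k (mp f (j₀ u))]
    refine Eq.trans ?_ h5
    rw [SU.sc_conj_aux]
    group
    rfl)
  subst h3 h4
  have h5 := hord _ fun x => (h2 x).symm
  refine ⟨m + 1, ?_⟩
  obtain ⟨w, hw⟩ : ∃ w, a.1 = inl k * (inl (sc w) * inr a.1.right) * (inl k)⁻¹ :=
    ⟨c * Units.map (f : F₀ →* F) v, by
      rw [map_scalar', ← map_mul, mul_assoc, inv_mul_eq_iff_eq_mul, ← eq_mul_inv_iff_mul_eq] at h1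
      ext : 1
      · simp only [mul_left, mul_right, inv_left, left_inl, right_inl, left_inr, right_inr, map_one,
          mul_one, one_mul, inv_one, MulAut.one_apply, map_inv]
        exact h1
      · simp⟩
  have h6 : ∀ n : ℕ, ∃ w', (inl (sc w) * inr a.1.right : GamL ι F) ^ n =
      inl (sc w') * inr (a.1.right ^ n) := fun n => by
    induction n with
    | zero => exact ⟨1, by simp⟩
    | succ n ih =>
      obtain ⟨w', ih⟩ := ih
      refine ⟨w' * Units.map (a.1.right ^ n : F ≃+* F) w, ?_⟩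
      rw [pow_succ, ih, pow_succ, map_mul, map_mul, map_mul, ← glAut_scalar]
      exact (by rw [show (inl (glAut ι (a.1.right ^ n) (sc w)) : GamL ι F) = _ from inl_aut _ _, map_inv]; group)
  obtain ⟨w', h6⟩ := h6 p
  have h7 : (a ^ p).1 = inl (sc w') := by
    rw [Subgroup.coe_pow, hw, conj_pow, h6, h5, map_one, mul_one, ← map_inv, ← map_mul, ← map_mul,
      ← GL.H90.scalar_comm, mul_inv_cancel_right]
  rw [pow_succ, pow_mul, ← ha, ← map_pow, ← X.ψ_scalar w' (show inl _ ∈ X.N from h7 ▸ (a ^ p).2)]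
  exact congrArg _ (Subtype.ext h7)

theorem Θ_eq_mul (a : X.N) (h : inr a.1.right ∈ X.N) :
    ∃ d, X.Θ a = X.ψ d * X.Θ ⟨_, h⟩ := by
  refine ⟨⟨a.1.left, ?_⟩, ?_⟩
  · have := mul_mem a.2 (inv_mem h)
    rwa [← eq_mul_inv_of_mul_eq (inl_left_mul_inr_right a.1)] at this
  · rw [ψ_apply, ← map_mul]
    exact congrArg _ (Subtype.ext (inl_left_mul_inr_right a.1).symm)

theorem Ker.orderOf_right (hK : X.Ker) {a : X.N} (h : orderOf (X.Θ a) = p)
    (hn : X.Θ a ∉ X.ψ.range) : orderOf a.1.right = p := by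
  refine orderOf_eq_prime ?_ fun h1 => hn ?_
  · have := hK.right_eq_one (a ^ p) (by rw [map_pow, ← h, pow_orderOf_eq_one]; exact one_mem _)
    exact (map_pow rightHom a.1 p).symm.trans this
  · have h2 : inr a.1.right = (1 : GamL ι F) := by rw [h1, map_one]
    obtain ⟨d, hd⟩ := Θ_eq_mul a (h2 ▸ one_mem _)
    refine ⟨d, ?_⟩
    rw [hd, show (⟨inr a.1.right, _⟩ : X.N) = 1 from Subtype.ext h2, map_one, mul_one]

/-- field automorphisms -/
theorem Ker.good_fld [Finite G] [Nontrivial ι] (hK : X.Ker) {φ : F ≃+* F} (hφ : orderOf φ = p)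
    {f : F₀ →+* F} (hf : ∀ x, φ x = x ↔ x ∈ f.range) (k : GL ι F) {b : X.N}
    (hb : b.1 = ⟨k * (glAut ι φ k)⁻¹, φ⟩) {D₀ : Subgroup (GL ι F₀)}
    {G₀ : Type*} [Group G₀] (j₀ : G₀ →* GL ι F₀) (hj : Function.Injective j₀)
    (hc : ∀ z ∈ center G₀, ∃ c : F₀, ∀ v, (j₀ z).1 *ᵥ v = c • v) (hle : ∀ g, j₀ g ∈ D₀)
    (hn : ∀ d ∈ D₀, ∀ g, ∃ g', j₀ g' = d * j₀ g * d⁻¹) (i : D₀ →* X.D)
    (hi : ∀ d, (i d).1 = k * mp f d.1 * k⁻¹)
    (hr : (X.ψ.comp i).range = X.ψ.range ⊓ centralizer {X.Θ b})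
    (hdet : ∀ d ∈ X.D, PElt r d → ∃ s, X.j s = d) (hS : HasP p D₀ → Simp p G₀) (hrig : Rigid r j₀)
    (hs : ∀ y : MulAut (G ⧸ center G), (∀ s u, PElt r u → X.j s = k * mp f (j₀ u) * k⁻¹ →
      y (QuotientGroup.mk s) = QuotientGroup.mk s) → y ∈ X.Θ.range)
    (hβ : orderOf (X.Θ b) = p) : Good p (X.Θ b) :=
  hK.good f k j₀ hj hc hle hn i hi hr hdet hS hrig (hK.rat hf k hb)
    (fun σ h => hφ ▸ pow_eq_one_of_fixed hf σ h) (fun y hy => ⟨0, by simpa using hs y hy⟩) hβ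

/-- graph and graph-field involutions of linear groups -/
theorem Ker.good_lin [Finite G] [Nontrivial ι] (hK : X.Ker) {β : MulAut (G ⧸ center G)}
    {D₀ G₀ : Subgroup (GL ι F)}
    (hc : ∀ z ∈ center G₀, ∃ c : F, ∀ v, (G₀.subtype z).1 *ᵥ v = c • v) (hle : G₀ ≤ D₀)
    (hn : ∀ d ∈ D₀, ∀ g ∈ G₀, d * g * d⁻¹ ∈ G₀) (i : D₀ →* X.D) (hi : ∀ d, (i d).1 = d.1)
    (hr : (X.ψ.comp i).range = X.ψ.range ⊓ centralizer {β})
    (hdet : ∀ d ∈ X.D, PElt r d → ∃ s, X.j s = d) (hS : Simp p G₀) (hrig : Rigid r G₀.subtype)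
    (hs : ∀ y : MulAut (G ⧸ center G), y ^ p ∈ X.Θ.range) (hβ : orderOf β = p) : Good p β :=
  hK.good (RingHom.id F) 1 G₀.subtype (subtype_injective _) hc (fun g => hle g.2)
    (fun d hd g => ⟨⟨_, hn d hd g g.2⟩, rfl⟩) i (fun d => by rw [hi]; simp) hr hdet (fun _ => hS)
    hrig (fun a _ => ⟨1, a.1.left, a.1.right, by simp, fun _ => rfl⟩)
    (fun σ h => by rw [show σ = 1 from RingEquiv.ext h, one_pow])
    (fun y _ => ⟨1, by simpa using hs y⟩) hβ

end SemiSetup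

end Cfsg.Agent.Lib.Aut
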