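import Cfsg.Agent.Lib.Aut.LocBalSU

set_option autoImplicit false
set_option linter.unusedSectionVars false
set_option maxHeartbeats 400000

/-! Local balance for linear groups. -/

namespace Cfsg.Agent.Lib.Aut.PSL

open Module Matrix Subgroup Gr Cfsg.Agent.Lib.GL.Herm Cfsg.Agent.Lib.GL.H90 SemidirectProduct
  Cfsg.Agent.Lib.GL

variable {F : Type*} [Field F] {ι : Type} [Fintype ι] [DecidableEq ι] {p r : ℕ}

local notation "sc" => GeneralLinearGroup.scalar _
local notation "mp" => GeneralLinearGroup.map (n := _)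

/-- the semilinear group acting on `SL` -/
def X (ι : Type) [Fintype ι] [DecidableEq ι] (F : Type*) [Field F] :
    SemiSetup ι F (SpecialLinearGroup ι F) where
  j := SpecialLinearGroup.toGL
  inj := toGL_inj
  N := ⊤
  hn a _ s := by simpa only [act_fld] using exists_conj ⟨a.left, (a.right, 1)⟩ s
  hle _ := trivial

theorem Θ_X (a : (X ι F).N) : (X ι F).Θ a = Θ ι F ⟨a.1.left, (a.1.right, 1)⟩ := by
  rw [eq_Θ_iff]
  simp only [act_fld]
  exact ((X ι F).eq_Θ_iff a _).mp rfl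

theorem ψ_X (d : (X ι F).D) : (X ι F).ψ d = ψ ι F d.1 := Θ_X _

theorem range_ψ_X : (X ι F).ψ.range = (ψ ι F).range := by
  ext β
  exact ⟨fun ⟨d, h⟩ => ⟨d.1, (ψ_X d).symm.trans h⟩, fun ⟨d, h⟩ => ⟨⟨d, trivial⟩, (ψ_X _).trans h⟩⟩

theorem mem_range_X (g : GL ι F) (σ : F ≃+* F) : Θ ι F ⟨g, (σ, 1)⟩ ∈ (X ι F).Θ.range :=
  ⟨⟨⟨g, σ⟩, trivial⟩, Θ_X _⟩

variable [Finite F]

theorem ker_X (h : 2 ≤ Fintype.card ι) : (X ι F).Ker := by
  rintro ⟨⟨g, σ⟩, _⟩ ha
  obtain ⟨rfl, u, rfl⟩ := ker_fld h ((Θ_X _).symm.trans ha)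
  exact ⟨u, rfl⟩

theorem sq_mem_range (h : 2 ≤ Fintype.card ι) (y : MulAut (ProjectiveSpecialLinearGroup ι F)) :
    y ^ 2 ∈ (X ι F).Θ.range := by
  obtain ⟨a, rfl⟩ := Θ_surjective h y
  rw [← map_pow]
  have : (a ^ 2).right.2 = 1 := by
    rw [pow_two, mul_right, Prod.snd_mul]
    rcases c2_cases a.right.2 with h | h <;> rw [h] <;> rfl
  have h2 : a ^ 2 = ⟨(a ^ 2).left, ((a ^ 2).right.1, 1)⟩ := by rw [← this]
  rw [h2]
  exact mem_range_X _ _

theorem range_comp {D : Type*} [Group D] (k : D →* GL ι F) :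
    ((X ι F).ψ.comp (k.codRestrict (X ι F).D fun _ => trivial)).range = ((ψ ι F).comp k).range :=
  congrArg MonoidHom.range (MonoidHom.ext fun _ => ψ_X _)

variable [Fact p.Prime] [Fact r.Prime] [CharP F r]

theorem exists_j_of_pelt (d : GL ι F) (_ : d ∈ (X ι F).D) (h : PElt r d) : ∃ s, (X ι F).j s = d :=
  exists_toGL (unit_eq_one (h.map GeneralLinearGroup.det))

theorem not_fix_graph (h : 3 ≤ Fintype.card ι) {g : GL ι F} {σ : F ≃+* F}
    (ha : ∀ i k hik, Θ ι F ⟨g, (σ, Multiplicative.ofAdd 1)⟩ (QuotientGroup.mk (tv i k hik 1)) =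
      QuotientGroup.mk (tv i k hik 1)) : False := by
  have key : ∀ i k (hik : i ≠ k), g.1 * single k i (-1) = single i k 1 * g.1 := by
    intro i k hik
    obtain ⟨s', hs'⟩ := exists_conj ⟨g, (σ, Multiplicative.ofAdd 1)⟩ (tv i k hik 1)
    have h1 := ((eq_Θ_iff _ _).mp rfl _ _ hs').symm.trans (ha i k hik)
    obtain ⟨p, hp⟩ := CharP.exists F
    have : Fact p.Prime := ⟨(CharP.char_is_prime F p)⟩
    have hp' : PElt p s' := by
      obtain ⟨m, hm⟩ := ((tv_pelt (p := p) i k hik 1).map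
        ((act ι F (σ, Multiplicative.ofAdd 1)).toMonoidHom.comp SpecialLinearGroup.toGL)).conj g
      refine ⟨m, toGL_inj ?_⟩
      rw [map_pow, hs', map_one SpecialLinearGroup.toGL]
      exact hm
    rw [(L ι F).eq_of_mk_eq hp' (tv_pelt i k hik 1) h1, eq_mul_inv_iff_mul_eq] at hs'
    have := congrArg Units.val hs'.symm
    rw [act_graph, Units.val_mul, Units.val_mul, coe_glAut, coe_invT, coe_tv_inv, coe_tv] at this
    have h2 : (1 + single i k (-1) : Matrix ι ι F)ᵀ.map σ = 1 + single k i (-1) := by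
      ext a b
      simp only [map_apply, transpose_apply, Matrix.add_apply, map_add, one_apply, single_apply,
        eq_comm, and_comm]
      split_ifs <;> simp
    rw [h2, mul_add, add_mul] at this
    simpa using this
  have : (g : Matrix ι ι F) = 0 := by
    ext a k
    obtain ⟨i, hia, hik⟩ : ∃ i, i ≠ a ∧ i ≠ k := by
      by_contra hc
      push Not at hc
      have : (Finset.univ : Finset ι) ⊆ {a, k} := fun i _ => by
        by_cases h : i = a
        · simp [h]
        · simp [hc i h]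
      have h2 := (Finset.card_le_card this).trans Finset.card_le_two
      rw [Finset.card_univ] at h2
      omega
    have := congrFun (congrFun (key i k hik) a) i
    simpa [hia.symm] using this
  have : Nontrivial ι := Fintype.one_lt_card_iff_nontrivial.mp (by omega)
  have h2 := g.isUnit
  rw [‹(g : Matrix ι ι F) = 0›] at h2
  exact not_isUnit_zero h2

theorem good_fld (h : 2 ≤ Fintype.card ι) (hpr : p ≠ r) {σ : F ≃+* F} (hσ : orderOf σ = p) :
    Good p (Θ ι F (inr (σ, 1))) := by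
  have : Nontrivial ι := Fintype.one_lt_card_iff_nontrivial.mp h
  have hf := fixedSub_range σ
  have e : Θ ι F (inr (σ, 1)) = (X ι F).Θ ⟨inr σ, trivial⟩ := (Θ_X ⟨inr σ, trivial⟩).symm
  have hr := range_fld h σ _ hf
  rw [e]
  refine (ker_X h).good_fld (r := r) hσ hf 1 (by ext : 1 <;> simp) (D₀ := ⊤) (MonoidHom.id _)
    Function.injective_id (glLin ι _).center_scalar (fun _ => trivial) (fun _ _ _ => ⟨_, rfl⟩)
    (((mp (fixedSub σ).subtype).comp (Subgroup.subtype ⊤)).codRestrict _ fun _ => trivial)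
    (fun d => by rw [one_mul, inv_one, mul_one]; rfl) ?_ exists_j_of_pelt (simp_GL hpr h) (rigid_GL h) (fun y hy => ?_)
    (e ▸ (orderOf_fld h σ).trans hσ)
  · rw [range_comp, ← MonoidHom.comp_assoc, MonoidHom.range_comp, Subgroup.range_subtype,
      ← MonoidHom.range_eq_map, hr, range_ψ_X, e]
  rcases h.eq_or_lt with h2 | h3
  · obtain ⟨g, σ, rfl⟩ := surj_two h2.symm y
    exact mem_range_X _ _
  obtain ⟨⟨g, τ, c⟩, rfl⟩ := Θ_surjective h y
  rcases c2_cases c with rfl | rfl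
  · exact mem_range_X _ _
  refine (not_fix_graph h3 fun i k hik => hy _ _
    ((tv_pelt i k hik 1).map SpecialLinearGroup.toGL) ?_).elim
  rw [one_mul, inv_one, mul_one]
  ext a b
  show (1 + single i k (1 : F) : Matrix ι ι F) a b =
    ((1 + single i k (1 : fixedSub σ) : Matrix ι ι (fixedSub σ)) a b : F)
  simp only [Matrix.add_apply, one_apply, single_apply]
  split_ifs <;> simp

theorem good_gr (h : 3 ≤ Fintype.card ι) (hpr : 2 ≠ r) {B : GL ι F} (hB : orderOf (gr B) = 2) :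
    Good 2 (gr B) := by
  have : Nontrivial ι := Fintype.one_lt_card_iff_nontrivial.mp (by omega)
  obtain ⟨ε, hε⟩ := refl_of hpr ((orderOf_gr h B).mp hB)
  exact (ker_X (by omega)).good_lin (r := r) (hε.center_scalar h) (isoGrp_le _)
    (fun d hd g hg => conj_mem_isoGrp hd hg) ((simGrp B.1).subtype.codRestrict _ fun _ => trivial)
    (fun _ => rfl) (by rw [range_comp, range_gr (by omega), range_ψ_X]) exists_j_of_pelt
    (hε.simp hpr h) (rigid_of_polar (P := hε.pol h) (fun _ _ => rfl) (hε.big h))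
    (sq_mem_range (by omega)) hB

theorem good_graphfld {n : ℕ} (h : 3 ≤ n) (hpr : 2 ≠ r) {σ : F ≃+* F} (hσ : orderOf σ = 2) :
    Good 2 (Θ (Fin n) F (inr (σ, Multiplicative.ofAdd 1))) := by
  have : Nontrivial (Fin n) := Fin.nontrivial_iff_two_le.mpr (by omega)
  have := Fintype.ofFinite F
  have hcard := card_eq_card_fixedSub_pow σ
  rw [hσ, Nat.card_eq_fintype_card] at hcard
  obtain ⟨τ, h1, h2⟩ := exists_frob hcard
  have := isCyclic_ringAut F
  have := finite_ringAut F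
  obtain rfl := eq_of_orderOf_two hσ h1
  exact (ker_X (by simp; omega)).good_lin (r := r) (SU.center_GU hcard) le_rfl
    (fun d hd g hg => mul_mem (mul_mem hd hg) (inv_mem hd))
    ((GU n F _).subtype.codRestrict _ fun _ => trivial)
    (fun _ => rfl) (by rw [range_comp, range_graphfld (by omega) hσ h2, range_ψ_X]) exists_j_of_pelt
    (simp_GU hpr hcard h (.inl rfl)) (SU.rigid_GU hcard h) (sq_mem_range (by simp; omega))
    (by rw [orderOf_inr (by simpa using h), Prod.orderOf_mk, hσ,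
      orderOf_ofAdd_eq_addOrderOf, ZMod.addOrderOf_one]; rfl)

theorem two_dvd (h : 2 ≤ Fintype.card ι) (hpr : 2 ≠ r) :
    2 ∣ Nat.card (ProjectiveSpecialLinearGroup ι F) := by
  by_contra h1
  have : Nonempty ι := Fintype.card_pos_iff.mp (by omega)
  obtain ⟨u, hu⟩ := hd_of_card (F := F) h (fun _ => 1)
  have h3 : (2 : F) ≠ 0 := by exact_mod_cast cast_ne_zero_of_ne (F := F) hpr
  exact LinGrp.HasTv.not_dvd _ hasTv (pp_top h1) (fun _ => le_top) hu
    (fun h => one_ne_zero (congrFun h (Classical.arbitrary ι))) (l := -1)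
    (orderOf_eq_prime (by simp) fun h => h3 (by linear_combination -h))

theorem good {n : ℕ} (h : 2 ≤ n) (hpr : p ≠ r) {β : MulAut (ProjectiveSpecialLinearGroup (Fin n) F)}
    (hβ : orderOf β = p) (hnot : β ∉ (ψ (Fin n) F).range) : Good p β ∧
      (¬ p ∣ Nat.card (ProjectiveSpecialLinearGroup (Fin n) F) →
        ∃ g σ, β = ψ _ F g * Θ _ F (inr (σ, 1))) := by
  have h' : 2 ≤ Fintype.card (Fin n) := by simpa using h
  have e : ∀ g a, Θ (Fin n) F ⟨g, a⟩ = ψ _ F g * Θ _ F (inr a) := fun g a => by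
    rw [ψ_apply, ← map_mul]; exact congrArg _ (inl_left_mul_inr_right _).symm
  have k1 : ∀ g σ, β = Θ _ F ⟨g, (σ, 1)⟩ → Good p β ∧
      (¬ p ∣ Nat.card (ProjectiveSpecialLinearGroup (Fin n) F) →
        ∃ g σ, β = ψ _ F g * Θ _ F (inr (σ, 1))) := by
    rintro g σ rfl
    refine ⟨?_, fun _ => ⟨g, σ, e _ _⟩⟩
    have hσ : orderOf σ = p := (ker_X h').orderOf_right (a := ⟨⟨g, σ⟩, trivial⟩)
      (by rwa [Θ_X]) (by rwa [Θ_X, range_ψ_X])
    rw [e] at hβ ⊢
    exact (good_fld h' hpr hσ).of_isConjUnder (lang_fld h' hσ _ ⟨g, rfl⟩ (by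
      rw [← hβ, pow_orderOf_eq_one]))
  rcases h.eq_or_lt with h2 | h3
  · obtain ⟨g, σ, hg⟩ := surj_two (by simp [h2]) β
    exact k1 g σ hg
  obtain ⟨⟨g, σ, c⟩, rfl⟩ := Θ_surjective h' β
  rcases c2_cases c with rfl | rfl
  · exact k1 g σ rfl
  have h3' : 3 ≤ Fintype.card (Fin n) := by simp; omega
  obtain ⟨u, hu⟩ := ker_three h3' (a := ⟨g, σ, Multiplicative.ofAdd 1⟩ ^ p)
    (by rw [map_pow, ← hβ, pow_orderOf_eq_one])
  have h4 : ((σ, Multiplicative.ofAdd 1) : A F) ^ p = 1 :=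
    (map_pow rightHom _ p).symm.trans (congrArg SemidirectProduct.right hu)
  obtain rfl : p = 2 := by
    have h5 := orderOf_dvd_of_pow_eq_one (congrArg Prod.snd h4)
    rw [orderOf_ofAdd_eq_addOrderOf, ZMod.addOrderOf_one] at h5
    exact ((Nat.prime_dvd_prime_iff_eq Nat.prime_two Fact.out).mp h5).symm
  refine ⟨?_, fun h => (h (two_dvd h' hpr)).elim⟩
  by_cases h5 : σ = 1
  · subst h5
    have h6 : Θ _ F ⟨g, 1, Multiplicative.ofAdd 1⟩ = gr g⁻¹ := by rw [gr, inv_inv, e]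
    rw [h6] at hβ ⊢
    exact good_gr h3' hpr hβ
  have hσ : orderOf σ = 2 := orderOf_eq_prime (congrArg Prod.fst h4) h5
  rw [e] at hβ ⊢
  exact (good_graphfld h3 hpr hσ).of_isConjUnder (lang_graphfld h3' hσ _ ⟨g, rfl⟩
    (orderOf_dvd_iff_pow_eq_one.mp hβ.dvd))

end Cfsg.Agent.Lib.Aut.PSL
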