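import Cfsg.Agent.Lib.Aut.LocBal3
import Cfsg.Agent.Lib.Glaub.Burnside

set_option autoImplicit false
set_option linter.unusedSectionVars false
set_option maxHeartbeats 400000

/-! Local balance for unitary groups. -/

namespace Cfsg.Agent.Lib.Aut.SU

open Module Matrix Subgroup Gr Cfsg.Agent.Lib.GL.Herm Cfsg.Agent.Lib.GL.H90 SemidirectProduct
  Cfsg.Agent.Lib.GL

variable {F : Type*} [Field F] [Fintype F] {n q p r : ℕ}

local notation "sc" => GeneralLinearGroup.scalar (Fin _)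
local notation "mp" => GeneralLinearGroup.map (n := Fin _)

instance : Finite (SU n F q) := Finite.of_injective _ (j_inj (n := n) (F := F) (q := q))

theorem range_fld (hF : Fintype.card F = q ^ 2) (hn : 3 ≤ n) {F₀ : Type*} [Field F₀] [Fintype F₀]
    {q₀ : ℕ} {σ τ : F ≃+* F} {τ₀ : F₀ ≃+* F₀} {f : F₀ →+* F} (hf : ∀ x, σ x = x ↔ x ∈ f.range)
    (h1 : orderOf τ = 2) (h2 : orderOf τ₀ = 2) (h3 : ∀ a, τ a = a ^ q) (h4 : ∀ a, τ₀ a = a ^ q₀)
    (h5 : ∀ a, f (τ₀ a) = τ (f a)) :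
    ∃ i : GU n F₀ q₀ →* (X n F q).D, (∀ g, (i g).1 = mp f g.1) ∧
      ((X n F q).ψ.comp i).range =
        (X n F q).ψ.range ⊓ centralizer {(X n F q).Θ ⟨_, inr_mem σ⟩} := by
  have : NeZero n := ⟨by omega⟩
  obtain ⟨i, k1, k2, -⟩ := (ker hF hn).centralizer_fld (inr_mem σ) f hf (GU n F₀ q₀)
    (fun g hg => (map_mem_iff f h3 h4 h5 g).mpr hg)
    (fun d hd c g hg => by
      have l1 := gram_map f h5 g
      rw [hg, gram_scalar_mul, (gram_eq_one_iff h3 d).mpr hd, mul_one] at l1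
      obtain ⟨a, ha⟩ := map_eq_scalar f _ _ l1.symm
      rw [ha, map_scalar'] at l1
      have l2 : (c : F) * τ c = f a := congrArg Units.val (scalar_inj l1)
      obtain ⟨b, hb0, hb⟩ := exists_mul_map_eq h2 (a := (a⁻¹ : F₀ˣ)) (Units.ne_zero _) (by
        apply f.injective
        simp only [Units.val_inv_eq_inv_val, map_inv₀, h5, ← l2, map_mul, sq_of_orderOf_two h1,
          mul_comm])
      refine ⟨Units.map (f : F₀ →* F) (Units.mk0 b hb0) * c,
        GeneralLinearGroup.scalar _ (Units.mk0 b hb0) * g, ?_, ?_⟩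
      · rw [← gram_eq_one_iff h4, gram_scalar_mul, ha, ← map_mul,
          show Units.mk0 b hb0 * Units.map (τ₀ : F₀ →* F₀) (Units.mk0 b hb0) = a⁻¹ from
            Units.ext hb, inv_mul_cancel, map_one]
      · rw [map_mul, map_scalar', hg, map_mul, mul_assoc])
  exact ⟨i, k1, k2⟩

theorem not_small (hF : Fintype.card F = q ^ 2) (hn : 3 ≤ n) (hK : IsSimpleGroup (PSU n F q)) :
    ¬ (n = 3 ∧ q = 2) := by
  rintro ⟨rfl, rfl⟩
  have h1 : Nat.card (GU 3 F 2) = 2 ^ 3 * 3 ^ 4 := by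
    have := card_GU hF 3
    simp only [guOrder, Fin.prod_univ_three] at this
    norm_num at this
    exact_mod_cast this
  have h2 : Nat.card (PSU 3 F 2) ∣ 2 ^ 3 * 3 ^ 4 :=
    (card_dvd_of_surjective _ (QuotientGroup.mk'_surjective _)).trans (h1 ▸ card_dvd_of_injective
      ((j 3 F 2).codRestrict _ j_mem) fun a b h => j_inj (congrArg Subtype.val h))
  have h3 := Glaub.isSolvable_of_two_primes Nat.prime_two Nat.prime_three (PSU 3 F 2) fun r hr h =>
    ((Nat.Prime.dvd_mul hr).mp (h.trans h2)).imp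
      (fun h => (Nat.prime_dvd_prime_iff_eq hr Nat.prime_two).mp (hr.dvd_of_dvd_pow h))
      (fun h => (Nat.prime_dvd_prime_iff_eq hr Nat.prime_three).mp (hr.dvd_of_dvd_pow h))
  have h4 := IsSimpleGroup.comm_iff_isSolvable.mpr h3
  obtain ⟨x, hx⟩ := exists_ne (1 : PSU 3 F 2)
  exact hx (mem_bot.mp ((ker hF hn).center_eq_bot ▸ mem_center_iff.mpr fun g => h4 g x))

variable [Fact p.Prime] [Fact r.Prime] [CharP F r]

theorem exists_j_of_pelt {d : GL (Fin n) F} (hd : d ∈ GU n F q) (h : PElt r d) :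
    ∃ s, j n F q s = d :=
  exists_j hd (unit_eq_one (h.map GeneralLinearGroup.det))

theorem exists_j_of_pelt' (hF : Fintype.card F = q ^ 2) (hn : 0 < n) {d : GL (Fin n) F}
    (hd : d ∈ CU n F q) (h : PElt r d) : ∃ s, j n F q s = d := by
  obtain ⟨u, hu⟩ := hd
  refine exists_j_of_pelt ?_ h
  obtain ⟨m, hm⟩ := h
  have h1 := pow_mem hu (r ^ m)
  rw [(show Commute (sc u) d from GL.H90.scalar_comm u d).mul_pow, hm, mul_one, ← map_pow,
    scalar_mem_iff hF hn] at h1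
  have h2 : u ∈ U F q := unit_eq_one (r := r) ⟨m, by
    rw [powMonoidHom_apply, ← pow_mul, mul_comm, pow_mul]; exact h1⟩
  simpa using mul_mem (inv_mem ((scalar_mem_iff hF hn u).mpr h2)) hu

theorem rigid_GU (hF : Fintype.card F = q ^ 2) (hn : 3 ≤ n) : Rigid r (GU n F q).subtype := by
  obtain ⟨τ, hq, hτ⟩ := exists_isInvol hF
  have : NeZero n := ⟨by omega⟩
  exact rigid_of_polar (P := guPol hτ hq hF n) (fun _ _ => rfl) (guPol_big hτ hq hF hn)

theorem center_GU (hF : Fintype.card F = q ^ 2) (z : GU n F q) (hz : z ∈ center _) :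
    ∃ c : F, ∀ v, ((GU n F q).subtype z).1 *ᵥ v = c • v := by
  obtain ⟨τ, hq, hτ⟩ := exists_isInvol hF
  exact (guPol hτ hq hF n).center_scalar z hz

theorem good (hF : Fintype.card F = q ^ 2) (hn : 3 ≤ n) (hs : ¬ (n = 3 ∧ q = 2)) (hpr : p ≠ r)
    {β : MulAut (PSU n F q)} (hβ : orderOf β = p) (hnot : β ∉ (X n F q).ψ.range) : Good p β := by
  have : NeZero n := ⟨by omega⟩
  have : Nontrivial (Fin n) := Fin.nontrivial_iff_two_le.mpr (by omega)
  obtain ⟨a, rfl⟩ := surj hF hn hs β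
  have hσ := (ker hF hn).orderOf_right hβ hnot
  obtain ⟨d, hd⟩ := SemiSetup.Θ_eq_mul a (inr_mem _)
  have hcard := card_eq_card_fixedSub_pow a.1.right
  rw [hσ, Nat.card_eq_fintype_card, hF] at hcard
  by_cases hp : p = 2
  · subst hp
    have := Fintype.ofFinite (fixedSub a.1.right)
    obtain ⟨τ, f, hτ, hq, hf⟩ := exists_sys hF (fixedSub a.1.right) (by
      rw [← Nat.card_eq_fintype_card]; exact (Nat.pow_left_injective two_ne_zero hcard).symm)
    have : CharP (fixedSub a.1.right) r := f.charP f.injective r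
    obtain ⟨B, ⟨k, b, hk, h, e⟩, hB⟩ := (sysPSU hF hn hτ hq hf).ex _ ⟨hn, _, _, a.1.right,
      by rw [hσ]; exact even_two, (isInnerDiagonal_iff _).mpr ⟨d, rfl⟩, (isField_iff _ _).mpr rfl,
      hd⟩ hβ
    obtain ⟨ε, hε⟩ := refl_of hpr hB
    have h3 : 3 ≤ Fintype.card (Fin n) := by simpa using hn
    rw [e] at hβ ⊢
    exact (kerY hF hn).good_fld hτ hf k rfl (isoGrp B.1).subtype (subtype_injective _)
      (hε.center_scalar h3) (fun g => isoGrp_le _ g.2)
      (fun d hd g => ⟨⟨_, conj_mem_isoGrp hd g.2⟩, rfl⟩) (cjr hτ hq hf hk) (fun _ => rfl)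
      (range_cjr hF hn hτ hq hf hk h) (fun d => exists_j_of_pelt' hF (by omega))
      (fun _ => hε.simp hpr h3) (rigid_of_polar (P := hε.pol h3) (fun _ _ => rfl) (hε.big h3))
      (fun y _ => by obtain ⟨⟨c, hc⟩, rfl⟩ := surj hF hn hs y; exact ⟨_, (Θ_eq c hc).symm⟩) hβ
  have ho := (Fact.out : p.Prime).odd_of_ne_two hp
  obtain ⟨q₀, hq, h0⟩ := Nat.exists_eq_pow_of_exponent_coprime_of_pow_eq_pow
    (Nat.coprime_two_left.mpr ho) hcard
  have := Fintype.ofFinite (fixedSub a.1.right)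
  rw [Nat.card_eq_fintype_card] at h0
  obtain ⟨f, τ, τ₀, hf, h1, h2, h3, h4, h5⟩ := exists_model hF hσ ho hq h0
  have : CharP (fixedSub a.1.right) r := f.charP f.injective r
  obtain ⟨i, k1, k2⟩ := range_fld hF hn hf h1 h2 h3 h4 h5
  refine Good.of_isConjUnder ?_ (hd ▸ lang hF hn hσ ho hq _ ⟨d, rfl⟩ (by
    rw [← hd, ← hβ, pow_orderOf_eq_one]))
  exact (ker hF hn).good_fld hσ hf 1 (by ext : 1 <;> simp) (GU n _ q₀).subtype
    (subtype_injective _) (center_GU h0) (fun g => g.2)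
    (fun d hd g => ⟨⟨_, mul_mem (mul_mem hd g.2) (inv_mem hd)⟩, rfl⟩) i (fun d => by simp [k1]) k2
    (fun d => exists_j_of_pelt) (fun h => simp_GU hpr h0 hn (.inr h)) (rigid_GU h0 hn)
    (fun y _ => surj hF hn hs y) (((ker hF hn).orderOf_inr _).trans hσ)

end Cfsg.Agent.Lib.Aut.SU
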