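import Cfsg.Agent.Lib.Aut.Linear3

set_option autoImplicit false
set_option linter.unusedSectionVars false

/-! Polar spaces with a group of isometries containing the unipotent radicals `Q e` of the
stabilisers of singular points. -/

namespace Cfsg.Agent.Lib.Aut

open Module

/-- a non-degenerate `(σ, ε)`-hermitian form with a notion of singular vector, and a linear group
preserving both which is transitive enough -/
structure PolGrp (F V G : Type*) [Field F] [AddCommGroup V] [Module F V] [Group G]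
    (σ : F →+* F) (ε : F) extends LinGrp F V G where
  β : V →ₗ[F] V →ₛₗ[σ] F
  S : V → Prop
  symm : ∀ u v, β v u = ε * σ (β u v)
  σσ : ∀ a, σ (σ a) = a
  ε_ne : ε ≠ 0
  nondeg : ∀ x, (∀ v, β v x = 0) → x = 0
  S_smul : ∀ (a : F) {x}, S x → S (a • x)
  S_self : ∀ {x}, S x → β x x = 0
  S_add : ∀ {u v}, β u v = 0 → S u → (S (u + v) ↔ S v)
  S_adj : ∀ {e t}, S e → β t e = 1 → ∃ c : F, S (t + c • e)
  iso : ∀ g u v, β (ρ g u) (ρ g v) = β u v
  sing : ∀ g {x}, S x → S (ρ g x)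
  hasQ : ∀ {e f y}, S e → S f → S y → β f e = 1 → β y e = 1 →
    ∃ g, (ρ g e = e ∧ ∀ x, β x e = 0 → ∃ c : F, ρ g x = x + c • e) ∧ ρ g f = y

namespace PolGrp

variable {F V G : Type*} [Field F] [AddCommGroup V] [Module F V] [Group G] {σ : F →+* F} {ε : F}
  (P : PolGrp F V G σ ε)

theorem perp_symm {u v : V} (h : P.β u v = 0) : P.β v u = 0 := by rw [P.symm, h]; simp

theorem perp_comm {u v : V} : P.β u v = 0 ↔ P.β v u = 0 := ⟨P.perp_symm, P.perp_symm⟩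

theorem eps {e f : V} (h : P.β f e = 1) : P.β e f = ε := by rw [P.symm, h]; simp

theorem exists_perp {ι : Type*} [Finite ι] (x : ι → V) {y : V}
    (hy : y ∉ Submodule.span F (Set.range x)) : ∃ t, (∀ i, P.β t (x i) = 0) ∧ P.β t y = 1 := by
  by_contra hc
  push Not at hc
  have := Fintype.ofFinite ι
  have h1 : P.β.flip y ∈ Submodule.span F (Set.range fun i => P.β.flip (x i)) := by
    apply mem_span_of_iInf_ker_le_ker
    intro t ht
    simp only [Submodule.mem_iInf, LinearMap.mem_ker, LinearMap.flip_apply] at ht ⊢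
    by_contra h0
    exact hc ((P.β t y)⁻¹ • t) (fun i => by simp [ht i]) (by simp [h0])
  obtain ⟨c, hc⟩ := (Submodule.mem_span_range_iff_exists_fun F).mp h1
  apply hy
  rw [Submodule.mem_span_range_iff_exists_fun]
  refine ⟨fun i => σ (c i), ?_⟩
  rw [← sub_eq_zero]
  apply P.nondeg
  intro v
  have := LinearMap.congr_fun hc v
  simp only [LinearMap.coe_sum, Finset.sum_apply, LinearMap.smul_apply, LinearMap.flip_apply,
    smul_eq_mul] at this
  simp [map_sum, P.σσ, this]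

theorem exists_one {y : V} (hy : y ≠ 0) : ∃ t, P.β t y = 1 := by
  obtain ⟨t, -, h⟩ := P.exists_perp (ι := Empty) Empty.elim (y := y) (by
    rw [Set.range_eq_empty]; simpa using hy)
  exact ⟨t, h⟩

theorem exists_perp1 {x y : V} (hy : ∀ c : F, y ≠ c • x) : ∃ t, P.β t x = 0 ∧ P.β t y = 1 := by
  obtain ⟨t, h1, h⟩ := P.exists_perp ![x] (y := y) (by
    rw [Submodule.mem_span_range_iff_exists_fun]
    rintro ⟨c, hc⟩
    exact hy (c 0) (by simpa using hc.symm))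
  exact ⟨t, h1 0, h⟩

theorem exists_perp2 {x x' y : V} (hy : ∀ c d : F, y ≠ c • x + d • x') :
    ∃ t, P.β t x = 0 ∧ P.β t x' = 0 ∧ P.β t y = 1 := by
  obtain ⟨t, h1, h⟩ := P.exists_perp ![x, x'] (y := y) (by
    rw [Submodule.mem_span_range_iff_exists_fun]
    rintro ⟨c, hc⟩
    exact hy (c 0) (c 1) (by simpa using hc.symm))
  exact ⟨t, h1 0, h1 1, h⟩

theorem exists_perp3 {x x' x'' y : V} (hy : ∀ c d k : F, y ≠ c • x + d • x' + k • x'') :
    ∃ t, P.β t x = 0 ∧ P.β t x' = 0 ∧ P.β t x'' = 0 ∧ P.β t y = 1 := by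
  obtain ⟨t, h1, h⟩ := P.exists_perp ![x, x', x''] (y := y) (by
    rw [Submodule.mem_span_range_iff_exists_fun]
    rintro ⟨c, hc⟩
    exact hy (c 0) (c 1) (c 2) (by simpa [Fin.sum_univ_three] using hc.symm))
  exact ⟨t, h1 0, h1 1, h1 2, h⟩

theorem adj {e t : V} (he : P.S e) (ht : P.β t e = 1) :
    ∃ c : F, P.S (t + c • e) ∧ P.β (t + c • e) e = 1 := by
  obtain ⟨c, hc⟩ := P.S_adj he ht
  exact ⟨c, hc, by simp [ht, P.S_self he]⟩

theorem exists_partner {e : V} (he : P.S e) (h0 : e ≠ 0) : ∃ f, P.S f ∧ P.β f e = 1 := by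
  obtain ⟨t, ht⟩ := P.exists_one h0
  obtain ⟨c, hc⟩ := P.adj he ht
  exact ⟨_, hc⟩

theorem S_zero {e : V} (he : P.S e) : P.S 0 := by simpa using P.S_smul 0 he

theorem S_neg {e : V} (he : P.S e) : P.S (-e) := by simpa using P.S_smul (-1) he

theorem S_add' {u v : V} (h : P.β u v = 0) (hu : P.S u) (hv : P.S v) : P.S (u + v) :=
  (P.S_add h hu).mpr hv

theorem ne_zero_left {u v : V} (h : P.β u v ≠ 0) : u ≠ 0 := by rintro rfl; simp at h

theorem ne_zero_right {u v : V} (h : P.β u v ≠ 0) : v ≠ 0 := by rintro rfl; simp at h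

theorem sing_iff (g : G) {x : V} : P.S (P.ρ g x) ↔ P.S x :=
  ⟨fun h => by simpa using P.sing g⁻¹ h, P.sing g⟩

theorem iso_left (g : G) (u v : V) : P.β (P.ρ g u) v = P.β u (P.ρ g⁻¹ v) := by
  rw [← P.iso g u, LinGrp.apply_inv_apply]

/-- the orthogonal complement of a pair -/
def W (e f : V) : Submodule F V where
  carrier := {w | P.β w e = 0 ∧ P.β w f = 0}
  add_mem' := fun ha hb => ⟨by simp [ha.1, hb.1], by simp [ha.2, hb.2]⟩
  zero_mem' := ⟨by simp, by simp⟩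
  smul_mem' := fun c x hx => ⟨by simp [hx.1], by simp [hx.2]⟩

variable {P}

theorem mem_W {e f w : V} : w ∈ P.W e f ↔ P.β w e = 0 ∧ P.β w f = 0 := Iff.rfl

/-- hyperbolic pairs -/
structure Hyp (P : PolGrp F V G σ ε) (e f : V) : Prop where
  se : P.S e
  sf : P.S f
  fe : P.β f e = 1

theorem Hyp.ef {e f : V} (h : P.Hyp e f) : P.β e f = ε := P.eps h.fe
theorem Hyp.ee {e f : V} (h : P.Hyp e f) : P.β e e = 0 := P.S_self h.se
theorem Hyp.ff {e f : V} (h : P.Hyp e f) : P.β f f = 0 := P.S_self h.sf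
theorem Hyp.e_ne {e f : V} (h : P.Hyp e f) : e ≠ 0 := P.ne_zero_right (by rw [h.fe]; simp)
theorem Hyp.f_ne {e f : V} (h : P.Hyp e f) : f ≠ 0 := P.ne_zero_left (by rw [h.fe]; simp)

theorem Hyp.swap {e f : V} (h : P.Hyp e f) : P.Hyp f (ε⁻¹ • e) :=
  ⟨h.sf, P.S_smul _ h.se, by simp [h.ef, P.ε_ne]⟩

theorem exists_hyp {e : V} (he : P.S e) (h0 : e ≠ 0) : ∃ f, P.Hyp e f := by
  obtain ⟨f, h1, h2⟩ := P.exists_partner he h0
  exact ⟨f, he, h1, h2⟩

theorem Hyp.decomp {e f : V} (h : P.Hyp e f) (x : V) :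
    x - P.β x e • f - (P.β x f / ε) • e ∈ P.W e f :=
  ⟨by simp [h.fe, h.ee], by simp [h.ef, h.ff, P.ε_ne]⟩

theorem Hyp.exists_decomp {e f : V} (h : P.Hyp e f) (x : V) :
    ∃ w ∈ P.W e f, ∃ a : F, x = P.β x e • f + w + a • e :=
  ⟨_, h.decomp x, P.β x f / ε, by abel⟩

theorem Hyp.coeff {e f w w' : V} (h : P.Hyp e f) (hw : w ∈ P.W e f) (hw' : w' ∈ P.W e f)
    {a a' b b' : F} (H : b • f + w + a • e = b' • f + w' + a' • e) : b = b' ∧ w = w' ∧ a = a' := by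
  have h1 := congrArg (fun x => P.β x e) H
  have h2 := congrArg (fun x => P.β x f) H
  simp only [map_add, map_smul, LinearMap.add_apply, LinearMap.smul_apply, h.fe, h.ee, h.ef, h.ff,
    hw.1, hw.2, hw'.1, hw'.2, smul_eq_mul, mul_one, mul_zero, add_zero, zero_add] at h1 h2
  have h3 := mul_right_cancel₀ P.ε_ne h2
  subst h1 h3
  exact ⟨rfl, by simpa using H, rfl⟩

theorem Hyp.coeff1 {e f w w' : V} (h : P.Hyp e f) (hw : w ∈ P.W e f) (hw' : w' ∈ P.W e f)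
    {a a' : F} (H : f + w + a • e = f + w' + a' • e) : w = w' ∧ a = a' :=
  (h.coeff hw hw' (b := 1) (b' := 1) (by simpa using H)).2

theorem Hyp.W_nondeg {e f w : V} (h : P.Hyp e f) (hw : w ∈ P.W e f) (h0 : w ≠ 0) :
    ∃ u ∈ P.W e f, P.β u w = 1 := by
  obtain ⟨t, ht⟩ := P.exists_one h0
  refine ⟨_, h.decomp t, ?_⟩
  simp [ht, P.perp_symm hw.1, P.perp_symm hw.2]

theorem Hyp.W_partner {e f w : V} (h : P.Hyp e f) (hw : w ∈ P.W e f) (h0 : w ≠ 0) (hs : P.S w) :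
    ∃ u ∈ P.W e f, P.Hyp w u := by
  obtain ⟨t, ht, h1⟩ := h.W_nondeg hw h0
  obtain ⟨c, hc⟩ := P.adj hs h1
  exact ⟨_, add_mem ht (Submodule.smul_mem _ _ hw), hs, hc.1, hc.2⟩

/-- if `W` has a non-zero singular vector then every vector of it is a sum of singular ones -/
theorem Hyp.W_sum {e f u : V} (h : P.Hyp e f) (hu : u ∈ P.W e f) (h0 : u ≠ 0) (hs : P.S u)
    {w : V} (hw : w ∈ P.W e f) : ∃ a ∈ P.W e f, ∃ b ∈ P.W e f, ∃ c ∈ P.W e f,
      P.S a ∧ P.S b ∧ P.S c ∧ w = a + b + c := by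
  obtain ⟨v, hv, hp⟩ := h.W_partner hu h0 hs
  obtain ⟨c, hc⟩ := P.S_adj hs (t := w + (1 - P.β w u) • v) (by simp [hp.fe])
  refine ⟨_, add_mem (add_mem hw (Submodule.smul_mem _ _ hv)) (Submodule.smul_mem _ _ hu),
    -((1 - P.β w u) • v), neg_mem (Submodule.smul_mem _ _ hv), -(c • u),
    neg_mem (Submodule.smul_mem _ _ hu), hc, P.S_neg (P.S_smul _ hp.sf), P.S_neg (P.S_smul _ hs),
    by abel⟩

theorem Hyp.exists_sing_ne {e f u : V} (h : P.Hyp e f) (hu : u ∈ P.W e f) (h0 : u ≠ 0) (hs : P.S u)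
    {w : V} (hw : w ∈ P.W e f) (hw0 : w ≠ 0) (c : F) :
    ∃ z ∈ P.W e f, P.S z ∧ P.β w z = c := by
  obtain ⟨z, hz, hsz, hz0⟩ : ∃ z ∈ P.W e f, P.S z ∧ P.β w z ≠ 0 := by
    by_contra hc
    push Not at hc
    obtain ⟨t, ht, h1⟩ := h.W_nondeg hw hw0
    obtain ⟨a, ha, b, hb, c, hc', sa, sb, sc, rfl⟩ := h.W_sum hu h0 hs ht
    have : P.β w (a + b + c) = 0 := by simp [hc a ha sa, hc b hb sb, hc c hc' sc]
    rw [P.perp_symm this] at h1
    exact zero_ne_one h1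
  refine ⟨σ (c / P.β w z) • z, Submodule.smul_mem _ _ hz, P.S_smul _ hsz, ?_⟩
  rw [map_smulₛₗ, P.σσ, smul_eq_mul, div_mul_cancel₀ _ hz0]

/-- the double perpendicular of a singular line -/
theorem mem_line {e u y : V} (hy : P.S y) (hye : P.β y e = 0) (hyu : P.β y u = 0)
    (H : ∀ z, P.S z → P.β z e = 0 → P.β z u = 0 → P.β z y = 0) : ∃ a b : F, y = a • e + b • u := by
  by_contra hc
  push Not at hc
  obtain ⟨t, h1, h2, h3⟩ := P.exists_perp2 hc
  obtain ⟨c, hc1, hc2⟩ := P.adj hy h3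
  rw [H _ hc1 (by simp [h1, hye]) (by simp [h2, hyu])] at hc2
  exact zero_ne_one hc2

variable (P)

/-- the unipotent radical of the stabiliser of `e` -/
def Q (e : V) : Subgroup G where
  carrier := {g | P.ρ g e = e ∧ ∀ x, P.β x e = 0 → ∃ c : F, P.ρ g x = x + c • e}
  one_mem' := ⟨by simp, fun x _ => ⟨0, by simp⟩⟩
  mul_mem' := by
    rintro g h ⟨hg, hg'⟩ ⟨hh, hh'⟩
    refine ⟨by rw [P.mul_apply, hh, hg], fun x hx => ?_⟩
    obtain ⟨c, hc⟩ := hh' x hx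
    obtain ⟨d, hd⟩ := hg' x hx
    exact ⟨d + c, by rw [P.mul_apply, hc, map_add, map_smul, hd, hg]; module⟩
  inv_mem' := by
    rintro g ⟨hg, hg'⟩
    have h1 : P.ρ g⁻¹ e = e := by conv_lhs => rw [← hg]; simp
    refine ⟨h1, fun x hx => ?_⟩
    obtain ⟨c, hc⟩ := hg' x hx
    refine ⟨-c, P.apply_injective g ?_⟩
    rw [LinGrp.apply_inv_apply, map_add, map_smul, hg, hc]; module

/-- the transvections with centre `e` -/
def T (e : V) : Subgroup G where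
  carrier := {g | ∀ x, P.β x e = 0 → P.ρ g x = x}
  one_mem' := fun x _ => by simp
  mul_mem' := fun hg hh x hx => by rw [P.mul_apply, hh x hx, hg x hx]
  inv_mem' := fun {g} hg x hx => by conv_lhs => rw [← hg x hx]; simp

variable {P}

theorem mem_Q {e : V} {g : G} :
    g ∈ P.Q e ↔ P.ρ g e = e ∧ ∀ x, P.β x e = 0 → ∃ c : F, P.ρ g x = x + c • e := Iff.rfl

theorem mem_T {e : V} {g : G} : g ∈ P.T e ↔ ∀ x, P.β x e = 0 → P.ρ g x = x := Iff.rfl

theorem T_le_Q {e : V} (he : P.S e) : P.T e ≤ P.Q e := fun _ hg =>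
  ⟨hg e (P.S_self he), fun x hx => ⟨0, by simp [hg x hx]⟩⟩

theorem Q_smul (e : V) {c : F} (hc : c ≠ 0) : P.Q (c • e) = P.Q e := by
  have : ∀ (e : V) (c : F), c ≠ 0 → P.Q e ≤ P.Q (c • e) := by
    rintro e c hc g ⟨h1, h2⟩
    refine ⟨by rw [map_smul, h1], fun x hx => ?_⟩
    obtain ⟨d, hd⟩ := h2 x (by simpa [hc] using hx)
    exact ⟨d / c, by rw [hd, smul_smul, div_mul_cancel₀ _ hc]⟩
  refine le_antisymm ?_ (this e c hc)
  simpa [smul_smul, hc] using this (c • e) c⁻¹ (inv_ne_zero hc)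

theorem T_smul (e : V) {c : F} (hc : c ≠ 0) : P.T (c • e) = P.T e := by
  ext g; simp [mem_T, hc]

theorem conj_mem_Q {e : V} {g : G} (hg : g ∈ P.Q e) (h : G) : h * g * h⁻¹ ∈ P.Q (P.ρ h e) := by
  refine ⟨by simp [P.mul_apply, hg.1], fun x hx => ?_⟩
  obtain ⟨c, hc⟩ := hg.2 (P.ρ h⁻¹ x) (by rwa [← P.iso h, LinGrp.apply_inv_apply])
  exact ⟨c, by simp [P.mul_apply, hc]⟩

theorem conj_mem_T {e : V} {g : G} (hg : g ∈ P.T e) (h : G) : h * g * h⁻¹ ∈ P.T (P.ρ h e) := by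
  intro x hx
  have := hg (P.ρ h⁻¹ x) (by rwa [← P.iso h, LinGrp.apply_inv_apply])
  simp [P.mul_apply, this]

theorem mem_T_conj (g : G) (v : V) (x : G) : x ∈ P.T (P.ρ g v) ↔ g⁻¹ * x * g⁻¹⁻¹ ∈ P.T v := by
  refine ⟨fun h => by simpa using conj_mem_T h g⁻¹, fun h => ?_⟩
  have := conj_mem_T h g
  rwa [show g * (g⁻¹ * x * g⁻¹⁻¹) * g⁻¹ = x by group] at this

theorem Hyp.exists_Q_apply {e f : V} (h : P.Hyp e f) {g : G} (hg : g ∈ P.Q e) :
    ∃ w ∈ P.W e f, ∃ c : F, P.ρ g f = f + w + c • e := by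
  obtain ⟨w, hw, a, ha⟩ := h.exists_decomp (P.ρ g f)
  have : P.β (P.ρ g f) e = 1 := by
    conv_lhs => rw [← hg.1]
    rw [P.iso, h.fe]
  rw [this, one_smul] at ha
  exact ⟨w, hw, a, ha⟩

theorem Hyp.Q_apply {e f : V} (h : P.Hyp e f) {g : G} (hg : g ∈ P.Q e) {w : V}
    (hw : w ∈ P.W e f) {c : F} (hf : P.ρ g f = f + w + c • e) {x : V} (hx : P.β x e = 0) :
    P.ρ g x = x - (P.β x w / ε) • e := by
  obtain ⟨d, hd⟩ := hg.2 x hx
  have := P.iso g x f
  simp only [hd, hf, map_add, map_smul, map_smulₛₗ, LinearMap.add_apply, LinearMap.smul_apply, hx,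
    h.ee, h.ef, P.perp_symm hw.1, smul_eq_mul, mul_zero, add_zero] at this
  have h2 : d = -(P.β x w / ε) := by
    field_simp [P.ε_ne]
    linear_combination this
  rw [hd, h2]; module

theorem Hyp.Q_ext {e f : V} (h : P.Hyp e f) {g g' : G} (hg : g ∈ P.Q e) (hg' : g' ∈ P.Q e)
    (H : P.ρ g f = P.ρ g' f) : g = g' := by
  obtain ⟨w, hw, c, hc⟩ := h.exists_Q_apply hg
  apply P.ext
  intro x
  have hx : P.β (x - P.β x e • f) e = 0 := by simp [h.fe]
  have h1 := h.Q_apply hg hw hc hx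
  rw [← h.Q_apply hg' hw (H ▸ hc) hx, map_sub, map_sub, map_smul, map_smul, H] at h1
  exact sub_left_injective h1

theorem Hyp.mem_T_iff {e f : V} (h : P.Hyp e f) {g : G} (hg : g ∈ P.Q e) {w : V}
    (hw : w ∈ P.W e f) {c : F} (hf : P.ρ g f = f + w + c • e) : g ∈ P.T e ↔ w = 0 := by
  constructor
  · intro hT
    by_contra h0
    obtain ⟨u, hu, h1⟩ := h.W_nondeg hw h0
    have := h.Q_apply hg hw hf hu.1
    rw [hT u hu.1, h1, eq_comm, sub_eq_self, smul_eq_zero] at this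
    rcases this with h2 | h2
    · simp [P.ε_ne] at h2
    · exact h.e_ne h2
  · rintro rfl x hx
    simpa using h.Q_apply hg hw hf hx

theorem Hyp.exists_Q' {e f : V} (h : P.Hyp e f) {w : V} (hw : w ∈ P.W e f) {c : F}
    (hs : P.S (f + w + c • e)) : ∃ g ∈ P.Q e, P.ρ g f = f + w + c • e :=
  P.hasQ h.se h.sf hs h.fe (by simp [h.fe, hw.1, h.ee])

theorem Hyp.exists_Q {e f : V} (h : P.Hyp e f) {w : V} (hw : w ∈ P.W e f) :
    ∃ g ∈ P.Q e, ∃ c : F, P.ρ g f = f + w + c • e := by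
  obtain ⟨c, hc⟩ := P.S_adj h.se (t := f + w) (by simp [h.fe, hw.1])
  obtain ⟨g, hg, hg'⟩ := h.exists_Q' hw hc
  exact ⟨g, hg, c, hg'⟩

theorem Hyp.exists_Q0 {e f : V} (h : P.Hyp e f) {w : V} (hw : w ∈ P.W e f) (hs : P.S w) :
    ∃ g ∈ P.Q e, P.ρ g f = f + w + (0 : F) • e :=
  h.exists_Q' hw (by simpa using P.S_add' (P.perp_symm hw.2) h.sf hs)

theorem Hyp.Q_mul {e f : V} (h : P.Hyp e f) {g g' : G} (hg : g ∈ P.Q e) {w w' : V}
    (hw : w ∈ P.W e f) (hw' : w' ∈ P.W e f) {c c' : F} (hf : P.ρ g f = f + w + c • e)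
    (hf' : P.ρ g' f = f + w' + c' • e) :
    P.ρ (g * g') f = f + (w + w') + (c + c' - P.β w' w / ε) • e := by
  rw [P.mul_apply, hf', map_add, map_add, map_smul, hf, hg.1, h.Q_apply hg hw hf hw'.1]
  module

theorem Hyp.Q_conj {e f : V} {g k : G} {w : V} {c a b : F}
    (hf : P.ρ g f = f + w + c • e) (hke : P.ρ k e = a • e) (hkf : P.ρ k f = b • f) (hb : b ≠ 0) :
    P.ρ (k * g * k⁻¹) f = f + b⁻¹ • P.ρ k w + (b⁻¹ * c * a) • e := by
  have : P.ρ k⁻¹ f = b⁻¹ • f := by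
    apply P.apply_injective k
    rw [LinGrp.apply_inv_apply, map_smul, hkf, smul_smul, inv_mul_cancel₀ hb, one_smul]
  rw [P.mul_apply, P.mul_apply, this, map_smul, hf]
  simp only [map_smul, map_add, hke, hkf, smul_add, smul_smul, inv_mul_cancel₀ hb, one_smul,
    mul_assoc]

theorem mem_W_of_eigen {e f w : V} {k : G} {a b : F} (hw : w ∈ P.W e f) (hke : P.ρ k e = a • e)
    (hkf : P.ρ k f = b • f) (ha : a ≠ 0) (hb : b ≠ 0) : P.ρ k w ∈ P.W e f := by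
  have h1 := P.iso k w e
  have h2 := P.iso k w f
  rw [hke, hw.1] at h1
  rw [hkf, hw.2] at h2
  exact ⟨by simpa [ha] using h1, by simpa [hb] using h2⟩

variable {p : ℕ} [Fact p.Prime] [CharP F p]

theorem pelt_of_mem_Q {e : V} {g : G} (hg : g ∈ P.Q e) : PElt p g := by
  apply P.pelt_of_nilpotent 3
  ext x
  have h1 : P.β (P.ρ g x - x) e = 0 := by
    rw [map_sub, LinearMap.sub_apply]
    nth_rewrite 1 [← hg.1]
    rw [P.iso, sub_self]
  obtain ⟨c, hc⟩ := hg.2 _ h1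
  have h2 : ∀ y, (P.ρ g - 1) y = P.ρ g y - y := fun _ => rfl
  rw [pow_succ, pow_two, Module.End.mul_apply, Module.End.mul_apply, h2 x, h2 (_ - _), hc,
    add_sub_cancel_left, h2, map_smul, hg.1]
  simp

theorem isPGroup_Q (e : V) : IsPGroup p (P.Q e) :=
  isPGroup_of_forall_pelt fun _ hg => pelt_of_mem_Q hg

theorem isPGroup_T {e : V} (he : P.S e) : IsPGroup p (P.T e) :=
  isPGroup_of_forall_pelt fun _ hg => pelt_of_mem_Q (T_le_Q he hg)

end PolGrp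

end Cfsg.Agent.Lib.Aut
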