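import Cfsg.Agent.Lib.Aut.Polar1

set_option autoImplicit false
set_option linter.unusedSectionVars false

/-! From an equivariant, perpendicularity-preserving correspondence of singular points to a
semilinear map. -/

namespace Cfsg.Agent.Lib.Aut

open Module

theorem LinGrp.eigen_mod {F V G : Type*} [Field F] [AddCommGroup V] [Module F V] [Group G]
    (L : LinGrp F V G) {p : ℕ} [Fact p.Prime] [CharP F p] {g : G} (hg : PElt p g) {e u : V}
    (he : L.ρ g e = e) {a b : F} (hu : L.ρ g u = a • e + b • u) :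
    ∃ c : F, L.ρ g u = u + c • e := by
  by_cases h0 : ∃ c : F, u = c • e
  · obtain ⟨c, rfl⟩ := h0
    exact ⟨0, by simp [he]⟩
  push Not at h0
  have h1 : ∀ n : ℕ, ∃ a' : F, L.ρ (g ^ n) u = a' • e + b ^ n • u := by
    intro n
    induction n with
    | zero => exact ⟨0, by simp⟩
    | succ n ih =>
      obtain ⟨a', ha'⟩ := ih
      refine ⟨a' + b ^ n * a, ?_⟩
      rw [pow_succ', L.mul_apply, ha', map_add, map_smul, map_smul, he, hu, pow_succ]
      module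
  obtain ⟨k, hk⟩ := hg
  obtain ⟨a', ha'⟩ := h1 (p ^ k)
  rw [hk, L.one_apply] at ha'
  have h2 : b ^ p ^ k = 1 := by
    by_contra h
    apply h0 ((1 - b ^ p ^ k)⁻¹ * a')
    have h3 : (1 - b ^ p ^ k) ≠ 0 := sub_ne_zero.mpr (Ne.symm h)
    rw [mul_smul, eq_inv_smul_iff₀ h3, sub_smul, one_smul]
    exact sub_eq_of_eq_add ha'
  have h3 : (b - 1) ^ p ^ k = 0 := by rw [sub_pow_char_pow, h2, one_pow, sub_self]
  have h4 : b = 1 :=
    sub_eq_zero.mp (pow_eq_zero_iff (pow_pos (Fact.out : p.Prime).pos k).ne' |>.mp h3)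
  exact ⟨a, by rw [hu, h4, one_smul, add_comm]⟩

namespace PolGrp

variable {F V G V' G' : Type*} [Field F] [AddCommGroup V] [Module F V] [Group G]
  [AddCommGroup V'] [Module F V'] [Group G'] {σ : F →+* F} {ε : F}

/-- an equivariant correspondence of singular points preserving perpendicularity -/
structure PtCorr (P : PolGrp F V G σ ε) (P' : PolGrp F V' G' σ ε)
    (α : G ⧸ Subgroup.center G ≃* G' ⧸ Subgroup.center G') (Φ : V → V' → Prop) : Prop where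
  sing : ∀ {x x'}, Φ x x' → P.S x ∧ x ≠ 0
  sing' : ∀ {x x'}, Φ x x' → P'.S x' ∧ x' ≠ 0
  total : ∀ {x}, P.S x → x ≠ 0 → ∃ x', Φ x x'
  total' : ∀ {x'}, P'.S x' → x' ≠ 0 → ∃ x, Φ x x'
  smul : ∀ {x x'} {a b : F}, Φ x x' → a ≠ 0 → b ≠ 0 → Φ (a • x) (b • x')
  uniq : ∀ {x x' y'}, Φ x x' → Φ x y' → ∃ c : F, y' = c • x'
  uniq' : ∀ {x y x'}, Φ x x' → Φ y x' → ∃ c : F, y = c • x
  equiv : ∀ {g g' x x'}, Rel α g g' → Φ x x' → Φ (P.ρ g x) (P'.ρ g' x')
  perp : ∀ {x x' y y'}, Φ x x' → Φ y y' → (P.β x y = 0 ↔ P'.β x' y' = 0)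

/-- rank at least two -/
def R2 (P : PolGrp F V G σ ε) : Prop := ∀ e f, P.Hyp e f → ∃ u ∈ P.W e f, u ≠ 0 ∧ P.S u

/-- dimension at most three -/
def R1 (P : PolGrp F V G σ ε) : Prop :=
  ∀ e f, P.Hyp e f → ∃ w₀ ∈ P.W e f, ∀ w ∈ P.W e f, ∃ c : F, w = c • w₀

variable {P : PolGrp F V G σ ε} {P' : PolGrp F V' G' σ ε}
  {α : G ⧸ Subgroup.center G ≃* G' ⧸ Subgroup.center G'} {Φ : V → V' → Prop}

theorem PtCorr.symm (h : PtCorr P P' α Φ) : PtCorr P' P α.symm (fun x' x => Φ x x') where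
  sing := h.sing'
  sing' := h.sing
  total := h.total'
  total' := h.total
  smul H ha hb := h.smul H hb ha
  uniq := h.uniq'
  uniq' := h.uniq
  equiv hr H := h.equiv hr.symm H
  perp H1 H2 := (h.perp H1 H2).symm

theorem PtCorr.smul_left (h : PtCorr P P' α Φ) {x : V} {x' : V'} (H : Φ x x') {a : F}
    (ha : a ≠ 0) : Φ (a • x) x' := by simpa using h.smul H ha one_ne_zero

theorem PtCorr.smul_right (h : PtCorr P P' α Φ) {x : V} {x' : V'} (H : Φ x x') {a : F}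
    (ha : a ≠ 0) : Φ x (a • x') := by simpa using h.smul H one_ne_zero ha

theorem PtCorr.eigen (h : PtCorr P P' α Φ) {g : G} {g' : G'} (hr : Rel α g g') {x : V} {x' : V'}
    (H : Φ x x') {a : F} (ha : P.ρ g x = a • x) : ∃ b : F, b ≠ 0 ∧ P'.ρ g' x' = b • x' := by
  have h1 := h.equiv hr H
  have ha0 : a ≠ 0 := by
    rintro rfl
    exact (h.sing h1).2 (by simp [ha])
  rw [ha] at h1
  have h2 := h.smul_left h1 (inv_ne_zero ha0)
  rw [smul_smul, inv_mul_cancel₀ ha0, one_smul] at h2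
  obtain ⟨b, hb⟩ := h.uniq H h2
  refine ⟨b, ?_, hb⟩
  rintro rfl
  exact (h.sing' h2).2 (by simp [hb])

theorem PtCorr.exists_hyp (h : PtCorr P P' α Φ) {e f : V} (H : P.Hyp e f) {e' : V'}
    (he : Φ e e') : ∃ f', Φ f f' ∧ P'.Hyp e' f' := by
  obtain ⟨f', hf'⟩ := h.total H.sf H.f_ne
  have h1 : P'.β f' e' ≠ 0 := by rw [Ne, ← h.perp hf' he, H.fe]; simp
  exact ⟨(P'.β f' e')⁻¹ • f', h.smul_right hf' (inv_ne_zero h1), (h.sing' he).1,
    P'.S_smul _ (h.sing' hf').1, by simp [h1]⟩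

variable {p : ℕ} [Fact p.Prime] [CharP F p]

theorem PtCorr.fixed (h : PtCorr P P' α Φ) {g : G} {g' : G'} (hr : Rel α g g') (hp : PElt p g')
    {x : V} {x' : V'} (H : Φ x x') (ha : P.ρ g x = x) : P'.ρ g' x' = x' := by
  obtain ⟨b, -, hb⟩ := h.eigen hr H (a := 1) (by simpa using ha)
  exact P'.fixed_of_eigen hp hb

theorem PtCorr.mem_Q (h : PtCorr P P' α Φ) (hR : P'.R1 ∨ P'.R2) {e : V} {e' : V'} (he : Φ e e')
    {g : G} {g' : G'} (hr : Rel α g g') (hp : PElt p g') (hg : g ∈ P.Q e) : g' ∈ P'.Q e' := by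
  have h1 := h.fixed hr hp he hg.1
  obtain ⟨f', hf'⟩ := PolGrp.exists_hyp (h.sing' he).1 (h.sing' he).2
  have key : (∀ w ∈ P'.W e' f', ∃ c : F, P'.ρ g' w = w + c • e') → g' ∈ P'.Q e' := by
    intro H
    refine ⟨h1, fun x hx => ?_⟩
    obtain ⟨w, hw, a, ha⟩ := hf'.exists_decomp x
    obtain ⟨c, hc⟩ := H w hw
    rw [hx, zero_smul, zero_add] at ha
    exact ⟨c, by rw [ha, map_add, map_smul, h1, hc]; abel⟩
  have hperp : ∀ x, P'.β x e' = 0 → P'.β (P'.ρ g' x) e' = 0 := fun x hx => by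
    conv_lhs => rw [← h1]
    rw [P'.iso, hx]
  apply key
  rcases hR with hR | hR
  · obtain ⟨w₀, hw₀, H⟩ := hR e' f' hf'
    obtain ⟨w, hw, a, ha⟩ := hf'.exists_decomp (P'.ρ g' w₀)
    obtain ⟨b, rfl⟩ := H w hw
    rw [hperp _ hw₀.1, zero_smul, zero_add, add_comm] at ha
    obtain ⟨c, hc⟩ := P'.eigen_mod hp h1 ha
    intro w hw
    obtain ⟨b, rfl⟩ := H w hw
    exact ⟨b * c, by rw [map_smul, hc]; module⟩
  · have k2 : ∀ u', P'.S u' → P'.β u' e' = 0 → ∃ c : F, P'.ρ g' u' = u' + c • e' := by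
      intro u' hs hu'
      by_cases h0 : u' = 0
      · exact ⟨0, by simp [h0]⟩
      obtain ⟨u, hu⟩ := h.total' hs h0
      have hue := (h.perp hu he).mpr hu'
      obtain ⟨c, hc⟩ := hg.2 u hue
      have h2 := h.equiv hr hu
      obtain ⟨a, b, hab⟩ := mem_line (P'.sing g' hs) (hperp _ hu') (u := u') (by
        rw [← h.perp h2 hu, hc]
        simp [P.S_self (h.sing hu).1, P.perp_symm hue]) (fun z' hz' hze hzu => by
        by_cases hz0 : z' = 0
        · simp [hz0]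
        obtain ⟨z, hz⟩ := h.total' hz' hz0
        rw [← h.perp hz h2, hc]
        simp [(h.perp hz he).mpr hze, (h.perp hz hu).mpr hzu])
      exact P'.eigen_mod hp h1 hab
    obtain ⟨u, hu, hu0, hsu⟩ := hR e' f' hf'
    intro w hw
    obtain ⟨a, ha, b, hb, c, hc, sa, sb, sc, rfl⟩ := hf'.W_sum hu hu0 hsu hw
    obtain ⟨ca, h2⟩ := k2 a sa ha.1
    obtain ⟨cb, h3⟩ := k2 b sb hb.1
    obtain ⟨cc, h4⟩ := k2 c sc hc.1
    exact ⟨ca + cb + cc, by rw [map_add, map_add, h2, h3, h4]; module⟩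

theorem PtCorr.corrQ (h : PtCorr P P' α Φ) (hR : P.R1 ∨ P.R2) (hR' : P'.R1 ∨ P'.R2) {e : V}
    {e' : V'} (he : Φ e e') : Corr p α (P.Q e) (P'.Q e') := fun _ _ hr hp hp' =>
  ⟨h.mem_Q hR' he hr hp', h.symm.mem_Q hR he hr.symm hp⟩

theorem PtCorr.mem_T (h : PtCorr P P' α Φ) (hR : P'.R2) {e : V} {e' : V'} (he : Φ e e')
    {g : G} {g' : G'} (hr : Rel α g g') (hp : PElt p g') (hg : g ∈ P.T e) : g' ∈ P'.T e' := by
  obtain ⟨f', hf'⟩ := PolGrp.exists_hyp (h.sing' he).1 (h.sing' he).2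
  have k2 : ∀ u', P'.S u' → P'.β u' e' = 0 → P'.ρ g' u' = u' := by
    intro u' hs hu'
    by_cases h0 : u' = 0
    · simp [h0]
    obtain ⟨u, hu⟩ := h.total' hs h0
    exact h.fixed hr hp hu (hg u ((h.perp hu he).mpr hu'))
  obtain ⟨u, hu, hu0, hsu⟩ := hR e' f' hf'
  intro x hx
  obtain ⟨w, hw, a, ha⟩ := hf'.exists_decomp x
  obtain ⟨a, ha', b, hb, c, hc, sa, sb, sc, rfl⟩ := hf'.W_sum hu hu0 hsu hw
  rw [hx, zero_smul, zero_add] at ha
  rw [ha, map_add, map_add, map_add, map_smul, k2 a sa ha'.1, k2 b sb hb.1, k2 c sc hc.1,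
    k2 e' hf'.se hf'.ee]

theorem PtCorr.corrT (h : PtCorr P P' α Φ) (hR : P.R2) (hR' : P'.R2) {e : V}
    {e' : V'} (he : Φ e e') : Corr p α (P.T e) (P'.T e') := fun _ _ hr hp hp' =>
  ⟨h.mem_T hR' he hr hp', h.symm.mem_T hR he hr.symm hp⟩

variable (P P' α) in
/-- `π` describes the effect of `α` on `Q e / T e` -/
def IsPi (e f : V) (e' f' : V') (π : P.W e f → P'.W e' f') : Prop :=
  ∀ g ∈ P.Q e, ∀ g' ∈ P'.Q e', Rel α g g' → ∀ (w : P.W e f) (c : F),
    P.ρ g f = f + w + c • e → ∃ c' : F, P'.ρ g' f' = f' + π w + c' • e'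

variable [Finite G] [Finite G']

theorem exists_partner_Q {e : V} {e' : V'} (hQ : Corr p α (P.Q e) (P'.Q e')) {g : G}
    (hg : g ∈ P.Q e) : ∃ g' ∈ P'.Q e', Rel α g g' := by
  obtain ⟨g', hr, hp⟩ := Rel.exists_pelt α (pelt_of_mem_Q (p := p) hg)
  exact ⟨g', (hQ g g' hr (pelt_of_mem_Q hg) hp).mp hg, hr⟩

theorem exists_pi_aux {e f : V} {e' f' : V'} (H : P.Hyp e f) (H' : P'.Hyp e' f')
    (hQ : Corr p α (P.Q e) (P'.Q e')) (hT : Corr p α (P.T e) (P'.T e')) :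
    ∃ π : P.W e f → P'.W e' f', IsPi P P' α e f e' f' π := by
  have h1 : ∀ w : P.W e f, ∃ w' : P'.W e' f', ∀ g ∈ P.Q e, ∀ g' ∈ P'.Q e', Rel α g g' → ∀ c : F,
      P.ρ g f = f + w + c • e → ∃ c' : F, P'.ρ g' f' = f' + w' + c' • e' := by
    intro w
    obtain ⟨k, hk, d, hd⟩ := H.exists_Q w.2
    obtain ⟨k', hk', hr⟩ := exists_partner_Q hQ hk
    obtain ⟨w', hw', d', hd'⟩ := H'.exists_Q_apply hk'
    refine ⟨⟨w', hw'⟩, fun g hg g' hg' hr' c hc => ?_⟩
    have h2 : k⁻¹ * g ∈ P.Q e := mul_mem (inv_mem hk) hg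
    have h2' : k'⁻¹ * g' ∈ P'.Q e' := mul_mem (inv_mem hk') hg'
    have h3 : k⁻¹ * g ∈ P.T e := by
      apply (H.mem_T_iff h2 (zero_mem _) (c := c - d) ?_).mpr rfl
      apply P.apply_injective k
      rw [P.mul_apply, LinGrp.apply_inv_apply, hc, add_zero, map_add, map_smul, hd, hk.1]
      module
    have h4 := (hT _ _ (hr.inv.mul hr') (pelt_of_mem_Q h2) (pelt_of_mem_Q h2')).mp h3
    obtain ⟨u, hu, a, ha⟩ := H'.exists_Q_apply h2'
    rw [(H'.mem_T_iff h2' hu ha).mp h4, add_zero] at ha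
    refine ⟨d' + a, ?_⟩
    rw [show g' = k' * (k'⁻¹ * g') by group, P'.mul_apply, ha, map_add, map_smul, hd', hk'.1]
    module
  choose π hπ using h1
  exact ⟨π, fun g hg g' hg' hr w c hc => hπ w g hg g' hg' hr c hc⟩

theorem IsPi.eq {e f : V} {e' f' : V'} (H' : P'.Hyp e' f') {π : P.W e f → P'.W e' f'}
    (hπ : IsPi P P' α e f e' f' π) {g : G} (hg : g ∈ P.Q e) {g' : G'} (hg' : g' ∈ P'.Q e')
    (hr : Rel α g g') {w : P.W e f} {c : F} (hc : P.ρ g f = f + w + c • e) {w' : P'.W e' f'}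
    {c' : F} (hc' : P'.ρ g' f' = f' + w' + c' • e') : π w = w' := by
  obtain ⟨d, hd⟩ := hπ g hg g' hg' hr w c hc
  exact Subtype.ext (H'.coeff1 (π w).2 w'.2 (hd.symm.trans hc')).1

theorem exists_pi {e f : V} {e' f' : V'} (H : P.Hyp e f) (H' : P'.Hyp e' f')
    (hQ : Corr p α (P.Q e) (P'.Q e')) (hT : Corr p α (P.T e) (P'.T e')) :
    ∃ π : P.W e f ≃+ P'.W e' f', IsPi P P' α e f e' f' π ∧ IsPi P' P α.symm e' f' e f π.symm := by
  obtain ⟨π, hπ⟩ := exists_pi_aux H H' hQ hT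
  obtain ⟨π', hπ'⟩ := exists_pi_aux H' H hQ.symm hT.symm
  refine ⟨{ toFun := π, invFun := π', left_inv := ?_, right_inv := ?_, map_add' := ?_ }, hπ, hπ'⟩
  · intro w
    obtain ⟨k, hk, d, hd⟩ := H.exists_Q w.2
    obtain ⟨k', hk', hr⟩ := exists_partner_Q hQ hk
    obtain ⟨d', hd'⟩ := hπ k hk k' hk' hr w d hd
    exact hπ'.eq H hk' hk hr.symm hd' hd
  · intro w
    obtain ⟨k, hk, d, hd⟩ := H'.exists_Q w.2
    obtain ⟨k', hk', hr⟩ := exists_partner_Q hQ.symm hk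
    obtain ⟨d', hd'⟩ := hπ' k hk k' hk' hr w d hd
    exact hπ.eq H' hk' hk hr.symm hd' hd
  · intro w u
    obtain ⟨k, hk, d, hd⟩ := H.exists_Q w.2
    obtain ⟨k', hk', hr⟩ := exists_partner_Q hQ hk
    obtain ⟨d', hd'⟩ := hπ k hk k' hk' hr w d hd
    obtain ⟨l, hl, b, hb⟩ := H.exists_Q u.2
    obtain ⟨l', hl', hr'⟩ := exists_partner_Q hQ hl
    obtain ⟨b', hb'⟩ := hπ l hl l' hl' hr' u b hb
    exact hπ.eq H' (mul_mem hk hl) (mul_mem hk' hl') (hr.mul hr')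
      (H.Q_mul hk w.2 u.2 hd hb) (H'.Q_mul hk' (π w).2 (π u).2 hd' hb')

/-- the effect of conjugation by an element fixing the points `e` and `f` -/
theorem IsPi.conj {e f : V} {e' f' : V'} (H : P.Hyp e f) (H' : P'.Hyp e' f')
    (hQ : Corr p α (P.Q e) (P'.Q e')) {π : P.W e f → P'.W e' f'}
    (hπ : IsPi P P' α e f e' f' π) {k : G} {k' : G'} (hr : Rel α k k') {a b a' b' : F}
    (ha : a ≠ 0) (hb : b ≠ 0) (ha' : a' ≠ 0) (hb' : b' ≠ 0)
    (hke : P.ρ k e = a • e) (hkf : P.ρ k f = b • f) (hke' : P'.ρ k' e' = a' • e')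
    (hkf' : P'.ρ k' f' = b' • f') (w u : P.W e f) (hu : (u : V) = b⁻¹ • P.ρ k w) :
    (π u : V') = b'⁻¹ • P'.ρ k' (π w) := by
  obtain ⟨g, hg, d, hd⟩ := H.exists_Q w.2
  obtain ⟨g', hg', hr'⟩ := exists_partner_Q hQ hg
  obtain ⟨d', hd'⟩ := hπ g hg g' hg' hr' w d hd
  have h1 := conj_mem_Q hg k
  have h1' := conj_mem_Q hg' k'
  rw [hke, Q_smul _ ha] at h1
  rw [hke', Q_smul _ ha'] at h1'
  have h2 := Hyp.Q_conj hd hke hkf hb
  rw [← hu] at h2
  exact congrArg Subtype.val (hπ.eq H' h1 h1' (hr.conj hr') h2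
    (w' := ⟨_, Submodule.smul_mem _ _ (mem_W_of_eigen (π w).2 hke' hkf' ha' hb')⟩)
    (Hyp.Q_conj hd' hke' hkf' hb'))

omit [Finite G] [Finite G'] in
theorem Hyp.rigid {e f : V} (H : P.Hyp e f)
    (hW : ∃ w ∈ P.W e f, ∃ u ∈ P.W e f, w ≠ 0 ∧ u ≠ 0 ∧ w + u ≠ 0) (φ : Module.End F V)
    (h : ∀ x ∈ {x | P.S x ∧ x ≠ 0}, ∃ c : F, φ x = c • x) : ∃ c : F, ∀ x, φ x = c • x := by
  have key : ∀ {e f : V}, P.Hyp e f → (∃ w ∈ P.W e f, ∃ u ∈ P.W e f, w ≠ 0 ∧ u ≠ 0 ∧ w + u ≠ 0) →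
      ∀ b : F, φ f = b • f → ∀ w ∈ P.W e f, ∃ a : F, φ w = b • w + a • e := by
    intro e f H hW b hb
    obtain ⟨a, ha⟩ := h e ⟨H.se, H.e_ne⟩
    have h1 : ∀ w ∈ P.W e f, ∃ t d : F, φ w = (t - b) • f + t • w + d • e := by
      intro w hw
      obtain ⟨c, hc, hc1⟩ := P.adj H.se (t := f + w) (by simp [H.fe, hw.1])
      obtain ⟨t, ht⟩ := h _ ⟨hc, P.ne_zero_left (by rw [hc1]; simp)⟩
      refine ⟨t, c * (t - a), ?_⟩
      rw [map_add, map_add, map_smul, ha, hb] at ht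
      linear_combination (norm := module) ht
    choose! t d htd using h1
    have hadd : ∀ w ∈ P.W e f, ∀ u ∈ P.W e f, t (w + u) - b = (t w - b) + (t u - b) ∧
        t (w + u) • (w + u) = t w • w + t u • u := by
      intro w hw u hu
      have h2 := htd _ (add_mem hw hu)
      rw [map_add, htd w hw, htd u hu] at h2
      have := H.coeff (Submodule.smul_mem _ (t (w + u)) (add_mem hw hu))
        (add_mem (Submodule.smul_mem _ (t w) hw) (Submodule.smul_mem _ (t u) hu))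
        (b := t (w + u) - b) (b' := (t w - b) + (t u - b)) (a := d (w + u)) (a' := d w + d u)
        (by rw [← h2]; module)
      exact ⟨this.1, this.2.1⟩
    have h3 : ∀ w ∈ P.W e f, ∀ u ∈ P.W e f, (t u - b) • w + (t w - b) • u = 0 := by
      intro w hw u hu
      obtain ⟨h4, h5⟩ := hadd w hw u hu
      have h6 : t (w + u) = t w + t u - b := by linear_combination h4
      rw [h6] at h5
      linear_combination (norm := module) h5
    have h4 : ∀ w ∈ P.W e f, t w = b := by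
      by_contra hc
      push Not at hc
      obtain ⟨w₀, hw₀, hne⟩ := hc
      have hne' : t w₀ - b ≠ 0 := sub_ne_zero.mpr hne
      -- every vector is a multiple of `w₀`
      have h5 : ∀ u ∈ P.W e f, u = (-(t u - b) / (t w₀ - b)) • w₀ := by
        intro u hu
        have := h3 w₀ hw₀ u hu
        rw [div_eq_inv_mul, mul_smul, eq_inv_smul_iff₀ hne']
        linear_combination (norm := module) this
      have hw0 : w₀ ≠ 0 := by
        rintro rfl
        obtain ⟨w, hw, -, -, h0, -⟩ := hW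
        exact h0 (by simpa using h5 w hw)
      have h6 : ∀ k : F, k ≠ 0 → t (k • w₀) = t w₀ ∧ t w₀ - b = k * (t w₀ - b) := by
        intro k hk
        have h7 := htd _ (Submodule.smul_mem _ k hw₀)
        rw [map_smul, htd w₀ hw₀] at h7
        have := H.coeff (Submodule.smul_mem _ (t (k • w₀)) (Submodule.smul_mem _ k hw₀))
          (Submodule.smul_mem _ (k * t w₀) hw₀) (b := t (k • w₀) - b) (b' := k * (t w₀ - b))
          (a := d (k • w₀)) (a' := k * d w₀) (by rw [← h7]; module)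
        have h8 : t (k • w₀) = t w₀ := by
          have h9 := this.2.1
          rw [smul_smul, mul_comm] at h9
          exact mul_left_cancel₀ hk (smul_left_injective F hw0 h9)
        exact ⟨h8, h8 ▸ this.1⟩
      have h7 : ∀ u ∈ P.W e f, u ≠ 0 → u = w₀ := by
        intro u hu h0
        obtain ⟨k, hk⟩ : ∃ k : F, u = k • w₀ := ⟨_, h5 u hu⟩
        have hk0 : k ≠ 0 := by rintro rfl; simp [hk] at h0
        have := (h6 k hk0).2
        have hk1 : k = 1 := mul_right_cancel₀ hne' (by rw [← this, one_mul])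
        rw [hk, hk1, one_smul]
      obtain ⟨w, hw, u, hu, h0, h0', h0''⟩ := hW
      have := h7 _ (add_mem hw hu) h0''
      rw [h7 w hw h0, add_eq_left] at this
      exact h0' this
    intro w hw
    exact ⟨d w, by rw [htd w hw, h4 w hw]; simp⟩
  obtain ⟨a, ha⟩ := h e ⟨H.se, H.e_ne⟩
  obtain ⟨b, hb⟩ := h f ⟨H.sf, H.f_ne⟩
  have hWW : ∀ w, w ∈ P.W f (ε⁻¹ • e) ↔ w ∈ P.W e f := fun w => by
    simp [mem_W, P.ε_ne, and_comm]
  have h1 := key H hW b hb
  have h2 := key H.swap (by simpa only [hWW] using hW) a (by rw [map_smul, ha, smul_comm])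
  have h3 : ∀ w ∈ P.W e f, φ w = b • w ∧ b • w = a • w := by
    intro w hw
    obtain ⟨c, hc⟩ := h1 w hw
    obtain ⟨d, hd⟩ := h2 w ((hWW w).mpr hw)
    have := H.coeff (Submodule.smul_mem _ b hw) (Submodule.smul_mem _ a hw) (b := 0) (b' := d)
      (a := c) (a' := 0) (by rw [zero_smul, zero_add, ← hc, hd]; module)
    exact ⟨by rw [hc, this.2.2]; simp, this.2.1⟩
  obtain ⟨w, hw, -, -, h0, -⟩ := hW
  have hab : b = a := smul_left_injective F h0 (h3 w hw).2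
  refine ⟨b, fun x => ?_⟩
  obtain ⟨w, hw, c, hc⟩ := H.exists_decomp x
  rw [hc, map_add, map_add, map_smul, map_smul, ha, hb, (h3 w hw).1, hab]
  module

end PolGrp

end Cfsg.Agent.Lib.Aut
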