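import Cfsg.Agent.Lib.Aut.Polar2

set_option autoImplicit false
set_option linter.unusedSectionVars false

/-! The semilinear map inducing a correspondence of singular points. -/

namespace Cfsg.Agent.Lib.Aut

open Module

namespace PolGrp

variable {F V G V' G' : Type*} [Field F] [AddCommGroup V] [Module F V] [Group G]
  [AddCommGroup V'] [Module F V'] [Group G'] {σ : F →+* F} {ε : F}
variable {P : PolGrp F V G σ ε} {P' : PolGrp F V' G' σ ε}
  {α : G ⧸ Subgroup.center G ≃* G' ⧸ Subgroup.center G'} {Φ : V → V' → Prop}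

variable (P P' α Φ) in
/-- the conclusion: a semisimilarity inducing `α` -/
def Induced : Prop :=
  ∃ (τ : F ≃+* F) (θ : V ≃+ V') (s : F), s ≠ 0 ∧ (∀ (a : F) x, θ (a • x) = τ a • θ x) ∧
    (∀ x y, P'.β (θ x) (θ y) = s * τ (P.β x y)) ∧ (∀ x, P.S x → x ≠ 0 → Φ x (θ x)) ∧
    ∀ g g', Rel α g g' → ∃ c : F, ∀ x, θ (P.ρ g x) = c • P'.ρ g' (θ x)

variable {p : ℕ} [Fact p.Prime] [CharP F p] [Finite G] [Finite G']

theorem PtCorr.induced_of_pi (h : PtCorr P P' α Φ) {e f : V} {e' f' : V'} (H : P.Hyp e f)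
    (H' : P'.Hyp e' f') (he : Φ e e') (hf : Φ f f') (hQ : Corr p α (P.Q e) (P'.Q e'))
    (hW : ∃ w ∈ P.W e f, ∃ u ∈ P.W e f, w ≠ 0 ∧ u ≠ 0 ∧ w + u ≠ 0)
    (π : P.W e f ≃+ P'.W e' f') (hπ : IsPi P P' α e f e' f' π) (τ : F ≃+* F)
    (hτ : ∀ a, τ (σ a) = σ (τ a)) (hπτ : ∀ (a : F) w, π (a • w) = τ a • π w) {s : F} (hs : s ≠ 0)
    (hβ : ∀ w u : P.W e f, P'.β (π w) (π u) = s * τ (P.β w u))
    (hc : ∀ g ∈ P.Q e, ∀ g' ∈ P'.Q e', Rel α g g' → ∀ (w : P.W e f) (c c' : F),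
      P.ρ g f = f + w + c • e → P'.ρ g' f' = f' + π w + c' • e' → c' = s * τ ε / ε * τ c)
    (hsing : ∀ u : P.W e f, P.S u → u ≠ 0 → Φ u (π u)) : Induced P P' α Φ := by
  set t := s * τ ε / ε with ht
  have hε := P.ε_ne
  have hτε : τ ε ≠ 0 := by simpa using hε
  have ht0 : t ≠ 0 := div_ne_zero (mul_ne_zero hs hτε) hε
  have hσt : σ t = s := by
    obtain ⟨w, hw, -, -, hw0, -⟩ := hW
    obtain ⟨u, hu, h1⟩ := H.W_nondeg hw hw0
    have h2 := hβ ⟨u, hu⟩ ⟨w, hw⟩
    have h3 := hβ ⟨w, hw⟩ ⟨u, hu⟩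
    rw [P'.symm, h2, P.symm u w] at h3
    simp only [h1, map_one, mul_one] at h3
    have : t = σ s := by rw [ht, ← h3]; field_simp
    rw [this, P.σσ]
  let pr : V →ₗ[F] P.W e f := LinearMap.codRestrict _
    (LinearMap.id - (P.β.flip e).smulRight f - (ε⁻¹ • P.β.flip f).smulRight e) (fun x => by
      have := H.decomp x
      rwa [div_eq_inv_mul] at this)
  have hpr : ∀ x, (pr x : V) = x - P.β x e • f - (ε⁻¹ * P.β x f) • e := fun x => rfl
  let θ₀ : V →+ V' := AddMonoidHom.mk'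
    (fun x => τ (P.β x e) • f' + (π (pr x) : V') + (t * τ (ε⁻¹ * P.β x f)) • e') (fun x y => by
      simp only [map_add, add_smul, Submodule.coe_add, LinearMap.add_apply, mul_add]; abel)
  have hθ₀ : ∀ (b : F) (w : P.W e f) (a : F),
      θ₀ (b • f + w + a • e) = τ b • f' + π w + (t * τ a) • e' := by
    intro b w a
    have h1 : P.β (b • f + w + a • e) e = b := by simp [H.fe, H.ee, w.2.1]
    have h2 : ε⁻¹ * P.β (b • f + w + a • e) f = a := by
      simp only [map_add, map_smul, LinearMap.add_apply, LinearMap.smul_apply, H.ff, H.ef, w.2.2,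
        smul_eq_mul]
      field_simp; ring
    have h3 : pr (b • f + w + a • e) = w := Subtype.ext (by rw [hpr, h1, h2]; abel)
    show τ (P.β _ e) • f' + (π (pr _) : V') + (t * τ (ε⁻¹ * P.β _ f)) • e' = _
    rw [h1, h2, h3]
  have hdec : ∀ x, ∃ (b : F) (w : P.W e f) (a : F), x = b • f + w + a • e := fun x => by
    obtain ⟨w, hw, a, ha⟩ := H.exists_decomp x
    exact ⟨_, ⟨w, hw⟩, a, ha⟩
  have hinj : Function.Injective θ₀ := by
    rw [injective_iff_map_eq_zero]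
    intro x hx
    obtain ⟨b, w, a, rfl⟩ := hdec x
    rw [hθ₀] at hx
    obtain ⟨h1, h2, h3⟩ := H'.coeff (π w).2 (zero_mem _) (b' := 0) (a' := 0) (by rw [hx]; simp)
    have h4 : w = 0 := by simpa using h2
    have h5 : a = 0 := by simpa [ht0] using h3
    have h6 : b = 0 := by simpa using h1
    simp [h4, h5, h6]
  have hsurj : Function.Surjective θ₀ := by
    intro y
    obtain ⟨w, hw, a, ha⟩ := H'.exists_decomp y
    refine ⟨τ.symm (P'.β y e') • f + π.symm ⟨w, hw⟩ + τ.symm (t⁻¹ * a) • e, ?_⟩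
    rw [hθ₀]
    simp only [RingEquiv.apply_symm_apply, AddEquiv.apply_symm_apply, mul_inv_cancel_left₀ ht0]
    exact ha.symm
  let θ : V ≃+ V' := AddEquiv.ofBijective θ₀ ⟨hinj, hsurj⟩
  have hθ₁ : ∀ (b : F) (w : P.W e f) (a : F),
      θ (b • f + w + a • e) = τ b • f' + π w + (t * τ a) • e' := hθ₀
  have hθ : ∀ (a : F) x, θ (a • x) = τ a • θ x := fun k x => by
    obtain ⟨b, w, a, rfl⟩ := hdec x
    have := hθ₁ (k * b) (k • w) (k * a)
    rw [hπτ] at this
    rw [hθ₁, show k • (b • f + w + a • e) = (k * b) • f + (k • w : P.W e f) + (k * a) • e by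
      simp only [Submodule.coe_smul]; module, this]
    simp only [Submodule.coe_smul, map_mul]; module
  have hΦ : ∀ x, P.S x → x ≠ 0 → Φ x (θ x) := by
    have k1 : ∀ (w : P.W e f) (a : F), P.S (f + w + a • e) → Φ (f + w + a • e)
        (θ (f + w + a • e)) := by
      intro w a hS
      obtain ⟨g, hg, hgf⟩ := H.exists_Q' w.2 hS
      obtain ⟨g', hg', hr⟩ := exists_partner_Q hQ hg
      obtain ⟨c', hc'⟩ := hπ g hg g' hg' hr w a hgf
      have h1 := h.equiv hr hf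
      rw [hgf, hc', hc g hg g' hg' hr w a c' hgf hc'] at h1
      have h2 := hθ₁ 1 w a
      rw [one_smul, map_one, one_smul] at h2
      rwa [h2]
    intro x hS hx0
    obtain ⟨b, w, a, rfl⟩ := hdec x
    by_cases hb : b = 0
    · subst hb
      rw [hθ₁, map_zero, zero_smul, zero_smul, zero_add, zero_add]
      rw [zero_smul, zero_add] at hS hx0
      by_cases hw : w = 0
      · subst hw
        simp only [ZeroMemClass.coe_zero, zero_add, map_zero] at hx0 ⊢
        have ha : a ≠ 0 := by rintro rfl; simp at hx0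
        exact h.smul he ha (mul_ne_zero ht0 (by simpa using ha))
      · have hSw : P.S (w : V) := by
          rw [add_comm] at hS
          exact (P.S_add (by simp [P.perp_symm w.2.1]) (P.S_smul a H.se)).mp hS
        obtain ⟨v, hv, hv1⟩ := H.W_nondeg w.2 (by simpa using hw)
        let u : P.W e f := σ (-a) • ⟨v, hv⟩
        have hu : P.β w u = -(a * ε) := by
          show P.β w (σ (-a) • v) = _
          rw [map_smulₛₗ, P.σσ, P.symm v w, hv1]; simp
        obtain ⟨g, hg, d, hd⟩ := H.exists_Q u.2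
        obtain ⟨g', hg', hr⟩ := exists_partner_Q hQ hg
        obtain ⟨d', hd'⟩ := hπ g hg g' hg' hr u d hd
        have h1 := h.equiv hr (hsing w hSw hw)
        rw [H.Q_apply hg u.2 hd w.2.1, H'.Q_apply hg' (π u).2 hd' (π w).2.1, hβ, hu] at h1
        convert h1 using 1
        · rw [neg_div, mul_div_cancel_right₀ _ hε, neg_smul, sub_neg_eq_add]
        · rw [sub_eq_add_neg, ← neg_smul, ht]
          congr 2
          simp only [map_neg, map_mul]
          field_simp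
    · have h1 : b • f + w + a • e = b • (f + (b⁻¹ • w : P.W e f) + (b⁻¹ * a) • e) := by
        simp only [Submodule.coe_smul, smul_add, smul_smul, mul_inv_cancel_left₀ hb,
          mul_inv_cancel₀ hb, one_smul]
      rw [h1] at hS ⊢
      rw [hθ]
      refine h.smul (k1 _ _ ?_) hb (by simpa using hb)
      simpa [smul_smul, hb] using P.S_smul b⁻¹ hS
  refine ⟨τ, θ, s, hs, hθ, fun x y => ?_, hΦ, fun g g' hr => ?_⟩
  · obtain ⟨b, w, a, rfl⟩ := hdec x
    obtain ⟨b', w', a', rfl⟩ := hdec y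
    rw [hθ₁, hθ₁]
    simp only [map_add, map_smul, map_smulₛₗ, LinearMap.add_apply, LinearMap.smul_apply, H.ff, H.ef,
      H.fe, H.ee, H'.ff, H'.ef, H'.fe, H'.ee, w.2.1, w.2.2, (π w).2.1, (π w).2.2,
      P.perp_symm w'.2.1, P.perp_symm w'.2.2, P'.perp_symm (π w').2.1, P'.perp_symm (π w').2.2,
      smul_eq_mul, hβ, map_mul, hσt, hτ, mul_zero, mul_one, add_zero, zero_add, map_zero]
    rw [ht]; field_simp
  · apply P.endgame P'.toLinGrp τ θ hθ {x | P.S x ∧ x ≠ 0} (H.rigid hW)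
    intro x hx
    exact h.uniq (h.equiv hr (hΦ x hx.1 hx.2)) (hΦ _ (P.sing g hx.1) (P.apply_ne_zero g hx.2))

omit [Finite G] in
theorem Hyp.torus {e f w : V} (H : P.Hyp e f) (hw : w ∈ P.W e f) (hw0 : w ≠ 0) (hs : P.S w)
    {b : F} (hb : b ≠ 0) : ∃ k, P.ρ k e = σ b • e ∧ P.ρ k f = b⁻¹ • f ∧ P.ρ k w = b • w := by
  obtain ⟨v, hv, Hv⟩ := H.W_partner hw hw0 hs
  have hε := P.ε_ne
  have hWW : ∀ w, w ∈ P.W e f → w ∈ P.W f (ε⁻¹ • e) := fun w hw => ⟨hw.2, by simp [hw.1]⟩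
  have key : ∀ b : F, b ≠ 0 → ∃ n, P.ρ n f = b • w ∧ P.ρ n w = -b⁻¹ • f ∧
      P.ρ n e = (ε * σ b⁻¹) • v ∧ P.ρ n v = -(σ b / ε) • e := by
    intro b hb
    have hσb : σ b ≠ 0 := by simpa using hb
    obtain ⟨x, hx, hxf⟩ := H.exists_Q0 (Submodule.smul_mem _ b hw) (P.S_smul b hs)
    obtain ⟨y, hy, hye⟩ := H.swap.exists_Q0 (hWW _ (Submodule.smul_mem _ (σ b⁻¹) hv))
      (P.S_smul _ Hv.sf)
    have hxw := H.Q_apply hx (Submodule.smul_mem _ b hw) hxf hw.1
    have hxv := H.Q_apply hx (Submodule.smul_mem _ b hw) hxf hv.1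
    have hyw := H.swap.Q_apply hy (hWW _ (Submodule.smul_mem _ (σ b⁻¹) hv)) hye hw.2
    have hyv := H.swap.Q_apply hy (hWW _ (Submodule.smul_mem _ (σ b⁻¹) hv)) hye hv.2
    simp only [map_smulₛₗ, Hv.ee, Hv.ef, Hv.fe, Hv.ff, P.σσ, smul_eq_mul, mul_zero, zero_div,
      zero_smul, sub_zero, mul_one, mul_div_cancel_right₀ _ hε, add_zero] at hxw hxv hyw hyv hxf
    have hye' : P.ρ y e = e + (ε * σ b⁻¹) • v := by
      have := congrArg (fun z => ε • z) hye
      simpa [smul_smul, hε] using this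
    refine ⟨x * y * x, ?_, ?_, ?_, ?_⟩ <;>
    simp only [P.mul_apply, map_add, map_sub, map_smul, hxw, hxv, hyw, hyv, hxf, hye', hx.1, hy.1,
      map_inv₀] <;>
    match_scalars <;> field_simp <;> ring
  obtain ⟨n, h1, h2, h3, h4⟩ := key b hb
  obtain ⟨m, k1, k2, k3, k4⟩ := key 1 one_ne_zero
  have l1 : P.ρ m⁻¹ w = f := by
    apply P.apply_injective m; rw [k1]; simp
  have l2 : P.ρ m⁻¹ f = -w := by
    apply P.apply_injective m; rw [map_neg, k2]; simp
  have l3 : P.ρ m⁻¹ e = -ε • v := by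
    apply P.apply_injective m; rw [map_smul, k4]; simp [smul_smul, hε]
  refine ⟨n * m⁻¹, ?_, ?_, ?_⟩
  · rw [P.mul_apply, l3, map_smul, h4, smul_smul]; congr 1; field_simp
  · rw [P.mul_apply, l2, map_neg, h2]; simp
  · rw [P.mul_apply, l1, h1]

/-- connectivity of the singular vectors orthogonal to a hyperbolic pair -/
def Conn (P : PolGrp F V G σ ε) : Prop :=
  (∀ x y, P.S x → P.S y → ∃ k : F, k ≠ 0 ∧ P.S (x + k • y)) ∨
  (∀ e f, P.Hyp e f → ∀ x ∈ P.W e f, P.S x → x ≠ 0 →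
    ∃ u ∈ P.W e f, P.S u ∧ P.β u x = 0 ∧ ∀ c : F, u ≠ c • x)

omit [Finite G] in
theorem Conn.eq (hC : P.Conn) {e f : V} (H : P.Hyp e f) {A : Type*} (s : P.W e f → A)
    (h1 : ∀ (x : P.W e f) (a : F), P.S x → x ≠ 0 → a ≠ 0 → s (a • x) = s x)
    (h2 : ∀ x y : P.W e f, P.S x → P.S y → x ≠ 0 → (∀ c : F, y ≠ c • x) → P.S (x + y : P.W e f) →
      s x = s y) (x y : P.W e f) (hx : P.S x) (hy : P.S y) (hx0 : x ≠ 0) (hy0 : y ≠ 0) :
    s x = s y := by
  by_cases hxy : ∃ c : F, y = c • x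
  · obtain ⟨c, rfl⟩ := hxy
    exact (h1 x c hx hx0 (by rintro rfl; simp at hy0)).symm
  push Not at hxy
  rcases hC with hC | hC
  · obtain ⟨k, hk, hS⟩ := hC x y hx hy
    rw [← h1 y k hy hy0 hk]
    refine h2 x (k • y) hx (P.S_smul k hy) hx0 (fun c hc => hxy (k⁻¹ * c) ?_) hS
    rw [mul_smul, ← hc, smul_smul, inv_mul_cancel₀ hk, one_smul]
  · by_cases h0 : P.β x y = 0
    · exact h2 x y hx hy hx0 hxy (P.S_add' h0 hx hy)
    obtain ⟨u, hu, hSu, hux, hu'⟩ := hC e f H x x.2 hx (by simpa using hx0)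
    let z : P.W e f := ⟨u, hu⟩ + (-(P.β u y / P.β x y)) • x
    have hz : (z : V) = u + (-(P.β u y / P.β x y)) • x := rfl
    have hSz : P.S z := P.S_add' (by simp [hux]) hSu (P.S_smul _ hx)
    have hzx : ∀ c : F, z ≠ c • x := fun c hc => hu' (c + P.β u y / P.β x y) (by
      have := congrArg Subtype.val hc
      rw [hz, Submodule.coe_smul] at this
      linear_combination (norm := module) this)
    have hxz : P.β x z = 0 := by simp [hz, P.perp_symm hux, P.S_self hx]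
    rw [h2 x z hx hSz hx0 hzx (P.S_add' hxz hx hSz)]
    refine h2 z y hSz hy (by simpa using hzx 0) (fun c hc => h0 ?_) (P.S_add' ?_ hSz hy)
    · rw [hc]; simp [hxz]
    · simp [hz, h0]

theorem PtCorr.induced_two [Finite F] (h : PtCorr P P' α Φ) (hR : P.R2) (hR' : P'.R2)
    (hC : P.Conn) {e : V} (hSe : P.S e) (he0 : e ≠ 0)
    (hcomm : ∀ (τ : F ≃+* F) a, τ (σ a) = σ (τ a)) : Induced P P' α Φ := by
  obtain ⟨p, hp⟩ := CharP.exists F
  have : Fact p.Prime := ⟨(CharP.char_is_prime F p)⟩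
  have hε := P.ε_ne
  obtain ⟨f, H⟩ := PolGrp.exists_hyp hSe he0
  obtain ⟨e', he⟩ := h.total hSe he0
  obtain ⟨f', hf, H'⟩ := h.exists_hyp H he
  have hQ := h.corrQ (p := p) (Or.inr hR) (Or.inr hR') he
  obtain ⟨π, hπ, -⟩ := exists_pi H H' hQ (h.corrT hR hR' he)
  obtain ⟨u₀, hu₀, hu₀0, hSu₀⟩ := hR e f H
  have hsum : ∀ w : P.W e f, ∃ a b c : P.W e f, P.S a ∧ P.S b ∧ P.S c ∧ w = a + b + c := fun w => by
    obtain ⟨a, ha, b, hb, c, hc, h1, h2, h3, h4⟩ := H.W_sum hu₀ hu₀0 hSu₀ w.2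
    exact ⟨⟨a, ha⟩, ⟨b, hb⟩, ⟨c, hc⟩, h1, h2, h3, Subtype.ext h4⟩
  have h0 : ∀ z : P.W e f, P.S z → ∃ g ∈ P.Q e, ∃ g' ∈ P'.Q e', Rel α g g' ∧
      P.ρ g f = f + z + (0 : F) • e ∧ P'.ρ g' f' = f' + π z + (0 : F) • e' := by
    intro z hz
    obtain ⟨g, hg, hgf⟩ := H.exists_Q0 z.2 hz
    obtain ⟨g', hg', hr⟩ := exists_partner_Q hQ hg
    obtain ⟨c', hc'⟩ := hπ g hg g' hg' hr z 0 hgf
    have h1 := (h.perp (h.equiv hr hf) hf).mp (by simp [hgf, H.ff, z.2.2])
    have h2 : c' = 0 := by simpa [hc', H'.ff, H'.ef, (π z).2.2, hε] using h1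
    exact ⟨g, hg, g', hg', hr, hgf, h2 ▸ hc'⟩
  have hfz : ∀ z : P.W e f, P.S z → Φ (f + z) (f' + π z) := by
    intro z hz
    obtain ⟨g, -, g', -, hr, h1, h2⟩ := h0 z hz
    simpa [h1, h2] using h.equiv hr hf
  have hsing : ∀ u : P.W e f, P.S u → u ≠ 0 → Φ u (π u) := by
    intro u hu hu0
    obtain ⟨g, hg, g', hg', hr, h1, h2⟩ := h0 u hu
    obtain ⟨u', hu'⟩ := h.total hu (by simpa using hu0)
    have hSπ : P'.S (π u) :=
      (P'.S_add (P'.perp_symm (π u).2.2) H'.sf).mp (h.sing' (hfz u hu)).1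
    have hu'W : u' ∈ P'.W e' f' := ⟨(h.perp hu' he).mp u.2.1, (h.perp hu' hf).mp u.2.2⟩
    have key : ∀ z', P'.S z' → P'.β z' e' = 0 → P'.β z' u' = 0 → P'.β z' (π u) = 0 := by
      intro z' hz' hze hzu
      by_cases hz0 : z' = 0
      · simp [hz0]
      obtain ⟨z, hz⟩ := h.total' hz' hz0
      have h3 := h.fixed hr (pelt_of_mem_Q (p := p) hg') hz (by
        rw [H.Q_apply hg u.2 h1 ((h.perp hz he).mpr hze), (h.perp hz hu').mpr hzu]; simp)
      rw [H'.Q_apply hg' (π u).2 h2 hze, sub_eq_self, smul_eq_zero] at h3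
      simpa [hε, H'.e_ne] using h3
    obtain ⟨a, b, hab⟩ := mem_line hSπ (π u).2.1
      (P'.perp_symm (key u' (h.sing' hu').1 hu'W.1 (P'.S_self (h.sing' hu').1))) key
    have h3 := H'.coeff (π u).2 (Submodule.smul_mem _ b hu'W) (b := 0) (b' := 0) (a := 0) (a' := a)
      (by rw [hab]; module)
    rw [h3.2.1]
    refine h.smul_right hu' ?_
    rintro rfl
    apply hu0
    simpa using h3.2.1
  have hπ0 : ∀ u : P.W e f, u ≠ 0 → π u ≠ 0 := fun u hu => by simpa using hu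
  have hpar : ∀ (u : P.W e f) (c : F), P.S u → u ≠ 0 → ∃ d : F, π (c • u) = d • π u := by
    intro u c hu hu0
    by_cases hc : c = 0
    · exact ⟨0, by simp [hc]⟩
    obtain ⟨d, hd⟩ := h.uniq (h.smul_left (hsing u hu hu0) hc)
      (hsing (c • u) (P.S_smul c hu) (smul_ne_zero hc hu0))
    exact ⟨d, Subtype.ext hd⟩
  have hline : ∀ u : P.W e f, P.S u → u ≠ 0 → ∃ τ : F ≃+* F, ∀ a c : F,
      π ((a * c) • u) = τ a • π (c • u) := by
    intro u hu hu0
    let l : F →+ P'.W e' f' := AddMonoidHom.mk' (fun c => π (c • u)) (fun a b => by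
      rw [add_smul, map_add])
    refine exists_ringEquiv_of_forall l (w₀ := 1) (by simpa [l] using hu0) (fun a => ?_)
    have : a ∈ scalarSubring (F := F) l := by
      rw [subring_eq_top_of_sq (scalarSubring (F := F) l)]
      · trivial
      intro b hb
      obtain ⟨k, k1, k2, k3⟩ := H.torus u.2 (by simpa using hu0) hu hb
      obtain ⟨k', hr⟩ := Rel.exists_right α k
      obtain ⟨a', ha', l1⟩ := h.eigen hr he k1
      obtain ⟨b', hb', l2⟩ := h.eigen hr hf k2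
      obtain ⟨m, -, l3⟩ := h.eigen hr (hsing u hu hu0) k3
      refine ⟨b'⁻¹ * m, fun c => Subtype.ext ?_⟩
      show (π (((b * b) • c) • u) : V') = (b'⁻¹ * m) • (π (c • u) : V')
      rw [hπ.conj H H' hQ hr (by simpa using hb) (inv_ne_zero hb) ha' hb' k1 k2 l1 l2 (c • u)
        (((b * b) • c) • u) (by
          simp only [Submodule.coe_smul, map_smul, k3, inv_inv, smul_eq_mul]; module)]
      obtain ⟨d, hd⟩ := hpar u c hu hu0
      rw [hd, Submodule.coe_smul, map_smul, l3]; module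
    exact this
  choose! τ hτ using hline
  have hτc : ∀ x y : P.W e f, P.S x → P.S y → x ≠ 0 → y ≠ 0 → τ x = τ y := by
    refine hC.eq H τ (fun x a hx hx0 ha => ?_) (fun x y hx hy hx0 hxy hS => ?_)
    · ext b
      have h1 := hτ (a • x) (P.S_smul a hx) (smul_ne_zero ha hx0) b 1
      rw [mul_one, one_smul, smul_smul, hτ x hx hx0] at h1
      exact (smul_left_injective F (hπ0 _ (smul_ne_zero ha hx0)) h1).symm
    · ext b
      have hy0 : y ≠ 0 := by simpa using hxy 0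
      have hxy0 : x + y ≠ 0 := fun h => hxy (-1) (by
        rw [neg_one_smul]; exact eq_neg_of_add_eq_zero_right h)
      have k : ∀ z : P.W e f, P.S z → z ≠ 0 → π (b • z) = τ z b • π z := fun z hz hz0 => by
        simpa using hτ z hz hz0 b 1
      refine glue (π : P.W e f →+ P'.W e' f') (k x hx hx0) (k y hy hy0) (k _ hS hxy0) ?_
      apply indep_of_notMem_span (hπ0 x hx0)
      intro c hc
      have hc0 : c ≠ 0 := by
        rintro rfl
        exact hπ0 y hy0 (by simpa using hc)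
      have h1 := hsing y hy hy0
      rw [show π y = c • π x from hc] at h1
      obtain ⟨d, hd⟩ := h.uniq' (h.smul_right (hsing x hx hx0) hc0) h1
      exact hxy d (Subtype.ext hd)
  let u₁ : P.W e f := ⟨u₀, hu₀⟩
  have hu₁ : u₁ ≠ 0 := by simpa [u₁, Subtype.ext_iff] using hu₀0
  set τ₀ := τ u₁ with hτ₀
  have hπτ : ∀ (a : F) w, π (a • w) = τ₀ a • π w := by
    have k : ∀ (a : F) (z : P.W e f), P.S z → π (a • z) = τ₀ a • π z := fun a z hz => by
      by_cases hz0 : z = 0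
      · simp [hz0]
      · simpa [hτc z u₁ hz hSu₀ hz0 hu₁] using hτ z hz hz0 a 1
    intro a w
    obtain ⟨x, y, z, hx, hy, hz, rfl⟩ := hsum w
    simp only [smul_add, map_add, k a x hx, k a y hy, k a z hz]
  have hs : ∀ u : P.W e f, P.S u → u ≠ 0 → ∃ s : F, ∀ w : P.W e f,
      P'.β (π w) (π u) = s * τ₀ (P.β w u) := by
    intro u hu hu0
    let l1 : Dual F (P.W e f) := (P.β.flip u).comp (P.W e f).subtype
    let l2 : Dual F (P.W e f) :=
      { toFun := fun w => τ₀.symm (P'.β (π w) (π u))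
        map_add' := fun x y => by simp
        map_smul' := fun a x => by simp [hπτ] }
    obtain ⟨c, hc⟩ := exists_smul_of_ker_le (f := l1) (h := l2) (fun w hw => by
      obtain ⟨g, hg, d, hd⟩ := H.exists_Q w.2
      obtain ⟨g', hg', hr⟩ := exists_partner_Q hQ hg
      obtain ⟨d', hd'⟩ := hπ g hg g' hg' hr w d hd
      have h3 := h.fixed hr (pelt_of_mem_Q (p := p) hg') (hsing u hu hu0) (by
        rw [H.Q_apply hg w.2 hd u.2.1, P.perp_symm (u := w) hw]; simp)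
      rw [H'.Q_apply hg' (π w).2 hd' (π u).2.1, sub_eq_self, smul_eq_zero] at h3
      have h4 : P'.β (π u) (π w) = 0 := by simpa [hε, H'.e_ne] using h3
      show τ₀.symm (P'.β (π w) (π u)) = 0
      rw [P'.perp_symm h4, map_zero])
    refine ⟨τ₀ c, fun w => ?_⟩
    have h1 : τ₀.symm (P'.β (π w) (π u)) = c * P.β w u := LinearMap.congr_fun hc w
    rw [← map_mul, ← h1, RingEquiv.apply_symm_apply]
  choose! s hs using hs
  have hWp : ∀ x y : P.W e f, (∀ c : F, y ≠ c • x) → ∃ w : P.W e f, P.β w x = 0 ∧ P.β w y = 1 := by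
    intro x y hxy
    obtain ⟨t, h1, h2⟩ := P.exists_perp1 (x := x) (y := y) (fun c hc => hxy c (Subtype.ext hc))
    exact ⟨⟨_, H.decomp t⟩, by simp [h1, P.perp_symm x.2.1, P.perp_symm x.2.2],
      by simp [h2, P.perp_symm y.2.1, P.perp_symm y.2.2]⟩
  have hsc : ∀ x y : P.W e f, P.S x → P.S y → x ≠ 0 → y ≠ 0 → s x = s y := by
    refine hC.eq H s (fun x a hx hx0 ha => ?_) (fun x y hx hy hx0 hxy hS => ?_)
    · obtain ⟨w, hw, hw1⟩ := H.W_nondeg x.2 (by simpa using hx0)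
      have h1 := hs (a • x) (P.S_smul a hx) (smul_ne_zero ha hx0) ⟨w, hw⟩
      rw [hπτ, Submodule.coe_smul, map_smulₛₗ, hs x hx hx0] at h1
      simp only [Submodule.coe_smul, map_smulₛₗ, hw1, smul_eq_mul, mul_one, map_one, hcomm] at h1
      rw [mul_comm] at h1
      exact (mul_right_cancel₀ (by simpa using ha) h1).symm
    · have hy0 : y ≠ 0 := by simpa using hxy 0
      have hxy0 : x + y ≠ 0 := fun h => hxy (-1) (by
        rw [neg_one_smul]; exact eq_neg_of_add_eq_zero_right h)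
      have k : ∀ w : P.W e f, s (x + y) * τ₀ (P.β w x + P.β w y) =
          s x * τ₀ (P.β w x) + s y * τ₀ (P.β w y) := fun w => by
        rw [← hs x hx hx0, ← hs y hy hy0, ← map_add, ← Submodule.coe_add, ← hs _ hS hxy0]; simp
      obtain ⟨w, h1, h2⟩ := hWp x y hxy
      obtain ⟨w', h3, h4⟩ := hWp y x (fun c hc => by
        obtain ⟨d, hd⟩ := LinGrp.swap_smul hc hx0
        exact hxy d hd)
      have h5 := k w
      have h6 := k w'
      simp only [h1, h2, h3, h4, map_zero, map_one, zero_add, add_zero, mul_one, mul_zero] at h5 h6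
      rw [← h5, h6]
  set s₀ := s u₁ with hs₀
  have hβ : ∀ w u : P.W e f, P'.β (π w) (π u) = s₀ * τ₀ (P.β w u) := by
    have k : ∀ w z : P.W e f, P.S z → P'.β (π w) (π z) = s₀ * τ₀ (P.β w z) := fun w z hz => by
      by_cases hz0 : z = 0
      · simp [hz0]
      · rw [hs z hz hz0, hsc z u₁ hz hSu₀ hz0 hu₁]
    intro w u
    obtain ⟨x, y, z, hx, hy, hz, rfl⟩ := hsum u
    simp only [map_add, Submodule.coe_add, k w x hx, k w y hy, k w z hz, mul_add]
  have hs0 : s₀ ≠ 0 := by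
    intro h0
    obtain ⟨w, hw, hw1⟩ := H'.W_nondeg (π u₁).2 (by simpa using hu₁)
    have := hβ (π.symm ⟨w, hw⟩) u₁
    rw [AddEquiv.apply_symm_apply, hw1, h0] at this
    simp at this
  refine h.induced_of_pi H H' he hf hQ ?_ π hπ τ₀ (hcomm τ₀) hπτ hs0 hβ ?_ hsing
  · obtain ⟨v, hv, Hv⟩ := H.W_partner hu₀ hu₀0 hSu₀
    refine ⟨u₀, hu₀, v, hv, hu₀0, Hv.f_ne, P.ne_zero_left (v := u₀) ?_⟩
    simp [Hv.ee, Hv.fe]
  · have key : ∀ g ∈ P.Q e, ∀ g' ∈ P'.Q e', Rel α g g' → ∀ (w : P.W e f) (c c' : F), w ≠ 0 →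
        P.ρ g f = f + w + c • e → P'.ρ g' f' = f' + π w + c' • e' → c' = s₀ * τ₀ ε / ε * τ₀ c := by
      intro g hg g' hg' hr w c c' hw0 h1 h2
      obtain ⟨z, hz, hSz, hwz⟩ := H.exists_sing_ne hu₀ hu₀0 hSu₀ w.2 (by simpa using hw0) (-(c * ε))
      have h3 := (h.perp (h.equiv hr hf) (hfz ⟨z, hz⟩ hSz)).mp (by
        simp [h1, H.ff, H.ef, w.2.2, P.perp_symm hz.1, P.perp_symm hz.2, hwz])
      simp only [h2, map_add, LinearMap.add_apply, map_smul, LinearMap.smul_apply, H'.ff, H'.ef,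
        (π w).2.2, P'.perp_symm (π ⟨z, hz⟩).2.1, P'.perp_symm (π ⟨z, hz⟩).2.2, hβ, hwz, smul_eq_mul,
        map_neg, map_mul] at h3
      field_simp
      linear_combination h3
    intro g hg g' hg' hr w c c' h1 h2
    by_cases hw0 : w = 0
    · subst hw0
      obtain ⟨k, hk, k', hk', hr', h3, h4⟩ := h0 u₁ hSu₀
      have h5 := H.Q_mul hk u₁.2 (0 : P.W e f).2 h3 h1
      have h6 := H'.Q_mul hk' (π u₁).2 (π 0).2 h4 h2
      refine key _ (mul_mem hk hg) _ (mul_mem hk' hg') (hr'.mul hr) u₁ c c' hu₁ ?_ ?_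
      · simpa using h5
      · simpa using h6
    · exact key g hg g' hg' hr w c c' hw0 h1 h2

end PolGrp

end Cfsg.Agent.Lib.Aut
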