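import Cfsg.Agent.Lib.Aut.Polar3

set_option autoImplicit false
set_option linter.unusedSectionVars false

/-! The three-dimensional unitary case. -/

namespace Cfsg.Agent.Lib.Aut

open Module

namespace PolGrp

variable {F V G V' G' : Type*} [Field F] [AddCommGroup V] [Module F V] [Group G]
  [AddCommGroup V'] [Module F V'] [Group G'] {σ : F →+* F}
variable {P : PolGrp F V G σ 1} {P' : PolGrp F V' G' σ 1}
  {α : G ⧸ Subgroup.center G ≃* G' ⧸ Subgroup.center G'} {Φ : V → V' → Prop}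
variable {p : ℕ} [Fact p.Prime] [CharP F p] [Finite G] [Finite G']

theorem PtCorr.induced_one [Finite F] (h : PtCorr P P' α Φ) (hR : P.R1) (hR' : P'.R1)
    {e f : V} (H : P.Hyp e f) (hW : ∃ w ∈ P.W e f, w ≠ 0)
    (hT : ∀ e', Φ e e' → Corr p α (P.T e) (P'.T e'))
    (htor : ∀ l : F, l ≠ 0 → ∃ k, P.ρ k e = l • e ∧ P.ρ k f = (σ l)⁻¹ • f ∧
      ∀ w ∈ P.W e f, P.ρ k w = (σ l / l) • w)
    {m : F} (hm1 : m * σ m = 1) (hm3 : m ^ 3 ≠ 1) {j : F} (hj : j + σ j ≠ 0) (hσ : ∃ a, σ a ≠ a)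
    (hcomm : ∀ (τ : F ≃+* F) a, τ (σ a) = σ (τ a)) : Induced P P' α Φ := by
  obtain ⟨e', he⟩ := h.total H.se H.e_ne
  obtain ⟨f', hf, H'⟩ := h.exists_hyp H he
  have hQ := h.corrQ (p := p) (Or.inl hR) (Or.inl hR') he
  obtain ⟨π, hπ, -⟩ := exists_pi H H' hQ (hT e' he)
  obtain ⟨w₁, hw₁, hw₁'⟩ := hR e f H
  obtain ⟨w₂, hw₂, hw₂'⟩ := hR' e' f' H'
  let w₀ : P.W e f := ⟨w₁, hw₁⟩
  have hspan : ∀ w : P.W e f, ∃ c : F, w = c • w₀ := fun w => by
    obtain ⟨c, hc⟩ := hw₁' w w.2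
    exact ⟨c, Subtype.ext hc⟩
  have hw₀ : w₀ ≠ 0 := by
    intro h0
    obtain ⟨w, hw, hw0⟩ := hW
    obtain ⟨c, hc⟩ := hspan ⟨w, hw⟩
    rw [h0, smul_zero] at hc
    exact hw0 (congrArg Subtype.val hc)
  have hπ0 : π w₀ ≠ 0 := by simpa using hw₀
  have hm0 : m ≠ 0 := by rintro rfl; simp at hm1
  have hσm : σ m = m⁻¹ := eq_inv_of_mul_eq_one_right hm1
  have hββ : P.β w₀ w₀ ≠ 0 := by
    obtain ⟨u, hu, h1⟩ := H.W_nondeg w₀.2 (by simpa using hw₀)
    obtain ⟨c, hc⟩ := hw₁' u hu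
    intro h0
    rw [hc, map_smul, LinearMap.smul_apply] at h1
    rw [show P.β w₁ w₀ = 0 from h0] at h1
    simp at h1
  have hββ' : ∀ w : P'.W e' f', w ≠ 0 → P'.β w w ≠ 0 := by
    intro w hw h0
    obtain ⟨u, hu, h1⟩ := H'.W_nondeg w.2 (by simpa using hw)
    obtain ⟨c, hc⟩ := hw₂' u hu
    obtain ⟨d, hd⟩ := hw₂' w w.2
    obtain ⟨d', hd'⟩ := LinGrp.swap_smul hd (by simpa using hw)
    rw [hc, hd', smul_smul, map_smul, LinearMap.smul_apply, h0] at h1
    simp at h1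
  have tor : ∀ l : F, l ≠ 0 → ∃ k k', Rel α k k' ∧ ∃ a' b' n : F, a' ≠ 0 ∧ b' ≠ 0 ∧
      P.ρ k e = l • e ∧ P.ρ k f = (σ l)⁻¹ • f ∧ (∀ w ∈ P.W e f, P.ρ k w = (σ l / l) • w) ∧
      P'.ρ k' e' = a' • e' ∧ P'.ρ k' f' = b' • f' ∧ (∀ w ∈ P'.W e' f', P'.ρ k' w = n • w) ∧
      ∀ w, π ((σ l * σ l / l) • w) = (b'⁻¹ * n) • π w := by
    intro l hl
    obtain ⟨k, k1, k2, k3⟩ := htor l hl
    obtain ⟨k', hr⟩ := Rel.exists_right α k
    obtain ⟨a', ha', l1⟩ := h.eigen hr he k1
    obtain ⟨b', hb', l2⟩ := h.eigen hr hf k2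
    obtain ⟨n, hn⟩ := hw₂' _ (mem_W_of_eigen hw₂ l1 l2 ha' hb')
    have l3 : ∀ w ∈ P'.W e' f', P'.ρ k' w = n • w := fun w hw => by
      obtain ⟨c, rfl⟩ := hw₂' w hw
      rw [map_smul, hn, smul_comm]
    refine ⟨k, k', hr, a', b', n, ha', hb', k1, k2, k3, l1, l2, l3, fun w => Subtype.ext ?_⟩
    rw [hπ.conj H H' hQ hr hl (by simpa using hl) ha' hb' k1 k2 l1 l2 w _ (by
      rw [k3 w w.2, inv_inv, Submodule.coe_smul, smul_smul, mul_div_assoc]), l3 _ (π w).2,
      smul_smul]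
    rfl
  obtain ⟨τ, hτ⟩ : ∃ τ : F ≃+* F, ∀ (a : F) w, π (a • w) = τ a • π w := by
    refine exists_ringEquiv_of_forall (π : P.W e f →+ P'.W e' f') (w₀ := w₀) hπ0 (fun a => ?_)
    let R := scalarSubring (F := F) (π : P.W e f →+ P'.W e' f')
    have h1 : ∀ l : F, l ≠ 0 → σ l * σ l / l ∈ R := fun l hl => by
      obtain ⟨k, k', -, a', b', n, -, -, -, -, -, -, -, -, h⟩ := tor l hl
      exact ⟨_, h⟩
    have h2 : ∀ l : F, σ l = l → l ∈ R := fun l hl => by
      by_cases h0 : l = 0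
      · simp [h0]
      · have := h1 l h0
        rwa [hl, mul_div_cancel_right₀ _ h0] at this
    obtain ⟨κ, hκR, hκ⟩ : ∃ κ ∈ R, σ κ ≠ κ := by
      by_contra hc
      push Not at hc
      -- `l = 1 + m` or a multiple of a trace zero element
      have h3 : ∀ l : F, l ≠ 0 → σ l ^ 3 = l ^ 3 := fun l hl => by
        have := hc _ (h1 l hl)
        have h4 : σ l ≠ 0 := by simpa using hl
        rw [map_div₀, map_mul, P.σσ] at this
        field_simp at this
        exact this.symm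
      by_cases h4 : 1 + m = 0
      · have h5 : m = -1 := by linear_combination h4
        have h6 : ∀ l : F, σ l = l := by
          intro l
          by_contra hl
          have h7 := h3 (σ l - l) (sub_ne_zero.mpr hl)
          rw [map_sub, P.σσ] at h7
          have h8 : (2 : F) * (σ l - l) ^ 3 = 0 := by linear_combination -h7
          rcases mul_eq_zero.mp h8 with h9 | h9
          · apply hm3; rw [h5]; linear_combination -h9
          · exact hl (sub_eq_zero.mp (pow_eq_zero_iff (by norm_num) |>.mp h9))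
        obtain ⟨a, ha⟩ := hσ
        exact ha (h6 a)
      · have h5 := h3 (1 + m) h4
        rw [map_add, map_one, hσm] at h5
        have h6 : (1 + m⁻¹) = (1 + m) * m⁻¹ := by field_simp; ring
        rw [h6, mul_pow, mul_eq_left₀ (pow_ne_zero _ h4), inv_pow, inv_eq_one] at h5
        exact hm3 h5
    have hκ' : κ - σ κ ≠ 0 := sub_ne_zero.mpr hκ.symm
    have h3 : σ ((a - σ a) / (κ - σ κ)) = (a - σ a) / (κ - σ κ) := by
      rw [map_div₀, map_sub, map_sub, P.σσ, P.σσ, ← neg_sub a, ← neg_sub κ, neg_div_neg_eq]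
    have h4 : a = (a - (a - σ a) / (κ - σ κ) * κ) + (a - σ a) / (κ - σ κ) * κ := by ring
    show a ∈ R
    rw [h4]
    refine R.add_mem (h2 _ ?_) (R.mul_mem (h2 _ h3) hκR)
    rw [map_sub, map_mul, h3]
    field_simp; ring
  set s := P'.β (π w₀) (π w₀) / τ (P.β w₀ w₀) with hs
  have hτβ : τ (P.β w₀ w₀) ≠ 0 := by simpa using hββ
  have hβ : ∀ w u : P.W e f, P'.β (π w) (π u) = s * τ (P.β w u) := by
    intro w u
    obtain ⟨c, rfl⟩ := hspan w
    obtain ⟨d, rfl⟩ := hspan u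
    simp only [hτ, Submodule.coe_smul, map_smul, map_smulₛₗ, LinearMap.smul_apply, smul_eq_mul,
      map_mul, hcomm, hs]
    field_simp
  refine h.induced_of_pi H H' he hf hQ ?_ π hπ τ (hcomm τ) hτ (div_ne_zero (hββ' _ hπ0) hτβ) hβ ?_ ?_
  · by_cases h4 : 1 + m = 0
    · refine ⟨w₀, w₀.2, w₀, w₀.2, by simpa using hw₀, by simpa using hw₀, fun h0 => hm3 ?_⟩
      rw [← two_smul F, smul_eq_zero] at h0
      have h2 : (2 : F) = 0 := h0.resolve_right (by simpa using hw₀)
      have h5 : m = 1 := by linear_combination h4 - h2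
      simp [h5]
    · refine ⟨w₀, w₀.2, m • w₀, (m • w₀).2, by simpa using hw₀,
        smul_ne_zero hm0 (by simpa using hw₀), fun h0 => ?_⟩
      rw [show (w₀ : V) + m • (w₀ : V) = (1 + m) • (w₀ : V) by module, smul_eq_zero] at h0
      exact hw₀ (by simpa [h4] using h0)
  · let D : P.W e f → F → Prop := fun w d => ∃ g ∈ P.Q e, ∃ g' ∈ P'.Q e', Rel α g g' ∧ ∃ c c' : F,
      P.ρ g f = f + w + c • e ∧ P'.ρ g' f' = f' + π w + c' • e' ∧ d = c' - s * τ c
    have hex : ∀ w, ∃ d, D w d := fun w => by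
      obtain ⟨g, hg, c, hc⟩ := H.exists_Q w.2
      obtain ⟨g', hg', hr⟩ := exists_partner_Q hQ hg
      obtain ⟨c', hc'⟩ := hπ g hg g' hg' hr w c hc
      exact ⟨_, g, hg, g', hg', hr, c, c', hc, hc', rfl⟩
    have hadd : ∀ w u d d', D w d → D u d' → D (w + u) (d + d') := by
      rintro w u _ _ ⟨g, hg, g', hg', hr, c, c', h1, h2, rfl⟩ ⟨k, hk, k', hk', hr', b, b', h3, h4, rfl⟩
      refine ⟨_, mul_mem hg hk, _, mul_mem hg' hk', hr.mul hr', _, _, H.Q_mul hg w.2 u.2 h1 h3,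
        by rw [map_add]; exact H'.Q_mul hg' (π w).2 (π u).2 h2 h4, ?_⟩
      simp only [hβ, div_one, map_sub, map_add]; ring
    have hzero : ∀ d, D 0 d → d = 0 := by
      rintro _ ⟨t, ht, t', ht', hr, c, c', h1, h2, rfl⟩
      have htr : σ c = -c := by
        have := P.S_self (P.sing t H.sf)
        simp only [h1, ZeroMemClass.coe_zero, add_zero, map_add, map_smul, map_smulₛₗ,
          LinearMap.add_apply, LinearMap.smul_apply, H.ff, H.ee, H.ef, H.fe, smul_eq_mul] at this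
        linear_combination this
      let w : P.W e f := (c * j / (j + σ j) / P.β w₀ w₀) • w₀
      have hw : P.β w w₀ = c * j / (j + σ j) := by
        simp only [w, Submodule.coe_smul, map_smul, LinearMap.smul_apply, smul_eq_mul]
        rw [div_mul_cancel₀ _ hββ]
      have hw' : P.β w w₀ - P.β w₀ w = c := by
        rw [P.symm w w₀, hw, one_mul, map_div₀, map_mul, map_add, P.σσ, htr, add_comm (σ j)]
        field_simp; ring
      obtain ⟨_, g, hg, g', hg', hrg, a, a', h3, h4, -⟩ := hex w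
      obtain ⟨_, k, hk, k', hk', hrk, b, b', h5, h6, -⟩ := hex w₀
      have h7 : t * (k * g) = g * k := by
        apply H.Q_ext (mul_mem ht (mul_mem hk hg)) (mul_mem hg hk)
        rw [H.Q_mul ht (0 : P.W e f).2 (add_mem w₀.2 w.2) h1 (H.Q_mul hk w₀.2 w.2 h5 h3),
          H.Q_mul hg w.2 w₀.2 h3 h5, ← hw']
        simp only [ZeroMemClass.coe_zero, map_zero, div_one]
        module
      have h8 : t' * (k' * g') = g' * k' := P'.rel_unique (p := p) (hr.mul (hrk.mul hrg))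
        (h7 ▸ hrg.mul hrk) (pelt_of_mem_Q (mul_mem ht' (mul_mem hk' hg')))
        (pelt_of_mem_Q (mul_mem hg' hk'))
      have h9 := H'.Q_mul ht' (π 0).2 (add_mem (π w₀).2 (π w).2) h2
        (H'.Q_mul hk' (π w₀).2 (π w).2 h6 h4)
      rw [h8, H'.Q_mul hg' (π w).2 (π w₀).2 h4 h6] at h9
      have h10 := (H'.coeff1 (add_mem (π w).2 (π w₀).2)
        (add_mem (π 0).2 (add_mem (π w₀).2 (π w).2)) h9).2
      simp only [map_zero, ZeroMemClass.coe_zero, div_one, hβ] at h10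
      rw [← hw', map_sub]
      linear_combination -h10
    have huniq : ∀ w d d', D w d → D w d' → d = d' := fun w d d' h1 h2 => by
      obtain ⟨d'', h3⟩ := hex (-w)
      have h4 := hadd _ _ _ _ h1 h3
      have h5 := hadd _ _ _ _ h2 h3
      rw [add_neg_cancel] at h4 h5
      linear_combination hzero _ h4 - hzero _ h5
    have hκ : ∀ w d, D w d → D ((σ m * σ m / m) • w) d := by
      rintro w _ ⟨g, hg, g', hg', hr, c, c', h1, h2, rfl⟩
      obtain ⟨k, k', hrk, a', b', n, ha', hb', k1, k2, k3, l1, l2, l3, l4⟩ := tor m hm0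
      have e1 : b' * σ a' = 1 := by
        have := P'.iso k' f' e'
        simpa [l1, l2, H'.fe, mul_comm] using this
      have e2 : n * σ n = 1 := by
        have := P'.iso k' (π w₀) (π w₀)
        rw [l3 _ (π w₀).2] at this
        simp only [map_smul, map_smulₛₗ, LinearMap.smul_apply, smul_eq_mul] at this
        rw [← mul_assoc, mul_eq_right₀ (hββ' _ hπ0)] at this
        rw [mul_comm, this]
      have e3 : τ (σ m * σ m / m) = b'⁻¹ * n := smul_left_injective F hπ0 ((hτ _ _).symm.trans (l4 w₀))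
      have e4 : b' * σ b' = 1 := by
        have h3 : (σ m * σ m / m) * σ (σ m * σ m / m) = 1 := by
          rw [map_div₀, map_mul, P.σσ, hσm]; field_simp
        have h4 := congrArg τ h3
        rw [map_mul, hcomm, e3, map_one, map_mul, map_inv₀] at h4
        have h5 : σ b' ≠ 0 := by simpa using hb'
        field_simp at h4
        rw [← h4, e2]
      have e5 : a' = b' := by
        have : σ a' = σ b' := mul_left_cancel₀ hb' (e1.trans e4.symm)
        exact σ.injective this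
      have g1 := conj_mem_Q hg k
      have g2 := conj_mem_Q hg' k'
      rw [k1, Q_smul _ hm0] at g1
      rw [l1, Q_smul _ ha'] at g2
      refine ⟨_, g1, _, g2, hrk.conj hr, c, c', ?_, ?_, rfl⟩
      · rw [Hyp.Q_conj h1 k1 k2 (by simpa using hm0), k3 _ w.2, inv_inv, smul_smul, mul_div_assoc,
          mul_right_comm, mul_comm (σ m) m, hm1, one_mul]
        rfl
      · rw [Hyp.Q_conj h2 l1 l2 hb', l3 _ (π w).2, l4, e5, smul_smul, mul_right_comm,
          inv_mul_cancel₀ hb', one_mul]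
        rfl
    have hκ1 : σ m * σ m / m - 1 ≠ 0 := by
      rw [sub_ne_zero, hσm]
      intro h1
      apply hm3
      field_simp at h1
      exact h1.symm
    intro g hg g' hg' hr w c c' h1 h2
    obtain ⟨d, hd⟩ := hex ((σ m * σ m / m - 1)⁻¹ • w)
    obtain ⟨d', hd'⟩ := hex (-((σ m * σ m / m - 1)⁻¹ • w))
    have h3 := hadd _ _ _ _ hd hd'
    rw [add_neg_cancel] at h3
    have h4 := hadd _ _ _ _ (hκ _ _ hd) hd'
    rw [hzero _ h3, ← sub_eq_add_neg, show (σ m * σ m / m) • (σ m * σ m / m - 1)⁻¹ • w -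
      (σ m * σ m / m - 1)⁻¹ • w = (σ m * σ m / m - 1) • (σ m * σ m / m - 1)⁻¹ • w by module,
      smul_smul, mul_inv_cancel₀ hκ1, one_smul] at h4
    have h5 := huniq _ _ _ h4 ⟨g, hg, g', hg', hr, c, c', h1, h2, rfl⟩
    simp only [map_one, mul_one, div_one]
    linear_combination -h5
  · intro u hu hu0
    exfalso
    obtain ⟨c, rfl⟩ := hspan u
    have hc : c ≠ 0 := by rintro rfl; simp at hu0
    have := P.S_self hu
    simp [hc, hββ] at this

end PolGrp

end Cfsg.Agent.Lib.Aut
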