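import Cfsg.Agent.Lib.Aut.Polar4

set_option autoImplicit false
set_option linter.unusedSectionVars false

/-! Sylow subgroups of polar groups; groups containing transvections. -/

namespace Cfsg.Agent.Lib.Aut

open Module

theorem pcentral_conj {G : Type*} [Group G] {p : ℕ} {g : G} (h : PCentral p g) (k : G) :
    PCentral p (k * g * k⁻¹) := by
  obtain ⟨S, hg, hS⟩ := h
  refine ⟨k • S, ⟨g, hg, rfl⟩, ?_⟩
  rintro _ ⟨s, hs, rfl⟩
  show k * s * k⁻¹ * (k * g * k⁻¹) = k * g * k⁻¹ * (k * s * k⁻¹)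
  calc _ = k * (s * g) * k⁻¹ := by group
    _ = _ := by rw [hS s hs]; group

namespace PolGrp

variable {F V G V' G' : Type*} [Field F] [AddCommGroup V] [Module F V] [Group G]
  [AddCommGroup V'] [Module F V'] [Group G'] {σ : F →+* F} {ε : F}
variable {P : PolGrp F V G σ ε} {P' : PolGrp F V' G' σ ε}
  {α : G ⧸ Subgroup.center G ≃* G' ⧸ Subgroup.center G'}

theorem Hyp.fixed_Q {e f : V} (H : P.Hyp e f) (hW : ∃ w ∈ P.W e f, w ≠ 0) {x : V}
    (hx : ∀ g ∈ P.Q e, P.ρ g x = x) : ∃ c : F, x = c • e := by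
  obtain ⟨w, hw, a, ha⟩ := H.exists_decomp x
  have h1 : P.β x e = 0 := by
    obtain ⟨u, hu, hu0⟩ := hW
    obtain ⟨g, hg, c, hc⟩ := H.exists_Q hu
    have h2 := hx g hg
    rw [ha, map_add, map_add, map_smul, map_smul, hc, hg.1, H.Q_apply hg hu hc hw.1] at h2
    have := H.coeff (add_mem (Submodule.smul_mem _ (P.β x e) hu) hw) hw (b := P.β x e)
      (b' := P.β x e) (a := P.β x e * c - P.β w u / ε + a) (a' := a) (by rw [← h2]; module)
    simpa [hu0] using this.2.1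
  by_cases hw0 : w = 0
  · exact ⟨a, by simpa [h1, hw0] using ha⟩
  obtain ⟨u, hu, hu1⟩ := H.W_nondeg hw hw0
  obtain ⟨g, hg, c, hc⟩ := H.exists_Q hu
  have h2 := hx g hg
  rw [H.Q_apply hg hu hc h1, sub_eq_self, smul_eq_zero, ha, h1] at h2
  simp [P.perp_symm hu.1, P.symm u w, hu1, P.ε_ne, H.e_ne] at h2

/-- the group has a singular point and dimension at least three -/
def Big (P : PolGrp F V G σ ε) : Prop :=
  (∃ e, P.S e ∧ e ≠ 0) ∧ ∀ e f, P.Hyp e f → ∃ w ∈ P.W e f, w ≠ 0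

variable {p : ℕ} [Fact p.Prime] [CharP F p]

theorem Big.dvd_card [Finite V] (hB : P.Big) : p ∣ Nat.card {x | P.S x} := by
  obtain ⟨⟨e, he, he0⟩, hW⟩ := hB
  obtain ⟨f, H⟩ := exists_hyp he he0
  let : MulAction (P.Q e) {x | P.S x} :=
    { smul := fun s y => ⟨P.ρ s y, P.sing s y.2⟩
      one_smul := fun y => Subtype.ext (P.one_apply _)
      mul_smul := fun a b y => Subtype.ext (P.mul_apply _ _ _) }
  have h1 := (isPGroup_Q (P := P) (p := p) e).card_modEq_card_fixedPoints {x | P.S x}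
  have h2 : Nat.card (Submodule.span F {e}) =
      Nat.card (MulAction.fixedPoints (P.Q e) {x | P.S x}) := by
    refine Nat.card_congr (Equiv.ofBijective (fun y => ⟨⟨y, ?_⟩, ?_⟩) ⟨?_, ?_⟩)
    · obtain ⟨c, hc⟩ := Submodule.mem_span_singleton.mp y.2
      exact hc ▸ P.S_smul c he
    · intro g
      obtain ⟨c, hc⟩ := Submodule.mem_span_singleton.mp y.2
      apply Subtype.ext
      show P.ρ g y = y
      rw [← hc, map_smul, g.2.1]
    · intro a b h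
      exact Subtype.ext (congrArg (fun z => (z.1.1 : V)) h)
    · rintro ⟨⟨x, hx⟩, hx'⟩
      obtain ⟨c, hc⟩ := H.fixed_Q (hW e f H) (x := x)
        (fun g hg => congrArg Subtype.val (hx' ⟨g, hg⟩))
      exact ⟨⟨x, Submodule.mem_span_singleton.mpr ⟨c, hc.symm⟩⟩, rfl⟩
  have : Nontrivial (Submodule.span F {e}) :=
    Submodule.nontrivial_iff_ne_bot.mpr (by simpa using he0)
  rw [← h2] at h1
  exact (h1.dvd_iff dvd_rfl).mpr (char_dvd_card_of_nontrivial (F := F) p _)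

theorem Big.exists_fixed [Finite V] (hB : P.Big) {R : Subgroup G} (hR : IsPGroup p R) :
    ∃ e, P.S e ∧ e ≠ 0 ∧ ∀ s ∈ R, P.ρ s e = e := by
  obtain ⟨e, he, -⟩ := hB.1
  exact P.exists_fixed_of_dvd hR {x | P.S x} (P.S_zero he) (fun s _ _ hy => P.sing s hy)
    hB.dvd_card

theorem Q_le_sylow (S : Sylow p G) {e : V} (h : ∀ s ∈ S, P.ρ s e = e) : P.Q e ≤ S :=
  le_sylow_of_normalizes S (isPGroup_Q e) fun s hs x hx => by
    simpa [h s hs] using conj_mem_Q hx s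

omit [CharP F p] in
theorem Hyp.mem_Q_of_comm {e f : V} (H : P.Hyp e f) {z : G} (hz : P.ρ z e = e)
    (hc : ∀ g ∈ P.Q e, g * z = z * g) : z ∈ P.Q e := by
  have key : ∀ w ∈ P.W e f, ∃ c : F, P.ρ z w = w + c • e := by
    intro w hw
    obtain ⟨g, hg, c, hc'⟩ := H.exists_Q hw
    obtain ⟨u, hu, a, ha⟩ := H.exists_decomp (P.ρ z f)
    have h1 : P.β (P.ρ z f) e = 1 := by
      conv_lhs => rw [← hz]
      rw [P.iso, H.fe]
    rw [h1, one_smul] at ha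
    have h2 := congrArg (fun k => P.ρ k f) (hc g hg)
    simp only [P.mul_apply, hc', ha, map_add, map_smul, hz, hg.1, H.Q_apply hg hw hc' hu.1] at h2
    exact ⟨-(P.β u w / ε), by linear_combination (norm := module) -h2⟩
  refine ⟨hz, fun x hx => ?_⟩
  obtain ⟨w, hw, a, ha⟩ := H.exists_decomp x
  obtain ⟨c, hc⟩ := key w hw
  rw [hx, zero_smul, zero_add] at ha
  exact ⟨c, by rw [ha, map_add, map_smul, hz, hc]; abel⟩

omit [CharP F p] in
theorem Hyp.mem_T_of_comm {e f : V} (H : P.Hyp e f) (hσ : ∃ a, a ≠ ε * σ a) {z : G}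
    (hz : P.ρ z e = e) (hc : ∀ g ∈ P.Q e, g * z = z * g) : z ∈ P.T e := by
  have hQ := H.mem_Q_of_comm hz hc
  obtain ⟨u, hu, a, ha⟩ := H.exists_Q_apply hQ
  rw [H.mem_T_iff hQ hu ha]
  by_contra h0
  obtain ⟨b, hb⟩ := hσ
  obtain ⟨v, hv, hv1⟩ := H.W_nondeg hu h0
  obtain ⟨g, hg, c, hc'⟩ := H.exists_Q (Submodule.smul_mem _ b hv)
  have h1 := H.Q_mul hg (Submodule.smul_mem _ b hv) hu hc' ha
  rw [hc g hg, H.Q_mul hQ hu (Submodule.smul_mem _ b hv) ha hc'] at h1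
  have h2 := (H.coeff1 (add_mem hu (Submodule.smul_mem _ b hv))
    (add_mem (Submodule.smul_mem _ b hv) hu) h1).2
  rw [P.symm (b • v) u] at h2
  simp only [map_smul, LinearMap.smul_apply, hv1, smul_eq_mul, mul_one] at h2
  apply hb
  have h3 := P.ε_ne
  field_simp at h2
  linear_combination -h2

omit [CharP F p] in
theorem T_apply {e : V} (he : P.S e) (he0 : e ≠ 0) {t : G} (ht : t ∈ P.T e) :
    ∃ c : F, ∀ x, P.ρ t x = x + (P.β x e * c) • e := by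
  obtain ⟨f, H⟩ := exists_hyp he he0
  obtain ⟨w, hw, c, hc⟩ := H.exists_Q_apply (T_le_Q he ht)
  rw [(H.mem_T_iff (T_le_Q he ht) hw hc).mp ht, add_zero] at hc
  refine ⟨c, fun x => ?_⟩
  have := ht (x - P.β x e • f) (by simp [H.fe])
  rw [map_sub, map_smul, hc] at this
  linear_combination (norm := module) this

omit [CharP F p] in
theorem T_comm_of_fixed {e : V} (he : P.S e) (he0 : e ≠ 0) {t s : G} (ht : t ∈ P.T e)
    (hs : P.ρ s e = e) : s * t = t * s := by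
  obtain ⟨c, hc⟩ := T_apply he he0 ht
  apply P.ext
  intro x
  have : P.β (P.ρ s x) e = P.β x e := by
    conv_lhs => rw [← hs]
    rw [P.iso]
  simp only [P.mul_apply, hc, map_add, map_smul, hs, this]

omit [CharP F p] in
theorem trans_of_nonperp {e x y : V} (he : P.S e) (hx : P.S x) (hy : P.S y) (h1 : P.β x e ≠ 0)
    (h2 : P.β y e ≠ 0) : ∃ g, ∃ c : F, c ≠ 0 ∧ P.ρ g x = c • y := by
  obtain ⟨g, -, hg⟩ := P.hasQ he (P.S_smul (P.β x e)⁻¹ hx) (P.S_smul (P.β y e)⁻¹ hy)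
    (by simp [h1]) (by simp [h2])
  refine ⟨g, P.β x e * (P.β y e)⁻¹, mul_ne_zero h1 (inv_ne_zero h2), ?_⟩
  rw [map_smul, inv_smul_eq_iff₀ h1] at hg
  rw [hg, mul_smul]

omit [CharP F p] in
theorem trans_of_perp {x y : V} (hx : P.S x) (hy : P.S y) (hx0 : x ≠ 0) (hy0 : y ≠ 0)
    (h : P.β x y = 0) : ∃ g, ∃ c : F, c ≠ 0 ∧ P.ρ g x = c • y := by
  by_cases hxy : ∃ c : F, x = c • y
  · obtain ⟨c, rfl⟩ := hxy
    exact ⟨1, c, by rintro rfl; simp at hx0, by simp⟩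
  push Not at hxy
  obtain ⟨t, h1, h2⟩ := P.exists_perp1 hxy
  obtain ⟨t', h3, h4⟩ := P.exists_perp1 (x := x) (y := y) (fun c hc => by
    obtain ⟨d, hd⟩ := LinGrp.swap_smul hc hy0
    exact hxy d hd)
  obtain ⟨c, h5, h6⟩ := P.adj hx (t := t + t') (by simp [h2, h3])
  refine trans_of_nonperp h5 hx hy (fun h0 => ?_) (fun h0 => ?_)
  · rw [P.perp_symm h0] at h6; exact zero_ne_one h6
  · simpa [h1, h4, h] using P.perp_symm h0

/-- there are non-trivial transvections -/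
def HasT (P : PolGrp F V G σ ε) : Prop := ∀ e f, P.Hyp e f → ∃ k : F, k ≠ 0 ∧ P.S (f + k • e)

omit [CharP F p] in
theorem trans (hT : P.HasT ∨ P.R2) {x y : V} (hx : P.S x) (hy : P.S y) (hx0 : x ≠ 0)
    (hy0 : y ≠ 0) : ∃ g, ∃ c : F, c ≠ 0 ∧ P.ρ g x = c • y := by
  by_cases h : P.β x y = 0
  · exact trans_of_perp hx hy hx0 hy0 h
  have H : P.Hyp y ((P.β x y)⁻¹ • x) := ⟨hy, P.S_smul _ hx, by simp [h]⟩
  rcases hT with hT | hT
  · obtain ⟨k, hk, hS⟩ := hT _ _ H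
    refine trans_of_nonperp hS hx hy ?_ ?_
    · simp [P.S_self hx, hk, h]
    · rw [Ne, P.perp_comm]; simp [P.S_self hy, h]
  · obtain ⟨u, hu, hu0, hS⟩ := hT _ _ H
    obtain ⟨g, c, hc, hg⟩ := trans_of_perp hx hS hx0 hu0 (P.perp_symm (by simpa [h] using hu.2))
    obtain ⟨g', c', hc', hg'⟩ := trans_of_perp hS hy hu0 hy0 hu.1
    exact ⟨g' * g, c * c', mul_ne_zero hc hc', by rw [P.mul_apply, hg, map_smul, hg', mul_smul]⟩

omit [CharP F p] in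
theorem HasT.conn (hT : P.HasT) : P.Conn := by
  left
  intro x y hx hy
  by_cases h : P.β x y = 0
  · exact ⟨1, one_ne_zero, by simpa using P.S_add' h hx hy⟩
  have H : P.Hyp y ((P.β x y)⁻¹ • x) := ⟨hy, P.S_smul _ hx, by simp [h]⟩
  obtain ⟨k, hk, hS⟩ := hT _ _ H
  refine ⟨P.β x y * k, mul_ne_zero h hk, ?_⟩
  simpa [smul_smul, h] using P.S_smul (P.β x y) hS

omit [CharP F p] in
theorem HasT.exists_T (hT : P.HasT) {e : V} (he : P.S e) (he0 : e ≠ 0) :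
    ∃ t ∈ P.T e, ∃ c : F, c ≠ 0 ∧ ∀ x, P.ρ t x = x + (P.β x e * c) • e := by
  obtain ⟨f, H⟩ := exists_hyp he he0
  obtain ⟨k, hk, hS⟩ := hT e f H
  obtain ⟨g, hg, hgf⟩ := H.exists_Q' (zero_mem _) (c := k) (by simpa using hS)
  have ht := (H.mem_T_iff hg (zero_mem _) hgf).mpr rfl
  obtain ⟨c, hc⟩ := T_apply he he0 ht
  refine ⟨g, ht, c, ?_, hc⟩
  rintro rfl
  rw [hc] at hgf
  simp [hk, he0] at hgf

omit [CharP F p] in
theorem ne_one_of_apply {e : V} (he0 : e ≠ 0) {t : G} {c : F} (hc : c ≠ 0)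
    (h : ∀ x, P.ρ t x = x + (P.β x e * c) • e) : t ≠ 1 := by
  rintro rfl
  obtain ⟨x, hx⟩ := P.exists_one he0
  simpa [hx, hc, he0] using h x

omit [CharP F p] in
theorem T_apply' {e : V} (he : P.S e) (he0 : e ≠ 0) {t : G} (ht : t ∈ P.T e) (h1 : t ≠ 1) :
    ∃ c : F, c ≠ 0 ∧ ∀ x, P.ρ t x = x + (P.β x e * c) • e := by
  obtain ⟨c, hc⟩ := T_apply he he0 ht
  refine ⟨c, ?_, hc⟩
  rintro rfl
  exact h1 (P.ext fun x => by simp [hc])

omit [CharP F p] in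
theorem parallel_of_mem_T {x y : V} (hx : P.S x) (hx0 : x ≠ 0) (hy : P.S y) (hy0 : y ≠ 0) {t : G}
    (h1 : t ≠ 1) (ht : t ∈ P.T x) (ht' : t ∈ P.T y) : ∃ c : F, x = c • y := by
  obtain ⟨c, hc0, hc⟩ := T_apply' hx hx0 ht h1
  obtain ⟨d, hd⟩ := T_apply hy hy0 ht'
  obtain ⟨v, hv⟩ := P.exists_one hx0
  have := (hc v).symm.trans (hd v)
  rw [hv, one_mul, add_right_inj] at this
  exact ⟨c⁻¹ * (P.β v y * d), by rw [mul_smul, ← this, smul_smul, inv_mul_cancel₀ hc0, one_smul]⟩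

omit [CharP F p] in
theorem perp_of_comm {x y : V} (hx : P.S x) (hx0 : x ≠ 0) (hy : P.S y) (hy0 : y ≠ 0) {t s : G}
    (h1 : t ≠ 1) (h2 : s ≠ 1) (ht : t ∈ P.T x) (hs : s ∈ P.T y) (h : t * s = s * t) :
    P.β x y = 0 := by
  obtain ⟨c, hc0, hc⟩ := T_apply' hx hx0 ht h1
  obtain ⟨d, hd0, hd⟩ := T_apply' hy hy0 hs h2
  have h3 := congrArg (fun k => P.β (P.ρ k x) y) h
  simp only [P.mul_apply, hc, hd, map_add, map_smul, LinearMap.add_apply, LinearMap.smul_apply,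
    P.S_self hx, P.S_self hy, smul_eq_mul] at h3
  by_contra h0
  have h4 : P.β y x ≠ 0 := fun h => h0 (P.perp_symm h)
  have : P.β x y * d * P.β y x * c * P.β x y = 0 := by linear_combination h3
  simp [h0, h4, hc0, hd0] at this

omit [CharP F p] in
theorem parallel_of_mul_mem_T {x y z : V} (hx : P.S x) (hx0 : x ≠ 0) (hy : P.S y) (hy0 : y ≠ 0)
    (hz : P.S z) (hz0 : z ≠ 0) {t s : G} (h1 : t ≠ 1) (h2 : s ≠ 1) (ht : t ∈ P.T x)
    (hs : s ∈ P.T y) (h : t * s ∈ P.T z) : ∃ c : F, y = c • x := by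
  obtain ⟨c, hc0, hc⟩ := T_apply' hx hx0 ht h1
  obtain ⟨d, hd0, hd⟩ := T_apply' hy hy0 hs h2
  obtain ⟨k, hk⟩ := T_apply hz hz0 h
  by_contra hxy
  push Not at hxy
  obtain ⟨v, h3, h4⟩ := P.exists_perp1 hxy
  obtain ⟨v', h5, h6⟩ := P.exists_perp1 (x := y) (y := x) (fun c hc => by
    obtain ⟨d, hd⟩ := LinGrp.swap_smul hc hx0
    exact hxy d hd)
  have e1 := hk v
  have e2 := hk v'
  simp only [P.mul_apply, hc, hd, map_add, map_smul, LinearMap.add_apply, LinearMap.smul_apply,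
    smul_eq_mul, h3, h4, h5, h6, zero_mul, one_mul, zero_smul, add_zero, zero_add,
    add_right_inj, add_assoc] at e1 e2
  obtain ⟨a, ha⟩ := LinGrp.swap_smul e2 (smul_ne_zero hc0 hx0)
  apply hxy (d⁻¹ * (P.β v z * k * a * c - d * P.β y x * c))
  rw [mul_smul, eq_inv_smul_iff₀ hd0]
  generalize P.β v z = b at e1 ⊢
  rw [ha] at e1
  linear_combination (norm := module) e1

/-- transvections -/
def IsTr (P : PolGrp F V G σ ε) (g : G) : Prop := ∃ x, P.S x ∧ x ≠ 0 ∧ g ∈ P.T x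

theorem IsTr.pcentral [Finite V] (hB : P.Big) (hT : P.HasT ∨ P.R2) {g : G} (hg : P.IsTr g) :
    PCentral p g := by
  obtain ⟨x, hx, hx0, hg⟩ := hg
  obtain ⟨S⟩ : Nonempty (Sylow p G) := inferInstance
  obtain ⟨e, he, he0, hS⟩ := hB.exists_fixed S.isPGroup'
  obtain ⟨k, c, hc, hk⟩ := trans hT hx he hx0 he0
  have h1 := conj_mem_T hg k
  rw [hk, T_smul _ hc] at h1
  have h2 : PCentral p (k * g * k⁻¹) :=
    ⟨S, Q_le_sylow S hS (T_le_Q he h1), fun s hs => T_comm_of_fixed he he0 h1 (hS s hs)⟩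
  simpa [mul_assoc] using pcentral_conj h2 k⁻¹

theorem PCentral.exists_Q [Finite V] (hB : P.Big) {g : G} (hg : PCentral p g) :
    ∃ e, P.S e ∧ e ≠ 0 ∧ P.ρ g e = e ∧ ∀ k ∈ P.Q e, k * g = g * k := by
  obtain ⟨S, hgS, hS⟩ := hg
  obtain ⟨e, he, he0, h⟩ := hB.exists_fixed S.isPGroup'
  exact ⟨e, he, he0, h g hgS, fun k hk => hS k (Q_le_sylow S h hk)⟩

theorem PCentral.isTr [Finite V] (hB : P.Big) (hσ : ∃ a, a ≠ ε * σ a) {g : G}
    (hg : PCentral p g) : P.IsTr g := by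
  obtain ⟨e, he, he0, h1, h2⟩ := PCentral.exists_Q hB hg
  obtain ⟨f, H⟩ := exists_hyp he he0
  exact ⟨e, he, he0, H.mem_T_of_comm hσ h1 h2⟩

theorem IsTr.pelt {g : G} (hg : P.IsTr g) : PElt p g := by
  obtain ⟨x, hx, -, hg⟩ := hg
  exact pelt_of_mem_Q (T_le_Q hx hg)

variable [Finite G] [Finite G']

variable (p P P' α) in
/-- the correspondence given by the transvection groups -/
def TCorr (x : V) (x' : V') : Prop :=
  (P.S x ∧ x ≠ 0) ∧ (P'.S x' ∧ x' ≠ 0) ∧ Corr p α (P.T x) (P'.T x')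

theorem exists_image_T (hT : P.HasT)
    (h : ∀ g g', Rel α g g' → PElt p g' → P.IsTr g → P'.IsTr g') {x : V} (hx : P.S x)
    (hx0 : x ≠ 0) : ∃ x', P'.S x' ∧ x' ≠ 0 ∧
      ∀ g ∈ P.T x, ∀ g', Rel α g g' → PElt p g' → g' ∈ P'.T x' := by
  obtain ⟨t, ht, c, hc0, hc⟩ := hT.exists_T hx hx0
  have h1 := ne_one_of_apply hx0 hc0 hc
  have htp : PElt p t := IsTr.pelt ⟨x, hx, hx0, ht⟩
  obtain ⟨t', hr, hp⟩ := Rel.exists_pelt α htp
  obtain ⟨x', hx', hx0', ht'⟩ := h t t' hr hp ⟨x, hx, hx0, ht⟩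
  have h1' : t' ≠ 1 := by
    rintro rfl
    exact h1 (P.rel_unique hr.symm Rel.one htp PElt.one)
  refine ⟨x', hx', hx0', fun g hg g' hr' hp' => ?_⟩
  by_cases h2 : g' = 1
  · rw [h2]; exact one_mem _
  obtain ⟨y', hy', hy0', hg'⟩ := h g g' hr' hp' ⟨x, hx, hx0, hg⟩
  obtain ⟨z', hz', hz0', hz⟩ := h (t * g) (t' * g') (hr.mul hr')
    (hp.mul_of_commute hp' (P'.rel_commute hr hr' hp'
      (T_comm_of_fixed hx hx0 hg (ht x (P.S_self hx))))) ⟨x, hx, hx0, mul_mem ht hg⟩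
  obtain ⟨a, rfl⟩ := parallel_of_mul_mem_T hx' hx0' hy' hy0' hz' hz0' h1' h2 ht' hg' hz
  rwa [T_smul _ (by rintro rfl; simp at hy0')] at hg'

theorem exists_tcorr (hT : P.HasT) (hT' : P'.HasT)
    (h : ∀ g g', Rel α g g' → PElt p g → PElt p g' → (P.IsTr g ↔ P'.IsTr g')) {x : V} (hx : P.S x)
    (hx0 : x ≠ 0) : ∃ x', TCorr P P' α p x x' := by
  obtain ⟨x', hx', hx0', h1⟩ := exists_image_T (p := p) (α := α) hT
    (fun g g' hr hp hg => (h g g' hr hg.pelt hp).mp hg) hx hx0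
  obtain ⟨y, hy, hy0, h2⟩ := exists_image_T (p := p) (α := α.symm) hT'
    (fun g' g hr hp hg => (h g g' hr.symm hp hg.pelt).mpr hg) hx' hx0'
  obtain ⟨t, ht, c, hc0, hc⟩ := hT.exists_T hx hx0
  have htp : PElt p t := IsTr.pelt ⟨x, hx, hx0, ht⟩
  obtain ⟨t', hr, hp⟩ := Rel.exists_pelt α htp
  obtain ⟨a, ha⟩ := parallel_of_mem_T hx hx0 hy hy0 (ne_one_of_apply hx0 hc0 hc) ht
    (h2 t' (h1 t ht t' hr hp) t hr.symm htp)
  refine ⟨x', ⟨hx, hx0⟩, ⟨hx', hx0'⟩, fun g g' hr hp hp' => ⟨fun hg => h1 g hg g' hr hp', fun hg => ?_⟩⟩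
  rw [ha, T_smul _ (by rintro rfl; simp [ha] at hx0)]
  exact h2 g' hg g hr.symm hp

theorem TCorr.symm {x : V} {x' : V'} (h : TCorr P P' α p x x') : TCorr P' P α.symm p x' x :=
  ⟨h.2.1, h.1, h.2.2.symm⟩

theorem TCorr.uniq (hT' : P'.HasT) {x : V} {x' y' : V'} (h1 : TCorr P P' α p x x')
    (h2 : TCorr P P' α p x y') : ∃ c : F, y' = c • x' := by
  obtain ⟨t, ht, c, hc0, hc⟩ := hT'.exists_T h2.2.1.1 h2.2.1.2
  exact parallel_of_mem_T h2.2.1.1 h2.2.1.2 h1.2.1.1 h1.2.1.2 (ne_one_of_apply h2.2.1.2 hc0 hc) ht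
    (h2.2.2.le_right h1.2.2 (isPGroup_T h2.2.1.1) le_rfl ht)

theorem TCorr.perp (hT' : P'.HasT) {x y : V} {x' y' : V'} (h1 : TCorr P P' α p x x')
    (h2 : TCorr P P' α p y y') (h : P.β x y = 0) : P'.β x' y' = 0 := by
  obtain ⟨t', ht', c, hc0, hc⟩ := hT'.exists_T h1.2.1.1 h1.2.1.2
  obtain ⟨s', hs', d, hd0, hd⟩ := hT'.exists_T h2.2.1.1 h2.2.1.2
  have htp : PElt p t' := IsTr.pelt ⟨_, h1.2.1.1, h1.2.1.2, ht'⟩
  have hsp : PElt p s' := IsTr.pelt ⟨_, h2.2.1.1, h2.2.1.2, hs'⟩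
  obtain ⟨t, hr, hp⟩ := Rel.exists_pelt α.symm htp
  obtain ⟨s, hr', hp'⟩ := Rel.exists_pelt α.symm hsp
  have ht := (h1.2.2 t t' hr.symm hp htp).mpr ht'
  have hs := (h2.2.2 s s' hr'.symm hp' hsp).mpr hs'
  exact perp_of_comm h1.2.1.1 h1.2.1.2 h2.2.1.1 h2.2.1.2 (ne_one_of_apply h1.2.1.2 hc0 hc)
    (ne_one_of_apply h2.2.1.2 hd0 hd) ht' hs' (P'.rel_commute hr.symm hr'.symm hsp
      (T_comm_of_fixed h2.1.1 h2.1.2 hs (ht y (P.perp_symm h))))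

theorem ptCorr_of_isTr (hT : P.HasT) (hT' : P'.HasT)
    (h : ∀ g g', Rel α g g' → PElt p g → PElt p g' → (P.IsTr g ↔ P'.IsTr g')) :
    PtCorr P P' α (TCorr P P' α p) where
  sing H := H.1
  sing' H := H.2.1
  total hx hx0 := exists_tcorr hT hT' h hx hx0
  total' hx hx0 := by
    obtain ⟨x, H⟩ := exists_tcorr (α := α.symm) hT' hT
      (fun g g' hr hp hp' => (h g' g hr.symm hp' hp).symm) hx hx0
    exact ⟨x, H.symm⟩
  smul H ha hb := ⟨⟨P.S_smul _ H.1.1, smul_ne_zero ha H.1.2⟩,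
    ⟨P'.S_smul _ H.2.1.1, smul_ne_zero hb H.2.1.2⟩, by rw [T_smul _ ha, T_smul _ hb]; exact H.2.2⟩
  uniq := TCorr.uniq hT'
  uniq' H1 H2 := TCorr.uniq hT H1.symm H2.symm
  equiv {g g' x x'} hr H := ⟨⟨P.sing _ H.1.1, P.apply_ne_zero _ H.1.2⟩,
    ⟨P'.sing _ H.2.1.1, P'.apply_ne_zero _ H.2.1.2⟩,
    H.2.2.conj hr (mem_T_conj g x) (mem_T_conj g' x')⟩
  perp H1 H2 := ⟨TCorr.perp hT' H1 H2, TCorr.perp hT H1.symm H2.symm⟩

theorem ptCorr_of_ne [Finite V] [Finite V'] (hB : P.Big) (hB' : P'.Big) (hT : P.HasT)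
    (hT' : P'.HasT) (hσ : ∃ a, a ≠ ε * σ a) : PtCorr P P' α (TCorr P P' α p) :=
  ptCorr_of_isTr hT hT' fun _ _ hr hp hp' =>
    ⟨fun hg => PCentral.isTr hB' hσ (P'.rel_pcentral hr hp' (hg.pcentral hB (Or.inl hT))),
     fun hg => PCentral.isTr hB hσ (P.rel_pcentral hr.symm hp (hg.pcentral hB' (Or.inl hT')))⟩

end PolGrp

end Cfsg.Agent.Lib.Aut
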