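import Cfsg.Agent.Lib.Aut.Polar5

set_option autoImplicit false
set_option linter.unusedSectionVars false

/-! Symplectic groups in characteristic two; semilinear maps centralising a polar group; Siegel
elements. -/

namespace Cfsg.Agent.Lib.Aut

open Module

theorem exists_siegel {F V : Type*} [Field F] [AddCommGroup V] [Module F V] {σ : F →+* F} {ε : F}
    (β : V →ₗ[F] V →ₛₗ[σ] F) (hs : ∀ u v, β v u = ε * σ (β u v)) (hσ : ∀ a, σ (σ a) = a)
    {e f y : V} (he : β e e = 0) (hf : β f f = 0) (hy : β y y = 0) (hfe : β f e = 1)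
    (hye : β y e = 1) : ∃ E : V →ₗ[F] V, (∀ u v, β (E u) (E v) = β u v) ∧
      (E e = e ∧ ∀ x, β x e = 0 → ∃ c : F, E x = x + c • e) ∧ E f = y ∧ (E - 1) ^ 3 = 0 := by
  have hef : β e f = ε := by rw [hs, hfe]; simp
  have hey : β e y = ε := by rw [hs, hye]; simp
  have hε : ε * σ ε = 1 := by rw [← hfe, hs e f, hef]
  have hε0 : ε ≠ 0 := left_ne_zero_of_mul_eq_one hε
  let l : V →ₗ[F] F := σ ε • (β.flip f - β.flip y + (β y y + β f y - β f f) • β.flip e)
  let E : V →ₗ[F] V := LinearMap.id + (β.flip e).smulRight (y - f) + l.smulRight e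
  have hE : ∀ x, E x = x + β x e • (y - f) + (σ ε * (β x f - β x y + β x e * β f y)) • e := by
    intro x
    simp only [E, l, LinearMap.add_apply, LinearMap.id_apply, LinearMap.smulRight_apply,
      LinearMap.flip_apply, LinearMap.smul_apply, LinearMap.sub_apply, smul_eq_mul, hy, hf]
    congr 2; ring
  have h1 : E e = e := by simp [hE, he, hef, hey]
  have h2 : ∀ x, β x e = 0 → ∃ c : F, E x = x + c • e := fun x hx =>
    ⟨σ ε * (β x f - β x y), by rw [hE, hx]; simp⟩
  refine ⟨E, fun u v => ?_, ⟨h1, h2⟩, by simp [hE, hfe, hf], ?_⟩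
  · have k1 : β e v = ε * σ (β v e) := hs _ _
    have k2 : β f v = ε * σ (β v f) := hs _ _
    have k3 : β y v = ε * σ (β v y) := hs _ _
    have k4 : β y f = ε * σ (β f y) := hs _ _
    simp only [hE, map_add, map_sub, map_smul, map_smulₛₗ, LinearMap.add_apply, LinearMap.sub_apply,
      LinearMap.smul_apply, smul_eq_mul, map_mul, hσ, he, hf, hy, hfe, hye, hef, hey, k1, k2, k3, k4]
    linear_combination (σ (β v e) * (β u f - β u y + β u e * β f y)) * hε
  · ext x
    have h3 : β (E x - x) e = 0 := by simp [hE, he, hfe, hye]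
    obtain ⟨c, hc⟩ := h2 _ h3
    have h4 : ∀ y, (E - 1) y = E y - y := fun _ => rfl
    rw [pow_succ, pow_two, Module.End.mul_apply, Module.End.mul_apply, h4 x, h4 (_ - _), hc,
      add_sub_cancel_left, h4, map_smul, h1]
    simp

theorem det_eq_one_of_unipotent {F V : Type*} [Field F] [AddCommGroup V] [Module F V]
    [FiniteDimensional F V] {E : V →ₗ[F] V} {n : ℕ} (h : (E - 1) ^ n = 0) :
    LinearMap.det E = 1 := by
  have h1 : IsNilpotent (1 - E) := ⟨n, by rw [← neg_sub, neg_pow, h, mul_zero]⟩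
  have h2 := h1.charpoly_eq_X_pow_finrank
  have h3 := LinearMap.eval_charpoly (1 - E) 1
  rw [h2] at h3
  simpa using h3.symm

namespace PolGrp

variable {F V G V' G' : Type*} [Field F] [AddCommGroup V] [Module F V] [Group G]
  [AddCommGroup V'] [Module F V'] [Group G'] {σ : F →+* F} {ε : F}

theorem Hyp.Q_apply' {P : PolGrp F V G σ ε} {e f : V} (h : P.Hyp e f) {g : G} (hg : g ∈ P.Q e)
    {w : V} (hw : w ∈ P.W e f) {c : F} (hf : P.ρ g f = f + w + c • e) (x : V) :
    P.ρ g x = x + P.β x e • w + (P.β x e * c - P.β x w / ε) • e := by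
  have := h.Q_apply hg hw hf (x := x - P.β x e • f) (by simp [h.fe])
  rw [map_sub, map_smul, hf] at this
  simp only [map_sub, map_smul, LinearMap.sub_apply, LinearMap.smul_apply, P.perp_symm hw.2,
    smul_eq_mul, mul_zero, sub_zero] at this
  linear_combination (norm := module) this

theorem Hyp.finrank_W [FiniteDimensional F V] {P : PolGrp F V G σ ε} {e f : V} (h : P.Hyp e f) :
    finrank F (P.W e f) + 2 = finrank F V := by
  let l : V →ₗ[F] F × F := (P.β.flip e).prod (P.β.flip f)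
  have h1 : LinearMap.ker l = P.W e f := by
    ext x; simp [l, mem_W]
  have h2 : LinearMap.range l = ⊤ := by
    rw [LinearMap.range_eq_top]
    rintro ⟨a, b⟩
    exact ⟨a • f + (b / ε) • e, by simp [l, h.fe, h.ef, h.ee, h.ff, P.ε_ne]⟩
  have h3 := l.finrank_range_add_finrank_ker
  rw [h1, h2] at h3
  simp at h3
  omega

theorem Hyp.exists_W [FiniteDimensional F V] {P : PolGrp F V G σ ε} {e f : V} (h : P.Hyp e f)
    (h3 : 3 ≤ finrank F V) : ∃ w ∈ P.W e f, w ≠ 0 := by
  have := h.finrank_W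
  exact Submodule.exists_mem_ne_zero_of_ne_bot fun h0 => by
    rw [h0, finrank_bot] at this; omega

/-- a semilinear map commuting with all the groups `Q e` is scalar -/
theorem Big.scalar_of_comm {P : PolGrp F V G σ ε} (hB : P.Big) (τ : F → F) (θ : V →+ V)
    (hθ : ∀ (a : F) x, θ (a • x) = τ a • θ x) (hinj : Function.Injective θ)
    (h : ∀ e, ∀ g ∈ P.Q e, ∀ x, θ (P.ρ g x) = P.ρ g (θ x)) :
    (∀ a, τ a = a) ∧ ∃ c : F, ∀ x, θ x = c • x := by
  obtain ⟨⟨e, he, he0⟩, hW⟩ := hB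
  obtain ⟨f, H⟩ := exists_hyp he he0
  have k1 : ∀ {e f : V}, P.Hyp e f → ∃ a : F, θ e = a • e := fun {e f} H =>
    H.fixed_Q (hW e f H) fun g hg => by rw [← h e g hg, hg.1]
  have k2 : ∀ {e f : V}, P.Hyp e f → ∀ b : F, θ f = b • f → ∀ w ∈ P.W e f,
      ∃ a : F, θ w = b • w + a • e := by
    intro e f H b hb w hw
    obtain ⟨a, ha⟩ := k1 H
    obtain ⟨g, hg, c, hc⟩ := H.exists_Q hw
    have := h e g hg f
    rw [hb, map_smul, hc, map_add, map_add, hθ, ha, hb] at this
    exact ⟨b * c - τ c * a, by linear_combination (norm := module) this⟩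
  obtain ⟨a, ha⟩ := k1 H
  obtain ⟨b, hb⟩ := k1 H.swap
  have hWW : ∀ w, w ∈ P.W e f → w ∈ P.W f (ε⁻¹ • e) := fun w hw => ⟨hw.2, by simp [hw.1]⟩
  have h3 : ∀ w ∈ P.W e f, θ w = b • w ∧ b • w = (τ ε⁻¹ * a * ε) • w := by
    intro w hw
    obtain ⟨c, hc⟩ := k2 H b hb w hw
    obtain ⟨d, hd⟩ := k2 H.swap (τ ε⁻¹ * a * ε) (by
      rw [hθ, ha, smul_smul, smul_smul, mul_assoc, mul_inv_cancel₀ P.ε_ne, mul_one]) w (hWW w hw)
    have := H.coeff (Submodule.smul_mem _ b hw) (Submodule.smul_mem _ (τ ε⁻¹ * a * ε) hw) (b := 0)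
      (b' := d) (a := c) (a' := 0) (by rw [zero_smul, zero_add, ← hc, hd]; module)
    exact ⟨by rw [hc, this.2.2]; simp, this.2.1⟩
  obtain ⟨w, hw, hw0⟩ := hW e f H
  have hb0 : b ≠ 0 := by
    rintro rfl
    exact H.f_ne (hinj (by simpa using hb))
  have hτ : ∀ k, τ k = k := fun k => by
    have := hθ k w
    rw [(h3 _ (Submodule.smul_mem _ k hw)).1, (h3 w hw).1, smul_comm] at this
    exact (smul_left_injective F (smul_ne_zero hb0 hw0) this).symm
  have hab : b = a := by
    have : b = τ ε⁻¹ * a * ε := smul_left_injective F hw0 (h3 w hw).2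
    rw [this, hτ, mul_comm, mul_inv_cancel_left₀ P.ε_ne]
  refine ⟨hτ, b, fun x => ?_⟩
  obtain ⟨w, hw, c, hc⟩ := H.exists_decomp x
  rw [hc, map_add, map_add, hθ, hθ, ha, hb, (h3 w hw).1, hab, hτ, hτ]
  module

section chartwo

variable {P : PolGrp F V G (RingHom.id F) ε} {P' : PolGrp F V' G' (RingHom.id F) ε}
  {α : G ⧸ Subgroup.center G ≃* G' ⧸ Subgroup.center G'} [CharP F 2]

theorem eq_one_of_center_two (P : PolGrp F V G (RingHom.id F) ε) (hV : ∃ e : V, e ≠ 0) {z : G} (hz : z ∈ Subgroup.center G) :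
    z = 1 := by
  obtain ⟨c, hc⟩ := P.center_scalar z hz
  obtain ⟨e, he⟩ := hV
  obtain ⟨t, ht⟩ := P.exists_one he
  have h1 := P.iso z t e
  simp only [hc, map_smul, LinearMap.smul_apply, ht, smul_eq_mul, mul_one] at h1
  have h2 : (2 : F) = 0 := CharTwo.two_eq_zero
  have h3 : (c - 1) ^ 2 = 0 := by linear_combination h1 - (c - 1) * h2
  have h4 : c = 1 := sub_eq_zero.mp (pow_eq_zero_iff two_ne_zero |>.mp h3)
  exact P.ext fun v => by simp [hc, h4]

theorem sq_eq_one_of_tr (hε : ε = 1) {t s : G} (ht : P.IsTr t) (hs : P.IsTr s)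
    (h : (t * s) ^ 4 = 1) : (t * s) ^ 2 = 1 := by
  subst hε
  have h2 : (2 : F) = 0 := CharTwo.two_eq_zero
  have hsq : ∀ t, P.IsTr t → t * t = 1 := by
    rintro t ⟨x, hx, hx0, ht⟩
    obtain ⟨c, hc⟩ := T_apply hx hx0 ht
    apply P.ext
    intro v
    simp only [P.mul_apply, hc, map_add, map_smul, LinearMap.add_apply, LinearMap.smul_apply,
      P.S_self hx, LinGrp.one_apply, smul_eq_mul]
    linear_combination (norm := module) (P.β v x * c) • congrArg (· • x) h2
  by_cases h1 : t = 1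
  · rw [h1, one_mul, pow_two, hsq s hs]
  by_cases h1' : s = 1
  · rw [h1', mul_one, pow_two, hsq t ht]
  have ht2 := hsq t ht
  have hs2 := hsq s hs
  obtain ⟨x, hx, hx0, ht⟩ := ht
  obtain ⟨y, hy, hy0, hs⟩ := hs
  by_cases hxy : P.β x y = 0
  · have := T_comm_of_fixed hy hy0 hs (ht y (P.perp_symm hxy))
    calc (t * s) ^ 2 = t * (s * t) * s := by rw [pow_two]; group
      _ = (t * t) * (s * s) := by rw [← this]; group
      _ = 1 := by rw [ht2, hs2, one_mul]
  exfalso
  obtain ⟨c, hc0, hc⟩ := T_apply' hx hx0 ht h1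
  obtain ⟨d, hd0, hd⟩ := T_apply' hy hy0 hs h1'
  have hyx : P.β y x = P.β x y := by simpa using P.symm x y
  set a := P.β x y with ha
  have hMx : P.ρ (t * s) x = (1 + a * d * a * c) • x + (a * d) • y := by
    simp only [P.mul_apply, hc, hd, map_add, map_smul, LinearMap.add_apply, LinearMap.smul_apply,
      P.S_self hx, hyx, ← ha, smul_eq_mul]
    module
  have hMy : P.ρ (t * s) y = (a * c) • x + y := by
    simp only [P.mul_apply, hc, hd, P.S_self hy, hyx, zero_mul, zero_smul, add_zero]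
    module
  have h3 := congrArg (fun k => P.β (P.ρ k y) y) h
  generalize t * s = M at h3 hMx hMy
  simp only [pow_succ, pow_zero, one_mul, P.mul_apply, hMx, hMy, map_add, map_smul,
    LinearMap.add_apply, LinearMap.smul_apply, ← ha, P.S_self hy, smul_eq_mul,
    LinGrp.one_apply] at h3
  have : (a * d * a * c) ^ 3 * (a * c) * a = 0 := by
    linear_combination h3 - (3 * (a * d * a * c) ^ 2 + 5 * (a * d * a * c) + 2) * (a * c) * a * h2
  simp [hxy, hc0, hd0] at this

theorem isTr_of_two [Finite V] [Finite V'] [Finite G] [Finite G'] [FiniteDimensional F V']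
    (hε : ε = 1) (hB : P.Big) (hB' : P'.Big) (hT : P.HasT) (hd : 5 ≤ finrank F V')
    (hpair : ∀ e w u v : V', e ≠ 0 → (∀ c : F, w ≠ c • e) → u ≠ 0 → (∀ c : F, v ≠ c • u) →
      P'.β e w = 0 → P'.β u v = 0 → ∃ g, P'.ρ g e = u ∧ P'.ρ g w = v)
    {t : G} {z : G'} (hr : Rel α t z) (hp : PElt 2 z) (ht : P.IsTr t) : P'.IsTr z := by
  have h2 : (2 : F) = 0 := CharTwo.two_eq_zero
  obtain ⟨e, he, he0, h1, h3⟩ :=
    PCentral.exists_Q hB' (P'.rel_pcentral hr hp (ht.pcentral hB (Or.inl hT)))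
  obtain ⟨f, H⟩ := exists_hyp he he0
  have hz := H.mem_Q_of_comm h1 h3
  obtain ⟨w, hw, c, hc⟩ := H.exists_Q_apply hz
  by_contra hn
  have hw0 : w ≠ 0 := fun h => hn ⟨e, he, he0, (H.mem_T_iff hz hw hc).mpr h⟩
  obtain ⟨v, hv, hvw⟩ := H.W_nondeg hw hw0
  obtain ⟨r, hr1, hr2, hr3, hr4⟩ : ∃ r, P'.β r e = 0 ∧ P'.β r w = 0 ∧ P'.β r v = 0 ∧
      ∀ c : F, r ≠ c • e := by
    by_contra hc
    push Not at hc
    let l : V' →ₗ[F] F × F × F := (P'.β.flip e).prod ((P'.β.flip w).prod (P'.β.flip v))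
    have h4 : LinearMap.ker l ≤ Submodule.span F {e} := fun r hr => by
      have hr' : (P'.β r e, P'.β r w, P'.β r v) = 0 := hr
      simp only [Prod.mk_eq_zero] at hr'
      obtain ⟨c, rfl⟩ := hc r hr'.1 hr'.2.1 hr'.2.2
      exact Submodule.smul_mem _ _ (Submodule.mem_span_singleton_self e)
    have h5 := Submodule.finrank_mono h4
    have h6 := l.finrank_range_add_finrank_ker
    have h7 := Submodule.finrank_le (LinearMap.range l)
    rw [finrank_span_singleton he0] at h5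
    simp at h7
    omega
  have hr0 : r ≠ 0 := by simpa using hr4 0
  obtain ⟨k', hk1, hk2⟩ := hpair e w r v he0 (fun c hc => by
      have := H.coeff hw (zero_mem _) (b := 0) (b' := 0) (a := 0) (a' := c) (by simp [hc])
      exact hw0 this.2.1) hr0 (fun c hc => by simp [hc, hr2] at hvw) (P'.perp_symm hw.1) hr3
  obtain ⟨k, hk⟩ := Rel.exists_left α k'
  subst hε
  have hsymm : ∀ a b, P'.β a b = P'.β b a := fun a b => by simpa using P'.symm b a
  have hzx := H.Q_apply' hz hw hc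
  have hz'x : ∀ x, P'.ρ (k' * z * k'⁻¹) x = x + P'.β x r • v + (P'.β x r * c - P'.β x v / 1) • r := by
    intro x
    rw [P'.mul_apply, P'.mul_apply, hzx, map_add, map_add, map_smul, map_smul, hk1, hk2,
      LinGrp.apply_inv_apply, ← P'.iso k' _ e, ← P'.iso k' _ w, hk1, hk2, LinGrp.apply_inv_apply]
  have hrr : P'.β r r = 0 := by
    rw [← hk1, P'.iso, H.ee]
  have hww : P'.β w w = 0 := by
    have := P'.S_self (P'.sing z H.sf)
    simp only [hc, map_add, map_smul, LinearMap.add_apply, LinearMap.smul_apply, H.ff, H.ee, H.ef,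
      H.fe, hw.1, hw.2, P'.perp_symm hw.1, P'.perp_symm hw.2, smul_eq_mul] at this
    linear_combination this - c * h2
  have hvv : P'.β v v = 0 := by rw [← hk2, P'.iso, hww]
  have hsq : ∀ x, P'.ρ ((z * (k' * z * k'⁻¹)) ^ 2) x = x + P'.β x r • e + P'.β x e • r := by
    intro x
    generalize k' * z * k'⁻¹ = z' at hz'x
    simp only [pow_two, P'.mul_apply, hzx, hz'x, map_add, map_smul, LinearMap.add_apply,
      LinearMap.smul_apply, H.ee, hrr, hww, hvv, hr1, hr2, hr3, hvw, hw.1, hv.1, hsymm e r,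
      hsymm e w, hsymm e v, hsymm w r, hsymm w v, hsymm v r, smul_eq_mul]
    match_scalars <;> (rw [← sub_eq_zero]; ring_nf; try reduce_mod_char!)
  have h4 : (z * (k' * z * k'⁻¹)) ^ 4 = 1 := by
    apply P'.ext
    intro x
    rw [show 4 = 2 + 2 from rfl, pow_add, P'.mul_apply, hsq, hsq]
    simp only [map_add, map_smul, LinearMap.add_apply, LinearMap.smul_apply, H.ee, hrr, hr1,
      hsymm e r, smul_eq_mul, LinGrp.one_apply]
    match_scalars <;> (rw [← sub_eq_zero]; ring_nf; try reduce_mod_char!)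
  have hrel : ∀ n : ℕ, Rel α ((t * (k * t * k⁻¹)) ^ n) ((z * (k' * z * k'⁻¹)) ^ n) := by
    intro n
    induction n with
    | zero => simpa using Rel.one
    | succ n ih => rw [pow_succ, pow_succ]; exact ih.mul (hr.mul (hk.conj hr))
  have h5 : (t * (k * t * k⁻¹)) ^ 4 = 1 := by
    obtain ⟨x, -, hx⟩ := hB.1
    apply eq_one_of_center_two (P := P) ⟨x, hx⟩
    have := hrel 4
    rw [h4] at this
    exact (QuotientGroup.eq_one_iff _).mp (this.symm.mk_eq Rel.one)
  have h6 := sq_eq_one_of_tr rfl ht (by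
    obtain ⟨x, hx, hx0, ht⟩ := ht
    exact ⟨_, P.sing k hx, P.apply_ne_zero k hx0, conj_mem_T ht k⟩) h5
  have h7 : (z * (k' * z * k'⁻¹)) ^ 2 = 1 := by
    apply eq_one_of_center_two (P := P') ⟨e, he0⟩
    have := hrel 2
    rw [h6] at this
    exact (QuotientGroup.eq_one_iff _).mp (this.mk_eq Rel.one)
  have h8 := hsq f
  rw [h7, LinGrp.one_apply, H.fe, one_smul, add_assoc, left_eq_add] at h8
  exact hr4 (-P'.β f r) (by linear_combination (norm := module) h8)

end chartwo

end PolGrp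

end Cfsg.Agent.Lib.Aut
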