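import Cfsg.Agent.Lib.Aut.PSLCent
import Cfsg.Agent.Lib.Aut.Polar6

set_option autoImplicit false
set_option linter.unusedSectionVars false

/-! Automorphisms of central quotients of matrix groups induced by semilinear maps. -/

namespace Cfsg.Agent.Lib.Aut

open Module Matrix Cfsg.Agent.Lib.GL.H90 SemidirectProduct

/-- the general semilinear group -/
abbrev GamL (ι : Type*) [Fintype ι] [DecidableEq ι] (F : Type*) [Field F] :=
  GL ι F ⋊[glAutHom ι] (F ≃+* F)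

variable {F : Type*} [Field F] {ι : Type*} [Fintype ι] [DecidableEq ι]

theorem GamL.conj_inl (a : GamL ι F) (g : GL ι F) :
    a * inl g * a⁻¹ = inl (a.left * glAut ι a.right g * a.left⁻¹) := by
  have : ∀ σ, glAutHom ι σ = glAut (K := F) ι σ := fun _ => rfl
  rw [← this]
  ext : 1 <;> simp

/-- a matrix group `G` together with a group `N` of semilinear maps normalising it -/
structure SemiSetup (ι : Type*) [Fintype ι] [DecidableEq ι] (F : Type*) [Field F] (G : Type*)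
    [Group G] where
  j : G →* GL ι F
  inj : Function.Injective j
  N : Subgroup (GamL ι F)
  hn : ∀ a ∈ N, ∀ s, ∃ s', j s' = a.left * glAut ι a.right (j s) * a.left⁻¹
  hle : ∀ s, inl (j s) ∈ N

namespace SemiSetup

variable {G : Type*} [Group G] (X : SemiSetup ι F G)

/-- the embedding in the semilinear group -/
def J : G →* GamL ι F := inl.comp X.j

theorem J_inj : Function.Injective X.J := inl_injective.comp X.inj

theorem hk (a : X.N) :
    X.N.subtype a ∈ Subgroup.normalizer (X.J.range : Set (GamL ι F)) := by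
  apply mem_normalizer_of_forall
  rintro a _ ⟨s, rfl⟩
  obtain ⟨s', hs'⟩ := X.hn a a.2 s
  exact ⟨s', by rw [J, MonoidHom.comp_apply, MonoidHom.comp_apply, hs', ← GamL.conj_inl]; rfl⟩

/-- the action on the central quotient -/
noncomputable def Θ : X.N →* MulAut (G ⧸ Subgroup.center G) :=
  theta X.J X.J_inj X.N.subtype X.hk

theorem eq_Θ_iff (a : X.N) (β : MulAut (G ⧸ Subgroup.center G)) :
    β = X.Θ a ↔ ∀ s s' : G, X.j s' = a.1.left * glAut ι a.1.right (X.j s) * a.1.left⁻¹ →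
      β (QuotientGroup.mk s) = QuotientGroup.mk s' := by
  have k : ∀ s s', X.J s' = X.N.subtype a * X.J s * (X.N.subtype a)⁻¹ ↔
      X.j s' = a.1.left * glAut ι a.1.right (X.j s) * a.1.left⁻¹ := fun s s' => by
    rw [J, MonoidHom.comp_apply, MonoidHom.comp_apply, GamL.conj_inl, inl_inj]; rfl
  constructor
  · rintro rfl s s' h
    exact theta_mk _ _ _ _ a s s' ((k s s').mpr h)
  · intro h
    exact eq_theta _ _ _ _ a β fun s s' hs => h s s' ((k s s').mp hs)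

/-- the linear part -/
def D : Subgroup (GL ι F) := X.N.comap inl

/-- the inclusion of the linear part -/
def i : X.D →* X.N := (inl.comp X.D.subtype).codRestrict _ fun d => d.2

/-- the inner-diagonal part -/
noncomputable def ψ : X.D →* MulAut (G ⧸ Subgroup.center G) := X.Θ.comp X.i

theorem ψ_apply (d : X.D) : X.ψ d = X.Θ ⟨inl d, d.2⟩ := rfl

theorem ψ_j (s : G) :
    X.ψ ⟨X.j s, X.hle s⟩ = MulAut.conj (QuotientGroup.mk s : G ⧸ Subgroup.center G) :=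
  theta_eq_conj X.J X.J_inj X.N.subtype X.hk ⟨inl (X.j s), X.hle s⟩ s rfl

theorem eq_ψ_iff (d : X.D) (β : MulAut (G ⧸ Subgroup.center G)) :
    β = X.ψ d ↔ ∀ s s' : G, X.j s' = d * X.j s * (d : GL ι F)⁻¹ →
      β (QuotientGroup.mk s) = QuotientGroup.mk s' := by
  rw [ψ_apply, eq_Θ_iff]
  simp only [left_inl, right_inl, glAut_one, MulAut.one_apply]

theorem ψ_scalar (u : Fˣ) (h : GeneralLinearGroup.scalar ι u ∈ X.D) : X.ψ ⟨_, h⟩ = 1 := by
  symm
  rw [eq_ψ_iff]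
  intro s s' h
  rw [GL.H90.scalar_comm, mul_inv_cancel_right] at h
  rw [X.inj h]; rfl

theorem ψ_eq_of_scalar {d d' : X.D} (u : Fˣ)
    (h : (d' : GL ι F) = GeneralLinearGroup.scalar ι u * d) : X.ψ d' = X.ψ d := by
  have h1 : GeneralLinearGroup.scalar ι u ∈ X.D := by
    rw [eq_mul_inv_of_mul_eq h.symm]; exact mul_mem d'.2 (inv_mem d.2)
  rw [show d' = ⟨_, h1⟩ * d from Subtype.ext h, map_mul, ψ_scalar, one_mul]

theorem inn_le_range_ψ : Inn (G ⧸ Subgroup.center G) ≤ X.ψ.range := by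
  rintro _ ⟨t, rfl⟩
  induction t using QuotientGroup.induction_on with
  | H s => exact ⟨_, X.ψ_j s⟩

theorem conj_mem_D (a : X.N) (d : X.D) :
    a.1.left * glAut ι a.1.right d * a.1.left⁻¹ ∈ X.D := by
  show inl _ ∈ X.N
  rw [← GamL.conj_inl]
  exact mul_mem (mul_mem a.2 d.2) (inv_mem a.2)

/-- the action of `N` on the linear part -/
def τ (a : X.N) : MulAut X.D where
  toFun d := ⟨_, X.conj_mem_D a d⟩
  invFun d := ⟨_, X.conj_mem_D a⁻¹ d⟩
  left_inv d := Subtype.ext (inl_injective (φ := glAutHom ι) (by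
    simp only [← GamL.conj_inl, Subgroup.coe_inv]; group))
  right_inv d := Subtype.ext (inl_injective (φ := glAutHom ι) (by
    simp only [← GamL.conj_inl, Subgroup.coe_inv]; group))
  map_mul' d d' := Subtype.ext (by simp [mul_assoc])

theorem coe_τ (a : X.N) (d : X.D) :
    (X.τ a d : GL ι F) = a.1.left * glAut ι a.1.right d * a.1.left⁻¹ := rfl

theorem coe_τ_inr {σ : F ≃+* F} (h : inr σ ∈ X.N) (d : X.D) :
    (X.τ ⟨_, h⟩ d : GL ι F) = glAut ι σ d := by simp [coe_τ]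

theorem coe_τ_inr_pow {σ : F ≃+* F} (h : inr σ ∈ X.N) (n : ℕ) (d : X.D) :
    ((X.τ ⟨_, h⟩ ^ n) d : GL ι F) = (glAut ι σ ^ n) d := by
  induction n generalizing d with
  | zero => rfl
  | succ n ih => rw [pow_succ, pow_succ, MulAut.mul_apply, MulAut.mul_apply, ih, coe_τ_inr]

theorem conj_ψ (a : X.N) (d : X.D) : X.Θ a * X.ψ d * (X.Θ a)⁻¹ = X.ψ (X.τ a d) := by
  rw [ψ_apply, ψ_apply, ← map_inv, ← map_mul, ← map_mul]
  congr 1
  exact Subtype.ext (GamL.conj_inl _ _)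

theorem normal_range_ψ (h : Function.Surjective X.Θ) : X.ψ.range.Normal := by
  constructor
  rintro _ ⟨d, rfl⟩ β
  obtain ⟨a, rfl⟩ := h β
  exact ⟨_, (X.conj_ψ a d).symm⟩

/-- only scalars act trivially -/
def Ker : Prop := ∀ a : X.N, X.Θ a = 1 → ∃ u, a.1 = inl (GeneralLinearGroup.scalar ι u)

variable {X}

theorem Ker.ψ_eq_one_iff (h : X.Ker) (d : X.D) :
    X.ψ d = 1 ↔ ∃ u, (d : GL ι F) = GeneralLinearGroup.scalar ι u := by
  constructor
  · intro hd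
    obtain ⟨u, hu⟩ := h _ hd
    exact ⟨u, inl_injective hu⟩
  · rintro ⟨u, hu⟩
    obtain ⟨d, hd⟩ := d
    subst hu
    exact X.ψ_scalar u hd

theorem Ker.ψ_mem_inn_iff (h : X.Ker) (d : X.D) : X.ψ d ∈ Inn (G ⧸ Subgroup.center G) ↔
    ∃ u s, (d : GL ι F) = GeneralLinearGroup.scalar ι u * X.j s := by
  constructor
  · rintro ⟨t, ht⟩
    induction t using QuotientGroup.induction_on with
    | H s =>
      rw [← X.ψ_j] at ht
      obtain ⟨u, hu⟩ := (h.ψ_eq_one_iff (d * (⟨X.j s, X.hle s⟩ : X.D)⁻¹)).mp (by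
        rw [map_mul, map_inv, ht, mul_inv_cancel])
      exact ⟨u, s, by rw [← hu]; simp⟩
  · rintro ⟨u, s, hs⟩
    exact ⟨QuotientGroup.mk s, by rw [← X.ψ_j]; exact (X.ψ_eq_of_scalar u hs).symm⟩

theorem Ker.right_eq_one (h : X.Ker) (a : X.N) (ha : X.Θ a ∈ X.ψ.range) : a.1.right = 1 := by
  obtain ⟨d, hd⟩ := ha
  obtain ⟨u, hu⟩ := h ((X.i d)⁻¹ * a) (by rw [map_mul, map_inv, ← hd]; exact inv_mul_cancel _)
  have : (inl (d : GL ι F) : GamL ι F)⁻¹ * a.1 = inl (GeneralLinearGroup.scalar ι u) := hu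
  simpa using congrArg SemidirectProduct.right this

theorem Ker.orderOf_inr (h : X.Ker) {σ : F ≃+* F} (hσ : inr σ ∈ X.N) :
    orderOf (X.Θ ⟨_, hσ⟩) = orderOf σ := by
  rw [orderOf_eq_orderOf_iff]
  intro n
  rw [← map_pow]
  constructor
  · intro hn
    have := h.right_eq_one _ (hn ▸ one_mem _)
    rwa [Subgroup.coe_pow, ← map_pow, right_inr] at this
  · intro hn
    rw [show (⟨_, hσ⟩ : X.N) ^ n = 1 from Subtype.ext (by
      rw [Subgroup.coe_pow, ← map_pow, hn, map_one]; rfl), map_one]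

theorem Ker.lang (h : X.Ker) {σ : F ≃+* F} (hσ : inr σ ∈ X.N) {r : ℕ} (hr : orderOf σ = r)
    (hL : ∀ d ∈ X.D, ∀ u, ((List.range r).map (fun j => (glAut ι σ ^ j) d)).prod =
      GeneralLinearGroup.scalar ι u → ∃ c, ∃ k ∈ X.D,
        GeneralLinearGroup.scalar ι c * d = k * (glAut ι σ k)⁻¹) :
    ∀ δ ∈ X.ψ.range, (δ * X.Θ ⟨_, hσ⟩) ^ r = 1 →
      IsConjUnder X.ψ.range (X.Θ ⟨_, hσ⟩) (δ * X.Θ ⟨_, hσ⟩) := by
  refine twist_isConjUnder _ _ _ (X.conj_ψ _)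
    (by rw [← hr, ← h.orderOf_inr hσ, pow_orderOf_eq_one]) fun d hd => ?_
  obtain ⟨u, hu⟩ := (h.ψ_eq_one_iff _).mp hd
  rw [SubmonoidClass.coe_list_prod, List.map_map] at hu
  obtain ⟨c, k, hk, hc⟩ := hL d d.2 u (by
    rw [← hu]; congr 2; ext1 j; exact (X.coe_τ_inr_pow hσ j d).symm)
  exact ⟨⟨k, hk⟩, (X.ψ_eq_of_scalar c (by simp [coe_τ_inr, hc])).symm⟩

theorem Ker.range_fld [Finite F] [Nonempty ι] (h : X.Ker) {σ : F ≃+* F} (hσ : inr σ ∈ X.N)
    {D₀ : Type*} [Group D₀] (f : D₀ →* X.D) (h1 : ∀ g, glAut ι σ (f g) = f g)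
    (h2 : ∀ d ∈ X.D, ∀ u, d⁻¹ * glAut ι σ d = GeneralLinearGroup.scalar ι u →
      ∃ c g, (f g : GL ι F) = GeneralLinearGroup.scalar ι c * d) :
    (X.ψ.comp f).range = X.ψ.range ⊓ Subgroup.centralizer {X.Θ ⟨_, hσ⟩} := by
  refine twist_range_eq _ _ _ (X.conj_ψ _) _ (fun g => ?_) (fun d hd => ?_)
  · rw [show X.τ ⟨_, hσ⟩ (f g) = f g from Subtype.ext ((X.coe_τ_inr hσ _).trans (h1 g)),
      inv_mul_cancel, map_one]
  · obtain ⟨u, hu⟩ := (h.ψ_eq_one_iff _).mp hd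
    obtain ⟨c, g, hg⟩ := h2 d d.2 u (by rw [← hu]; simp [coe_τ_inr])
    exact ⟨g, X.ψ_eq_of_scalar c hg⟩

theorem Ker.out (h : X.Ker) (hs : Function.Surjective X.Θ) {B C : Type*} [Group B] [Group C]
    (e : (F ≃+* F) ≃* B) (hr : ∀ σ, ∃ a ∈ X.N, a.right = σ) (κ : X.D →* C)
    (hκ : Function.Surjective κ) (hker : ∀ d, X.ψ d ∈ Inn (G ⧸ Subgroup.center G) ↔ κ d = 1) :
    ∃ φ : Out (G ⧸ Subgroup.center G) →* B, Function.Surjective φ ∧ Nonempty (φ.ker ≃* C) := by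
  let r : X.N →* B := e.toMonoidHom.comp (rightHom.comp X.N.subtype)
  have hr1 : ∀ a, r a = 1 ↔ a.1.right = 1 := fun a => by
    show e a.1.right = 1 ↔ _
    exact EmbeddingLike.map_eq_one_iff
  have hl : ∀ d : r.ker, d.1.1 = inl d.1.1.left := fun d => by
    have := (hr1 _).mp d.2
    ext : 1
    · rfl
    · simp [this]
  let l : r.ker →* X.D :=
    { toFun := fun a => ⟨a.1.1.left, by show inl _ ∈ X.N; rw [← hl a]; exact a.1.2⟩
      map_one' := rfl
      map_mul' := fun a b => Subtype.ext (by simp [(hr1 _).mp a.2]) }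
  exact out_structure X.Θ hs r
    (e.surjective.comp fun σ => by
      obtain ⟨a, ha, h⟩ := hr σ
      exact ⟨⟨a, ha⟩, h⟩)
    (fun a ha => (hr1 a).mpr (h.right_eq_one a (X.inn_le_range_ψ ha))) (κ.comp l)
    (hκ.comp (fun g => ⟨⟨X.i g, (hr1 _).mpr rfl⟩, rfl⟩))
    (fun d => by
      have : d.1 = X.i (l d) := Subtype.ext (hl d)
      rw [this]; exact hker _)

theorem exists_conj_eq_mul [Finite F] (hs : Function.Surjective X.Θ)
    (α : MulAut (G ⧸ Subgroup.center G)) (a : X.N) : ∃ d, α * X.Θ a * α⁻¹ = X.ψ d * X.Θ a := by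
  obtain ⟨b, rfl⟩ := hs α
  have h1 : (b * a * b⁻¹ * a⁻¹ : X.N).1 = inl (b * a * b⁻¹ * a⁻¹ : X.N).1.left := by
    ext : 1
    · rfl
    · simp only [Subgroup.coe_mul, Subgroup.coe_inv, mul_right, inv_right, right_inl]
      rw [ringAut_comm b.1.right, mul_inv_cancel_right, mul_inv_cancel]
  refine ⟨⟨(b * a * b⁻¹ * a⁻¹ : X.N).1.left, by
    show inl _ ∈ X.N; rw [← h1]; exact Subtype.prop _⟩, ?_⟩
  rw [ψ_apply, ← map_inv, ← map_mul, ← map_mul, ← map_mul]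
  congr 1
  apply Subtype.ext
  show _ = inl (b * a * b⁻¹ * a⁻¹ : X.N).1.left * a.1
  rw [← h1]
  simp

/-- the setup given by a linear group `H` stable under field automorphisms -/
def ofSub (j : G →* GL ι F) (inj : Function.Injective j) (H : Subgroup (GL ι F))
    (hH : ∀ σ, ∀ g ∈ H, glAut ι σ g ∈ H) (hn : ∀ g ∈ H, ∀ s, ∃ s', j s' = g * j s * g⁻¹)
    (hσ : ∀ σ s, ∃ s', j s' = glAut ι σ (j s)) (hle : ∀ s, j s ∈ H) : SemiSetup ι F G where
  j := j
  inj := inj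
  N :=
    { carrier := {a | a.left ∈ H}
      mul_mem' := fun {_ b} ha hb => mul_mem ha (hH _ b.left hb)
      one_mem' := one_mem H
      inv_mem' := fun {a} ha => hH _ a.left⁻¹ (inv_mem ha) }
  hn := fun a ha s => by
    obtain ⟨t, ht⟩ := hσ a.right s
    rw [← ht]
    exact hn _ ha t
  hle := hle

theorem Ker.centralizer_fld {ι : Type} [Fintype ι] [DecidableEq ι] {X : SemiSetup ι F G}
    [Finite F] [Nonempty ι] (h : X.Ker) {σ : F ≃+* F} (hσ : inr σ ∈ X.N) {F₀ : Type*} [Field F₀]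
    (f : F₀ →+* F) (hf : ∀ x, σ x = x ↔ x ∈ f.range) (H₀ : Subgroup (GL ι F₀))
    (h1 : ∀ g ∈ H₀, GeneralLinearGroup.map f g ∈ X.D)
    (h2 : ∀ d ∈ X.D, ∀ c g, GeneralLinearGroup.map f g = GeneralLinearGroup.scalar ι c * d →
      ∃ c', ∃ g' ∈ H₀, GeneralLinearGroup.map f g' = GeneralLinearGroup.scalar ι c' * d) :
    ∃ i : H₀ →* X.D, (∀ g, (i g : GL ι F) = GeneralLinearGroup.map f g) ∧
      (X.ψ.comp i).range = X.ψ.range ⊓ Subgroup.centralizer {X.Θ ⟨_, hσ⟩} ∧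
      Nonempty (↥(X.ψ.range ⊓ Subgroup.centralizer {X.Θ ⟨_, hσ⟩}) ≃* projQuot H₀) := by
  let i : H₀ →* X.D := ((GeneralLinearGroup.map f).comp H₀.subtype).codRestrict _
    fun g => h1 g g.2
  have hi := h.range_fld hσ i (fun g => (glAut_map_of_fixed σ f hf _).mpr ⟨g, rfl⟩)
    (fun d hd u hu => by
      obtain ⟨c, hc⟩ := exists_scalar_mul_fixed σ d u hu
      obtain ⟨g, hg⟩ := (glAut_map_of_fixed σ f hf _).mp hc
      obtain ⟨c', g', hg', k⟩ := h2 d hd c g hg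
      exact ⟨c', ⟨g', hg'⟩, k⟩)
  refine ⟨i, fun _ => rfl, hi, nonempty_equiv_quot _ _ _ ?_ hi⟩
  ext g
  rw [MonoidHom.mem_ker, MonoidHom.comp_apply, h.ψ_eq_one_iff, Subgroup.mem_subgroupOf,
    mem_scalars_iff']
  exact ⟨fun ⟨u, hu⟩ => map_eq_scalar f _ u hu,
    fun ⟨u, hu⟩ => ⟨_, by rw [← map_scalar' f u, ← hu]; rfl⟩⟩

section polar
variable {σ₀ : F →+* F} {ε : F} {P : PolGrp F (ι → F) G σ₀ ε}

theorem ker_of_polar [Finite F] [Nonempty ι] (hP : ∀ s v, P.ρ s v = (X.j s : Matrix ι ι F) *ᵥ v)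
    (hB : P.Big) : X.Ker := by
  obtain ⟨p, hp⟩ := CharP.exists F
  have : Fact p.Prime := ⟨(CharP.char_is_prime F p)⟩
  rintro ⟨⟨g, σ⟩, ha⟩ h
  obtain ⟨h1, c, h2⟩ := hB.scalar_of_comm σ (semi (g : Matrix ι ι F) (σ : F →+* F))
    (semi_smul _ _) (by
      rw [injective_iff_map_eq_zero]
      intro v hv
      have := inv_mulVec_mulVec g (fun i => σ (v i))
      rw [show (g : Matrix ι ι F) *ᵥ (fun i => σ (v i)) = 0 from hv] at this
      ext i
      simpa using (congrFun this i).symm) (fun e s hs x => by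
      obtain ⟨s', hs'⟩ := X.hn _ ha s
      have h1 := (X.eq_Θ_iff _ 1).mp h.symm _ _ hs'
      have hp : PElt p s := PolGrp.pelt_of_mem_Q hs
      have hp' : PElt p s' := by
        obtain ⟨m, hm⟩ := (hp.map ((glAut ι σ).toMonoidHom.comp X.j)).conj g
        refine ⟨m, X.inj ?_⟩
        rw [map_pow, hs', map_one]
        exact hm
      rw [← P.eq_of_mk_eq hp hp' h1, eq_mul_inv_iff_mul_eq] at hs'
      rw [hP, hP, semi_apply, semi_apply, map_mulVec', mulVec_mulVec, mulVec_mulVec,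
        ← Units.val_mul, hs']
      rfl)
  have h3 : σ = 1 := RingEquiv.ext h1
  subst h3
  obtain ⟨u, -, hu⟩ := eq_scalar_of_mulVec (g := g) (c := c) h2
  subst hu
  exact ⟨u, rfl⟩

theorem exists_Θ_of_induced (hP : ∀ s v, P.ρ s v = (X.j s : Matrix ι ι F) *ᵥ v)
    {β : MulAut (G ⧸ Subgroup.center G)} (τ : F ≃+* F) (θ : (ι → F) ≃+ (ι → F))
    (hθ : ∀ g g', Rel β g g' → ∃ c : F, ∀ x, θ (P.ρ g x) = c • P.ρ g' (θ x))
    (M : GL ι F) (hM : ⟨M, τ⟩ ∈ X.N) (k : F) (hk : k ≠ 0)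
    (hθM : ∀ x, (M : Matrix ι ι F) *ᵥ (fun i => τ (x i)) = k • θ x) : β = X.Θ ⟨_, hM⟩ := by
  rw [eq_Θ_iff]
  intro s s' hs
  obtain ⟨g', hr⟩ := Rel.exists_right β s
  obtain ⟨c, hc⟩ := hθ s g' hr
  refine hr.of_mk_eq (P.mk_eq_of_scalar (c := c) fun y => ?_).symm
  rw [hP, hP]
  refine scalar_of_semilinear τ M (X.j s) (X.j s') (X.j g') (fun x => ?_) hs y
  rw [hθM, hθM, ← hP, hc, ← hP, map_smul, smul_comm]

end polar

end SemiSetup

end Cfsg.Agent.Lib.Aut
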