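import Cfsg.Agent.Lib.Aut.Semi
import Cfsg.Agent.Lib.GL.AltBasis

set_option autoImplicit false
set_option linter.unusedSectionVars false
set_option maxHeartbeats 400000

/-! Automorphisms of the projective symplectic groups. -/

namespace Cfsg.Agent.Lib.Aut.Sp

open Module Matrix Cfsg.Agent.Lib.GL.H90 Cfsg.Agent.Lib.GL.Alt Cfsg.Agent.Lib.Forms SemidirectProduct

variable {F : Type*} [Field F] {m : ℕ}

/-- the inclusion in the general linear group -/
def j (m : ℕ) (F : Type*) [Field F] : symplecticGroup (Fin m) F →* GL (Fin m ⊕ Fin m) F :=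
  (symplecticGroup (Fin m) F).subtype.toHomUnits

theorem coe_j (s : symplecticGroup (Fin m) F) :
    (j m F s : Matrix (Fin m ⊕ Fin m) (Fin m ⊕ Fin m) F) = s := rfl

theorem j_inj : Function.Injective (j m F) := fun _ _ h => Subtype.ext (congrArg Units.val h)

theorem mem_GSp_iff (g : GL (Fin m ⊕ Fin m) F) : g ∈ GSp m F ↔
    ∃ c : Fˣ, (g : Matrix _ _ F)ᵀ * J (Fin m) F * (g : Matrix _ _ F) = (c : F) • J (Fin m) F := by
  refine exists_congr fun c => ?_
  have k : ∀ u v, sympForm m F ((g : Matrix _ _ F) *ᵥ u) ((g : Matrix _ _ F) *ᵥ v) =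
      u ⬝ᵥ (((g : Matrix _ _ F)ᵀ * J (Fin m) F * (g : Matrix _ _ F)) *ᵥ v) := fun u v => by
    rw [sympForm, ← mulVec_mulVec, ← mulVec_mulVec, dotProduct_mulVec u, vecMul_transpose]
  simp only [k]
  constructor
  · intro h
    ext a b
    simpa [sympForm] using h (Pi.single a 1) (Pi.single b 1)
  · intro h u v
    rw [h, smul_mulVec, dotProduct_smul]; rfl

theorem exists_j {g : GL (Fin m ⊕ Fin m) F}
    (h : (g : Matrix _ _ F)ᵀ * J (Fin m) F * (g : Matrix _ _ F) = J (Fin m) F) : ∃ s, j m F s = g :=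
  ⟨⟨g, SymplecticGroup.mem_iff'.mpr h⟩, Units.ext rfl⟩

theorem j_spec (s : symplecticGroup (Fin m) F) :
    (j m F s : Matrix _ _ F)ᵀ * J (Fin m) F * (j m F s : Matrix _ _ F) = J (Fin m) F :=
  SymplecticGroup.mem_iff'.mp s.2

theorem map_J' {K : Type*} [Field K] (f : F →+* K) : (J (Fin m) F).map f = J (Fin m) K := by
  ext (a | a) (b | b) <;> simp [J, one_apply, apply_ite f]

theorem smul_J_inj [NeZero m] {a b : F} (h : a • J (Fin m) F = b • J (Fin m) F) : a = b := by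
  simpa [J] using congrFun (congrFun h (.inr 0)) (.inl 0)

/-- `g` is a similarity with multiplier `c` -/
def Sim (g : GL (Fin m ⊕ Fin m) F) (c : Fˣ) : Prop :=
  (g : Matrix _ _ F)ᵀ * J (Fin m) F * (g : Matrix _ _ F) = (c : F) • J (Fin m) F

theorem Sim.mem {g : GL (Fin m ⊕ Fin m) F} {c : Fˣ} (h : Sim g c) : g ∈ GSp m F :=
  (mem_GSp_iff g).mpr ⟨c, h⟩

theorem exists_sim {g : GL (Fin m ⊕ Fin m) F} (h : g ∈ GSp m F) : ∃ c, Sim g c :=
  (mem_GSp_iff g).mp h

theorem Sim.map {K : Type*} [Field K] (f : F →+* K) {g : GL (Fin m ⊕ Fin m) F} {c : Fˣ}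
    (h : Sim g c) : Sim (GeneralLinearGroup.map f g) (Units.map (f : F →* K) c) := by
  show ((g : Matrix _ _ F).map f)ᵀ * J (Fin m) K * (g : Matrix _ _ F).map f = f c • J (Fin m) K
  rw [← map_J' f, ← transpose_map, ← Matrix.map_mul, ← Matrix.map_mul, h]
  ext; simp only [map_apply, Matrix.smul_apply, smul_eq_mul, map_mul]

theorem Sim.glAut (σ : F ≃+* F) {g : GL (Fin m ⊕ Fin m) F} {c : Fˣ}
    (h : Sim g c) : Sim (glAut _ σ g) (Units.map (σ : F →* F) c) := h.map (σ : F →+* F)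

theorem Sim.mul {g h : GL (Fin m ⊕ Fin m) F} {c d : Fˣ} (hg : Sim g c) (hh : Sim h d) :
    Sim (g * h) (c * d) := by
  unfold Sim at *
  rw [Units.val_mul, Units.val_mul, transpose_mul, mul_smul, ← hh, ← Matrix.smul_mul,
    ← Matrix.mul_smul, ← hg]
  simp only [Matrix.mul_assoc]

theorem Sim.unique [NeZero m] {g : GL (Fin m ⊕ Fin m) F} {c d : Fˣ} (hg : Sim g c)
    (hh : Sim g d) : c = d := Units.ext (smul_J_inj (hg.symm.trans hh))

theorem Sim.inv {g : GL (Fin m ⊕ Fin m) F} {c : Fˣ} (hg : Sim g c) : Sim g⁻¹ c⁻¹ := by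
  unfold Sim at *
  rw [← Units.smul_def, eq_inv_smul_iff, Units.smul_def, ← Matrix.smul_mul, ← Matrix.mul_smul, ← hg]
  simp only [Matrix.mul_assoc, Units.mul_inv, Matrix.mul_one]
  rw [← Matrix.mul_assoc, ← transpose_mul, Units.mul_inv, transpose_one, Matrix.one_mul]

theorem sim_scalar (u : Fˣ) : Sim (GeneralLinearGroup.scalar (Fin m ⊕ Fin m) u) (u ^ 2) := by
  have : (GeneralLinearGroup.scalar (Fin m ⊕ Fin m) u).val = (u : F) • 1 := by
    ext a b; by_cases h : a = b <;> simp [h]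
  rw [Sim, this]
  simp [smul_smul, pow_two]

theorem sim_j (s : symplecticGroup (Fin m) F) : Sim (j m F s) 1 := by simpa [Sim] using j_spec s

theorem Sim.exists_j {g : GL (Fin m ⊕ Fin m) F} (h : Sim g 1) : ∃ s, j m F s = g :=
  Sp.exists_j (by simpa [Sim] using h)

theorem exists_sim_eq (c : Fˣ) : ∃ g : GL (Fin m ⊕ Fin m) F, Sim g c := by
  refine ⟨⟨fromBlocks ((c : F) • 1) 0 0 1, fromBlocks (((c⁻¹ : Fˣ) : F) • 1) 0 0 1, ?_, ?_⟩, ?_⟩
  · simp [fromBlocks_multiply, smul_smul]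
  · simp [fromBlocks_multiply, smul_smul]
  · simp [Sim, J, fromBlocks_multiply, fromBlocks_transpose, fromBlocks_smul]

/-- the multiplier -/
noncomputable def μ (m : ℕ) [NeZero m] (F : Type*) [Field F] : GSp m F →* Fˣ :=
  MonoidHom.mk' (fun g => (exists_sim g.2).choose) fun a b =>
    (exists_sim (a * b).2).choose_spec.unique
      ((exists_sim a.2).choose_spec.mul (exists_sim b.2).choose_spec)

theorem sim_μ [NeZero m] (g : GSp m F) : Sim g.1 (μ m F g) := (exists_sim g.2).choose_spec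

/-- the conformal semilinear group -/
def X (m : ℕ) (F : Type*) [Field F] : SemiSetup (Fin m ⊕ Fin m) F (symplecticGroup (Fin m) F) :=
  SemiSetup.ofSub (j m F) j_inj (GSp m F)
    (fun σ _ hg => by obtain ⟨c, hc⟩ := exists_sim hg; exact (hc.glAut σ).mem)
    (fun g hg s => by
      obtain ⟨c, hc⟩ := exists_sim hg
      exact Sim.exists_j (by simpa using (hc.mul (sim_j s)).mul hc.inv))
    (fun σ s => Sim.exists_j (by simpa using (sim_j s).glAut σ))
    (fun s => (sim_j s).mem)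

theorem inr_mem (σ : F ≃+* F) : inr σ ∈ (X m F).N := one_mem (GSp m F)

theorem iso (s : symplecticGroup (Fin m) F) (u v : Fin m ⊕ Fin m → F) :
    sympBilin m F ((s : Matrix _ _ F) *ᵥ u) ((s : Matrix _ _ F) *ᵥ v) = sympBilin m F u v := by
  rw [sympBilin_apply, sympBilin_apply, (mem_symplecticGroup_iff_sympForm _).mp s.2]

theorem exists_of_iso (E : (Fin m ⊕ Fin m → F) →ₗ[F] (Fin m ⊕ Fin m → F))
    (h : ∀ u v, sympBilin m F (E u) (E v) = sympBilin m F u v) :
    ∃ s : symplecticGroup (Fin m) F, ∀ v, (s : Matrix _ _ F) *ᵥ v = E v :=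
  ⟨⟨LinearMap.toMatrix' E, (mem_symplecticGroup_iff_sympForm _).mpr fun u v => by
    simpa only [LinearMap.toMatrix'_mulVec, sympBilin_apply] using h u v⟩,
    fun v => LinearMap.toMatrix'_mulVec _ _⟩

theorem symm (u v : Fin m ⊕ Fin m → F) : sympBilin m F v u = -sympBilin m F u v :=
  ((sympBilin_isAlt m).neg_eq u v).symm

theorem center_scalar (z : symplecticGroup (Fin m) F) (hz : z ∈ Subgroup.center _) :
    ∃ c : F, ∀ v, z.1 *ᵥ v = c • v := by
  obtain ⟨c, hc⟩ := LinearMap.exists_eq_smul_id_of_forall_notLinearIndependent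
    (f := Matrix.toLin' (z : Matrix (Fin m ⊕ Fin m) (Fin m ⊕ Fin m) F)) (fun v hv => by
      obtain ⟨t, ht⟩ := exists_of_iso (LinearMap.id + ((sympBilin m F).flip v).smulRight v)
        (fun a b => by
          simp only [LinearMap.add_apply, LinearMap.id_apply, LinearMap.smulRight_apply,
            LinearMap.BilinForm.flip_apply, map_add, map_smul, LinearMap.smul_apply, smul_eq_mul,
            sympBilin_isAlt m v, symm b v]
          ring)
      have h0 : v ≠ 0 := hv.ne_zero 0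
      obtain ⟨x, hx⟩ : ∃ x, sympBilin m F x v ≠ 0 := by
        by_contra hc
        push Not at hc
        exact h0 ((sympBilin_nondegenerate m).2 v hc)
      have h1 := congrArg (fun g : symplecticGroup (Fin m) F => g.1 *ᵥ x)
        (Subgroup.mem_center_iff.mp hz t)
      simp only [Submonoid.coe_mul, ← mulVec_mulVec, ht, LinearMap.add_apply, LinearMap.id_apply,
        LinearMap.smulRight_apply, LinearMap.BilinForm.flip_apply, mulVec_add, mulVec_smul,
        add_right_inj] at h1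
      rw [LinearIndependent.pair_iff] at hv
      exact hx (neg_eq_zero.mp (hv _ (-sympBilin m F x v)
        (by rw [h1, toLin'_apply]; simp)).2))
  exact ⟨c, fun v => by simpa using LinearMap.congr_fun hc v⟩

/-- the symplectic group as a polar group -/
noncomputable def P (m : ℕ) (F : Type*) [Field F] :
    PolGrp F (Fin m ⊕ Fin m → F) (symplecticGroup (Fin m) F) (RingHom.id F) (-1) where
  toLinGrp := matLin (j m F) j_inj center_scalar
  β := sympBilin m F
  S _ := True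
  symm u v := by rw [symm]; simp
  σσ _ := rfl
  ε_ne := by simp
  nondeg := (sympBilin_nondegenerate m).2
  S_smul _ _ _ := trivial
  S_self _ := sympBilin_isAlt m _
  S_add _ _ := Iff.rfl
  S_adj _ _ := ⟨0, trivial⟩
  iso := iso
  sing _ _ _ := trivial
  hasQ {e f y} _ _ _ h1 h2 := by
    obtain ⟨E, k1, k2, k3, -⟩ := exists_siegel (ε := -1) (sympBilin m F)
      (fun u v => by rw [symm]; simp) (fun _ => rfl) (sympBilin_isAlt m e) (sympBilin_isAlt m f)
      (sympBilin_isAlt m y) h1 h2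
    obtain ⟨s, hs⟩ := exists_of_iso E k1
    have : ∀ v, (matLin (j m F) j_inj center_scalar).ρ s v = E v := hs
    exact ⟨s, by simpa only [this] using k2, by rw [this, k3]⟩

theorem P_ρ (s : symplecticGroup (Fin m) F) (v : Fin m ⊕ Fin m → F) :
    (P m F).ρ s v = ((X m F).j s : Matrix _ _ F) *ᵥ v := rfl

theorem finrank_eq : finrank F (Fin m ⊕ Fin m → F) = 2 * m := by simp [two_mul]

theorem r2 (hm : 2 ≤ m) : (P m F).R2 := fun _ _ H => by
  obtain ⟨w, hw, h0⟩ := H.exists_W (by rw [finrank_eq]; omega)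
  exact ⟨w, hw, h0, trivial⟩

theorem exists_ne (hm : 2 ≤ m) : ∃ e : Fin m ⊕ Fin m → F, e ≠ 0 :=
  ⟨fun _ => 1, fun h => one_ne_zero (congrFun h (.inl ⟨0, by omega⟩))⟩

theorem big (hm : 2 ≤ m) : (P m F).Big :=
  ⟨(exists_ne hm).imp fun _ h => ⟨trivial, h⟩, fun _ _ H => H.exists_W (by rw [finrank_eq]; omega)⟩

theorem hasT : (P m F).HasT := fun _ _ _ => ⟨1, one_ne_zero, trivial⟩

theorem ker [Finite F] (hm : 2 ≤ m) : (X m F).Ker :=
  have : Nonempty (Fin m) := ⟨⟨0, by omega⟩⟩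
  SemiSetup.ker_of_polar P_ρ (big hm)

theorem pair (e w u v : Fin m ⊕ Fin m → F) (he : e ≠ 0) (hw : ∀ c : F, w ≠ c • e) (hu : u ≠ 0)
    (hv : ∀ c : F, v ≠ c • u) (h1 : sympBilin m F e w = 0) (h2 : sympBilin m F u v = 0) :
    ∃ g : symplecticGroup (Fin m) F, g.1 *ᵥ e = u ∧ g.1 *ᵥ w = v := by
  obtain ⟨g, hg⟩ := witt_symp ![e, w] ![u, v]
    (LinearIndependent.pair_iff.mpr (indep_of_notMem_span he hw))
    (LinearIndependent.pair_iff.mpr (indep_of_notMem_span hu hv)) (fun a b => by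
      fin_cases a <;> fin_cases b <;>
        simp [← sympBilin_apply, sympBilin_isAlt m _, symm e w, symm u v, h1, h2])
  exact ⟨g, hg 0, hg 1⟩

theorem surj [Finite F] {p : ℕ} [Fact p.Prime] [CharP F p] (hm : 2 ≤ m) (h4 : m = 2 → p ≠ 2) :
    Function.Surjective (X m F).Θ := by
  intro β
  have hc : PolGrp.PtCorr (P m F) (P m F) β (PolGrp.TCorr (P m F) (P m F) β p) := by
    by_cases hp : p = 2
    · subst hp
      have h5 : 5 ≤ finrank F (Fin m ⊕ Fin m → F) := by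
        rw [finrank_eq]
        have : m ≠ 2 := fun h => h4 h rfl
        omega
      have hε : (-1 : F) = 1 := CharTwo.neg_eq 1
      exact PolGrp.ptCorr_of_isTr hasT hasT fun g g' hr hp hp' =>
        ⟨PolGrp.isTr_of_two hε (big hm) (big hm) hasT h5 pair hr hp',
          PolGrp.isTr_of_two hε (big hm) (big hm) hasT h5 pair hr.symm hp⟩
    · refine PolGrp.ptCorr_of_ne (big hm) (big hm) hasT hasT ⟨1, fun h => hp ?_⟩
      have h2 : ((2 : ℕ) : F) = 0 := by
        simp only [RingHom.id_apply, mul_one] at h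
        linear_combination h
      exact (Nat.prime_dvd_prime_iff_eq Fact.out Nat.prime_two).mp ((CharP.cast_eq_zero_iff F p 2).mp h2)
  obtain ⟨e, he⟩ := exists_ne (F := F) hm
  obtain ⟨τ, θ, s, hs, h1, h2, -, h3⟩ := hc.induced_two (r2 hm) (r2 hm) hasT.conn
    (e := e) trivial he (fun _ _ => rfl)
  obtain ⟨M, hM⟩ := exists_GL_of_semilinear τ θ h1
  have hG : M ∈ GSp m F := ⟨Units.mk0 s hs, fun u v => by
    have := h2 (fun i => τ.symm (u i)) (fun i => τ.symm (v i))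
    rw [hM, hM] at this
    simp only [RingEquiv.apply_symm_apply] at this
    rw [← sympBilin_apply]
    refine this.trans ?_
    show s * τ (sympBilin m F _ _) = s * _
    simp [sympBilin_apply, sympForm_apply]⟩
  exact ⟨⟨⟨M, τ⟩, hG⟩, ((X m F).exists_Θ_of_induced P_ρ τ θ h3 M hG 1 one_ne_zero
    (fun x => by rw [one_smul, hM])).symm⟩

theorem isInduced_iff (g : GL (Fin m ⊕ Fin m) F) (hg : g ∈ GSp m F) (σ : F ≃+* F)
    (β : MulAut (PSp m F)) : IsInducedBySemilinearPSp g σ β ↔ β = (X m F).Θ ⟨⟨g, σ⟩, hg⟩ := by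
  rw [SemiSetup.eq_Θ_iff]
  simp only [Units.ext_iff]
  rfl

theorem isStdField_iff (σ : F ≃+* F) (β : MulAut (PSp m F)) :
    IsStdFieldAutPSp σ β ↔ β = (X m F).Θ ⟨inr σ, inr_mem σ⟩ := by
  rw [SemiSetup.eq_Θ_iff]
  simp only [left_inr, right_inr, one_mul, inv_one, mul_one, Units.ext_iff]
  rfl

theorem ψ_eq (g : GL (Fin m ⊕ Fin m) F) (hg : g ∈ GSp m F) :
    (X m F).ψ ⟨g, hg⟩ = (X m F).Θ ⟨⟨g, RingEquiv.refl F⟩, hg⟩ :=
  congrArg (X m F).Θ (Subtype.ext rfl)

theorem inndiag_eq : inndiagPSp m F = (X m F).ψ.range :=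
  autSubgroupOf_eq _ _ fun β =>
    ⟨fun ⟨g, hg, h⟩ => ⟨⟨g, hg⟩, (ψ_eq g hg).trans ((isInduced_iff g hg _ β).mp h).symm⟩,
      fun ⟨⟨g, hg⟩, h⟩ => ⟨g, hg, (isInduced_iff g hg _ β).mpr (h.symm.trans (ψ_eq g hg))⟩⟩

theorem gamma_eq : gammaPSp m F = (X m F).Θ.range :=
  autSubgroupOf_eq _ _ fun β =>
    ⟨fun ⟨g, σ, hg, h⟩ => ⟨⟨⟨g, σ⟩, hg⟩, ((isInduced_iff g hg _ β).mp h).symm⟩,
      fun ⟨a, h⟩ => ⟨a.1.left, a.1.right, a.2, (isInduced_iff _ a.2 _ β).mpr h.symm⟩⟩

/-- the multiplier modulo squares -/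
noncomputable def κ (m : ℕ) [NeZero m] (F : Type*) [Field F] :
    (X m F).D →* Fˣ ⧸ (powMonoidHom 2 : Fˣ →* Fˣ).range :=
  (QuotientGroup.mk' _).comp (μ m F)

theorem μ_surjective [NeZero m] : Function.Surjective (μ m F) := fun c => by
  obtain ⟨g, hg⟩ := exists_sim_eq (m := m) c
  exact ⟨⟨g, hg.mem⟩, (sim_μ _).unique hg⟩

theorem κ_surjective [NeZero m] : Function.Surjective (κ m F) :=
  (QuotientGroup.mk'_surjective _).comp μ_surjective

theorem ψ_mem_inn_iff [NeZero m] [Finite F] (hm : 2 ≤ m) (d : (X m F).D) :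
    (X m F).ψ d ∈ Inn (PSp m F) ↔ κ m F d = 1 := by
  have : κ m F d = 1 ↔ ∃ u : Fˣ, u ^ 2 = μ m F d := QuotientGroup.eq_one_iff _
  rw [this, (ker hm).ψ_mem_inn_iff]
  constructor
  · rintro ⟨u, s, h⟩
    refine ⟨u, Sim.unique ?_ (sim_μ d)⟩
    rw [h, ← mul_one (u ^ 2)]
    exact (sim_scalar u).mul (sim_j s)
  · rintro ⟨u, hu⟩
    obtain ⟨s, hs⟩ := Sim.exists_j (g := (GeneralLinearGroup.scalar _ u)⁻¹ * d.1) (by
      simpa [hu] using (sim_scalar u).inv.mul (sim_μ d))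
    exact ⟨u, s, by rw [show (X m F).j s = _ from hs, mul_inv_cancel_left]⟩

theorem normal_range_ψ [Finite F] (hm : 2 ≤ m) : (X m F).ψ.range.Normal := by
  obtain ⟨p, hp⟩ := CharP.exists F
  have : Fact p.Prime := ⟨(CharP.char_is_prime F p)⟩
  by_cases h2 : p = 2
  · subst h2
    have : NeZero m := ⟨by omega⟩
    have : (X m F).ψ.range = Inn (PSp m F) := by
      refine le_antisymm ?_ (X m F).inn_le_range_ψ
      rintro _ ⟨d, rfl⟩
      rw [ψ_mem_inn_iff hm]
      obtain ⟨r, hr⟩ := FiniteField.isSquare_of_char_two (ringChar.eq F 2) (μ m F d : F)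
      have h0 : r ≠ 0 := by
        rintro rfl
        simp at hr
      exact (QuotientGroup.eq_one_iff _).mpr ⟨Units.mk0 r h0, Units.ext ((pow_two r).trans hr.symm)⟩
    rw [this]; infer_instance
  · exact (X m F).normal_range_ψ (surj hm fun _ => h2)

theorem exists_eq_transpose_J (M : GL (Fin m ⊕ Fin m) F) (hM : ∀ v, v ⬝ᵥ M.1 *ᵥ v = 0) :
    ∃ h : GL (Fin m ⊕ Fin m) F, M.1 = h.1ᵀ * J (Fin m) F * h.1 := by
  obtain ⟨e, he⟩ := exists_equiv_sympForm_of_finrank (B := Matrix.toBilin' M.1)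
    (fun v => by rw [Matrix.toBilin'_apply', hM])
    (LinearMap.BilinForm.nondegenerate_toBilin'_iff_det_ne_zero.mpr M.det_ne_zero) finrank_eq
  refine ⟨glOfEquiv e, Matrix.toBilin'.injective (LinearMap.ext₂ fun u v => ?_)⟩
  rw [he, Matrix.toBilin'_apply', ← mulVec_mulVec, ← mulVec_mulVec, dotProduct_mulVec u,
    vecMul_transpose, glOfEquiv_mulVec, glOfEquiv_mulVec, sympForm]

/-- the Gram matrix -/
def gram (k : GL (Fin m ⊕ Fin m) F) : GL (Fin m ⊕ Fin m) F :=
  (PSL.invT _ F k)⁻¹ * j m F ⟨J (Fin m) F, SymplecticGroup.J_mem _ _⟩ * k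

theorem coe_gram (k : GL (Fin m ⊕ Fin m) F) : (gram k).1 = k.1ᵀ * J (Fin m) F * k.1 := rfl

theorem exists_lang [Finite F] [NeZero m] (σ : F ≃+* F) {d k : GL (Fin m ⊕ Fin m) F}
    (hd : d ∈ GSp m F) (h : d = k * (glAut _ σ k)⁻¹) :
    ∃ k' ∈ GSp m F, d = k' * (glAut _ σ k')⁻¹ := by
  have := finite_ringAut F
  obtain ⟨c, hc⟩ := exists_sim hd
  have h1 : (gram k).1.map σ = ((c⁻¹ : Fˣ) : F) • (gram k).1 := by
    have h2 : k.1.map σ = (d⁻¹ * k).1 := by
      rw [h, _root_.mul_inv_rev, inv_inv, inv_mul_cancel_right]; rfl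
    rw [coe_gram, ← RingEquiv.coe_toRingHom, Matrix.map_mul, Matrix.map_mul, map_J', transpose_map,
      RingEquiv.coe_toRingHom, h2, Units.val_mul, transpose_mul, ← Matrix.smul_mul,
      ← Matrix.mul_smul, ← hc.inv]
    simp only [Matrix.mul_assoc]
  obtain ⟨t, ht, -, ht'⟩ := exists_smul_fixed σ (orderOf_pos σ) rfl (gram k) _ h1
  have h3 : (GeneralLinearGroup.scalar _ (Units.mk0 t ht) * gram k).1 = t • (gram k).1 := by
    ext a b; simp
  obtain ⟨M, hM⟩ := (glAut_eq_self_iff σ (GeneralLinearGroup.scalar _ (Units.mk0 t ht) * gram k)).mp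
    (Units.ext (by rw [coe_glAut, h3, ht']))
  have hM' : M.1.map (fixedSub σ).subtype = t • (gram k).1 := h3 ▸ congrArg Units.val hM
  obtain ⟨g, hg⟩ := exists_eq_transpose_J M fun v => by
    apply (fixedSub σ).subtype.injective
    rw [RingHom.map_dotProduct, map_zero,
      show (fixedSub σ).subtype ∘ (M.1 *ᵥ v) = _ from funext (RingHom.map_mulVec _ _ _), hM',
      smul_mulVec, dotProduct_smul, coe_gram, ← mulVec_mulVec, ← mulVec_mulVec, dotProduct_mulVec,
      vecMul_transpose, ← sympForm, ← sympBilin_apply, sympBilin_isAlt, smul_zero]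
  let g' := GeneralLinearGroup.map (fixedSub σ).subtype g
  have hg' : glAut _ σ g' = g' := (glAut_eq_self_iff σ _).mpr ⟨g, rfl⟩
  refine ⟨k * g'⁻¹, Sim.mem (c := (Units.mk0 t ht)⁻¹) ?_, by
    rw [map_mul, map_inv, hg', h]; group⟩
  have h4 : g'.1ᵀ * J (Fin m) F * g'.1 = t • (k.1ᵀ * J (Fin m) F * k.1) := by
    rw [← coe_gram k, ← hM', hg, Matrix.map_mul, Matrix.map_mul, map_J', transpose_map]; rfl
  rw [Sim, ← Units.smul_def, eq_inv_smul_iff, Units.smul_def, Units.val_mul, transpose_mul]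
  calc _ = (g'⁻¹).1ᵀ * (t • (k.1ᵀ * J (Fin m) F * k.1)) * (g'⁻¹).1 := by
        simp [Matrix.mul_assoc]
    _ = _ := by
        rw [← h4]
        simp only [Matrix.mul_assoc, Units.mul_inv, Matrix.mul_one]
        rw [← Matrix.mul_assoc, ← transpose_mul, Units.mul_inv, transpose_one, Matrix.one_mul]

theorem lang [Finite F] (hm : 2 ≤ m) {σ : F ≃+* F} {r : ℕ} (hr : orderOf σ = r) :
    ∀ δ ∈ (X m F).ψ.range, (δ * (X m F).Θ ⟨_, inr_mem σ⟩) ^ r = 1 →
      IsConjUnder (X m F).ψ.range ((X m F).Θ ⟨_, inr_mem σ⟩) (δ * (X m F).Θ ⟨_, inr_mem σ⟩) := by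
  have : NeZero m := ⟨by omega⟩
  refine (ker hm).lang _ hr fun d hd u hu => ?_
  obtain ⟨c, k, hk⟩ := exists_scalar_mul_eq_mul_inv σ hr d u hu
  obtain ⟨k', h1, h2⟩ := exists_lang σ (mul_mem (sim_scalar c).mem hd) hk
  exact ⟨c, k', h1, h2⟩

theorem mem_GSp_of_map [NeZero m] {K : Type*} [Field K] (f : F →+* K) {g : GL (Fin m ⊕ Fin m) F}
    (h : GeneralLinearGroup.map f g ∈ GSp m K) : g ∈ GSp m F := by
  obtain ⟨c, hc⟩ := exists_sim h
  have h1 : (gram g).1.map f = (c : K) • J (Fin m) K := by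
    rw [← hc, coe_gram, Matrix.map_mul, Matrix.map_mul, map_J', transpose_map]; rfl
  have h2 : f ((gram g).1 (.inr 0) (.inl 0)) = c := by
    simpa [J] using congrFun (congrFun h1 (.inr 0)) (.inl 0)
  refine Sim.mem (c := Units.mk0 ((gram g).1 (.inr 0) (.inl 0)) fun h0 => c.ne_zero (by
    rw [← h2, h0, map_zero])) ?_
  apply Matrix.map_injective f.injective
  show (gram g).1.map f = ((gram g).1 (.inr 0) (.inl 0) • J (Fin m) F).map f
  rw [h1, ← h2, ← map_J' f]
  ext; simp only [map_apply, Matrix.smul_apply, smul_eq_mul, map_mul]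

theorem centralizer_fld [Finite F] [NeZero m] (hm : 2 ≤ m) {σ : F ≃+* F} {F₀ : Type*} [Field F₀]
    (f : F₀ →+* F) (hf : ∀ x, σ x = x ↔ x ∈ f.range) :
    Nonempty (↥((X m F).ψ.range ⊓ Subgroup.centralizer {(X m F).Θ ⟨_, inr_mem σ⟩}) ≃* PGSp m F₀) ∧
    splitClassCount (X m F).ψ.range (Inn (PSp m F)) ((X m F).Θ ⟨_, inr_mem σ⟩) =
      Nat.gcd 2 ((Nat.card F - 1) / (Nat.card F₀ - 1)) := by
  obtain ⟨i, h1, h2, h3⟩ := (ker hm).centralizer_fld (inr_mem σ) f hf (GSp m F₀)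
    (fun g hg => by obtain ⟨c, hc⟩ := exists_sim hg; exact (hc.map f).mem)
    (fun d hd c g hg => ⟨c, g, mem_GSp_of_map f (hg ▸ mul_mem (sim_scalar c).mem hd), hg⟩)
  refine ⟨h3, ?_⟩
  have h4 : (κ m F).comp i = (QuotientGroup.mk' _).comp
      ((Units.map (f : F₀ →* F)).comp (μ m F₀)) := MonoidHom.ext fun g =>
    congrArg QuotientGroup.mk ((sim_μ (i g)).unique (by rw [h1]; exact (sim_μ g).map f))
  rw [splitClassCount_eq_of_range _ _ κ_surjective _ (X m F).inn_le_range_ψ (ψ_mem_inn_iff hm) _ _ h2,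
    h4, MonoidHom.range_comp, MonoidHom.range_comp,
    MonoidHom.range_eq_top.mpr μ_surjective, ← MonoidHom.range_eq_map, index_map_mk_pow,
    index_units_map]

end Cfsg.Agent.Lib.Aut.Sp
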