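import Cfsg.Agent.Lib.Aut.LocBal3
import Cfsg.Agent.Lib.Invol.SpTransvection

set_option autoImplicit false
set_option linter.unusedSectionVars false
set_option maxHeartbeats 400000

/-! The exceptional automorphism of `Sp₄(2^f)`. -/

namespace Cfsg.Agent.Lib.Aut.Sp

open Module Matrix Subgroup Cfsg.Agent.Lib.GL.H90 SemidirectProduct Cfsg.Agent.Lib.GL.Alt Cfsg.Agent.Lib.GL
  Cfsg.Agent.Lib.Forms Cfsg.Agent.Lib.Invol

variable {F : Type*} [Field F]

/-- the index set -/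
abbrev I4 := Fin 2 ⊕ Fin 2

/-- a `2 × 2` minor -/
def mn (g : Matrix I4 I4 F) (i j k l : I4) : F := g i k * g j l - g i l * g j k

/-- first index of a pair -/
def p1 : I4 → I4 := Sum.elim ![.inl 0, .inl 0] ![.inr 0, .inl 1]
/-- second index of a pair -/
def p2 : I4 → I4 := Sum.elim ![.inl 1, .inr 1] ![.inr 1, .inr 0]

@[simp] theorem p1_a : p1 (.inl 0) = .inl 0 := rfl
@[simp] theorem p1_b : p1 (.inl 1) = .inl 0 := rfl
@[simp] theorem p1_c : p1 (.inr 0) = .inr 0 := rfl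
@[simp] theorem p1_d : p1 (.inr 1) = .inl 1 := rfl
@[simp] theorem p2_a : p2 (.inl 0) = .inl 1 := rfl
@[simp] theorem p2_b : p2 (.inl 1) = .inr 1 := rfl
@[simp] theorem p2_c : p2 (.inr 0) = .inr 1 := rfl
@[simp] theorem p2_d : p2 (.inr 1) = .inr 0 := rfl

/-- the action on a section of the exterior square -/
def hatM (g : Matrix I4 I4 F) : Matrix I4 I4 F := of fun x y => mn g (p1 x) (p2 x) (p1 y) (p2 y)

theorem mn_mul (g h : Matrix I4 I4 F) (i j k l : I4) : mn (g * h) i j k l =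
    ∑ x, mn g i j (p1 x) (p2 x) * mn h (p1 x) (p2 x) k l +
      mn g i j (.inl 0) (.inr 0) * mn h (.inl 0) (.inr 0) k l +
      mn g i j (.inl 1) (.inr 1) * mn h (.inl 1) (.inr 1) k l := by
  simp only [mn, mul_apply, Fintype.sum_sum_type, Fin.sum_univ_two, p1, p2, Sum.elim_inl,
    Sum.elim_inr, cons_val_zero, cons_val_one]
  ring

theorem J_p (x : I4) : J (Fin 2) F (p1 x) (p2 x) = 0 := by
  rcases x with x | x <;> fin_cases x <;> simp [J, p1, p2]

theorem hatM_one : hatM (1 : Matrix I4 I4 F) = 1 := by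
  simp only [← Matrix.ext_iff, Sum.forall, Fin.forall_fin_two, hatM, mn, of_apply, one_apply]
  simp only [p1_a, p1_b, p1_c, p1_d, p2_a, p2_b, p2_c, p2_d]
  simp

variable [CharP F 2]

theorem hatM_mul {g h : Matrix I4 I4 F} (hg : g ∈ symplecticGroup (Fin 2) F)
    (hh : h ∈ symplecticGroup (Fin 2) F) : hatM (g * h) = hatM g * hatM h := by
  ext x y
  have h1 := congrFun (congrFun (SymplecticGroup.mem_iff.mp hg) (p1 x)) (p2 x)
  have h2 := congrFun (congrFun (SymplecticGroup.mem_iff'.mp hh) (p1 y)) (p2 y)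
  rw [J_p] at h1 h2
  simp [mul_apply, J] at h1 h2
  have h0 : (2 : F) = 0 := CharTwo.two_eq_zero
  rw [hatM, of_apply, mn_mul, mul_apply, add_assoc]
  refine add_eq_left.mpr ?_
  simp only [mn]
  linear_combination (h (.inl 0) (p1 y) * h (.inr 0) (p2 y) - h (.inl 0) (p2 y) * h (.inr 0) (p1 y)) *
    (-h1) + (g (p1 x) (.inl 1) * g (p2 x) (.inr 1) - g (p1 x) (.inr 1) * g (p2 x) (.inl 1)) * (-h2) -
    (g (p1 x) (.inl 1) * g (p2 x) (.inr 1) - g (p1 x) (.inr 1) * g (p2 x) (.inl 1)) *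
    (h (.inl 0) (p1 y) * h (.inr 0) (p2 y) - h (.inl 0) (p2 y) * h (.inr 0) (p1 y)) * h0

/-- a matrix with explicit entries -/
def m4 (a b c d : Fin 4 → F) : Matrix I4 I4 F :=
  fromBlocks !![a 0, a 1; b 0, b 1] !![a 2, a 3; b 2, b 3] !![c 0, c 1; d 0, d 1] !![c 2, c 3; d 2, d 3]

theorem spT_eq (v : I4 → F) (c : F) : (spT v c).1 =
    m4 ![1 + c * v (.inl 0) * v (.inr 0), c * v (.inl 0) * v (.inr 1), c * v (.inl 0) ^ 2,
        c * v (.inl 0) * v (.inl 1)]
      ![c * v (.inl 1) * v (.inr 0), 1 + c * v (.inl 1) * v (.inr 1), c * v (.inl 0) * v (.inl 1),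
        c * v (.inl 1) ^ 2]
      ![c * v (.inr 0) ^ 2, c * v (.inr 0) * v (.inr 1), 1 + c * v (.inl 0) * v (.inr 0),
        c * v (.inl 1) * v (.inr 0)]
      ![c * v (.inr 0) * v (.inr 1), c * v (.inr 1) ^ 2, c * v (.inl 0) * v (.inr 1),
        1 + c * v (.inl 1) * v (.inr 1)] := by
  simp [← Matrix.ext_iff, spT, sympTransvection, m4, J, vecMulVec_apply, mulVec, dotProduct,
    CharTwo.neg_eq, mul_assoc, pow_two, mul_comm]

theorem hat_spT_eq (v : I4 → F) (c : F) : hatM (spT v c).1 =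
    m4 ![1 + c * (v (.inl 0) * v (.inr 0) + v (.inl 1) * v (.inr 1)), c * v (.inl 1) ^ 2, 0,
        c * v (.inl 0) ^ 2]
      ![c * v (.inr 1) ^ 2, 1 + c * (v (.inl 0) * v (.inr 0) + v (.inl 1) * v (.inr 1)),
        c * v (.inl 0) ^ 2, 0]
      ![0, c * v (.inr 0) ^ 2, 1 + c * (v (.inl 0) * v (.inr 0) + v (.inl 1) * v (.inr 1)),
        c * v (.inr 1) ^ 2]
      ![c * v (.inr 0) ^ 2, 0, c * v (.inl 1) ^ 2,
        1 + c * (v (.inl 0) * v (.inr 0) + v (.inl 1) * v (.inr 1))] := by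
  simp only [← Matrix.ext_iff, Sum.forall, Fin.forall_fin_two, hatM, mn, spT_eq, m4, of_apply]
  simp only [p1_a, p1_b, p1_c, p1_d, p2_a, p2_b, p2_c, p2_d, fromBlocks_apply₁₁, fromBlocks_apply₁₂,
    fromBlocks_apply₂₁, fromBlocks_apply₂₂, of_apply, cons_val', cons_val_zero, cons_val_one,
    cons_val_fin_one, cons_val]
  refine ⟨⟨⟨⟨?_, ?_⟩, ?_, ?_⟩, ⟨?_, ?_⟩, ?_, ?_⟩, ⟨⟨?_, ?_⟩, ?_, ?_⟩, ⟨?_, ?_⟩, ?_, ?_⟩ <;>
    (rw [← sub_eq_zero]; ring_nf; try reduce_mod_char!)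

theorem hat_spT (v : I4 → F) (c : F) : hatM (spT v c).1 ∈ symplecticGroup (Fin 2) F ∧
    hatM (hatM (spT v c).1) = (spT v c).1.map (frobenius F 2) := by
  rw [SymplecticGroup.mem_iff, hat_spT_eq, spT_eq]
  simp only [← Matrix.ext_iff, Sum.forall, Fin.forall_fin_two, hatM, mn, m4, of_apply, mul_apply,
    Fintype.sum_sum_type, Fin.sum_univ_two, transpose_apply, map_apply, frobenius_def, J]
  simp only [p1_a, p1_b, p1_c, p1_d, p2_a, p2_b, p2_c, p2_d, fromBlocks_apply₁₁, fromBlocks_apply₁₂,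
    fromBlocks_apply₂₁, fromBlocks_apply₂₂, of_apply, cons_val', cons_val_zero, cons_val_one,
    cons_val_fin_one, cons_val, Matrix.zero_apply, Matrix.neg_apply, one_apply_eq,
    one_apply_ne zero_ne_one, one_apply_ne one_ne_zero]
  refine ⟨⟨⟨⟨⟨?_, ?_⟩, ?_, ?_⟩, ⟨?_, ?_⟩, ?_, ?_⟩, ⟨⟨?_, ?_⟩, ?_, ?_⟩, ⟨?_, ?_⟩, ?_, ?_⟩,
    ⟨⟨⟨?_, ?_⟩, ?_, ?_⟩, ⟨?_, ?_⟩, ?_, ?_⟩, ⟨⟨?_, ?_⟩, ?_, ?_⟩, ⟨?_, ?_⟩, ?_, ?_⟩ <;>
    (rw [← sub_eq_zero]; ring_nf; try reduce_mod_char!)

variable [Finite F]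

omit [CharP F 2] in
instance {m : ℕ} : Finite (symplecticGroup (Fin m) F) := Finite.of_injective _ (j_inj (m := m))

theorem hat_spec (g : symplecticGroup (Fin 2) F) : hatM g.1 ∈ symplecticGroup (Fin 2) F ∧
    hatM (hatM g.1) = g.1.map (frobenius F 2) := by
  let S : Submonoid (symplecticGroup (Fin 2) F) :=
    { carrier := {g | hatM g.1 ∈ symplecticGroup (Fin 2) F ∧
        hatM (hatM g.1) = g.1.map (frobenius F 2)}
      one_mem' := by
        refine ⟨?_, ?_⟩ <;> simp [hatM_one]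
      mul_mem' := fun {a b} ha hb => by
        have : hatM (a * b).1 = hatM a.1 * hatM b.1 := hatM_mul a.2 b.2
        exact ⟨this ▸ mul_mem ha.1 hb.1, by
          rw [this, hatM_mul ha.1 hb.1, ha.2, hb.2, ← Matrix.map_mul]; rfl⟩ }
  have hg : g ∈ Subgroup.closure _ := closure_spT.ge (mem_top g)
  show g ∈ S
  induction hg using Subgroup.closure_induction with
  | mem x hx => obtain ⟨v, -, c, -, rfl⟩ := hx; exact hat_spT v c
  | one => exact one_mem S
  | mul x y _ _ h1 h2 => exact mul_mem h1 h2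
  | inv x _ h =>
    rw [inv_eq_of_mul_eq_one_right (mul_pow_sub_one (orderOf_pos x).ne' x |>.trans
      (pow_orderOf_eq_one x))]
    exact pow_mem h _

/-- the exceptional isogeny -/
def hatH : symplecticGroup (Fin 2) F →* symplecticGroup (Fin 2) F :=
  MonoidHom.mk' (fun g => ⟨hatM g.1, (hat_spec g).1⟩) fun a b => Subtype.ext (hatM_mul a.2 b.2)

/-- the exceptional automorphism -/
noncomputable def hatA (F : Type*) [Field F] [CharP F 2] [Finite F] :
    MulAut (symplecticGroup (Fin 2) F) :=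
  MulEquiv.ofBijective hatH (Finite.injective_iff_bijective.mp fun a b h => Subtype.ext
    (Matrix.map_injective (frobenius F 2).injective ((hat_spec a).2.symm.trans
      ((congrArg (fun x => hatM x.1) h).trans (hat_spec b).2))))

/-- the exceptional automorphism of `PSp₄` -/
noncomputable def hat (F : Type*) [Field F] [CharP F 2] [Finite F] : MulAut (PSp 2 F) :=
  quotCenterAut _ (hatA F)

theorem hat_sq : hat F ^ 2 = (X 2 F).Θ ⟨_, inr_mem (frobeniusEquiv F 2)⟩ := by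
  rw [← isStdField_iff]
  intro s s' h
  rw [hat, ← map_pow, quotCenterAut_mk]
  exact congrArg _ (Subtype.ext ((hat_spec s).2.trans h.symm))

section
variable {m : ℕ}

theorem isTr_iff {g : symplecticGroup (Fin m) F} (hg : g ≠ 1) :
    (P m F).IsTr g ↔ ∃ v ≠ 0, g = spT v 1 := by
  constructor
  · rintro ⟨x, hx, hx0, h⟩
    obtain ⟨c, hc0, hc⟩ := PolGrp.T_apply' hx hx0 h hg
    obtain ⟨d, rfl⟩ := FiniteField.isSquare_of_char_two (ringChar.eq F 2) c
    refine ⟨d • x, smul_ne_zero (left_ne_zero_of_mul hc0) hx0, sp_ext fun y => ?_⟩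
    rw [spT_mulVec, map_smul, smul_smul]
    refine (hc y).trans ?_
    congr 2
    show sympBilin m F y x * _ = _
    simp only [smul_eq_mul]; ring
  · rintro ⟨v, hv, rfl⟩
    exact ⟨v, trivial, hv, fun x hx => (spT_mulVec v x 1).trans (by
      simp [show sympBilin m F x v = 0 from hx])⟩

theorem exists_map_vec {u v : Fin m ⊕ Fin m → F} (hu : u ≠ 0) (hv : v ≠ 0) :
    ∃ g : symplecticGroup (Fin m) F, g.1 *ᵥ u = v := by
  obtain ⟨g, hg⟩ := witt_symp ![u] ![v] (by simpa) (by simpa) (fun a b => by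
    fin_cases a; fin_cases b; simp [← sympBilin_apply, sympBilin_self])
  exact ⟨g, hg 0⟩

omit [CharP F 2] in
theorem spT_ne_one {v : Fin m ⊕ Fin m → F} (hv : v ≠ 0) : spT v 1 ≠ 1 :=
  PolGrp.ne_one_of_apply (P := P m F) hv one_ne_zero fun x =>
    (spT_mulVec v x 1).trans (by rw [one_mul, mul_one]; rfl)

omit [CharP F 2] in
theorem spT_pelt (v : Fin m ⊕ Fin m → F) {p : ℕ} [Fact p.Prime] [CharP F p] : PElt p (spT v 1) :=
  PolGrp.pelt_of_mem_Q (P := P m F) (e := v) (PolGrp.T_le_Q trivial fun x hx =>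
    (spT_mulVec v x 1).trans (by simp [show sympBilin m F x v = 0 from hx]))

theorem isTr_of_rel {α : PSp m F ≃* PSp m F} {u v : Fin m ⊕ Fin m → F} (hu : u ≠ 0) (hv : v ≠ 0)
    (h : Rel α (spT u 1) (spT v 1)) {g g' : symplecticGroup (Fin m) F} (hr : Rel α g g')
    (hp : PElt 2 g') (hg : (P m F).IsTr g) : (P m F).IsTr g' := by
  by_cases h1 : g = 1
  · subst h1
    rw [(P m F).rel_unique hr Rel.one hp PElt.one]
    exact ⟨v, trivial, hv, one_mem _⟩
  obtain ⟨x, hx, rfl⟩ := (isTr_iff h1).mp hg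
  obtain ⟨k, rfl⟩ := exists_map_vec hu hx
  obtain ⟨k', hk⟩ := Rel.exists_right α k
  have h2 := hk.conj h
  rw [conj_spT, conj_spT] at h2
  have h3 := (P m F).apply_ne_zero k' hv
  rw [(P m F).rel_unique hr h2 hp (spT_pelt _)]
  exact (isTr_iff (spT_ne_one h3)).mpr ⟨_, h3, rfl⟩

theorem mem_range_of_rel (hm : 2 ≤ m) {β : MulAut (PSp m F)} {u v : Fin m ⊕ Fin m → F}
    (hu : u ≠ 0) (hv : v ≠ 0) (h : Rel β (spT u 1) (spT v 1)) : β ∈ (X m F).Θ.range := by
  have hc : PolGrp.PtCorr (P m F) (P m F) β (PolGrp.TCorr (P m F) (P m F) β 2) :=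
    PolGrp.ptCorr_of_isTr hasT hasT fun g g' hr hp hp' =>
      ⟨isTr_of_rel hu hv h hr hp', isTr_of_rel hv hu h.symm hr.symm hp⟩
  obtain ⟨τ, θ, s, hs, h1, h2, -, h3⟩ := hc.induced_two (r2 hm) (r2 hm) hasT.conn
    (e := u) trivial hu (fun _ _ => rfl)
  obtain ⟨M, hM⟩ := exists_GL_of_semilinear τ θ h1
  have hG : M ∈ GSp m F := ⟨Units.mk0 s hs, fun u v => by
    have := h2 (fun i => τ.symm (u i)) (fun i => τ.symm (v i))
    rw [hM, hM] at this
    simp only [RingEquiv.apply_symm_apply] at this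
    rw [← sympBilin_apply]
    refine this.trans ?_
    show s * τ (sympBilin m F _ _) = s * _
    simp [sympBilin_apply, sympForm_apply]⟩
  exact ⟨⟨⟨M, τ⟩, hG⟩, ((X m F).exists_Θ_of_induced P_ρ τ θ h3 M hG 1 one_ne_zero
    (fun x => by rw [one_smul, hM])).symm⟩

end

/-- the first basis vector -/
abbrev e1 : I4 → F := Pi.single (.inl 0) 1
/-- the second basis vector -/
abbrev e2 : I4 → F := Pi.single (.inl 1) 1

theorem e1_ne : (e1 : I4 → F) ≠ 0 := by simp

theorem hat_e1 (x : I4 → F) : (hatA F (spT e1 1)).1 *ᵥ x =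
    x + sympBilin 2 F x e1 • e2 + sympBilin 2 F x e2 • e1 := by
  show hatM (spT e1 1).1 *ᵥ x = _
  rw [hat_spT_eq]
  simp [funext_iff, m4, mulVec, dotProduct, sympBilin_apply, sympForm, J, CharTwo.neg_eq]

theorem mem_span_of_perp {e f w y : I4 → F} (H : (P 2 F).Hyp e f) (hw : w ∈ (P 2 F).W e f)
    (hw0 : w ≠ 0) (h1 : sympBilin 2 F y e = 0) (h2 : sympBilin 2 F y w = 0) :
    ∃ a b : F, y = a • e + b • w := by
  obtain ⟨v, hv, hvw⟩ := H.W_nondeg hw hw0
  obtain ⟨u, hu, a, ha⟩ := H.exists_decomp y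
  have h3 := H.finrank_W
  rw [finrank_eq] at h3
  have h4 : LinearIndependent F ![(⟨w, hw⟩ : (P 2 F).W e f), ⟨v, hv⟩] := by
    rw [LinearIndependent.pair_iff]
    intro s t hst
    replace hst : s • w + t • v = 0 := congrArg Subtype.val hst
    have := congrArg (fun x => (P 2 F).β x w) hst
    simp only [map_add, map_smul, LinearMap.add_apply, LinearMap.smul_apply, hvw,
      (P 2 F).S_self (x := w) trivial, smul_eq_mul, mul_zero, zero_add, mul_one, map_zero,
      LinearMap.zero_apply] at this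
    exact ⟨by simpa [this, hw0] using hst, this⟩
  have h5 := h4.span_eq_top_of_card_eq_finrank (by simp; omega)
  obtain ⟨c, hc⟩ := (Submodule.mem_span_range_iff_exists_fun F).mp (h5.ge (Submodule.mem_top (x := ⟨u, hu⟩)))
  replace hc : c 0 • w + c 1 • v = u := by simpa using congrArg Subtype.val hc
  change (P 2 F).β _ _ = 0 at h1 h2
  rw [h1, ← hc] at ha
  rw [ha] at h2
  simp [hvw, (P 2 F).S_self (x := w) trivial, (P 2 F).perp_symm hw.1] at h2
  exact ⟨a, c 0, by rw [ha, h2]; module⟩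

theorem eq_one_of_comm {e f w : I4 → F} (H : (P 2 F).Hyp e f) (hw : w ∈ (P 2 F).W e f)
    (hw0 : w ≠ 0) {c : F} (hc : c ≠ 0) {z k : symplecticGroup (Fin 2) F} (hz : z ∈ (P 2 F).Q e)
    (hf : (P 2 F).ρ z f = f + w + c • e) (hk : k * z = z * k) (h3 : k ^ 3 = 1) : k = 1 := by
  have h2 : (2 : F) = 0 := CharTwo.two_eq_zero
  set L := P 2 F
  have hs : ∀ x y, L.β x y = L.β y x := fun x y => by
    rw [L.symm]; simp [CharTwo.neg_eq]
  have hx := H.Q_apply' hz hw hf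
  have key : ∀ x, L.ρ k (L.ρ z x) = L.ρ z (L.ρ k x) := fun x => by
    rw [← L.mul_apply, hk, L.mul_apply]
  have k1 : ∀ x, L.β (L.ρ z x) x = c * L.β x e ^ 2 := fun x => by
    simp only [hx, map_add, map_smul, LinearMap.add_apply, LinearMap.smul_apply, smul_eq_mul,
      L.S_self (x := x) trivial, hs w x, hs e x]
    linear_combination L.β x e * L.β x w * h2
  have k2 : L.ρ k e = e := by
    rw [← sub_eq_zero]
    apply L.nondeg
    intro x
    have := k1 (L.ρ k⁻¹ x)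
    rw [← L.iso k, key, L.apply_inv_apply, k1, ← L.iso k (L.ρ k⁻¹ x) e, L.apply_inv_apply] at this
    have h4 := mul_left_cancel₀ hc this
    rw [map_sub]
    refine eq_zero_of_pow_eq_zero (n := 2) ?_
    linear_combination -h4 + (L.β x e ^ 2 - L.β x e * L.β x (L.ρ k e)) * h2
  have cube : ∀ x y, L.ρ k x = x + y → L.ρ k y = y → y = 0 := fun x y l1 l2 => by
    have := congrArg (fun g => L.ρ g x) h3
    simp only [pow_succ, pow_zero, one_mul, L.mul_apply, l1, l2, map_add, L.one_apply] at this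
    linear_combination (norm := module) this - congrArg (· • y) h2
  have k3 : L.ρ k w = w := by
    have h4 := key f
    rw [hf, hx, map_add, map_add, map_smul, k2, ← k2, L.iso, H.fe, k2] at h4
    have h5 : L.ρ k w = w + (1 * c - L.β (L.ρ k f) w / -1 - c) • e := by
      linear_combination (norm := module) h4
    rw [h5, cube w _ h5 (by rw [map_smul, k2]), add_zero]
  refine L.ext fun x => ?_
  obtain ⟨a, b, h4⟩ := mem_span_of_perp H hw hw0 (y := L.ρ k x - x)
    (show L.β _ _ = 0 by rw [map_sub, LinearMap.sub_apply, ← L.iso k x, k2, sub_self])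
    (show L.β _ _ = 0 by rw [map_sub, LinearMap.sub_apply, ← L.iso k x, k3, sub_self])
  rw [L.one_apply, ← sub_eq_zero]
  exact cube x _ (by abel) (by rw [h4, map_add, map_smul, map_smul, k2, k3])

theorem exists_three : ∃ k : symplecticGroup (Fin 2) F, k ≠ 1 ∧ k ^ 3 = 1 ∧
    k * spT e1 1 = spT e1 1 * k := by
  refine ⟨spT e2 1 * spT (Pi.single (.inr 1) 1) 1, fun h => ?_, Subtype.ext ?_, Subtype.ext ?_⟩
  · have := congrFun (congrFun (congrArg Subtype.val h) (.inr 1)) (.inl 1)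
    simp [spT_eq, m4, mul_apply] at this
  · simp [pow_succ, spT_eq, m4, fromBlocks_multiply, CharTwo.add_self_eq_zero, ← fromBlocks_one,
      Matrix.one_fin_two]
    simp [← Matrix.ext_iff]
  · simp [spT_eq, m4, fromBlocks_multiply]

theorem mem_range_or (β : MulAut (PSp 2 F)) :
    (hat F)⁻¹ * β ∈ (X 2 F).Θ.range ∨ β ∈ (X 2 F).Θ.range := by
  have hB := big (F := F) le_rfl
  have ht := (isTr_iff (spT_ne_one e1_ne)).mpr ⟨e1, e1_ne (F := F), rfl⟩
  obtain ⟨z, hr, hp⟩ := Rel.exists_pelt β (spT_pelt (p := 2) (e1 : I4 → F))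
  have hz1 : z ≠ 1 := by
    rintro rfl
    exact spT_ne_one e1_ne ((P 2 F).rel_unique hr.symm Rel.one (spT_pelt (p := 2) _) PElt.one)
  obtain ⟨e, he, he0, h1, h3⟩ :=
    PolGrp.PCentral.exists_Q hB ((P 2 F).rel_pcentral hr hp (ht.pcentral hB (Or.inl hasT)))
  obtain ⟨f, H⟩ := PolGrp.exists_hyp he he0
  have hz := H.mem_Q_of_comm h1 h3
  obtain ⟨w, hw, c, hc⟩ := H.exists_Q_apply hz
  by_cases hw0 : w = 0
  · obtain ⟨v, hv, rfl⟩ := (isTr_iff hz1).mp ⟨e, he, he0, (H.mem_T_iff hz hw hc).mpr hw0⟩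
    exact .inr (mem_range_of_rel le_rfl e1_ne hv hr)
  by_cases hc0 : c = 0
  · left
    obtain ⟨k, k1, k2⟩ := pair e w e1 e2 he0 (fun c hc => hw0
      (H.coeff hw (zero_mem _) (b := 0) (b' := 0) (a := 0) (a' := c) (by simp [hc])).2.1) e1_ne
      (fun c hc => by simpa using congrFun hc (.inl 1)) ((P 2 F).perp_symm hw.1)
      (by simp [sympBilin_apply, sympForm, J])
    have h4 : k * z * k⁻¹ = hatA F (spT e1 1) := (P 2 F).ext fun x => by
      change (P 2 F).ρ k _ = _ at k1 k2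
      rw [(P 2 F).mul_apply, (P 2 F).mul_apply, H.Q_apply' hz hw hc, map_add, map_add, map_smul,
        map_smul, k1, k2, LinGrp.apply_inv_apply, ← (P 2 F).iso k _ e, ← (P 2 F).iso k _ w, k1, k2,
        LinGrp.apply_inv_apply, hc0]
      refine Eq.trans ?_ (hat_e1 x).symm
      simp only [mul_zero, zero_sub, div_neg, div_one, neg_neg]
      rfl
    have h5 := mem_range_of_rel le_rfl
      (β := (hat F)⁻¹ * MulAut.conj (QuotientGroup.mk k) * β) e1_ne e1_ne (by
        show (hat F)⁻¹ (MulAut.conj _ (β _)) = _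
        rw [show β _ = _ from hr, MulAut.conj_apply, ← QuotientGroup.mk_inv, ← QuotientGroup.mk_mul,
          ← QuotientGroup.mk_mul, h4, ← quotCenterAut_mk]
        exact (hat F).symm_apply_apply _)
    obtain ⟨d, hd⟩ := (X 2 F).inn_le_range_ψ (PSL.inn_normal.conj_mem _
      ⟨QuotientGroup.mk k, rfl⟩ (hat F)⁻¹)
    have h6 := mul_mem (inv_mem (show (X 2 F).ψ d ∈ (X 2 F).Θ.range from ⟨_, rfl⟩)) h5
    rw [hd] at h6
    simpa [mul_assoc] using h6
  exfalso
  obtain ⟨k, k1, k2, k3⟩ := exists_three (F := F)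
  obtain ⟨k', hk⟩ := Rel.exists_right β k
  have hZ : ∀ z ∈ center (symplecticGroup (Fin 2) F), z = 1 := fun z =>
    PolGrp.eq_one_of_center_two (P 2 F) ⟨_, e1_ne⟩
  have h4 : k' ^ 3 = 1 := hZ _ ((QuotientGroup.eq_one_iff _).mp (by
    rw [QuotientGroup.mk_pow, ← show β _ = _ from hk, ← map_pow, ← QuotientGroup.mk_pow, k2]; simp))
  rw [eq_one_of_comm H hw hw0 hc0 hz hc ((P 2 F).rel_commute hk hr hp k3) h4] at hk
  exact k1 (hZ _ ((QuotientGroup.eq_one_iff _).mp (hk.symm.mk_eq Rel.one)))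

theorem hat_notMem : hat F ∉ (X 2 F).Θ.range := by
  rintro ⟨⟨⟨g, σ⟩, ha⟩, h⟩
  obtain ⟨s', hs'⟩ := (X 2 F).hn _ ha (spT e1 1)
  have h1 := ((X 2 F).eq_Θ_iff _ _).mp h.symm _ _ hs'
  rw [hat, quotCenterAut_mk, QuotientGroup.eq] at h1
  obtain rfl := inv_mul_eq_one.mp (PolGrp.eq_one_of_center_two (P 2 F) ⟨_, e1_ne⟩ h1)
  obtain ⟨c, hc⟩ : g ∈ GSp 2 F := ha
  rw [eq_mul_inv_iff_mul_eq] at hs'
  let x : I4 → F := Pi.single (.inr 0) 1
  have h2 := hc ((glAut _ σ ((X 2 F).j (spT e1 1))).1 *ᵥ x) x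
  rw [mulVec_mulVec, ← Units.val_mul, ← hs', Units.val_mul, ← mulVec_mulVec, ← sympBilin_apply,
    show ((X 2 F).j (hatA F (spT e1 1))).1 = (hatA F (spT e1 1)).1 from rfl, hat_e1, coe_glAut,
    show ((X 2 F).j (spT e1 1)).1 = (spT e1 1).1 from rfl, spT_eq] at h2
  simp only [map_add, map_smul, LinearMap.add_apply, LinearMap.smul_apply, sympBilin_self,
    sympBilin_swap e1, sympBilin_swap e2, smul_eq_mul, CharTwo.neg_eq, mul_comm,
    zero_add, CharTwo.add_self_eq_zero] at h2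
  simp [x, sympForm, J, m4, dotProduct] at h2

theorem sq_mem (β : MulAut (PSp 2 F)) : β ^ 2 ∈ (X 2 F).Θ.range := by
  have h := index_dvd_two_iff'.mpr ⟨_, mem_range_or (F := F)⟩
  rcases (Nat.dvd_prime Nat.prime_two).mp h with h | h
  · rw [index_eq_one.mp h]; trivial
  · exact sq_mem_of_index_two h β

theorem range_ψ_two {m : ℕ} (hm : 2 ≤ m) : (X m F).ψ.range = Inn (PSp m F) := by
  have : NeZero m := ⟨by omega⟩
  refine le_antisymm ?_ (X m F).inn_le_range_ψ
  rintro _ ⟨d, rfl⟩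
  rw [ψ_mem_inn_iff hm]
  obtain ⟨r, hr⟩ := FiniteField.isSquare_of_char_two (ringChar.eq F 2) (μ m F d : F)
  have h0 : r ≠ 0 := by
    rintro rfl
    simp at hr
  exact (QuotientGroup.eq_one_iff _).mpr ⟨Units.mk0 r h0, Units.ext ((pow_two r).trans hr.symm)⟩

omit [CharP F 2] in
theorem frob_gen [Fintype F] {p f : ℕ} [Fact p.Prime] [CharP F p] (hF : Fintype.card F = p ^ f) :
    orderOf (frobeniusEquiv F p) = f ∧ ∀ σ : F ≃+* F, σ ∈ zpowers (frobeniusEquiv F p) := by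
  have := finite_ringAut F
  have h3 : orderOf (frobeniusEquiv F p) = f := by
    let _ : Algebra (ZMod p) F := ZMod.algebra F p
    let e : (F ≃ₐ[ZMod p] F) →* (F ≃+* F) := MonoidHom.mk' (fun a => a.toRingEquiv) fun _ _ => rfl
    have h1 : frobeniusEquiv F p = e (FiniteField.frobeniusAlgEquivOfAlgebraic (ZMod p) F) := by
      ext x
      show x ^ p = x ^ Fintype.card (ZMod p)
      rw [ZMod.card]
    have h2 := Module.card_eq_pow_finrank (K := ZMod p) (V := F)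
    rw [ZMod.card, hF] at h2
    rw [h1, orderOf_injective e fun a b h => AlgEquiv.ext fun x => DFunLike.congr_fun h x,
      FiniteField.orderOf_frobeniusAlgEquivOfAlgebraic]
    exact (Nat.pow_right_injective (Fact.out : p.Prime).two_le h2).symm
  refine ⟨h3, fun σ => ?_⟩
  rw [eq_top_of_card_eq (zpowers (frobeniusEquiv F p))
    (by rw [Nat.card_zpowers, h3, (ringAut_cyclic_card F hF).2])]
  trivial

omit [CharP F 2]
variable {m p r : ℕ} [Fact p.Prime] [Fact r.Prime] [CharP F r]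

include r in
theorem mem_range_of_fix (hm : 2 ≤ m) {y : MulAut (PSp m F)} {v : Fin m ⊕ Fin m → F} (hv : v ≠ 0)
    (h : y (QuotientGroup.mk (spT v 1)) = QuotientGroup.mk (spT v 1)) : y ∈ (X m F).Θ.range := by
  by_cases hr : r = 2
  · subst hr; exact mem_range_of_rel hm hv hv h
  · exact surj hm (fun _ => hr) y

theorem mem_range_of_order (hm : 2 ≤ m) (hpr : p ≠ r) {β : MulAut (PSp m F)} (h : orderOf β = p) :
    β ∈ (X m F).Θ.range := by
  by_cases h1 : m = 2 ∧ r = 2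
  · obtain ⟨rfl, rfl⟩ := h1
    obtain ⟨k, hk⟩ := (Fact.out : p.Prime).odd_of_ne_two hpr
    have : β = (β ^ 2) ^ (k + 1) := by
      rw [← pow_mul, show 2 * (k + 1) = p + 1 by omega, pow_succ, ← h, pow_orderOf_eq_one, one_mul]
    rw [this]
    exact pow_mem (sq_mem β) _
  · exact surj (p := r) hm (by tauto) β

theorem alt_J : Gr.Alt (J (Fin m) F) := fun v => (sympBilin_apply v v).symm.trans (sympBilin_self v)

theorem good_fld (hm : 2 ≤ m) (hpr : p ≠ r) {σ : F ≃+* F} (hσ : orderOf σ = p) :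
    Good p ((X m F).Θ ⟨_, inr_mem σ⟩) := by
  have : NeZero m := ⟨by omega⟩
  have hf := fixedSub_range σ
  obtain ⟨i, h1, h2, -⟩ := (ker hm).centralizer_fld (inr_mem σ) _ hf (GSp m _)
    (fun g hg => by obtain ⟨c, hc⟩ := exists_sim hg; exact (hc.map _).mem)
    (fun d hd c g hg => ⟨c, g, mem_GSp_of_map _ (hg ▸ mul_mem (sim_scalar c).mem hd), hg⟩)
  let B : GL (Fin m ⊕ Fin m) (fixedSub σ) := j m _ (SymplecticGroup.symJ _ _)
  have hB : Refl B.1 (-1) := .inr ⟨rfl, alt_J⟩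
  have h3 : 3 ≤ Fintype.card (Fin m ⊕ Fin m) := by simp; omega
  have : Nontrivial (Fin m ⊕ Fin m) := ⟨.inl 0, .inr 0, by simp⟩
  refine (ker hm).good_fld (r := r) hσ hf 1 (by ext : 1 <;> simp) (D₀ := Gr.simGrp B.1)
    (isoGrp B.1).subtype (subtype_injective _) (hB.center_scalar h3) (fun g => isoGrp_le _ g.2)
    (fun d hd g => ⟨⟨_, conj_mem_isoGrp hd g.2⟩, rfl⟩) i
    (fun d => by rw [one_mul, inv_one, mul_one]; exact h1 d) h2
    (fun d hd h => ?_) (fun h => simp_alt hpr alt_J h3 (.inr h))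
    (rigid_of_polar (P := hB.pol h3) (fun _ _ => rfl) (hB.big h3)) (fun y hy => ?_)
    (((ker hm).orderOf_inr _).trans hσ)
  · obtain ⟨c, hc⟩ := exists_sim hd
    have : μ m F ⟨d, hd⟩ = 1 := unit_eq_one (PElt.map (p := r) (by
      obtain ⟨k, hk⟩ := h; exact ⟨k, Subtype.ext hk⟩) _)
    exact Sim.exists_j (this ▸ sim_μ ⟨d, hd⟩ :)
  · let v₀ : Fin m ⊕ Fin m → fixedSub σ := fun _ => 1
    refine mem_range_of_fix (r := r) hm (v := fun _ => 1)
      (fun h => one_ne_zero (congrFun h (.inl 0))) (hy _ ⟨j m _ (spT v₀ 1),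
        (mem_symplecticGroup_iff_sympForm _).mp (spT v₀ 1).2⟩ ?_ ?_)
    · obtain ⟨k, hk⟩ := (spT_pelt (p := r) v₀).map (j m _)
      exact ⟨k, Subtype.ext hk⟩
    · rw [one_mul, inv_one, mul_one]
      ext a b
      show (spT _ 1).1 a b = ((spT v₀ 1).1 a b : F)
      rcases a with a | a <;> rcases b with b | b <;>
        simp [spT, sympTransvection, vecMulVec_apply, J, v₀, mulVec, dotProduct, one_apply]
      all_goals split_ifs <;> simp

end Cfsg.Agent.Lib.Aut.Sp
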